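import Mathlib

/-! A group with a self-normalizing Sylow 2-subgroup of order 4 and short subgroup chains. -/

set_option autoImplicit false

namespace H78.Burn

universe u

theorem core {Q : Type*} [Group Q] [Finite Q] (P : Sylow 2 Q) (hP : Nat.card P = 4)
    (hN : Subgroup.normalizer ((P : Subgroup Q) : Set Q) ≤ P)
    (hch : ∀ A B C : Subgroup Q, ⊥ < A → A < B → B < C → C < ⊤ → False)
    (hrad : ∀ R : Subgroup Q, R.Normal → IsPGroup 2 R → R = ⊥)
    (hor : (∀ a ∈ (P : Subgroup Q), a * a = 1) ∨ 3 ∣ Nat.card Q) : False := by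
  classical
  haveI : Fact (Nat.Prime 2) := ⟨Nat.prime_two⟩
  have hcomm : ∀ a ∈ (P : Subgroup Q), ∀ b ∈ (P : Subgroup Q), a * b = b * a := by
    intro a ha b hb
    have h4 : Nat.card P = 2 ^ 2 := by rw [hP]; norm_num
    have := (IsPGroup.commGroupOfCardEqPrimeSq (G := P) h4).mul_comm ⟨a, ha⟩ ⟨b, hb⟩
    exact congrArg Subtype.val this
  have hNC : Subgroup.normalizer ((P : Subgroup Q) : Set Q) ≤
      Subgroup.centralizer ((P : Subgroup Q) : Set Q) := by
    intro g hg
    rw [Subgroup.mem_centralizer_iff]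
    intro a ha
    exact hcomm a ha g (hN hg)
  have hcompl := MonoidHom.ker_transferSylow_isComplement' P hNC
  have hKodd := MonoidHom.not_dvd_card_ker_transferSylow P hNC
  have hKn : (MonoidHom.transferSylow P hNC).ker.Normal := inferInstance
  generalize (MonoidHom.transferSylow P hNC).ker = K at hcompl hKodd hKn
  have hcard : Nat.card K * 4 = Nat.card Q := by rw [← hP]; exact hcompl.card_mul
  have hdis : ∀ a ∈ K, a ∈ (P : Subgroup Q) → a = 1 := by
    intro a ha hb
    have := hcompl.disjoint.le_bot (Subgroup.mem_inf.2 ⟨ha, hb⟩)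
    simpa using this
  have hmul : ∀ g : Q, ∃ k ∈ K, ∃ p ∈ (P : Subgroup Q), k * p = g := by
    intro g
    have hg : g ∈ K ⊔ (P : Subgroup Q) := by rw [hcompl.sup_eq_top]; exact Subgroup.mem_top g
    rw [Subgroup.mem_sup_of_normal_left] at hg
    exact hg
  have hK1 : K ≠ ⊥ := by
    intro h
    have h4 : Nat.card Q = 2 ^ 2 := by rw [← hcard, h, Subgroup.card_bot]; norm_num
    have h2 : IsPGroup 2 (⊤ : Subgroup Q) := IsPGroup.of_card (n := 2) (by rw [Subgroup.card_top, h4])
    have h3 := hrad ⊤ inferInstance h2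
    have : Nat.card (⊤ : Subgroup Q) = 1 := by rw [h3, Subgroup.card_bot]
    rw [Subgroup.card_top, h4] at this
    norm_num at this
  -- minimality of K
  have hmin : ∀ A : Subgroup Q, A ≤ K → A ≠ ⊥ → A = K := by
    intro A hA hA1
    by_contra hne
    obtain ⟨a, ha⟩ := exists_prime_orderOf_dvd_card' (G := P) 2 (by rw [hP]; norm_num)
    have haP : (a : Q) ∈ (P : Subgroup Q) := a.2
    have ha2 : orderOf (a : Q) = 2 := by rw [Subgroup.orderOf_coe]; exact ha
    refine hch A K (K ⊔ Subgroup.zpowers (a : Q)) (bot_lt_iff_ne_bot.2 hA1) (lt_of_le_of_ne hA hne) ?_ ?_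
    · refine lt_of_le_of_ne le_sup_left ?_
      intro h
      have h1 : (a : Q) ∈ K := by
        rw [h]; exact Subgroup.mem_sup_right (Subgroup.mem_zpowers _)
      have h2 := hdis _ h1 haP
      rw [h2, orderOf_one] at ha2
      norm_num at ha2
    · refine lt_top_iff_ne_top.2 ?_
      intro h
      have h1 : (P : Subgroup Q) ≤ Subgroup.zpowers (a : Q) := by
        intro b hb
        have hb' : b ∈ K ⊔ Subgroup.zpowers (a : Q) := by rw [h]; exact Subgroup.mem_top b
        rw [Subgroup.mem_sup_of_normal_left] at hb'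
        obtain ⟨k, hk, p, hp, he⟩ := hb'
        have hpP : p ∈ (P : Subgroup Q) := (Subgroup.zpowers_le.2 haP) hp
        have hk1 : k = 1 := by
          apply hdis k hk
          have : k = b * p⁻¹ := by rw [← he]; group
          rw [this]; exact Subgroup.mul_mem _ hb (Subgroup.inv_mem _ hpP)
        rw [← he, hk1, one_mul]; exact hp
      have h2 := Subgroup.card_le_of_le h1
      rw [Nat.card_zpowers, ha2] at h2
      have h3 : Nat.card (P : Subgroup Q) = 4 := hP
      omega
  have hgen : ∀ κ ∈ K, κ ≠ 1 → Subgroup.zpowers κ = K := by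
    intro κ hκ h1
    refine hmin _ (Subgroup.zpowers_le.2 hκ) ?_
    intro h; exact h1 (Subgroup.zpowers_eq_bot.1 h)
  have hkk : ∃ κ ∈ K, κ ≠ 1 ∧ ∀ a ∈ (P : Subgroup Q), a * κ * a⁻¹ = κ ∨ a * κ * a⁻¹ = κ⁻¹ := by
    rcases hor with hsq | h3
    · obtain ⟨κ, hκ, hκ1⟩ := Subgroup.ne_bot_iff_exists_ne_one.1 hK1 |>.elim (fun x hx =>
        (⟨x.1, x.2, fun h => hx (Subtype.ext h)⟩ : ∃ κ, κ ∈ K ∧ κ ≠ 1))
      refine ⟨κ, hκ, hκ1, ?_⟩
      intro a ha
      have hc : a * κ * a⁻¹ ∈ K := hKn.conj_mem κ hκ a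
      have hcom : ∀ x ∈ K, ∀ y ∈ K, x * y = y * x := by
        intro x hx y hy
        rw [← hgen κ hκ hκ1] at hx hy
        obtain ⟨m, rfl⟩ := Subgroup.mem_zpowers_iff.1 hx
        obtain ⟨n, rfl⟩ := Subgroup.mem_zpowers_iff.1 hy
        rw [← zpow_add, ← zpow_add, add_comm]
      have haa : a * a = 1 := hsq a ha
      have hfix : a * (κ * (a * κ * a⁻¹)) * a⁻¹ = κ * (a * κ * a⁻¹) := by
        have h1 : a * (κ * (a * κ * a⁻¹)) * a⁻¹ = (a * κ * a⁻¹) * ((a * a) * κ * (a * a)⁻¹) := by group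
        rw [h1, haa]
        rw [one_mul, inv_one, mul_one]
        exact hcom _ hc _ hκ
      by_cases h : κ * (a * κ * a⁻¹) = 1
      · right; exact (inv_eq_of_mul_eq_one_right h).symm
      · left
        have hg := hgen _ (K.mul_mem hκ hc) h
        have hκ' : κ ∈ Subgroup.zpowers (κ * (a * κ * a⁻¹)) := by rw [hg]; exact hκ
        obtain ⟨n, hn⟩ := Subgroup.mem_zpowers_iff.1 hκ'
        have : a * κ * a⁻¹ = (a * (κ * (a * κ * a⁻¹)) * a⁻¹) ^ n := by
          rw [conj_zpow, hn]
        rw [this, hfix, hn]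
    · have h3' : 3 ∣ Nat.card K := by
        rw [← hcard] at h3
        exact (Nat.Coprime.dvd_mul_right (by norm_num)).1 h3
      have : Fact (Nat.Prime 3) := ⟨Nat.prime_three⟩
      obtain ⟨κ, hκ⟩ := exists_prime_orderOf_dvd_card' (G := K) 3 h3'
      have hκ3 : orderOf (κ : Q) = 3 := by rw [Subgroup.orderOf_coe]; exact hκ
      have hκ1 : (κ : Q) ≠ 1 := by
        intro h; rw [h, orderOf_one] at hκ3; norm_num at hκ3
      refine ⟨κ, κ.2, hκ1, ?_⟩
      intro a ha
      have hc : a * (κ : Q) * a⁻¹ ∈ K := hKn.conj_mem _ κ.2 a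
      have hc' : a * (κ : Q) * a⁻¹ ∈ Subgroup.zpowers (κ : Q) := (hgen _ κ.2 hκ1).symm ▸ hc
      obtain ⟨n, hn⟩ := Subgroup.mem_zpowers_iff.1 hc'
      have h3z : (κ : Q) ^ (3 : ℤ) = 1 := by
        have := pow_orderOf_eq_one (κ : Q)
        rw [hκ3] at this
        exact_mod_cast this
      have hmod : (κ : Q) ^ n = (κ : Q) ^ (n % 3) := by
        conv_lhs => rw [← Int.emod_add_mul_ediv n 3]
        rw [zpow_add, zpow_mul, h3z, one_zpow, mul_one]
      rw [← hn, hmod]
      have h012 : n % 3 = 0 ∨ n % 3 = 1 ∨ n % 3 = 2 := by omega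
      rcases h012 with h | h | h
      · exfalso
        rw [hmod, h, zpow_zero] at hn
        apply hκ1
        have : (κ : Q) = a⁻¹ * (a * (κ : Q) * a⁻¹) * a := by group
        rw [this, ← hn]; group
      · left; rw [h, zpow_one]
      · right; rw [h]
        rw [eq_inv_iff_mul_eq_one, ← zpow_add_one]
        exact h3z
  obtain ⟨κ, hκ, hκ1, hinv⟩ := hkk
  -- choose the elements a and b
  obtain ⟨a, ha, ha1, b, hb, hb1, hab⟩ : ∃ a ∈ (P : Subgroup Q), a ≠ 1 ∧ ∃ b ∈ (P : Subgroup Q), b ≠ 1 ∧ a * b ≠ 1 := by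
    have hfin : Finite P := inferInstance
    have hPne : (P : Subgroup Q) ≠ ⊥ := by
      intro h
      have h3 : Nat.card (P : Subgroup Q) = 4 := hP
      rw [h, Subgroup.card_bot] at h3
      norm_num at h3
    obtain ⟨x, hx⟩ := Subgroup.ne_bot_iff_exists_ne_one.1 hPne
    refine ⟨x.1, x.2, fun h => hx (Subtype.ext h), ?_⟩
    by_contra hcon
    push Not at hcon
    have hsub : ((P : Subgroup Q) : Set Q) ⊆ {1, (x : Q)⁻¹} := by
      intro b hb
      by_cases h : b = 1
      · left; exact h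
      · right
        have := hcon b hb h
        exact (inv_eq_of_mul_eq_one_right this).symm
    have h1 := Set.ncard_le_ncard hsub (Set.toFinite _)
    have h2 := Set.ncard_insert_le (1 : Q) {(x : Q)⁻¹}
    rw [Set.ncard_singleton] at h2
    have h3 : ((P : Subgroup Q) : Set Q).ncard = 4 := hP
    omega
  have hcen : ∀ c ∈ (P : Subgroup Q), c * κ * c⁻¹ = κ → c = 1 := by
    intro c hc hcκ
    have hcomm1 : ∀ g : Q, g * c = c * g := by
      intro g
      obtain ⟨k, hk, p, hp, rfl⟩ := hmul g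
      have h1 : c * k = k * c := by
        rw [← hgen κ hκ hκ1] at hk
        obtain ⟨n, rfl⟩ := Subgroup.mem_zpowers_iff.1 hk
        have : Commute c κ := by
          show c * κ = κ * c
          calc c * κ = (c * κ * c⁻¹) * c := by group
            _ = κ * c := by rw [hcκ]
        exact (this.zpow_right n)
      rw [mul_assoc, hcomm p hp c hc, ← mul_assoc, ← h1, mul_assoc]
    have hnor : (Subgroup.zpowers c).Normal := by
      refine ⟨fun x hx g => ?_⟩
      obtain ⟨n, rfl⟩ := Subgroup.mem_zpowers_iff.1 hx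
      have : Commute g c := hcomm1 g
      have h2 : g * c ^ n = c ^ n * g := this.zpow_right n
      rw [h2, mul_inv_cancel_right]
      exact hx
    have h2 : IsPGroup 2 (Subgroup.zpowers c) := P.isPGroup'.to_le (Subgroup.zpowers_le.2 hc)
    exact Subgroup.zpowers_eq_bot.1 (hrad _ hnor h2)
  rcases hinv a ha with h | h
  · exact ha1 (hcen a ha h)
  · rcases hinv b hb with h' | h'
    · exact hb1 (hcen b hb h')
    · apply hab
      refine hcen (a * b) (Subgroup.mul_mem _ ha hb) ?_
      have h1 : a * b * κ * (a * b)⁻¹ = a * (b * κ * b⁻¹) * a⁻¹ := by group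
      have h2 : a * κ⁻¹ * a⁻¹ = (a * κ * a⁻¹)⁻¹ := by group
      rw [h1, h', h2, h, inv_inv]

end H78.Burn
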