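import Cfsg.Agent.Lib.H67.L8a
import Cfsg.Agent.Lib.H78.BurnCore

/-! S3250, piece BURN. -/

set_option autoImplicit false

namespace H78.Burn

open Subgroup H67.L8

universe u

theorem burn {G : Type u} [Group G] [Finite G] {S : Subgroup G} (h : Hyp S) {E : Subgroup G} (hE : Es S E)
    (hE4 : Nat.card E = 2 ^ 4)
    (hX : Nat.card (S ⊓ Subgroup.normalizer (E : Set G) : Subgroup G) = 2 ^ 6)
    (hor : (∀ a ∈ S ⊓ Subgroup.normalizer (E : Set G), a * a ∈ E) ∨
      3 ∣ Nat.card (Subgroup.normalizer (E : Set G))) : False := by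
  classical
  have : Fact (Nat.Prime 2) := ⟨Nat.prime_two⟩
  obtain ⟨M, hM⟩ : ∃ M : Subgroup G, M = Subgroup.normalizer (E : Set G) := ⟨_, rfl⟩
  obtain ⟨X, hXd⟩ : ∃ X : Subgroup G, X = S ⊓ M := ⟨_, rfl⟩
  have hEM : E ≤ M := by rw [hM]; exact le_normalizer
  have hEX : E ≤ X := by rw [hXd]; exact le_inf hE.le hEM
  have hXM : X ≤ M := by rw [hXd]; exact inf_le_right
  have hXS : X ≤ S := by rw [hXd]; exact inf_le_left
  have hXlt : X < M := by rw [hXd, hM]; exact hE.X_lt_M
  have hMtop : M ≠ ⊤ := by rw [hM]; exact hE.nz_ne_top h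
  have hXc : Nat.card X = 2 ^ 6 := by rw [hXd, hM]; exact hX
  have hXp : IsPGroup 2 X := h.pg.to_le hXS
  have hEp : IsPGroup 2 E := h.pg.to_le hE.le
  have hrad' : ∀ Q : Subgroup G, IsPGroup 2 Q → E ≤ Q → Q ≤ S →
      (∀ g ∈ M, ∀ q ∈ Q, g * q * g⁻¹ ∈ Q) → Q = E := by
    intro Q hQ h1 h2 h3
    refine hE.rad Q hQ h1 h2 ?_
    intro g hg
    exact mem_nz (h3 g (by rw [hM]; exact hg))
  have hsyl : ∀ Q : Subgroup G, IsPGroup 2 Q → Q ≤ M → X ≤ Q → Q ≤ X := by
    intro Q hQ h1 h2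
    rw [hXd]
    refine le_inf (hE.syl Q hQ (by rw [← hM]; exact h1) ?_) h1
    rw [← hM, ← hXd]; exact h2
  have hor' : (∀ a ∈ X, a * a ∈ E) ∨ 3 ∣ Nat.card M := by
    rw [hXd, hM]; exact hor
  -- the quotient
  let E' : Subgroup M := E.subgroupOf M
  have hE'n : E'.Normal := by
    refine ⟨fun e he g => ?_⟩
    rw [Subgroup.mem_subgroupOf] at he ⊢
    have hg : (g : G) ∈ Subgroup.normalizer (E : Set G) := by rw [← hM]; exact g.2
    have := nz_conj hg he
    simpa using this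
  let π : M →* M ⧸ E' := QuotientGroup.mk' E'
  have hπs : Function.Surjective π := QuotientGroup.mk'_surjective E'
  have hπk : ∀ m : M, π m = 1 ↔ (m : G) ∈ E := by
    intro m
    have : m ∈ π.ker ↔ m ∈ E' := by rw [QuotientGroup.ker_mk']
    rw [MonoidHom.mem_ker] at this
    rw [this, Subgroup.mem_subgroupOf]
  -- pull back a subgroup of the quotient to G
  let pb : Subgroup (M ⧸ E') → Subgroup G := fun A => (A.comap π).map M.subtype
  have hpb : ∀ (A : Subgroup (M ⧸ E')) (m : M), (m : G) ∈ pb A ↔ π m ∈ A := by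
    intro A m
    constructor
    · rintro ⟨x, hx, he⟩
      have : x = m := Subtype.ext he
      rw [← this]; exact hx
    · intro hm
      exact ⟨m, hm, rfl⟩
  have hpbM : ∀ A, pb A ≤ M := by
    rintro A _ ⟨x, _, rfl⟩
    exact x.2
  have hEpb : ∀ A, E ≤ pb A := by
    intro A e he
    have := (hpb A ⟨e, hEM he⟩).2 (by rw [(hπk ⟨e, hEM he⟩).2 he]; exact A.one_mem)
    exact this
  have hpble : ∀ A B, A ≤ B → pb A ≤ pb B := by
    intro A B hAB
    exact Subgroup.map_mono (Subgroup.comap_mono hAB)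
  have hpbinj : ∀ A B, pb A = pb B → A = B := by
    intro A B hAB
    ext q
    obtain ⟨m, rfl⟩ := hπs q
    rw [← hpb, ← hpb, hAB]
  have hpblt : ∀ A B, A < B → pb A < pb B := by
    intro A B hAB
    exact lt_of_le_of_ne (hpble A B hAB.le) (fun h => hAB.ne (hpbinj A B h))
  have hpbbot : pb ⊥ = E := by
    apply le_antisymm
    · rintro _ ⟨x, hx, rfl⟩
      have : π x = 1 := Subgroup.mem_bot.1 hx
      exact (hπk x).1 this
    · exact hEpb ⊥
  have hpbtop : pb ⊤ = M := by
    apply le_antisymm (hpbM _)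
    intro m hm
    exact (hpb ⊤ ⟨m, hm⟩).2 (Subgroup.mem_top _)
  have hpbp : ∀ A : Subgroup (M ⧸ E'), IsPGroup 2 A → IsPGroup 2 (pb A) := by
    intro A hA
    rintro ⟨g, hg⟩
    obtain ⟨x, hx, rfl⟩ := hg
    obtain ⟨k, hk⟩ := hA ⟨π x, hx⟩
    have h1 : π (x ^ 2 ^ k) = 1 := by
      rw [map_pow]
      exact congrArg Subtype.val hk
    have h2 := (hπk _).1 h1
    obtain ⟨l, hl⟩ := hEp ⟨_, h2⟩
    refine ⟨k + l, ?_⟩
    apply Subtype.ext
    have h3 : (((x ^ 2 ^ k : M) : G)) ^ 2 ^ l = 1 := congrArg Subtype.val hl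
    rw [Subgroup.coe_pow, ← pow_mul, ← pow_add] at h3
    exact h3
  let P0 : Subgroup (M ⧸ E') := (X.subgroupOf M).map π
  have hP0 : ∀ m : M, π m ∈ P0 ↔ (m : G) ∈ X := by
    intro m
    constructor
    · rintro ⟨y, hy, he⟩
      have h1 : π (y⁻¹ * m) = 1 := by rw [map_mul, map_inv, he, inv_mul_cancel]
      have h2 := (hπk _).1 h1
      have h3 : (y : G) ∈ X := hy
      have h4 : (m : G) = (y : G) * ((y⁻¹ * m : M) : G) := by
        rw [Subgroup.coe_mul, Subgroup.coe_inv]; group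
      rw [h4]
      exact X.mul_mem h3 (hEX h2)
    · intro hm
      exact ⟨m, hm, rfl⟩
  have hpbP0 : pb P0 = X := by
    apply le_antisymm
    · rintro _ ⟨x, hx, rfl⟩
      exact (hP0 x).1 hx
    · intro x hx
      exact (hpb P0 ⟨x, hXM hx⟩).2 ((hP0 _).2 hx)
  have hP0p : IsPGroup 2 P0 := by
    have : IsPGroup 2 (X.subgroupOf M) := hXp.comap_subtype
    exact this.map π
  let P : Sylow 2 (M ⧸ E') := ⟨P0, hP0p, by
    intro R hR hle
    apply le_antisymm _ hle
    intro q hq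
    obtain ⟨m, rfl⟩ := hπs q
    rw [hP0]
    have h1 := hsyl (pb R) (hpbp R hR) (hpbM R) (by rw [← hpbP0]; exact hpble _ _ hle)
    exact h1 ((hpb R m).2 hq)⟩
  have hPcoe : (P : Subgroup (M ⧸ E')) = P0 := rfl
  have hcardM : Nat.card M = Nat.card (M ⧸ E') * 2 ^ 4 := by
    rw [Subgroup.card_eq_card_quotient_mul_card_subgroup E']
    congr 1
    rw [← hE4]
    exact Nat.card_congr (Subgroup.subgroupOfEquivOfLe hEM).toEquiv
  have hPcard : Nat.card P = 4 := by
    have h1 : Nat.card P * P0.index = Nat.card (M ⧸ E') := by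
      rw [← hPcoe]; exact Subgroup.card_mul_index _
    have h2 : P0.index = (X.subgroupOf M).index := by
      have h3 : P0.comap π = X.subgroupOf M := by
        ext m
        rw [Subgroup.mem_comap, hP0, Subgroup.mem_subgroupOf]
      rw [← h3, Subgroup.index_comap_of_surjective _ hπs]
    have h4 : Nat.card (X.subgroupOf M) * (X.subgroupOf M).index = Nat.card M := Subgroup.card_mul_index _
    have h5 : Nat.card (X.subgroupOf M) = 2 ^ 6 := by
      rw [← hXc]
      exact Nat.card_congr (Subgroup.subgroupOfEquivOfLe hXM).toEquiv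
    rw [h5, ← h2, hcardM, ← h1] at h4
    have hpos : 0 < P0.index := Nat.pos_of_ne_zero Subgroup.index_ne_zero_of_finite
    have h6 : P0.index * (2 ^ 6) = P0.index * (Nat.card P * 2 ^ 4) := by
      calc P0.index * (2 ^ 6) = 2 ^ 6 * P0.index := by ring
        _ = Nat.card P * P0.index * 2 ^ 4 := h4
        _ = P0.index * (Nat.card P * 2 ^ 4) := by ring
    have h7 := Nat.eq_of_mul_eq_mul_left hpos h6
    omega
  refine core P hPcard ?_ ?_ ?_ ?_
  · -- self-normalizing
    let N := Subgroup.normalizer ((P : Subgroup (M ⧸ E')) : Set (M ⧸ E'))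
    have hPN : P0 ≤ N := le_normalizer
    show N ≤ P0
    by_contra hnot
    have hlt : P0 < N := lt_of_le_of_ne hPN (fun h => hnot h.ge)
    have h1 : X < pb N := by rw [← hpbP0]; exact hpblt _ _ hlt
    by_cases hNt : N = ⊤
    · have h2 : X = E := by
        refine hrad' X hXp hEX hXS ?_
        intro g hg q hq
        have h3 : π ⟨g, hg⟩ ∈ N := by rw [hNt]; exact Subgroup.mem_top _
        have h4 := (Subgroup.mem_normalizer_iff.1 h3 (π ⟨q, hXM hq⟩)).1 ((hP0 ⟨q, hXM hq⟩).2 hq)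
        rw [← map_inv, ← map_mul, ← map_mul] at h4
        exact (hP0 _).1 h4
      rw [h2, hE4] at hXc
      norm_num at hXc
    · have h2 : pb N < M := by
        rw [← hpbtop]; exact hpblt _ _ (lt_top_iff_ne_top.2 hNt)
      have := h.c5 X (pb N) M hXp h1 h2 hMtop
      rw [hXc] at this
      norm_num at this
  · intro A B C h1 h2 h3 h4
    have := h.c3 E (pb A) (pb B) (pb C) M hEp (by rw [← hpbbot]; exact hpblt _ _ h1)
      (hpblt _ _ h2) (hpblt _ _ h3) (by rw [← hpbtop]; exact hpblt _ _ h4) hMtop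
    rw [hE4] at this
    norm_num at this
  · intro R hRn hRp
    have h1 : R ≤ P0 := by
      have h2 : IsPGroup 2 (R ⊔ P0 : Subgroup (M ⧸ E')) := hRp.to_sup_of_normal_left hP0p
      have h3 := P.3 h2 le_sup_right
      rw [← hPcoe, ← h3]
      exact le_sup_left
    have h2 : pb R ≤ X := by rw [← hpbP0]; exact hpble _ _ h1
    have h3 : pb R = E := by
      refine hrad' (pb R) (hpbp R hRp) (hEpb R) (h2.trans hXS) ?_
      intro g hg q hq
      have hqM : q ∈ M := hpbM R hq
      have h4 : π ⟨q, hqM⟩ ∈ R := (hpb R ⟨q, hqM⟩).1 hq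
      have h5 := hRn.conj_mem _ h4 (π ⟨g, hg⟩)
      rw [← map_inv, ← map_mul, ← map_mul] at h5
      exact (hpb R _).2 h5
    apply hpbinj
    rw [h3, hpbbot]
  · rcases hor' with h1 | h1
    · left
      intro a ha
      obtain ⟨m, rfl⟩ := hπs a
      have h2 : (m : G) ∈ X := (hP0 m).1 ha
      rw [← map_mul]
      exact (hπk _).2 (h1 _ h2)
    · right
      rw [hcardM] at h1
      exact (Nat.Coprime.dvd_mul_right (by norm_num)).1 h1

end H78.Burn
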