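import Mathlib
import Cfsg.Prelude.Def_Blocks
import Cfsg.Agent.Lib.H20.Orth
import Cfsg.Agent.Lib.H20.Defect
import Cfsg.Agent.Lib.H19.SylowAux

/-! Reduction of block idempotents to the classes of the right defect. -/

set_option autoImplicit false
open Cfsg

namespace H78.BlkRed

open H20.Loc H20.GA H20.Blk H20.DefGrp H20.Orth H20.Defect

universe u

variable {G : Type u} [Group G] [Finite G] {p : ℕ} {M : Ideal AlgInt}

theorem omega_eB_cls [Fintype (ConjClasses G)] (S : Set (IrrCharacter G)) (χ : IrrCharacter G) :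
    omega χ (eB S) = ∑ C : ConjClasses G, blockCoeff S C.out * centralChar (χ : G → ℂ) C.out := by
  conv_lhs => rw [eq_sum_cls (eB S)]
  rw [map_sum]
  refine Finset.sum_congr rfl fun C _ => ?_
  rw [map_smul, omega_cls, smul_eq_mul]
  rfl

/-- A unit product `a_{B'}(g) ω_χ(g)` with `χ` in a block of the same defect `σ` as `B'` forces `g`
to be `p`-regular of defect exactly `σ`. -/
theorem defect_eq_of_unit (hM : IsPModular p M) {B' : Set (IrrCharacter G)} (hB' : IsPBlock M B')
    {B : Set (IrrCharacter G)} (hB : IsPBlock M B) {σ : ℕ}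
    (h1 : blockDefect p B' = σ) (h2 : blockDefect p B = σ) {χ : IrrCharacter G} (hχ : χ ∈ B) {g : G}
    (h : ¬ MemLocalIdeal M (blockCoeff B' g * centralChar (χ : G → ℂ) g)) :
    ¬ p ∣ orderOf g ∧ (Nat.card (Subgroup.centralizer ({g} : Set G))).factorization p = σ := by
  haveI := pm_isPrime hM
  have hint : MemLocalRing M (centralChar (χ : G → ℂ) g) := by
    rw [← omega_cls]; exact omega_mem χ (cls_mem g)
  have ha : ¬ MemLocalIdeal M (blockCoeff B' g) := fun h' => h (locI_mul_right h' hint)
  have hc : ¬ MemLocalIdeal M (centralChar (χ : G → ℂ) g) :=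
    fun h' => h (locI_mul_left (blockCoeff_memR hB' g) h')
  constructor
  · intro hg
    rw [blockCoeff_eq_zero hM (isUnion_of_isPBlock hB') hg] at ha
    exact ha locI_zero
  · -- central character unit : defect ≥ σ
    have hfi := factorization_index (p := p) g
    apply le_antisymm
    · obtain ⟨ψ, hψ, hdeg⟩ := exists_degree_le hM (isUnion_of_isPBlock hB') ha
      have := defect_le_degree hM hB' hψ
      omega
    · obtain ⟨ψ, hψ, hht⟩ := exists_height_zero hM hB
      have hdeg := (height_zero_iff hM hB hψ).1 hht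
      have hc' : ¬ MemLocalIdeal M (centralChar (ψ : G → ℂ) g) := by
        intro h'
        apply hc
        have := locI_add (isPBlock_sameBlock hB hχ hψ g) h'
        rwa [sub_add_cancel] at this
      have := index_le_degree hM ψ hc'
      omega

/-- Blocks are determined by the central characters at `p`-regular elements. -/
theorem sameBlock_of_regular (hM : IsPModular p M) {χ ψ : IrrCharacter G}
    (h : ∀ g : G, ¬ p ∣ orderOf g →
      MemLocalIdeal M (centralChar (χ : G → ℂ) g - centralChar (ψ : G → ℂ) g)) :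
    SameBlock M (χ : G → ℂ) (ψ : G → ℂ) := by
  classical
  have := pm_isPrime hM
  let _ := Fintype.ofFinite (ConjClasses G)
  have hBb : IsPBlock M (blockOf M (χ : G → ℂ)) := isPBlock_blockOf χ
  by_contra hne
  have hψ' : ψ ∉ blockOf M (χ : G → ℂ) := hne
  have h1 := omega_eB_mem (show χ ∈ blockOf M (χ : G → ℂ) from mem_blockOf_self χ)
  have h2 := omega_eB_notMem hψ'
  rw [omega_eB_cls] at h1 h2
  have h3 : MemLocalIdeal M ((∑ C : ConjClasses G, blockCoeff (blockOf M (χ : G → ℂ)) C.out *
      centralChar (χ : G → ℂ) C.out) - ∑ C : ConjClasses G,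
      blockCoeff (blockOf M (χ : G → ℂ)) C.out * centralChar (ψ : G → ℂ) C.out) := by
    rw [← Finset.sum_sub_distrib]
    refine locI_sum fun C _ => ?_
    rw [← mul_sub]
    by_cases hg : p ∣ orderOf C.out
    · rw [blockCoeff_eq_zero hM (isUnion_of_isPBlock hBb) hg, zero_mul]
      exact locI_zero
    · exact locI_mul_left (blockCoeff_memR hBb _) (h _ hg)
  rw [h1, h2, sub_zero] at h3
  exact not_locI_one h3

/-- The multiplicativity of character ratios at elements whose class is "translated". -/
theorem ratio_mul {χ : G → ℂ} (hχ : IsIrrCharacter G χ) {u v : G}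
    (h : ∀ k : G, IsConj u k → IsConj (u * v) (k * v)) :
    χ u * χ v = χ 1 * χ (u * v) := by
  classical
  let _ := Fintype.ofFinite G
  have h0 := H18.CharBasic.irr_one_ne_zero hχ
  have h1 := evA_central_mul hχ (cls u) (MonoidAlgebra.single v 1)
  have h2 : evA χ (toA (cls u)) = (∑ g : G, zc (cls u) g) * χ u := by
    rw [evA_eq_sum, Finset.sum_mul]
    refine Finset.sum_congr rfl fun g _ => ?_
    show zc (cls u) g * χ g = _
    by_cases hg : IsConj u g
    · rw [H18.CharBasic.classFunction_isConj (H18.CharBasic.isClassFunction_of_isIrr hχ) hg]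
    · rw [zc_cls_not hg, zero_mul, zero_mul]
  have h3 : evA χ (toA (cls u) * MonoidAlgebra.single v 1) =
      (∑ g : G, zc (cls u) g) * χ (u * v) := by
    rw [evA_eq_sum, Finset.sum_mul]
    rw [← Equiv.sum_comp (Equiv.mulRight v)]
    refine Finset.sum_congr rfl fun g _ => ?_
    rw [Equiv.coe_mulRight, MonoidAlgebra.coeff_mul_single_apply, mul_one, mul_inv_cancel_right]
    show zc (cls u) g * χ (g * v) = _
    by_cases hg : IsConj u g
    · rw [H18.CharBasic.classFunction_isConj (H18.CharBasic.isClassFunction_of_isIrr hχ) (h g hg)]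
    · rw [zc_cls_not hg, zero_mul, zero_mul]
  have h4 : (∑ g : G, zc (cls u) g) ≠ 0 := by
    have h5 : (∑ g : G, zc (cls u) g) = (Nat.card {g : G // IsConj u g} : ℂ) := by
      rw [Nat.card_eq_fintype_card, Fintype.card_subtype, Finset.card_filter, Nat.cast_sum]
      refine Finset.sum_congr rfl fun g _ => ?_
      by_cases hg : IsConj u g
      · rw [zc_cls_of hg, if_pos hg, Nat.cast_one]
      · rw [zc_cls_not hg, if_neg hg, Nat.cast_zero]
    rw [h5]
    have : Nonempty {g : G // IsConj u g} := ⟨⟨u, IsConj.refl u⟩⟩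
    exact_mod_cast (Nat.card_pos (α := {g : G // IsConj u g})).ne'
  rw [h2, h3, evA_single, one_mul] at h1
  have h6 : (∑ g : G, zc (cls u) g) * (χ u * χ v) = (∑ g : G, zc (cls u) g) * (χ 1 * χ (u * v)) := by
    have h7 : (∑ g : G, zc (cls u) g) * χ (u * v) * χ 1 = (∑ g : G, zc (cls u) g) * χ u * χ v := by
      rw [h1]
      field_simp
    linear_combination -h7
  exact mul_left_cancel₀ h4 h6

end H78.BlkRed
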