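import Cfsg.Agent.Lib.H31.Clifford
import Mathlib.NumberTheory.LegendreSymbol.AddCharacter
import Mathlib.Analysis.Fourier.ZMod

/-!
A Heisenberg type extension of a group acting on a set: construction of groups of central type.
-/

set_option autoImplicit false
set_option linter.unusedSectionVars false
set_option linter.unusedSimpArgs false

namespace H78.CType

open Cfsg Representation H18 H18.CharBasic H18.CharOrtho H18.CharInd H18.CharQuot
open scoped ComplexConjugate

universe u

/-- action on functions -/
def act {p : ℕ} {X : Type u} {A : Type u} [Group A] [MulAction A X] (h : A) (v : X → ZMod p) : X → ZMod p :=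
  fun x => v (h⁻¹ • x)

/-- the group -/
@[ext] structure Hs (p : ℕ) (X : Type u) (A : Type u) where
  v : X → ZMod p
  f : X → ZMod p
  z : ZMod p
  h : A

section grp

variable {p : ℕ} {X : Type u} {A : Type u} [Group A] [MulAction A X]

theorem act_apply (h : A) (v : X → ZMod p) (x : X) : act h v x = v (h⁻¹ • x) := rfl
theorem act_one (v : X → ZMod p) : act (1 : A) v = v := by funext x; simp [act]
theorem act_mul (a b : A) (v : X → ZMod p) : act (a * b) v = act a (act b v) := by
  funext x; simp [act, mul_smul]
theorem act_add (a : A) (v w : X → ZMod p) : act a (v + w) = act a v + act a w := rfl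
theorem act_neg (a : A) (v : X → ZMod p) : act a (-v) = -act a v := rfl
theorem act_zero (a : A) : act a (0 : X → ZMod p) = 0 := rfl

variable [Fintype X]

/-- the dot product -/
def dot (f v : X → ZMod p) : ZMod p := ∑ x, f x * v x

theorem dot_act (a : A) (f v : X → ZMod p) : dot (act a f) (act a v) = dot f v := by
  unfold dot act
  exact Fintype.sum_equiv (MulAction.toPerm (a⁻¹)) _ _ (fun x => rfl)

theorem dot_add_left (f g v : X → ZMod p) : dot (f + g) v = dot f v + dot g v := by
  simp [dot, add_mul, Finset.sum_add_distrib]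
theorem dot_add_right (f v w : X → ZMod p) : dot f (v + w) = dot f v + dot f w := by
  simp [dot, mul_add, Finset.sum_add_distrib]
theorem dot_neg_left (f v : X → ZMod p) : dot (-f) v = -dot f v := by
  simp [dot, Finset.sum_neg_distrib]
theorem dot_neg_right (f v : X → ZMod p) : dot f (-v) = -dot f v := by
  simp [dot, Finset.sum_neg_distrib]
theorem dot_zero_left (v : X → ZMod p) : dot (0 : X → ZMod p) v = 0 := by simp [dot]
theorem dot_zero_right (f : X → ZMod p) : dot f (0 : X → ZMod p) = 0 := by simp [dot]

theorem dot_act_left (a : A) (f v : X → ZMod p) : dot (act a f) v = dot f (act a⁻¹ v) := by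
  rw [← dot_act a⁻¹ (act a f) v, ← act_mul, inv_mul_cancel, act_one]

instance : Mul (Hs p X A) :=
  ⟨fun a b => ⟨a.v + act a.h b.v, a.f + act a.h b.f, a.z + b.z + dot (act a.h b.f) a.v, a.h * b.h⟩⟩
instance : One (Hs p X A) := ⟨⟨0, 0, 0, 1⟩⟩
instance : Inv (Hs p X A) := ⟨fun a => ⟨-act a.h⁻¹ a.v, -act a.h⁻¹ a.f, -a.z + dot a.f a.v, a.h⁻¹⟩⟩

@[simp] theorem mul_v (a b : Hs p X A) : (a * b).v = a.v + act a.h b.v := rfl
@[simp] theorem mul_f (a b : Hs p X A) : (a * b).f = a.f + act a.h b.f := rfl
@[simp] theorem mul_z (a b : Hs p X A) : (a * b).z = a.z + b.z + dot (act a.h b.f) a.v := rfl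
@[simp] theorem mul_h (a b : Hs p X A) : (a * b).h = a.h * b.h := rfl
@[simp] theorem one_v : (1 : Hs p X A).v = 0 := rfl
@[simp] theorem one_f : (1 : Hs p X A).f = 0 := rfl
@[simp] theorem one_z : (1 : Hs p X A).z = 0 := rfl
@[simp] theorem one_h : (1 : Hs p X A).h = 1 := rfl
@[simp] theorem inv_v (a : Hs p X A) : a⁻¹.v = -act a.h⁻¹ a.v := rfl
@[simp] theorem inv_f (a : Hs p X A) : a⁻¹.f = -act a.h⁻¹ a.f := rfl
@[simp] theorem inv_z (a : Hs p X A) : a⁻¹.z = -a.z + dot a.f a.v := rfl
@[simp] theorem inv_h (a : Hs p X A) : a⁻¹.h = a.h⁻¹ := rfl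

instance : Group (Hs p X A) :=
  Group.ofLeftAxioms
    (by
      intro a b c
      ext x
      · simp only [mul_v, mul_h, act_mul, act_add, add_assoc]
      · simp only [mul_f, mul_h, act_mul, act_add, add_assoc]
      · simp only [mul_z, mul_f, mul_v, mul_h, act_mul, act_add, dot_add_left, dot_add_right, dot_act]
        ring
      · simp only [mul_h, mul_assoc])
    (by
      intro a
      ext x
      · simp [act_one]
      · simp [act_one]
      · simp [act_one, dot_zero_right]
      · simp)
    (by
      intro a
      ext x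
      · simp
      · simp
      · simp only [mul_z, inv_z, inv_v, inv_f, inv_h, dot_neg_right, dot_act, one_z]
        ring
      · simp)

/-- as a type the group is a product -/
def equivProd : Hs p X A ≃ (A × ((X → ZMod p) × ((X → ZMod p) × ZMod p))) where
  toFun a := (a.h, a.v, a.f, a.z)
  invFun a := ⟨a.2.1, a.2.2.1, a.2.2.2, a.1⟩
  left_inv _ := rfl
  right_inv _ := rfl

instance [NeZero p] [Finite A] : Finite (Hs p X A) := by
  have : Finite (A × ((X → ZMod p) × ((X → ZMod p) × ZMod p))) := inferInstance
  exact Finite.of_equiv _ equivProd.symm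

theorem card_Hs [NeZero p] [Finite A] :
    Nat.card (Hs p X A) = Nat.card A * (p ^ Fintype.card X * (p ^ Fintype.card X * p)) := by
  rw [Nat.card_congr equivProd, Nat.card_prod, Nat.card_prod, Nat.card_prod, Nat.card_fun, Nat.card_zmod,
    Nat.card_eq_fintype_card (α := X)]

/-- the projection -/
def proj : Hs p X A →* A where
  toFun a := a.h
  map_one' := rfl
  map_mul' _ _ := rfl

theorem proj_surjective : Function.Surjective (proj : Hs p X A →* A) := fun a => ⟨⟨0, 0, 0, a⟩, rfl⟩

end grp

section rep

variable {p : ℕ} [hp : Fact p.Prime] {X : Type u} {A : Type u} [Group A] [MulAction A X] [Fintype X]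

open ZMod

theorem std_zero : (stdAddChar (0 : ZMod p) : ℂ) = 1 := AddChar.map_zero_eq_one _
theorem std_add (a b : ZMod p) : (stdAddChar (a + b) : ℂ) = stdAddChar a * stdAddChar b :=
  AddChar.map_add_eq_mul _ _ _

/-- the operator -/
noncomputable def op (a : Hs p X A) : ((X → ZMod p) → ℂ) →ₗ[ℂ] ((X → ZMod p) → ℂ) where
  toFun φ := fun u => stdAddChar (a.z + dot a.f u) * φ (act a.h⁻¹ (u + a.v))
  map_add' φ ψ := by funext u; simp [mul_add]
  map_smul' c φ := by funext u; simp; ring

theorem op_apply (a : Hs p X A) (φ : (X → ZMod p) → ℂ) (u : X → ZMod p) :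
    op a φ u = stdAddChar (a.z + dot a.f u) * φ (act a.h⁻¹ (u + a.v)) := rfl

/-- the representation -/
noncomputable def rep : Representation ℂ (Hs p X A) ((X → ZMod p) → ℂ) where
  toFun := op
  map_one' := by
    apply LinearMap.ext
    intro φ
    funext u
    rw [op_apply]
    simp [dot_zero_left, act_one, std_zero]
  map_mul' a b := by
    apply LinearMap.ext
    intro φ
    funext u
    rw [Module.End.mul_apply, op_apply, op_apply, op_apply, ← mul_assoc, ← std_add]
    congr 1
    · congr 1
      simp only [mul_z, mul_f, mul_v, act_add, dot_add_left, dot_add_right, dot_act_left]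
      ring
    · congr 1
      simp only [mul_v, mul_h, mul_inv_rev, act_mul, act_add]
      rw [← act_mul a.h⁻¹ a.h, inv_mul_cancel, act_one, ← add_assoc]

/-- the character -/
noncomputable def xi (a : Hs p X A) : ℂ := (rep (p := p) (X := X) (A := A)).character a

open Classical in
theorem xi_eq (a : Hs p X A) :
    xi a = ∑ u : X → ZMod p, if act a.h⁻¹ (u + a.v) = u then (stdAddChar (a.z + dot a.f u) : ℂ) else 0 := by
  unfold xi Representation.character
  rw [LinearMap.trace_eq_matrix_trace ℂ (Pi.basisFun ℂ (X → ZMod p)), Matrix.trace]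
  apply Finset.sum_congr rfl
  intro u _
  rw [Matrix.diag_apply, LinearMap.toMatrix_apply, Pi.basisFun_apply, Pi.basisFun_repr]
  show op a (Pi.single u 1) u = _
  rw [op_apply, Pi.single_apply]
  split_ifs <;> simp

theorem xi_one : xi (1 : Hs p X A) = (p ^ Fintype.card X : ℕ) := by
  classical
  rw [xi_eq]
  have : ∀ u : X → ZMod p, (if act (1 : Hs p X A).h⁻¹ (u + (1 : Hs p X A).v) = u
      then (stdAddChar ((1 : Hs p X A).z + dot (1 : Hs p X A).f u) : ℂ) else 0) = 1 := by
    intro u
    rw [if_pos]
    · simp [dot_zero_left, std_zero]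
    · simp [act_one]
  rw [Finset.sum_congr rfl (fun u _ => this u), Finset.sum_const, Finset.card_univ, nsmul_eq_mul, mul_one,
    Fintype.card_fun, ZMod.card]

/-- elements acting trivially on `X` -/
theorem xi_triv (a : Hs p X A) (ha : ∀ x : X, a.h • x = x) :
    xi a = if a.v = 0 ∧ a.f = 0 then (stdAddChar a.z : ℂ) * (p ^ Fintype.card X : ℕ) else 0 := by
  classical
  have hact : ∀ u : X → ZMod p, act a.h⁻¹ u = u := by
    intro u; funext x; rw [act_apply, inv_inv, ha]
  rw [xi_eq]
  simp only [hact]
  by_cases hv : a.v = 0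
  · simp only [hv, add_zero, if_true, true_and]
    by_cases hf : a.f = 0
    · simp only [hf, dot_zero_left, add_zero, if_true]
      rw [Finset.sum_const, Finset.card_univ, nsmul_eq_mul, Fintype.card_fun, ZMod.card, mul_comm]
    · rw [if_neg hf]
      obtain ⟨x, hx⟩ := Function.ne_iff.1 hf
      -- translate
      let w : X → ZMod p := Pi.single x (a.f x)⁻¹
      have hw : dot a.f w = 1 := by
        unfold dot
        rw [Finset.sum_eq_single x]
        · simp only [w, Pi.single_eq_same]
          exact mul_inv_cancel₀ hx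
        · intro y _ hy
          simp only [w, Pi.single_eq_of_ne hy, mul_zero]
        · intro h; exact absurd (Finset.mem_univ _) h
      have h1 : ∑ u : X → ZMod p, (stdAddChar (a.z + dot a.f u) : ℂ) =
          stdAddChar (1 : ZMod p) * ∑ u : X → ZMod p, (stdAddChar (a.z + dot a.f u) : ℂ) := by
        rw [Finset.mul_sum]
        rw [← Equiv.sum_comp (Equiv.addRight w)]
        apply Finset.sum_congr rfl
        intro u _
        rw [Equiv.coe_addRight, dot_add_right, hw, ← std_add]
        congr 1; ring
      have h2 : (stdAddChar (1 : ZMod p) : ℂ) ≠ 1 := by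
        intro h
        have := ZMod.injective_stdAddChar (N := p) (a₁ := (1 : ZMod p)) (a₂ := 0) (by rw [h, std_zero])
        exact one_ne_zero this
      have h3 : (1 - (stdAddChar (1 : ZMod p) : ℂ)) * ∑ u : X → ZMod p, (stdAddChar (a.z + dot a.f u) : ℂ) = 0 := by
        rw [sub_mul, one_mul, ← h1, sub_self]
      exact (mul_eq_zero.1 h3).resolve_left (sub_ne_zero.2 (Ne.symm h2))
  · simp only [hv, false_and, if_false]
    apply Finset.sum_eq_zero
    intro u _
    rw [if_neg]
    intro h
    apply hv
    have : u + a.v = u + 0 := by rw [h, add_zero]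
    exact add_left_cancel this

theorem norm_std (z : ZMod p) : (stdAddChar z : ℂ) * conj (stdAddChar z : ℂ) = 1 := by
  rw [Complex.mul_conj, Complex.normSq_eq_norm_sq]
  have : ‖(stdAddChar z : ℂ)‖ = 1 := AddChar.norm_apply _ _
  rw [this]; simp

end rep

end H78.CType
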