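import Cfsg.Agent.Lib.H78.CType1
import Cfsg.Agent.Lib.H4.FaithfulP

/-!
The irreducible character of the Heisenberg type extension.
-/

set_option autoImplicit false
set_option linter.unusedSectionVars false

namespace H78.CType

open Cfsg Representation H18 H18.CharBasic H18.CharOrtho H18.CharInd H18.CharQuot
open scoped ComplexConjugate

universe u

noncomputable local instance (priority := 100) instFTc {α : Type*} [Finite α] : Fintype α := Fintype.ofFinite α

section gen

variable {G : Type u} [Group G] [Finite G]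

theorem normSq_eq' (z : ℂ) : z * conj z = ((‖z‖ ^ 2 : ℝ) : ℂ) := by
  rw [Complex.mul_conj, Complex.normSq_eq_norm_sq]

theorem sum_norm' {χ : G → ℂ} (h : IsIrrCharacter G χ) :
    ∑ g : G, χ g * conj (χ g) = Nat.card G := by
  have h1 := inner_irr_self h
  unfold classInner at h1
  have h0 : (Nat.card G : ℂ) ≠ 0 := by exact_mod_cast Nat.card_pos.ne'
  rw [inv_mul_eq_iff_eq_mul₀ h0, mul_one] at h1
  exact h1

/-- central elements have nonzero values -/
theorem central_norm {χ : G → ℂ} (h : IsIrrCharacter G χ) {z : G} (hz : z ∈ Subgroup.center G) :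
    χ z * conj (χ z) = χ 1 * χ 1 := by
  obtain ⟨n, ρ, hρ, rfl⟩ := h
  obtain ⟨c, hc⟩ := H4.CenterIndex.exists_scalar_of_center ρ hρ hz
  have hc1 : ρ.character z = c * ρ.character 1 := by
    show LinearMap.trace ℂ _ (ρ z) = c * LinearMap.trace ℂ _ (ρ 1)
    rw [hc, map_smul, map_one, smul_eq_mul]
    rfl
  obtain ⟨d, ρ', hd⟩ : IsCharacter G ρ.character := isCharacter_of_rep ρ
  have hconj : ρ.character z⁻¹ = conj (ρ.character z) := char_inv (isCharacter_of_rep ρ) z
  have hmul : ρ.character z * ρ.character z⁻¹ = ρ.character 1 * ρ.character 1 := by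
    have hh : c • ρ.character z⁻¹ = ρ.character 1 := by
      have h1 : ρ (z * z⁻¹) = c • ρ z⁻¹ := by
        rw [map_mul, hc]
        ext v
        simp
      have h2 : ρ.character (z * z⁻¹) = c • ρ.character z⁻¹ := by
        show LinearMap.trace ℂ _ (ρ (z * z⁻¹)) = c • LinearMap.trace ℂ _ (ρ z⁻¹)
        rw [h1, map_smul]
      rw [← h2, mul_inv_cancel]
    rw [hc1]
    calc c * ρ.character 1 * ρ.character z⁻¹ = ρ.character 1 * (c • ρ.character z⁻¹) := by
          rw [smul_eq_mul]; ring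
      _ = _ := by rw [hh]
  rw [← hconj, hmul]

/-- degree squared equal to the index of a central subgroup: vanishing off it -/
theorem van_of_central {χ : G → ℂ} (h : IsIrrCharacter G χ) {Z : Subgroup G}
    (hZ : Z ≤ Subgroup.center G) {d : ℕ} (hd : χ 1 = d) (hi : d ^ 2 = Z.index) {g : G} (hg : g ∉ Z) :
    χ g = 0 := by
  classical
  have h1 := sum_norm' h
  have h3 : ∑ g : G, (if g ∈ Z then χ g * conj (χ g) else 0) = Nat.card G := by
    rw [← Finset.sum_filter]
    have h4 : ∀ z ∈ Finset.univ.filter (fun g => g ∈ Z), χ z * conj (χ z) = (d : ℂ) ^ 2 := by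
      intro z hz
      rw [central_norm h (hZ (Finset.mem_filter.1 hz).2), hd]; ring
    rw [Finset.sum_congr rfl h4, Finset.sum_const, nsmul_eq_mul]
    have h5 : (Finset.univ.filter (fun g => g ∈ Z)).card = Nat.card Z := by
      rw [Nat.card_eq_fintype_card, Fintype.card_subtype]
    rw [h5, ← Z.card_mul_index, ← hi]
    push_cast; ring
  have h6 : ∑ g : G, (if g ∈ Z then 0 else ‖χ g‖ ^ 2) = 0 := by
    have : ((∑ g : G, (if g ∈ Z then 0 else ‖χ g‖ ^ 2) : ℝ) : ℂ) = 0 := by
      rw [Complex.ofReal_sum]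
      have h7 : ∀ g : G, (((if g ∈ Z then 0 else ‖χ g‖ ^ 2 : ℝ)) : ℂ) =
          χ g * conj (χ g) - (if g ∈ Z then χ g * conj (χ g) else 0) := by
        intro g
        split_ifs with hg
        · simp
        · rw [normSq_eq', sub_zero]
      rw [Finset.sum_congr rfl (fun g _ => h7 g), Finset.sum_sub_distrib, h1, h3, sub_self]
    exact_mod_cast this
  have h8 := (Finset.sum_eq_zero_iff_of_nonneg (fun g _ => by split_ifs <;> positivity)).1 h6 g (Finset.mem_univ _)
  rw [if_neg hg] at h8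
  simpa using h8

end gen

section psi

variable {p : ℕ} [hp : Fact p.Prime] {X : Type u} {A : Type u} [Group A] [Finite A] [MulAction A X] [Fintype X]

/-- the character `Ψ` -/
noncomputable def Psi (χ : A → ℂ) (a : Hs p X A) : ℂ := xi a * χ a.h

theorem isCharacter_Psi {χ : A → ℂ} (h : IsCharacter A χ) : IsCharacter (Hs p X A) (Psi χ) :=
  isCharacter_mul (isCharacter_of_rep rep) (isCharacter_comp proj h)

theorem Psi_one (χ : A → ℂ) : Psi χ (1 : Hs p X A) = (p ^ Fintype.card X : ℕ) * χ 1 := by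
  unfold Psi
  rw [xi_one]; rfl

/-- the central subgroup `Z'` -/
def ZZ (p : ℕ) (X : Type u) (A : Type u) [Group A] [MulAction A X] [Fintype X] : Subgroup (Hs p X A) where
  carrier := {a | a.v = 0 ∧ a.f = 0 ∧ a.h ∈ Subgroup.center A}
  one_mem' := ⟨rfl, rfl, Subgroup.one_mem _⟩
  mul_mem' := by
    rintro a b ⟨h1, h2, h3⟩ ⟨h4, h5, h6⟩
    refine ⟨?_, ?_, Subgroup.mul_mem _ h3 h6⟩
    · rw [mul_v, h1, h4, act_zero, add_zero]
    · rw [mul_f, h2, h5, act_zero, add_zero]
  inv_mem' := by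
    rintro a ⟨h1, h2, h3⟩
    refine ⟨?_, ?_, Subgroup.inv_mem _ h3⟩
    · rw [inv_v, h1, act_zero, neg_zero]
    · rw [inv_f, h2, act_zero, neg_zero]

theorem mem_ZZ {a : Hs p X A} : a ∈ ZZ p X A ↔ a.v = 0 ∧ a.f = 0 ∧ a.h ∈ Subgroup.center A := Iff.rfl

theorem ZZ_central (htriv : ∀ z ∈ Subgroup.center A, ∀ x : X, z • x = x) :
    ZZ p X A ≤ Subgroup.center (Hs p X A) := by
  rintro a ⟨h1, h2, h3⟩
  rw [Subgroup.mem_center_iff]
  intro b
  have hact : ∀ u : X → ZMod p, act a.h u = u := by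
    intro u; funext x; rw [act_apply, htriv _ (Subgroup.inv_mem _ h3)]
  apply Hs.ext
  · rw [mul_v, mul_v, h1, act_zero, add_zero, zero_add, hact]
  · rw [mul_f, mul_f, h2, act_zero, add_zero, zero_add, hact]
  · rw [mul_z, mul_z, h1, h2, act_zero, dot_zero_left, dot_zero_right, add_comm a.z]
  · rw [mul_h, mul_h]
    exact Subgroup.mem_center_iff.1 h3 b.h

theorem Psi_van (htriv : ∀ z ∈ Subgroup.center A, ∀ x : X, z • x = x) {χ : A → ℂ} (h : IsIrrCharacter A χ)
    {d : ℕ} (hd : χ 1 = d) (hi : d ^ 2 = (Subgroup.center A).index) {a : Hs p X A} (ha : a ∉ ZZ p X A) :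
    Psi χ a = 0 := by
  unfold Psi
  by_cases hh : a.h ∈ Subgroup.center A
  · rw [xi_triv a (htriv _ hh), if_neg, zero_mul]
    rintro ⟨h1, h2⟩
    exact ha ⟨h1, h2, hh⟩
  · rw [van_of_central h le_rfl hd hi hh, mul_zero]

theorem Psi_mem (htriv : ∀ z ∈ Subgroup.center A, ∀ x : X, z • x = x) {χ : A → ℂ}
    {a : Hs p X A} (ha : a ∈ ZZ p X A) :
    Psi χ a = (ZMod.stdAddChar a.z : ℂ) * (p ^ Fintype.card X : ℕ) * χ a.h := by
  unfold Psi
  rw [xi_triv a (htriv _ ha.2.2), if_pos ⟨ha.1, ha.2.1⟩]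

theorem isIrr_Psi (htriv : ∀ z ∈ Subgroup.center A, ∀ x : X, z • x = x) {χ : A → ℂ} (h : IsIrrCharacter A χ)
    {d : ℕ} (hd : χ 1 = d) (hi : d ^ 2 = (Subgroup.center A).index) : IsIrrCharacter (Hs p X A) (Psi χ) := by
  classical
  apply isIrr_of_norm_one (isCharacter_Psi (isCharacter_of_isIrr h))
  have hcard : (Nat.card (Hs p X A) : ℂ) ≠ 0 := by exact_mod_cast Nat.card_pos.ne'
  unfold classInner
  rw [inv_mul_eq_iff_eq_mul₀ hcard, mul_one]
  have h1 : ∀ a : Hs p X A, Psi χ a * conj (Psi χ a) =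
      if a.v = 0 ∧ a.f = 0 then ((p ^ Fintype.card X : ℕ) : ℂ) ^ 2 * (χ a.h * conj (χ a.h)) else 0 := by
    intro a
    by_cases ha : a ∈ ZZ p X A
    · rw [Psi_mem htriv ha, if_pos ⟨ha.1, ha.2.1⟩, map_mul, map_mul, Complex.conj_natCast]
      have := norm_std a.z
      calc _ = (ZMod.stdAddChar a.z * conj (ZMod.stdAddChar a.z : ℂ)) *
          (((p ^ Fintype.card X : ℕ) : ℂ) ^ 2 * (χ a.h * conj (χ a.h))) := by ring
        _ = _ := by rw [this, one_mul]
    · rw [Psi_van htriv h hd hi ha, zero_mul]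
      split_ifs with hc
      · have hh : a.h ∉ Subgroup.center A := fun hh => ha ⟨hc.1, hc.2, hh⟩
        rw [van_of_central h le_rfl hd hi hh]; simp
      · rfl
  rw [Finset.sum_congr rfl (fun a _ => h1 a)]
  rw [← Equiv.sum_comp equivProd.symm]
  have h2 : ∀ x : A × ((X → ZMod p) × ((X → ZMod p) × ZMod p)),
      (if (equivProd.symm x : Hs p X A).v = 0 ∧ (equivProd.symm x : Hs p X A).f = 0 then
        ((p ^ Fintype.card X : ℕ) : ℂ) ^ 2 * (χ (equivProd.symm x : Hs p X A).h * conj (χ (equivProd.symm x : Hs p X A).h)) else 0) =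
      if x.2.1 = 0 then (if x.2.2.1 = 0 then ((p ^ Fintype.card X : ℕ) : ℂ) ^ 2 * (χ x.1 * conj (χ x.1)) else 0) else 0 := by
    rintro ⟨a, v, f, z⟩
    show (if v = 0 ∧ f = 0 then _ else _) = (if v = 0 then (if f = 0 then _ else _) else _)
    by_cases hv : v = 0
    · by_cases hf : f = 0
      · rw [if_pos ⟨hv, hf⟩, if_pos hv, if_pos hf]; rfl
      · rw [if_neg (fun h => hf h.2), if_pos hv, if_neg hf]
    · rw [if_neg (fun h => hv h.1), if_neg hv]
  rw [Finset.sum_congr rfl (fun x _ => h2 x)]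
  rw [Fintype.sum_prod_type]
  simp only [Fintype.sum_prod_type]
  have h3 : ∀ x : A, ∑ v : X → ZMod p, ∑ f : X → ZMod p, ∑ z : ZMod p,
      (if v = 0 then (if f = 0 then ((p ^ Fintype.card X : ℕ) : ℂ) ^ 2 * (χ x * conj (χ x)) else 0) else 0) =
      (p : ℂ) * (((p ^ Fintype.card X : ℕ) : ℂ) ^ 2 * (χ x * conj (χ x))) := by
    intro x
    rw [Finset.sum_eq_single (0 : X → ZMod p)]
    · rw [Finset.sum_eq_single (0 : X → ZMod p)]
      · simp only [if_true]
        rw [Finset.sum_const, Finset.card_univ, nsmul_eq_mul]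
        congr 1
        rw [← Nat.card_eq_fintype_card, Nat.card_zmod]
      · intro f _ hf
        simp only [if_neg hf, if_true]
        exact Finset.sum_const_zero
      · intro h; exact absurd (Finset.mem_univ _) h
    · intro v _ hv
      simp only [if_neg hv]
      simp
    · intro h; exact absurd (Finset.mem_univ _) h
  rw [Finset.sum_congr rfl (fun x _ => h3 x), ← Finset.mul_sum, ← Finset.mul_sum, sum_norm' h, card_Hs]
  push_cast; ring

end psi

end H78.CType
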