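import Cfsg.Agent.Lib.H78.CType2

/-!
Groups of central type: the inductive step.
-/

set_option autoImplicit false
set_option linter.unusedSectionVars false

namespace H78.CType

open Cfsg Representation H18 H18.CharBasic H18.CharOrtho H18.CharInd H18.CharQuot
open scoped ComplexConjugate

universe u

noncomputable local instance (priority := 100) instFTd {α : Type*} [Finite α] : Fintype α := Fintype.ofFinite α

/-- central type data -/
structure CT (π : ℕ → Prop) (A : Type u) [Group A] [Finite A] (χ : A → ℂ) (d : ℕ) : Prop where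
  irr : IsIrrCharacter A χ
  deg : χ 1 = d
  sq : d ^ 2 = (Subgroup.center A).index
  faith : ∀ a, χ a = χ 1 → a = 1
  sqf : Squarefree (Nat.card (Subgroup.center A))
  prA : ∀ q : ℕ, q.Prime → (q ∣ Nat.card A ↔ π q)
  prZ : ∀ q : ℕ, q.Prime → (q ∣ Nat.card (Subgroup.center A) ↔ π q)

section step

variable {π : ℕ → Prop} {p : ℕ} [hp : Fact p.Prime] {X : Type u} {A : Type u} [Group A] [Finite A]
  [MulAction A X] [Fintype X] {χ : A → ℂ} {d : ℕ}

theorem card_ZZ : Nat.card (ZZ p X A) = p * Nat.card (Subgroup.center A) := by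
  have e : ZZ p X A ≃ ZMod p × Subgroup.center A :=
    { toFun := fun a => (a.1.z, ⟨a.1.h, a.2.2.2⟩)
      invFun := fun x => ⟨⟨0, 0, x.1, x.2⟩, rfl, rfl, x.2.2⟩
      left_inv := by
        rintro ⟨⟨v, f, z, h⟩, h1, h2, h3⟩
        apply Subtype.ext
        apply Hs.ext
        · exact h1.symm
        · exact h2.symm
        · rfl
        · rfl
      right_inv := fun x => rfl }
  rw [Nat.card_congr e, Nat.card_prod, Nat.card_zmod]

theorem index_ZZ : (ZZ p X A).index = (p ^ Fintype.card X) ^ 2 * (Subgroup.center A).index := by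
  have h1 := (ZZ p X A).card_mul_index
  rw [card_ZZ, card_Hs, ← (Subgroup.center A).card_mul_index] at h1
  have h2 : 0 < p * Nat.card (Subgroup.center A) := Nat.mul_pos hp.out.pos Nat.card_pos
  apply Nat.eq_of_mul_eq_mul_left h2
  rw [h1]; ring

theorem pow_ZZ {a : Hs p X A} (ha : a ∈ ZZ p X A) (k : ℕ) :
    a ^ k = ⟨0, 0, k * a.z, a.h ^ k⟩ := by
  induction k with
  | zero => rw [pow_zero]; apply Hs.ext <;> simp
  | succ k ih =>
    rw [pow_succ, ih]
    apply Hs.ext
    · rw [mul_v, ha.1, act_zero, add_zero]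
    · rw [mul_f, ha.2.1, act_zero, add_zero]
    · rw [mul_z, dot_zero_right]
      push_cast; ring
    · rw [mul_h, pow_succ]

variable (p X) in
/-- the kernel of `Ψ` -/
noncomputable def LL (h : CT π A χ d) : Subgroup (Hs p X A) :=
  kerSub (Psi χ) (isCharacter_Psi (isCharacter_of_isIrr h.irr))

instance (h : CT π A χ d) : (LL p X h).Normal := kerSub_normal _

variable (p X) in
/-- the faithful character -/
noncomputable def chb (h : CT π A χ d) : (Hs p X A) ⧸ LL p X h → ℂ := deflate (LL p X h) (Psi χ)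

theorem chb_mk (h : CT π A χ d) (a : Hs p X A) :
    chb p X h (QuotientGroup.mk a) = Psi χ a :=
  deflate_mk _ (isCharacter_Psi (isCharacter_of_isIrr h.irr)) (fun _ hn => hn) a

theorem chb_irr (htriv : ∀ z ∈ Subgroup.center A, ∀ x : X, z • x = x) (h : CT π A χ d) :
    IsIrrCharacter _ (chb p X h) :=
  isIrrCharacter_deflate _ (isIrr_Psi htriv h.irr h.deg h.sq) (fun _ hn => hn)

theorem chb_one (h : CT π A χ d) : chb p X h 1 = (p ^ Fintype.card X * d : ℕ) := by
  have := chb_mk h (1 : Hs p X A)
  rw [Psi_one, h.deg] at this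
  push_cast at this ⊢
  exact this

theorem comap_center (htriv : ∀ z ∈ Subgroup.center A, ∀ x : X, z • x = x) (h : CT π A χ d) :
    (Subgroup.center (Hs p X A ⧸ LL p X h)).comap (QuotientGroup.mk' _) = ZZ p X A := by
  ext a
  rw [Subgroup.mem_comap]
  constructor
  · intro ha
    by_contra hcon
    have h1 := central_norm (chb_irr htriv h) ha
    have h2 : chb p X h (QuotientGroup.mk' (LL p X h) a) = 0 := by
      have := chb_mk h a
      rw [Psi_van htriv h.irr h.deg h.sq hcon] at this
      exact this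
    rw [h2, zero_mul] at h1
    have h3 := irr_one_ne_zero (chb_irr (p := p) htriv h)
    exact (mul_ne_zero h3 h3) h1.symm
  · intro ha
    rw [Subgroup.mem_center_iff]
    intro g
    obtain ⟨b, rfl⟩ := QuotientGroup.mk_surjective g
    have := Subgroup.mem_center_iff.1 (ZZ_central htriv ha) b
    show (QuotientGroup.mk b : Hs p X A ⧸ LL p X h) * QuotientGroup.mk a = QuotientGroup.mk a * QuotientGroup.mk b
    rw [← QuotientGroup.mk_mul, ← QuotientGroup.mk_mul, this]

theorem faithful_b (h : CT π A χ d) (g : Hs p X A ⧸ LL p X h) (hg : chb p X h g = chb p X h 1) : g = 1 := by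
  obtain ⟨a, rfl⟩ := QuotientGroup.mk_surjective g
  rw [chb_mk] at hg
  have h1 := chb_mk h (1 : Hs p X A)
  have h2 : chb p X h 1 = Psi χ 1 := h1
  rw [h2] at hg
  exact (QuotientGroup.eq_one_iff a).2 hg

theorem cyclic_center (htriv : ∀ z ∈ Subgroup.center A, ∀ x : X, z • x = x) (h : CT π A χ d) :
    IsCyclic (Subgroup.center (Hs p X A ⧸ LL p X h)) := by
  obtain ⟨n, ρ, hρ, hχ⟩ := chb_irr (p := p) htriv h
  refine H4.FaithfulP.isCyclic_center_of_faithful ρ hρ ?_
  intro x y hxy
  have h1 : ρ (x⁻¹ * y) = 1 := by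
    rw [map_mul, ← hxy, ← map_mul, inv_mul_cancel, map_one]
  have h2 : x⁻¹ * y = 1 := by
    apply faithful_b h
    rw [← hχ]
    show LinearMap.trace ℂ _ (ρ (x⁻¹ * y)) = LinearMap.trace ℂ _ (ρ 1)
    rw [h1, map_one ρ]
  rw [inv_mul_eq_one] at h2
  exact h2

theorem card_center_dvd (htriv : ∀ z ∈ Subgroup.center A, ∀ x : X, z • x = x) (h : CT π A χ d) :
    Nat.card (Subgroup.center (Hs p X A ⧸ LL p X h)) ∣ Nat.lcm p (Nat.card (Subgroup.center A)) := by
  obtain ⟨⟨g, hgc⟩, hg⟩ := (cyclic_center (p := p) htriv h).exists_generator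
  have hord : orderOf (⟨g, hgc⟩ : Subgroup.center (Hs p X A ⧸ LL p X h)) =
      Nat.card (Subgroup.center (Hs p X A ⧸ LL p X h)) := by
    rw [← Nat.card_zpowers]
    have : Subgroup.zpowers (⟨g, hgc⟩ : Subgroup.center (Hs p X A ⧸ LL p X h)) = ⊤ := by
      rw [eq_top_iff]; intro y _; exact hg y
    rw [this]
    exact Nat.card_congr Subgroup.topEquiv.toEquiv
  rw [← hord]
  apply orderOf_dvd_of_pow_eq_one
  apply Subtype.ext
  show g ^ _ = 1
  obtain ⟨a, rfl⟩ := QuotientGroup.mk_surjective g
  have ha : a ∈ ZZ p X A := by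
    rw [← comap_center htriv h]; exact hgc
  rw [← QuotientGroup.mk_pow, pow_ZZ ha]
  have h1 : ((Nat.lcm p (Nat.card (Subgroup.center A)) : ℕ) : ZMod p) = 0 := by
    rw [ZMod.natCast_eq_zero_iff]; exact Nat.dvd_lcm_left _ _
  have h2 : a.h ^ (Nat.lcm p (Nat.card (Subgroup.center A))) = 1 := by
    have h3 : (⟨a.h, ha.2.2⟩ : Subgroup.center A) ^ (Nat.lcm p (Nat.card (Subgroup.center A))) = 1 :=
      orderOf_dvd_iff_pow_eq_one.1 ((orderOf_dvd_natCard _).trans (Nat.dvd_lcm_right _ _))
    exact congrArg Subtype.val h3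
  rw [h1, h2, zero_mul]
  exact QuotientGroup.mk_one _

theorem step (htriv : ∀ z ∈ Subgroup.center A, ∀ x : X, z • x = x) (h : CT π A χ d) :
    CT (fun q => π q ∨ q = p) (Hs p X A ⧸ LL p X h) (chb p X h) (p ^ Fintype.card X * d) := by
  have hidx : (Subgroup.center (Hs p X A ⧸ LL p X h)).index = (p ^ Fintype.card X * d) ^ 2 := by
    have h1 : (Subgroup.center (Hs p X A ⧸ LL p X h)).index =
        ((Subgroup.center (Hs p X A ⧸ LL p X h)).comap (QuotientGroup.mk' _)).index :=
      (Subgroup.index_comap_of_surjective _ (QuotientGroup.mk'_surjective _)).symm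
    rw [h1, comap_center htriv h, index_ZZ, ← h.sq]; ring
  have hdvd := card_center_dvd (p := p) htriv h
  have hprZ : ∀ q : ℕ, q.Prime → (q ∣ Nat.card (Subgroup.center (Hs p X A ⧸ LL p X h)) ↔ π q ∨ q = p) := by
    intro q hq
    have : Fact q.Prime := ⟨hq⟩
    constructor
    · intro hqd
      have h1 : q ∣ p * Nat.card (Subgroup.center A) := (hqd.trans hdvd).trans (Nat.lcm_dvd_mul _ _)
      rcases hq.dvd_mul.1 h1 with h2 | h2
      · exact Or.inr ((Nat.prime_dvd_prime_iff_eq hq hp.out).1 h2)
      · exact Or.inl ((h.prZ q hq).1 h2)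
    · intro hc
      -- an element of order `q`
      have key : ∃ a : Hs p X A, a ∈ ZZ p X A ∧ a ^ q = 1 ∧ Psi χ a ≠ Psi χ (1 : Hs p X A) := by
        by_cases hqp : q = p
        · refine ⟨⟨0, 0, 1, 1⟩, ⟨rfl, rfl, Subgroup.one_mem _⟩, ?_, ?_⟩
          · rw [pow_ZZ ⟨rfl, rfl, Subgroup.one_mem _⟩, hqp]
            apply Hs.ext
            · rfl
            · rfl
            · show ((p : ℕ) : ZMod p) * 1 = 0
              simp
            · exact one_pow p
          · rw [Psi_mem htriv ⟨rfl, rfl, Subgroup.one_mem _⟩, Psi_one]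
            show (ZMod.stdAddChar (1 : ZMod p) : ℂ) * _ * χ 1 ≠ _
            intro h0
            have h1 : ((p ^ Fintype.card X : ℕ) : ℂ) * χ 1 ≠ 0 :=
              mul_ne_zero (by exact_mod_cast (pow_pos hp.out.pos _).ne') (irr_one_ne_zero h.irr)
            have h2 : (ZMod.stdAddChar (1 : ZMod p) : ℂ) = 1 := by
              apply mul_right_cancel₀ h1
              rw [one_mul, ← mul_assoc]; exact h0
            have := ZMod.injective_stdAddChar (N := p) (a₁ := (1 : ZMod p)) (a₂ := 0) (by rw [h2, std_zero])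
            exact one_ne_zero this
        · have hπ : π q := hc.resolve_right hqp
          obtain ⟨b, hb⟩ := exists_prime_orderOf_dvd_card' q ((h.prZ q hq).2 hπ)
          refine ⟨⟨0, 0, 0, (b : A)⟩, ⟨rfl, rfl, b.2⟩, ?_, ?_⟩
          · rw [pow_ZZ ⟨rfl, rfl, b.2⟩]
            apply Hs.ext
            · rfl
            · rfl
            · show ((q : ℕ) : ZMod p) * 0 = 0
              simp
            · show (b : A) ^ q = 1
              have : b ^ q = 1 := by rw [← hb, pow_orderOf_eq_one]
              exact congrArg Subtype.val this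
          · rw [Psi_mem htriv ⟨rfl, rfl, b.2⟩, Psi_one]
            show (ZMod.stdAddChar (0 : ZMod p) : ℂ) * _ * χ (b : A) ≠ _
            rw [std_zero, one_mul]
            intro h0
            have h1 : ((p ^ Fintype.card X : ℕ) : ℂ) ≠ 0 := by exact_mod_cast (pow_pos hp.out.pos _).ne'
            have h2 := h.faith b (mul_left_cancel₀ h1 h0)
            have h3 : b = 1 := Subtype.ext h2
            rw [h3, orderOf_one] at hb
            exact hq.one_lt.ne hb
      obtain ⟨a, ha, haq, hne⟩ := key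
      have hmem : (QuotientGroup.mk a : Hs p X A ⧸ LL p X h) ∈ Subgroup.center (Hs p X A ⧸ LL p X h) := by
        rw [← comap_center htriv h] at ha; exact ha
      have hord : orderOf (⟨QuotientGroup.mk a, hmem⟩ : Subgroup.center (Hs p X A ⧸ LL p X h)) = q := by
        apply orderOf_eq_prime
        · apply Subtype.ext
          show (QuotientGroup.mk a : Hs p X A ⧸ LL p X h) ^ q = 1
          rw [← QuotientGroup.mk_pow, haq]
          exact QuotientGroup.mk_one _
        · intro h0
          have h1 : (QuotientGroup.mk a : Hs p X A ⧸ LL p X h) = 1 := congrArg Subtype.val h0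
          exact hne ((QuotientGroup.eq_one_iff a).1 h1)
      rw [← hord]
      exact orderOf_dvd_natCard _
  refine ⟨chb_irr htriv h, chb_one h, hidx.symm, faithful_b h, ?_, ?_, hprZ⟩
  · -- squarefree
    refine Squarefree.squarefree_of_dvd hdvd ?_
    by_cases hpd : p ∣ Nat.card (Subgroup.center A)
    · rw [Nat.lcm_eq_right hpd]; exact h.sqf
    · have hco : Nat.Coprime p (Nat.card (Subgroup.center A)) := (hp.out.coprime_iff_not_dvd).2 hpd
      rw [hco.lcm_eq_mul]
      exact (Nat.squarefree_mul hco).2 ⟨hp.out.prime.squarefree, h.sqf⟩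
  · intro q hq
    rw [← (Subgroup.center (Hs p X A ⧸ LL p X h)).card_mul_index, hq.dvd_mul, hprZ q hq, hidx]
    constructor
    · rintro (h1 | h1)
      · exact h1
      · have h2 := hq.dvd_of_dvd_pow h1
        rcases hq.dvd_mul.1 h2 with h3 | h3
        · exact Or.inr ((Nat.prime_dvd_prime_iff_eq hq hp.out).1 (hq.dvd_of_dvd_pow h3))
        · left
          apply (h.prA q hq).1
          rw [← (Subgroup.center A).card_mul_index, ← h.sq]
          exact Dvd.dvd.mul_left (dvd_pow h3 (by norm_num)) _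
    · intro h1; exact Or.inl h1

/-- the map to the central quotient -/
noncomputable def toQ (h : CT π A χ d) :
    Hs p X A →* (Hs p X A ⧸ LL p X h) ⧸ Subgroup.center (Hs p X A ⧸ LL p X h) :=
  (QuotientGroup.mk' _).comp (QuotientGroup.mk' _)

theorem ker_toQ (htriv : ∀ z ∈ Subgroup.center A, ∀ x : X, z • x = x) (h : CT π A χ d) :
    (toQ h : Hs p X A →* _).ker = ZZ p X A := by
  rw [← comap_center htriv h]
  ext a
  rw [MonoidHom.mem_ker, Subgroup.mem_comap]
  exact QuotientGroup.eq_one_iff _

end step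

end H78.CType
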