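import Cfsg.Agent.Lib.H78.CType3
import Cfsg.Agent.Lib.H63.SolvablePrimes

/-!
Embedding of solvable groups in central quotients of groups of central type.
-/

set_option autoImplicit false
set_option linter.unusedSectionVars false

namespace H78.CType

open Cfsg Representation H18 H18.CharBasic H18.CharOrtho H18.CharInd H18.CharQuot
open scoped ComplexConjugate

universe u

noncomputable local instance (priority := 100) instFTe {α : Type*} [Finite α] : Fintype α := Fintype.ofFinite α

/-- coordinates of an elementary abelian group -/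
theorem exists_coord {T : Type u} [Group T] [Finite T] (p : ℕ) [hp : Fact p.Prime] (h1 : ∀ a : T, a ^ p = 1)
    (h2 : ∀ a b : T, a * b = b * a) :
    ∃ (n : ℕ) (j : T → (Fin n → ZMod p)), Function.Injective j ∧ (∀ a b, j (a * b) = j a + j b) := by
  letI : CommGroup T := { (inferInstance : Group T) with mul_comm := h2 }
  letI : Module (ZMod p) (Additive T) := AddCommGroup.zmodModule (n := p) (fun x => h1 (Additive.toMul x))
  have : Module.Finite (ZMod p) (Additive T) := Module.Finite.of_finite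
  let b := Module.finBasis (ZMod p) (Additive T)
  refine ⟨Module.finrank (ZMod p) (Additive T), fun a => b.equivFun (Additive.ofMul a), ?_, ?_⟩
  · intro x y hxy
    exact Additive.ofMul.injective (b.equivFun.injective hxy)
  · intro x y
    show b.equivFun (Additive.ofMul x + Additive.ofMul y) = _
    rw [map_add]

section embed

variable {G : Type u} [Group G] [Finite G] (T : Subgroup G) [hT : T.Normal] {K : Type u} [Group K] [Finite K]
  (ι : G ⧸ T →* K) (hι : Function.Injective ι)

include hι in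
/-- transversal -/
theorem exists_trans : ∃ t : K → G, ∀ (g : G) (x : K),
    (t x)⁻¹ * g * t ((ι (QuotientGroup.mk g))⁻¹ * x) ∈ T := by
  classical
  let c : K → K := fun x => (Quotient.mk (QuotientGroup.rightRel ι.range) x).out
  have hc1 : ∀ x : K, x * (c x)⁻¹ ∈ ι.range := by
    intro x
    have h1 : Quotient.mk (QuotientGroup.rightRel ι.range) (c x) = Quotient.mk (QuotientGroup.rightRel ι.range) x :=
      Quotient.out_eq _
    exact QuotientGroup.rightRel_apply.1 (Quotient.exact h1)
  have hc2 : ∀ (r : K), r ∈ ι.range → ∀ x : K, c (r * x) = c x := by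
    intro r hr x
    have h1 : Quotient.mk (QuotientGroup.rightRel ι.range) (r * x) = Quotient.mk (QuotientGroup.rightRel ι.range) x := by
      apply Quotient.sound
      apply QuotientGroup.rightRel_apply.2
      have : x * (r * x)⁻¹ = r⁻¹ := by group
      rw [this]
      exact Subgroup.inv_mem _ hr
    show (Quotient.mk _ (r * x)).out = (Quotient.mk _ x).out
    rw [h1]
  choose q hq using hc1
  have hsurj : ∀ x : K, ∃ g : G, ι (QuotientGroup.mk g) = x * (c x)⁻¹ := by
    intro x
    obtain ⟨g, hg⟩ := QuotientGroup.mk_surjective (q x)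
    exact ⟨g, by rw [hg]; exact hq x⟩
  choose t ht using hsurj
  refine ⟨t, fun g x => ?_⟩
  rw [← QuotientGroup.eq_one_iff]
  apply hι
  rw [QuotientGroup.mk_mul, QuotientGroup.mk_mul, QuotientGroup.mk_inv, map_mul, map_mul, map_inv, ht, ht,
    hc2 _ (Subgroup.inv_mem _ ⟨_, rfl⟩), map_one]
  group

end embed

section final

variable {G : Type u} [Group G] [Finite G] (T : Subgroup G) [hT : T.Normal] {A : Type u} [Group A] [Finite A]

/-- the action on `A/Z(A) × Fin n` -/
@[reducible] def actX (A : Type u) [Group A] (n : ℕ) : MulAction A ((A ⧸ Subgroup.center A) × Fin n) where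
  smul h x := ((QuotientGroup.mk h : A ⧸ Subgroup.center A) * x.1, x.2)
  one_smul x := by
    show ((QuotientGroup.mk (1 : A) : A ⧸ Subgroup.center A) * x.1, x.2) = x
    rw [QuotientGroup.mk_one, one_mul]
  mul_smul a b x := by
    show ((QuotientGroup.mk (a * b) : A ⧸ Subgroup.center A) * x.1, x.2) =
      ((QuotientGroup.mk a : A ⧸ Subgroup.center A) * ((QuotientGroup.mk b : A ⧸ Subgroup.center A) * x.1), x.2)
    rw [QuotientGroup.mk_mul, mul_assoc]

theorem embed {π : ℕ → Prop} {χ : A → ℂ} {d : ℕ} (hCT : CT π A χ d) (p : ℕ) [hp : Fact p.Prime]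
    (h1 : ∀ a ∈ T, a ^ p = 1) (h2 : ∀ a ∈ T, ∀ b ∈ T, a * b = b * a)
    (ι : G ⧸ T →* A ⧸ Subgroup.center A) (hι : Function.Injective ι) :
    ∃ (B : Type u) (_ : Group B) (_ : Finite B) (χ' : B → ℂ) (d' : ℕ), CT (fun q => π q ∨ q = p) B χ' d' ∧
      ∃ f : G →* B ⧸ Subgroup.center B, Function.Injective f := by
  classical
  obtain ⟨n, j, hj, hjm⟩ := exists_coord (T := T) p (fun a => Subtype.ext (h1 a a.2))
    (fun a b => Subtype.ext (h2 a a.2 b b.2))
  have hj1 : j 1 = 0 := by
    have := hjm 1 1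
    rw [mul_one] at this
    exact left_eq_add.1 this
  obtain ⟨t, ht⟩ := exists_trans T ι hι
  let _ := actX A n
  have htriv : ∀ z ∈ Subgroup.center A, ∀ x : (A ⧸ Subgroup.center A) × Fin n, z • x = x := by
    intro z hz x
    show ((QuotientGroup.mk z : A ⧸ Subgroup.center A) * x.1, x.2) = x
    have : (QuotientGroup.mk z : A ⧸ Subgroup.center A) = 1 := (QuotientGroup.eq_one_iff z).2 hz
    rw [this, one_mul]
  refine ⟨Hs p ((A ⧸ Subgroup.center A) × Fin n) A ⧸ LL p ((A ⧸ Subgroup.center A) × Fin n) hCT, inferInstance, inferInstance, chb p ((A ⧸ Subgroup.center A) × Fin n) hCT, _,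
    step htriv hCT, ?_⟩
  -- the cocycle
  let w : G → (A ⧸ Subgroup.center A) → T := fun g x => ⟨(t x)⁻¹ * g * t ((ι (QuotientGroup.mk g))⁻¹ * x), ht g x⟩
  let vv : G → ((A ⧸ Subgroup.center A) × Fin n → ZMod p) := fun g x => j (w g x.1) x.2
  have hlift : ∀ g : G, ∃ a : A, (QuotientGroup.mk a : A ⧸ Subgroup.center A) = ι (QuotientGroup.mk g) := fun g =>
    QuotientGroup.mk_surjective _
  choose hh hhh using hlift
  let F : G → Hs p ((A ⧸ Subgroup.center A) × Fin n) A := fun g => ⟨vv g, 0, 0, hh g⟩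
  have hw : ∀ g g' x, w (g * g') x = w g x * w g' ((ι (QuotientGroup.mk g))⁻¹ * x) := by
    intro g g' x
    apply Subtype.ext
    show (t x)⁻¹ * (g * g') * t ((ι (QuotientGroup.mk (g * g')))⁻¹ * x) =
      (t x)⁻¹ * g * t ((ι (QuotientGroup.mk g))⁻¹ * x) *
      ((t ((ι (QuotientGroup.mk g))⁻¹ * x))⁻¹ * g' * t ((ι (QuotientGroup.mk g'))⁻¹ * ((ι (QuotientGroup.mk g))⁻¹ * x)))
    rw [QuotientGroup.mk_mul, map_mul, mul_inv_rev, mul_assoc (ι (QuotientGroup.mk g'))⁻¹]
    group
  have hvv : ∀ g g', vv (g * g') = vv g + act (hh g) (vv g') := by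
    intro g g'
    funext x
    show j (w (g * g') x.1) x.2 = j (w g x.1) x.2 + vv g' ((hh g)⁻¹ • x)
    rw [hw, hjm]
    show _ + j (w g' _) x.2 = _ + j (w g' ((QuotientGroup.mk (hh g)⁻¹ : A ⧸ Subgroup.center A) * x.1)) x.2
    rw [QuotientGroup.mk_inv, hhh]
  have hker := ker_toQ (p := p) htriv hCT
  have hmul : ∀ g g', toQ hCT (F (g * g')) = toQ hCT (F g) * toQ hCT (F g') := by
    intro g g'
    rw [← map_mul, MonoidHom.eq_iff, hker]
    -- `F g * F g' = F (g g') * (0,0,0,z)`
    have hz : (hh g * hh g')⁻¹ * hh (g * g') ∈ Subgroup.center A := by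
      rw [← QuotientGroup.eq_one_iff]
      show (QuotientGroup.mk (hh g * hh g')⁻¹ : A ⧸ Subgroup.center A) * QuotientGroup.mk (hh (g * g')) = 1
      rw [QuotientGroup.mk_inv, QuotientGroup.mk_mul, hhh, hhh, hhh, QuotientGroup.mk_mul, map_mul, inv_mul_cancel]
    have e1 : F (g * g') = F g * F g' * ⟨0, 0, 0, (hh g * hh g')⁻¹ * hh (g * g')⟩ := by
      apply Hs.ext
      · show vv (g * g') = (vv g + act (hh g) (vv g')) + act _ 0
        rw [act_zero, add_zero, hvv]
      · show (0 : (A ⧸ Subgroup.center A) × Fin n → ZMod p) = (0 + act (hh g) 0) + act _ 0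
        rw [act_zero, act_zero, add_zero, add_zero]
      · show (0 : ZMod p) = (0 + 0 + dot (act (hh g) 0) (vv g)) + 0 + dot (act _ 0) _
        rw [act_zero, act_zero, dot_zero_left, dot_zero_left]; ring
      · show hh (g * g') = hh g * hh g' * ((hh g * hh g')⁻¹ * hh (g * g'))
        group
    rw [e1, inv_mul_cancel_left]
    exact ⟨rfl, rfl, hz⟩
  refine ⟨MonoidHom.mk' (fun g => toQ hCT (F g)) hmul, ?_⟩
  rw [injective_iff_map_eq_one]
  intro g hg
  have hg' : F g ∈ ZZ p ((A ⧸ Subgroup.center A) × Fin n) A := by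
    rw [← hker, MonoidHom.mem_ker]; exact hg
  have hgz : hh g ∈ Subgroup.center A := hg'.2.2
  have hιg : ι (QuotientGroup.mk g) = 1 := by
    rw [← hhh]
    exact (QuotientGroup.eq_one_iff _).2 hgz
  have hv0 : vv g = 0 := hg'.1
  have hw0 : w g 1 = 1 := by
    apply hj
    rw [hj1]
    funext i
    exact congrFun hv0 (1, i)
  have h3 := congrArg Subtype.val hw0
  have h4 : (t 1)⁻¹ * g * t ((ι (QuotientGroup.mk g))⁻¹ * 1) = 1 := h3
  rw [hιg, inv_one, one_mul] at h4
  have h5 : g = t 1 * ((t 1)⁻¹ * g * t 1) * (t 1)⁻¹ := by group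
  rw [h5, h4]; group

end final

theorem main (m : ℕ) : ∀ (G : Type u) [Group G] [Finite G], Nat.card G = m → Group.IsSolvable G →
    ∃ (H : Type u) (_ : Group H) (_ : Finite H) (χ : H → ℂ) (d : ℕ), CT (fun q => q ∣ Nat.card G) H χ d ∧
      ∃ f : G →* H ⧸ Subgroup.center H, Function.Injective f := by
  induction m using Nat.strong_induction_on with
  | _ m ih =>
  intro G _ _ hm hs
  classical
  rcases subsingleton_or_nontrivial G with hsub | hnt
  · refine ⟨PUnit.{u+1}, inferInstance, inferInstance, fun _ => 1, 1, ?_, 1, ?_⟩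
    · have hG1 : Nat.card G = 1 := Nat.card_unique
      have hc1 : Nat.card (Subgroup.center PUnit.{u+1}) = 1 := Nat.card_unique
      refine ⟨isIrrCharacter_one, by simp, ?_, fun _ _ => rfl, ?_, ?_, ?_⟩
      · have := (Subgroup.center PUnit.{u+1}).card_mul_index
        rw [hc1, one_mul] at this
        rw [this]
        simp
      · rw [hc1]; exact squarefree_one
      · intro q hq
        rw [hG1]; simp
      · intro q hq
        rw [hG1, hc1]
    · intro x y _
      exact Subsingleton.elim _ _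
  · obtain ⟨p, hp, T, hTn, hT1, hTp, hTc⟩ := H63.SolvablePrimes.exists_normal_elementary hs
    have : Fact p.Prime := ⟨hp⟩
    have hcard : Nat.card (G ⧸ T) * Nat.card T = Nat.card G := (Subgroup.card_eq_card_quotient_mul_card_subgroup T).symm
    have hTcard : 1 < Nat.card T := (Subgroup.one_lt_card_iff_ne_bot T).2 hT1
    have hlt : Nat.card (G ⧸ T) < m := by
      rw [← hm, ← hcard]
      have : 0 < Nat.card (G ⧸ T) := Nat.card_pos
      nlinarith
    have hsq : Group.IsSolvable (G ⧸ T) := by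
      haveI := hs
      infer_instance
    obtain ⟨A, hA, hAf, χ, d, hCT, ι, hι⟩ := ih _ hlt (G ⧸ T) rfl hsq
    obtain ⟨B, hB, hBf, χ', d', hCT', f, hf⟩ := embed T hCT p hTp hTc ι hι
    refine ⟨B, hB, hBf, χ', d', ?_, f, hf⟩
    have hiff : ∀ q : ℕ, q.Prime → ((q ∣ Nat.card (G ⧸ T) ∨ q = p) ↔ q ∣ Nat.card G) := by
      intro q hq
      have hTpow : ∀ q : ℕ, q.Prime → (q ∣ Nat.card T ↔ q = p) := by
        intro q hq
        constructor
        · intro hqT
          have : Fact q.Prime := ⟨hq⟩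
          obtain ⟨a, ha⟩ := exists_prime_orderOf_dvd_card' q hqT
          have h1 : a ^ p = 1 := Subtype.ext (hTp a a.2)
          have h2 := orderOf_dvd_of_pow_eq_one h1
          rw [ha] at h2
          exact (Nat.prime_dvd_prime_iff_eq hq hp).1 h2
        · rintro rfl
          obtain ⟨a, haT, ha1⟩ := (Subgroup.ne_bot_iff_exists_ne_one.1 hT1 : _) |> fun ⟨a, ha⟩ =>
            (⟨a.1, a.2, fun h => ha (Subtype.ext h)⟩ : ∃ a ∈ T, a ≠ 1)
          have h1 : a ^ q = 1 := hTp a haT
          have h2 : orderOf a = q := orderOf_eq_prime h1 ha1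
          have h3 : orderOf (⟨a, haT⟩ : T) = q := by
            rw [← h2]; exact (Subgroup.orderOf_mk a haT)
          rw [← h3]
          exact orderOf_dvd_natCard _
      rw [← hcard, hq.dvd_mul, hTpow q hq]
    exact ⟨hCT'.irr, hCT'.deg, hCT'.sq, hCT'.faith, hCT'.sqf,
      fun q hq => (hCT'.prA q hq).trans (hiff q hq), fun q hq => (hCT'.prZ q hq).trans (hiff q hq)⟩

end H78.CType
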