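import Mathlib
import Cfsg.Agent.Lib.H78.Contr5

/-! Contributions for the prime two (S4540, S4541). -/

set_option autoImplicit false
set_option linter.unusedSectionVars false
set_option linter.unusedVariables false
set_option linter.style.haveILetI false
open Cfsg H20.Loc H20.GA H20.Blk H20.Orth H20.Defect H20.Height H78.BlkCount H78.Sect
open Polynomial H78.Cyc2 H78.Contr
open scoped ComplexConjugate

namespace H78.ContrTwo

universe u

theorem sum_prim {X : Type*} [AddCommMonoid X] {i : ℕ} {ζ : ℂ}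
    (hζ : IsPrimitiveRoot ζ (2 ^ (i + 1))) (F : ℂ → X) :
    ∑ μ ∈ primitiveRoots (2 ^ (i + 1)) ℂ, F μ = ∑ t ∈ Finset.range (2 ^ i), F (ζ ^ (2 * t + 1)) := by
  rw [H84.CyclicNorm.sum_primitiveRoots (by positivity) hζ]
  symm
  refine Finset.sum_bij (fun t _ => 2 * t + 1) ?_ ?_ ?_ (fun _ _ => rfl)
  · intro t ht
    rw [Finset.mem_range] at ht
    rw [Finset.mem_filter, Finset.mem_range]
    refine ⟨by rw [pow_succ]; omega, ?_⟩
    apply Nat.Coprime.pow_right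
    rw [Nat.coprime_two_right]
    exact ⟨t, rfl⟩
  · intro a _ b _ hab
    omega
  · intro a ha
    rw [Finset.mem_filter, Finset.mem_range] at ha
    have h1 : Odd a := by
      rw [← Nat.coprime_two_right]
      exact Nat.Coprime.coprime_dvd_right (dvd_pow_self 2 (by omega)) ha.2
    obtain ⟨t, ht⟩ := h1
    have h2 := ha.1
    rw [pow_succ] at h2
    exact ⟨t, Finset.mem_range.2 (by omega), ht.symm⟩

theorem card_prim {i : ℕ} : (primitiveRoots (2 ^ (i + 1)) ℂ).card = 2 ^ i := by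
  have h1 := Complex.isPrimitiveRoot_exp (2 ^ (i + 1)) (by positivity)
  rw [h1.card_primitiveRoots, Nat.totient_prime_pow_succ Nat.prime_two]
  norm_num

variable {G : Type u} [Group G] [Fintype G] {M : Ideal AlgInt}
variable {H : Subgroup G} [Fintype H] {u : G} {i : ℕ} {ζ : ℂ} {e : IrrCharacter H → ℕ}
  {b : Set (IrrCharacter H)} {B : Set (IrrCharacter G)} [Fintype (IrrCharacter H)]
  [Fintype (IrrCharacter G)]

/-- the average contribution -/
noncomputable def c (_S : Sit M 2 H u (2 ^ (i + 1)) ζ e b B) (χ : IrrCharacter G) : ℤ :=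
  (red (2 ^ i) (Pol H 2 b (2 ^ (i + 1)) e χ χ)).coeff 0

variable (S : Sit M 2 H u (2 ^ (i + 1)) ζ e b B)

include S in
theorem hζ' : IsPrimitiveRoot ζ (2 * 2 ^ i) := by
  have := S.hζ
  rwa [pow_succ'] at this

theorem m_ne : (2 : ℕ) ^ i ≠ 0 := by positivity

include S in
theorem root_mem (t : ℕ) : ζ ^ (2 * t + 1) ∈ primitiveRoots (2 ^ (i + 1)) ℂ := by
  rw [mem_primitiveRoots (by positivity)]
  apply S.hζ.pow_of_coprime
  apply Nat.Coprime.pow_right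
  rw [Nat.coprime_two_right]
  exact ⟨t, rfl⟩

theorem ev_red (χ ψ : IrrCharacter G) (t : ℕ) :
    ev (red (2 ^ i) (Pol H 2 b (2 ^ (i + 1)) e χ ψ)) (ζ ^ (2 * t + 1)) =
      S.A (ζ ^ (2 * t + 1)) χ ψ :=
  red_ev _ m_ne (root_pow_m (hζ' S) m_ne t)

theorem sum_A (χ : IrrCharacter G) :
    ∑ μ ∈ primitiveRoots (2 ^ (i + 1)) ℂ, S.A μ χ χ = (2 : ℂ) ^ i * c S χ := by
  rw [sum_prim S.hζ, c]
  have h1 := sum_ev (hζ' S) m_ne (red_degree m_ne (Pol H 2 b (2 ^ (i + 1)) e χ χ))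
  rw [Finset.sum_congr rfl (fun t _ => ev_red S χ χ t)] at h1
  rw [h1]
  push_cast
  rfl

theorem sum_A_re (χ : IrrCharacter G) :
    ∑ μ ∈ primitiveRoots (2 ^ (i + 1)) ℂ, (S.A μ χ χ).re = (2 : ℝ) ^ i * c S χ := by
  have h1 := congrArg Complex.re (sum_A S χ)
  rw [Complex.re_sum] at h1
  rw [h1]
  have : (2 : ℂ) ^ i * (c S χ : ℂ) = (((2 : ℝ) ^ i * c S χ : ℝ) : ℂ) := by push_cast; rfl
  rw [this, Complex.ofReal_re]

theorem c_eq_eval (χ : IrrCharacter G) :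
    (red (2 ^ i) (Pol H 2 b (2 ^ (i + 1)) e χ χ)).eval 1 = c S χ := by
  apply eval_one_of_real (hζ' S) m_ne (red_degree m_ne _)
  intro t
  rw [ev_red S, S.conj_A (root_mem S t)]

theorem c_odd {χ : IrrCharacter G} (hχ : χ ∈ B) (h0 : blockHeight 2 B (χ : G → ℂ) = 0) :
    ¬ (2 : ℤ) ∣ c S χ := by
  rw [← c_eq_eval S, red_eval_one _ m_ne]
  exact eval_one_unit H S.hM S.hb _ e hχ hχ h0 h0

theorem c_nonneg (χ : IrrCharacter G) : 0 ≤ c S χ := by
  have h1 := sum_A_re S χ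
  have h2 : 0 ≤ ∑ μ ∈ primitiveRoots (2 ^ (i + 1)) ℂ, (S.A μ χ χ).re :=
    Finset.sum_nonneg fun μ hμ => S.diag_nonneg hμ χ
  rw [h1] at h2
  have h3 : (0 : ℝ) ≤ c S χ := nonneg_of_mul_nonneg_right h2 (by positivity)
  exact_mod_cast h3

theorem c_pos {χ ψ : IrrCharacter G} (h : ∀ μ ∈ primitiveRoots (2 ^ (i + 1)) ℂ, S.A μ χ ψ ≠ 0) :
    0 < c S χ := by
  have h1 := sum_A_re S χ
  have h2 : 0 < ∑ μ ∈ primitiveRoots (2 ^ (i + 1)) ℂ, (S.A μ χ χ).re :=
    Finset.sum_pos (fun μ hμ => S.diag_pos hμ (h μ hμ)) ⟨_, root_mem S 0⟩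
  rw [h1] at h2
  have h3 : (0 : ℝ) < c S χ := pos_of_mul_pos_right h2 (by positivity)
  exact_mod_cast h3

theorem sum_c : ∑ χ : IrrCharacter G, c S χ = 2 ^ blockDefect 2 b * blockRank 2 b := by
  have h1 : ∑ χ : IrrCharacter G, ∑ μ ∈ primitiveRoots (2 ^ (i + 1)) ℂ, (S.A μ χ χ).re =
      (2 : ℝ) ^ i * ∑ χ : IrrCharacter G, (c S χ : ℝ) := by
    rw [Finset.mul_sum]
    exact Finset.sum_congr rfl fun χ _ => sum_A_re S χ
  rw [Finset.sum_comm, Finset.sum_congr rfl (fun μ hμ => S.sum_diag_re hμ), Finset.sum_const,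
    card_prim, nsmul_eq_mul] at h1
  push_cast at h1
  have h2 := mul_left_cancel₀ (pow_ne_zero i (by norm_num : (2 : ℝ) ≠ 0)) h1
  exact_mod_cast h2.symm

/-- the total sum of squares -/
theorem sum_norm_all (χ : IrrCharacter G) : ∑ ψ : IrrCharacter G,
    ∑ μ ∈ primitiveRoots (2 ^ (i + 1)) ℂ, ‖S.A μ χ ψ‖ ^ 2 =
      (2 : ℝ) ^ i * ((2 : ℝ) ^ blockDefect 2 b * c S χ) := by
  rw [Finset.sum_comm, Finset.sum_congr rfl (fun μ hμ => S.sum_norm hμ χ), ← Finset.mul_sum,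
    sum_A_re]
  push_cast
  ring

theorem sq_le (χ : IrrCharacter G) : (2 : ℝ) ^ i * (c S χ : ℝ) ^ 2 ≤
    ∑ μ ∈ primitiveRoots (2 ^ (i + 1)) ℂ, ‖S.A μ χ χ‖ ^ 2 := by
  have h1 := sq_sum_le_card_mul_sum_sq (s := primitiveRoots (2 ^ (i + 1)) ℂ)
    (f := fun μ => (S.A μ χ χ).re)
  rw [sum_A_re, card_prim] at h1
  have h2 : ∑ μ ∈ primitiveRoots (2 ^ (i + 1)) ℂ, (S.A μ χ χ).re ^ 2 ≤
      ∑ μ ∈ primitiveRoots (2 ^ (i + 1)) ℂ, ‖S.A μ χ χ‖ ^ 2 := by
    refine Finset.sum_le_sum fun μ _ => ?_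
    rw [← sq_abs]
    exact pow_le_pow_left₀ (abs_nonneg _) (Complex.abs_re_le_norm _) 2
  have h3 : (0 : ℝ) < (2 : ℝ) ^ i := by positivity
  push_cast at h1
  have h4 : (2 : ℝ) ^ i * ((2 : ℝ) ^ i * (c S χ : ℝ) ^ 2) ≤ (2 : ℝ) ^ i *
      ∑ μ ∈ primitiveRoots (2 ^ (i + 1)) ℂ, (S.A μ χ χ).re ^ 2 := by
    refine le_trans (le_of_eq ?_) h1
    ring
  exact (le_of_mul_le_mul_left h4 h3).trans h2

theorem main_ineq {χ : IrrCharacter G} (hχ : χ ∈ B) (h0 : blockHeight 2 B (χ : G → ℂ) = 0) :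
    (Nat.card {ψ : IrrCharacter G // ψ ∈ B ∧ blockHeight 2 B (ψ : G → ℂ) = 0} : ℤ) - 1 +
      c S χ ^ 2 ≤ 2 ^ blockDefect 2 b * c S χ := by
  classical
  set T := Finset.univ.filter (fun ψ : IrrCharacter G => ψ ∈ B ∧ blockHeight 2 B (ψ : G → ℂ) = 0)
    with hT
  have hTc : Nat.card {ψ : IrrCharacter G // ψ ∈ B ∧ blockHeight 2 B (ψ : G → ℂ) = 0} = T.card := by
    rw [Nat.card_eq_fintype_card, Fintype.card_subtype]
  have hχT : χ ∈ T := Finset.mem_filter.2 ⟨Finset.mem_univ _, hχ, h0⟩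
  have h1 := sum_norm_all S χ
  have h2 : ∑ ψ ∈ T, ∑ μ ∈ primitiveRoots (2 ^ (i + 1)) ℂ, ‖S.A μ χ ψ‖ ^ 2 ≤
      (2 : ℝ) ^ i * ((2 : ℝ) ^ blockDefect 2 b * c S χ) := by
    rw [← h1]
    exact Finset.sum_le_sum_of_subset_of_nonneg (Finset.subset_univ _)
      fun _ _ _ => Finset.sum_nonneg fun _ _ => by positivity
  rw [← Finset.add_sum_erase T _ hχT] at h2
  have h3 : ∑ ψ ∈ T.erase χ, (2 : ℝ) ^ i ≤
      ∑ ψ ∈ T.erase χ, ∑ μ ∈ primitiveRoots (2 ^ (i + 1)) ℂ, ‖S.A μ χ ψ‖ ^ 2 := by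
    refine Finset.sum_le_sum fun ψ hψ => ?_
    obtain ⟨-, hψB, hψ0⟩ := Finset.mem_filter.1 (Finset.mem_of_mem_erase hψ)
    have h4 : S.A ζ χ ψ ≠ 0 := by
      have := S.ne_zero hχ hψB h0 hψ0 (root_mem S 0)
      simpa using this
    have h5 := norm_ineq_one S.n_ne S.hζ h4
    rw [card_prim] at h5
    exact_mod_cast h5
  rw [Finset.sum_const, Finset.card_erase_of_mem hχT, nsmul_eq_mul] at h3
  have h4 := sq_le S χ
  have h5 : (0 : ℝ) < (2 : ℝ) ^ i := by positivity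
  have h6 : (2 : ℝ) ^ i * ((((T.card - 1 : ℕ) : ℝ)) + (c S χ : ℝ) ^ 2) ≤
      (2 : ℝ) ^ i * ((2 : ℝ) ^ blockDefect 2 b * c S χ) := by
    linarith
  have h7 := le_of_mul_le_mul_left h6 h5
  have h8 : ((T.card - 1 : ℕ) : ℤ) + c S χ ^ 2 ≤ 2 ^ blockDefect 2 b * c S χ := by exact_mod_cast h7
  have h9 : 0 < T.card := Finset.card_pos.2 ⟨χ, hχT⟩
  rw [hTc]
  rw [Nat.cast_sub h9] at h8
  push_cast at h8
  linarith

include S in
/-- S4541 -/
theorem height_zero_bound :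
    (Odd (Nat.sqrt (blockRank 2 b)) → Nat.card {χ : IrrCharacter G // χ ∈ B ∧
      blockHeight 2 B (χ : G → ℂ) = 0} ≤ Nat.sqrt (blockRank 2 b) * 2 ^ blockDefect 2 b) ∧
    (¬ Odd (Nat.sqrt (blockRank 2 b)) → (Nat.sqrt (blockRank 2 b) + 1) *
      Nat.card {χ : IrrCharacter G // χ ∈ B ∧ blockHeight 2 B (χ : G → ℂ) = 0} ≤
        blockRank 2 b * 2 ^ blockDefect 2 b) ∧
    (blockRank 2 b ≤ 3 → Nat.card {χ : IrrCharacter G // χ ∈ B ∧
      blockHeight 2 B (χ : G → ℂ) = 0} ≤ 2 ^ blockDefect 2 b) := by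
  classical
  set T := Finset.univ.filter (fun ψ : IrrCharacter G => ψ ∈ B ∧ blockHeight 2 B (ψ : G → ℂ) = 0)
    with hT
  have hTc : Nat.card {ψ : IrrCharacter G // ψ ∈ B ∧ blockHeight 2 B (ψ : G → ℂ) = 0} = T.card := by
    rw [Nat.card_eq_fintype_card, Fintype.card_subtype]
  have hTm : ∀ {χ}, χ ∈ T → χ ∈ B ∧ blockHeight 2 B (χ : G → ℂ) = 0 := fun h =>
    (Finset.mem_filter.1 h).2
  set s := Nat.sqrt (blockRank 2 b) with hs
  set l := blockRank 2 b with hl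
  set k0 := T.card with hk0
  have hs1 : s * s ≤ l := Nat.sqrt_le l
  have hs2 : l < (s + 1) * (s + 1) := Nat.lt_succ_sqrt l
  have ha : ∀ χ ∈ T, (k0 : ℤ) - 1 + c S χ ^ 2 ≤ 2 ^ blockDefect 2 b * c S χ := by
    intro χ hχ
    have := main_ineq S (hTm hχ).1 (hTm hχ).2
    rwa [hTc] at this
  have hodd : ∀ χ ∈ T, ¬ (2 : ℤ) ∣ c S χ := fun χ hχ => c_odd S (hTm hχ).1 (hTm hχ).2
  have hpos : ∀ χ ∈ T, 1 ≤ c S χ := by
    intro χ hχ
    have h1 := c_nonneg S χ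
    have h2 : c S χ ≠ 0 := fun h => hodd χ hχ (h ▸ dvd_zero 2)
    omega
  have hb' : ∑ χ ∈ T, c S χ ≤ 2 ^ blockDefect 2 b * l := by
    rw [hl, ← sum_c S]
    exact Finset.sum_le_sum_of_subset_of_nonneg (Finset.subset_univ _)
      fun χ _ _ => c_nonneg S χ
  rw [hTc]
  set q := blockDefect 2 b with hq
  have hq0 : (0 : ℤ) < 2 ^ q := by positivity
  have hsl : (s : ℤ) * s ≤ l := by exact_mod_cast hs1
  have hsl2 : (l : ℤ) ≤ s * (s + 2) := by
    have : (l : ℤ) < (s + 1) * (s + 1) := by exact_mod_cast hs2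
    nlinarith
  by_cases hex : ∃ χ ∈ T, c S χ ≤ s
  · obtain ⟨χ, hχ, hχs⟩ := hex
    have h1 := ha χ hχ
    have h2 := hpos χ hχ
    have h3 := hodd χ hχ
    set a := c S χ with ha'
    have h4 : (k0 : ℤ) ≤ 2 ^ q * a := by nlinarith
    refine ⟨fun hso => ?_, fun hse => ?_, fun hl3 => ?_⟩
    · have : (k0 : ℤ) ≤ s * 2 ^ q := by nlinarith
      exact_mod_cast this
    · have h5 : a ≤ s - 1 := by
        rcases Nat.even_or_odd s with h6 | h6
        · obtain ⟨w, hw⟩ := h6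
          omega
        · exact absurd h6 hse
      have h6 : (k0 : ℤ) ≤ 2 ^ q * (s - 1) := h4.trans (mul_le_mul_of_nonneg_left h5 hq0.le)
      have h7 : ((s : ℤ) + 1) * k0 ≤ l * 2 ^ q := by
        calc ((s : ℤ) + 1) * k0 ≤ (s + 1) * (2 ^ q * (s - 1)) :=
              mul_le_mul_of_nonneg_left h6 (by positivity)
          _ = (s * s - 1) * 2 ^ q := by ring
          _ ≤ l * 2 ^ q := mul_le_mul_of_nonneg_right (by linarith) hq0.le
      exact_mod_cast h7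
    · have h5 : s ≤ 1 := by nlinarith
      have h6 : a = 1 := by omega
      rw [h6, mul_one] at h4
      exact_mod_cast h4
  · push Not at hex
    have h1 : ((s : ℤ) + 1) * k0 ≤ 2 ^ q * l := by
      calc ((s : ℤ) + 1) * k0 = ∑ χ ∈ T, ((s : ℤ) + 1) := by
            rw [Finset.sum_const, nsmul_eq_mul, hk0, mul_comm]
        _ ≤ ∑ χ ∈ T, c S χ := Finset.sum_le_sum fun χ hχ => by have := hex χ hχ; omega
        _ ≤ _ := hb'
    have h2 : Odd s → (k0 : ℤ) ≤ s * 2 ^ q := by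
      intro hso
      have h3 : ((s : ℤ) + 2) * k0 ≤ 2 ^ q * l := by
        calc ((s : ℤ) + 2) * k0 = ∑ χ ∈ T, ((s : ℤ) + 2) := by
              rw [Finset.sum_const, nsmul_eq_mul, hk0, mul_comm]
          _ ≤ ∑ χ ∈ T, c S χ := Finset.sum_le_sum fun χ hχ => by
              have h4 := hex χ hχ
              have h5 := hodd χ hχ
              obtain ⟨w, hw⟩ := hso
              omega
          _ ≤ _ := hb'
      have h4 : ((s : ℤ) + 2) * k0 ≤ (s + 2) * (s * 2 ^ q) := by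
        refine h3.trans ?_
        calc 2 ^ q * (l : ℤ) ≤ 2 ^ q * (s * (s + 2)) := mul_le_mul_of_nonneg_left hsl2 hq0.le
          _ = _ := by ring
      exact le_of_mul_le_mul_left h4 (by positivity)
    refine ⟨fun hso => ?_, fun hse => ?_, fun hl3 => ?_⟩
    · exact_mod_cast h2 hso
    · have h3 : ((s : ℤ) + 1) * k0 ≤ l * 2 ^ q := by rw [mul_comm (l : ℤ)]; exact h1
      exact_mod_cast h3
    · have h5 : s ≤ 1 := by nlinarith
      rcases Nat.lt_or_ge s 1 with h6 | h6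
      · have h7 : s = 0 := by omega
        have h8 : l = 0 := by
          rw [h7] at hs2; omega
        rw [h7, h8] at h1
        simp only [Nat.cast_zero, zero_add, one_mul, mul_zero] at h1
        have h9 : k0 ≤ 0 := by exact_mod_cast h1
        exact h9.trans (Nat.zero_le _)
      · have h7 : s = 1 := by omega
        have h8 := h2 (by rw [h7]; exact odd_one)
        rw [h7, Nat.cast_one, one_mul] at h8
        exact_mod_cast h8

/-- divisibility of the average contribution in the major case -/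
theorem dvd_c (hq : blockDefect 2 b = blockDefect 2 B) {χ : IrrCharacter G} (hχ : χ ∈ B)
    (h0 : blockHeight 2 B (χ : G → ℂ) ≠ 0) :
    (2 : ℤ) ^ (blockHeight 2 B (χ : G → ℂ) + 1) ∣ c S χ := by
  haveI := pm_isPrime S.hM
  set h := blockHeight 2 B (χ : G → ℂ) with hh
  set f := red (2 ^ i) (Pol H 2 b (2 ^ (i + 1)) e χ χ) with hf
  have hζm : ζ ∈ primitiveRoots (2 ^ (i + 1)) ℂ := by
    have := root_mem S 0
    simpa using this
  have h1 : ev f ζ = S.A ζ χ χ := by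
    have := ev_red S χ χ 0
    simpa using this
  obtain ⟨h2, h3⟩ := S.major hq hχ hχ hζm
  rw [← h1] at h2 h3
  push_cast at h2 h3
  obtain ⟨g, hg⟩ := two_pow_dvd S.hM rfl (hζ' S) h (red_degree m_ne _) h2
  replace hg : f = C ((2 : ℤ) ^ h) * g := hg
  have h20 : (2 : ℂ) ^ h ≠ 0 := pow_ne_zero _ (by norm_num)
  have hgd : g.natDegree < 2 ^ i := by
    have h4 : f.natDegree < 2 ^ i := red_degree (m := 2 ^ i) m_ne (Pol H 2 b (2 ^ (i + 1)) e χ χ)
    rw [hg, natDegree_C_mul (pow_ne_zero _ (by norm_num : (2 : ℤ) ≠ 0))] at h4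
    exact h4
  have hgev : ∀ μ, ev f μ = (2 : ℂ) ^ h * ev g μ := by
    intro μ
    rw [hg, ev_mul, ev_C]
    push_cast
    rfl
  have h4 : MemLocalIdeal M (ev g ζ) := by
    have h5 : ev f ζ / 2 ^ h = ev g ζ := by
      rw [hgev]; field_simp
    rw [← h5]
    exact h3.2 h0
  have h5 : g.eval 1 = g.coeff 0 := by
    apply eval_one_of_real (hζ' S) m_ne hgd
    intro t
    have h6 : conj (ev f (ζ ^ (2 * t + 1))) = ev f (ζ ^ (2 * t + 1)) := by
      rw [ev_red S, S.conj_A (root_mem S t)]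
    rw [hgev, map_mul, map_pow, Complex.conj_ofNat] at h6
    exact mul_left_cancel₀ h20 h6
  have h6 : (2 : ℤ) ∣ g.coeff 0 := by
    rw [← h5]
    have h7 := eval_congr S.hM g S.hζ.pow_eq_one
    have h8 : MemLocalIdeal M ((g.eval 1 : ℤ) : ℂ) := (locI_congr h7).1 h4
    rw [locI_intCast_iff S.hM] at h8
    exact_mod_cast h8
  have h7 : c S χ = 2 ^ h * g.coeff 0 := by
    rw [c, show (red (2 ^ i) (Pol H 2 b (2 ^ (i + 1)) e χ χ)) = f from rfl, hg, coeff_C_mul]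
  rw [h7, pow_succ]
  exact mul_dvd_mul_left _ h6

/-- the sum of the squares for a character of height zero -/
theorem sum_four_le (hq : blockDefect 2 b = blockDefect 2 B) [DecidablePred (· ∈ B)]
    {ψ : IrrCharacter G} (hψ : ψ ∈ B)
    (h0 : blockHeight 2 B (ψ : G → ℂ) = 0) :
    ∑ χ ∈ Finset.univ.filter (fun χ : IrrCharacter G => χ ∈ B),
      (4 : ℤ) ^ blockHeight 2 B (χ : G → ℂ) ≤ 2 ^ blockDefect 2 b * c S ψ := by
  have h1 := sum_norm_all S ψ
  have h2 : ∑ χ ∈ Finset.univ.filter (fun χ : IrrCharacter G => χ ∈ B),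
      ∑ μ ∈ primitiveRoots (2 ^ (i + 1)) ℂ, ‖S.A μ ψ χ‖ ^ 2 ≤
      (2 : ℝ) ^ i * ((2 : ℝ) ^ blockDefect 2 b * c S ψ) := by
    rw [← h1]
    exact Finset.sum_le_sum_of_subset_of_nonneg (Finset.subset_univ _)
      fun _ _ _ => Finset.sum_nonneg fun _ _ => by positivity
  have h3 : ∑ χ ∈ Finset.univ.filter (fun χ : IrrCharacter G => χ ∈ B),
      (2 : ℝ) ^ i * (4 : ℝ) ^ blockHeight 2 B (χ : G → ℂ) ≤
      ∑ χ ∈ Finset.univ.filter (fun χ : IrrCharacter G => χ ∈ B),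
      ∑ μ ∈ primitiveRoots (2 ^ (i + 1)) ℂ, ‖S.A μ ψ χ‖ ^ 2 := by
    refine Finset.sum_le_sum fun χ hχ => ?_
    have hχB := (Finset.mem_filter.1 hχ).2
    have hζm : ζ ∈ primitiveRoots (2 ^ (i + 1)) ℂ := by
      have := root_mem S 0
      simpa using this
    have h4 := norm_ineq S.hM S.n_ne (f := Pol H 2 b (2 ^ (i + 1)) e χ ψ)
      (k := blockHeight 2 B (χ : G → ℂ))
      (fun μ hμ => (S.major hq hχB hψ hμ).1) S.hζ (S.major_ne_zero hq hχB hψ h0 hζm)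
    rw [card_prim] at h4
    have h5 : ∑ μ ∈ primitiveRoots (2 ^ (i + 1)) ℂ, ‖S.A μ ψ χ‖ ^ 2 =
        ∑ μ ∈ primitiveRoots (2 ^ (i + 1)) ℂ, ‖ev (Pol H 2 b (2 ^ (i + 1)) e χ ψ) μ‖ ^ 2 := by
      refine Finset.sum_congr rfl fun μ hμ => ?_
      rw [← S.conj_A hμ χ ψ, Complex.norm_conj]
      rfl
    rw [h5]
    refine le_trans (le_of_eq ?_) h4
    push_cast
    rw [← pow_mul, mul_comm (blockHeight 2 B (χ : G → ℂ)) 2, pow_mul]
    norm_num
  rw [← Finset.mul_sum] at h3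
  have h6 := le_of_mul_le_mul_left (h3.trans h2) (by positivity : (0 : ℝ) < (2 : ℝ) ^ i)
  exact_mod_cast h6

include S in
/-- S4540 -/
theorem major_bound (hq : blockDefect 2 b = blockDefect 2 B) (hl : blockRank 2 b ≤ 3) :
    3 * Nat.card B ≤ 3 * Nat.card {χ : IrrCharacter G // χ ∈ B ∧ blockHeight 2 B (χ : G → ℂ) = 0} +
      2 * (∑ᶠ χ ∈ {χ : IrrCharacter G | χ ∈ B ∧ 1 ≤ blockHeight 2 B (χ : G → ℂ)},
        2 ^ blockHeight 2 B (χ : G → ℂ)) ∧
    3 * Nat.card {χ : IrrCharacter G // χ ∈ B ∧ blockHeight 2 B (χ : G → ℂ) = 0} +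
      2 * (∑ᶠ χ ∈ {χ : IrrCharacter G | χ ∈ B ∧ 1 ≤ blockHeight 2 B (χ : G → ℂ)},
        2 ^ blockHeight 2 B (χ : G → ℂ)) ≤ 3 * 2 ^ blockDefect 2 B := by
  classical
  set T := Finset.univ.filter (fun ψ : IrrCharacter G => ψ ∈ B ∧ blockHeight 2 B (ψ : G → ℂ) = 0)
    with hT
  set U := Finset.univ.filter (fun ψ : IrrCharacter G => ψ ∈ B ∧ 1 ≤ blockHeight 2 B (ψ : G → ℂ))
    with hU
  have hTc : Nat.card {ψ : IrrCharacter G // ψ ∈ B ∧ blockHeight 2 B (ψ : G → ℂ) = 0} = T.card := by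
    rw [Nat.card_eq_fintype_card, Fintype.card_subtype]
  have hTU : Finset.univ.filter (fun ψ : IrrCharacter G => ψ ∈ B) = T ∪ U := by
    ext ψ
    simp only [hT, hU, Finset.mem_union, Finset.mem_filter, Finset.mem_univ, true_and]
    constructor
    · intro h
      rcases Nat.eq_zero_or_pos (blockHeight 2 B (ψ : G → ℂ)) with h1 | h1
      · exact Or.inl ⟨h, h1⟩
      · exact Or.inr ⟨h, h1⟩
    · rintro (h | h)
      · exact h.1
      · exact h.1
  have hdis : Disjoint T U := by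
    rw [Finset.disjoint_left]
    intro ψ h1 h2
    have h3 := (Finset.mem_filter.1 h1).2.2
    have h4 := (Finset.mem_filter.1 h2).2.2
    omega
  have hBc : Nat.card B = T.card + U.card := by
    rw [← Finset.card_union_of_disjoint hdis, ← hTU, ← Fintype.card_subtype,
      ← Nat.card_eq_fintype_card]
  have hfin : ∑ᶠ χ ∈ {χ : IrrCharacter G | χ ∈ B ∧ 1 ≤ blockHeight 2 B (χ : G → ℂ)},
        2 ^ blockHeight 2 B (χ : G → ℂ) = ∑ χ ∈ U, 2 ^ blockHeight 2 B (χ : G → ℂ) := by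
    rw [finsum_mem_eq_finite_toFinset_sum _ (Set.toFinite _)]
    apply Finset.sum_congr _ (fun _ _ => rfl)
    ext ψ
    simp [hU]
  rw [hTc, hBc, hfin, ← hq]
  have hUm : ∀ χ ∈ U, 2 ≤ 2 ^ blockHeight 2 B (χ : G → ℂ) := by
    intro χ hχ
    have h1 := (Finset.mem_filter.1 hχ).2.2
    calc 2 = 2 ^ 1 := by norm_num
      _ ≤ 2 ^ blockHeight 2 B (χ : G → ℂ) := Nat.pow_le_pow_right (by norm_num) h1
  constructor
  · have h1 : U.card * 2 ≤ ∑ χ ∈ U, 2 ^ blockHeight 2 B (χ : G → ℂ) := by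
      rw [← smul_eq_mul]
      exact Finset.card_nsmul_le_sum _ _ _ hUm
    omega
  · have hodd : ∀ χ ∈ T, ¬ (2 : ℤ) ∣ c S χ := fun χ hχ =>
      c_odd S (Finset.mem_filter.1 hχ).2.1 (Finset.mem_filter.1 hχ).2.2
    have key : (3 : ℤ) * T.card + 2 * ∑ χ ∈ U, (2 : ℤ) ^ blockHeight 2 B (χ : G → ℂ) ≤
        3 * 2 ^ blockDefect 2 b := by
      by_cases hex : ∃ ψ ∈ T, c S ψ = 1
      · obtain ⟨ψ, hψ, hc1⟩ := hex
        have h1 := sum_four_le S hq (Finset.mem_filter.1 hψ).2.1 (Finset.mem_filter.1 hψ).2.2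
        rw [hTU, Finset.sum_union hdis, hc1, mul_one] at h1
        have h2 : ∑ χ ∈ T, (4 : ℤ) ^ blockHeight 2 B (χ : G → ℂ) = T.card := by
          rw [Finset.sum_congr rfl (fun χ hχ => by
            rw [(Finset.mem_filter.1 hχ).2.2, pow_zero]), Finset.sum_const, nsmul_eq_mul, mul_one]
        rw [h2] at h1
        have h3 : ∑ χ ∈ U, (2 : ℤ) ^ blockHeight 2 B (χ : G → ℂ) ≤
            ∑ χ ∈ U, (4 : ℤ) ^ blockHeight 2 B (χ : G → ℂ) :=
          Finset.sum_le_sum fun χ _ => pow_le_pow_left₀ (by norm_num) (by norm_num) _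
        have h4 : (0 : ℤ) ≤ ∑ χ ∈ U, (4 : ℤ) ^ blockHeight 2 B (χ : G → ℂ) :=
          Finset.sum_nonneg fun _ _ => by positivity
        linarith
      · push Not at hex
        obtain ⟨ψ0, hψ0, h00⟩ := exists_height_zero S.hM S.hb.2.1
        have h1 : ∀ χ ∈ T, (3 : ℤ) ≤ c S χ := by
          intro χ hχ
          have h2 := hodd χ hχ
          have h3 := hex χ hχ
          have h4 := c_nonneg S χ
          omega
        have h2 : ∀ χ ∈ U, (2 : ℤ) * 2 ^ blockHeight 2 B (χ : G → ℂ) ≤ c S χ := by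
          intro χ hχ
          obtain ⟨hχB, hχ1⟩ := (Finset.mem_filter.1 hχ).2
          have h3 := dvd_c S hq hχB (by omega)
          have h4 : 0 < c S χ := c_pos S (ψ := ψ0) fun μ hμ => S.major_ne_zero hq hχB hψ0 h00 hμ
          have h5 := Int.le_of_dvd h4 h3
          rwa [pow_succ, mul_comm] at h5
        have h3 : ∑ χ ∈ T ∪ U, c S χ ≤ 2 ^ blockDefect 2 b * blockRank 2 b := by
          rw [← sum_c S]
          exact Finset.sum_le_sum_of_subset_of_nonneg (Finset.subset_univ _)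
            fun χ _ _ => c_nonneg S χ
        rw [Finset.sum_union hdis] at h3
        have h4 : (3 : ℤ) * T.card ≤ ∑ χ ∈ T, c S χ := by
          calc (3 : ℤ) * T.card = ∑ χ ∈ T, (3 : ℤ) := by
                rw [Finset.sum_const, nsmul_eq_mul, mul_comm]
            _ ≤ _ := Finset.sum_le_sum h1
        have h5 : 2 * ∑ χ ∈ U, (2 : ℤ) ^ blockHeight 2 B (χ : G → ℂ) ≤ ∑ χ ∈ U, c S χ := by
          rw [Finset.mul_sum]
          exact Finset.sum_le_sum h2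
        have h6 : (2 : ℤ) ^ blockDefect 2 b * blockRank 2 b ≤ 2 ^ blockDefect 2 b * 3 :=
          mul_le_mul_of_nonneg_left (by exact_mod_cast hl) (by positivity)
        linarith
    exact_mod_cast key

end H78.ContrTwo
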