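import Cfsg.Agent.Lib.H38.Goldschmidt
import Cfsg.Agent.Lib.H38.Control
import Cfsg.Agent.Lib.H28.RelHall

/-! Essential subgroups not contained in a maximal subgroup of a self-normalizing Sylow 2-subgroup. -/

set_option autoImplicit false

namespace H78.Ess

open Cfsg H38.Basic H38.Alperin H38.Functor H38.Control

universe u

theorem ess {G : Type u} [Group G] [Finite G] (hperf : commutator G = ⊤) (S : Sylow 2 G) (hN : Subgroup.normalizer ((S : Subgroup G) : Set G) ≤ S) (T0 : Subgroup G) (hT : T0 ≤ S) (hne : T0 ≠ S) (hn : ∀ s ∈ (S : Subgroup G), ∀ t ∈ T0, s * t * s⁻¹ ∈ T0) (hi : ∀ a ∈ (S : Subgroup G), ∀ b ∈ (S : Subgroup G), a ∉ T0 → b ∉ T0 → a * b ∈ T0) : ∃ E : Subgroup G, E ≤ S ∧ ¬ E ≤ T0 ∧ (∀ c ∈ (S : Subgroup G), (∀ e ∈ E, c * e = e * c) → c ∈ E) ∧ (∃ g ∈ Subgroup.normalizer (E : Set G), g ∉ S) ∧ (∀ Q : Subgroup G, IsPGroup 2 Q → E ≤ Q → Q ≤ S → Subgroup.normalizer (E : Set G) ≤ Subgroup.normalizer (Q : Set G) → Q = E) ∧ (∀ Q : Subgroup G, IsPGroup 2 Q → Q ≤ Subgroup.normalizer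 (E : Set G) → (S : Subgroup G) ⊓ Subgroup.normalizer (E : Set G) ≤ Q → Q ≤ S) := by
  classical
  have : Fact (Nat.Prime 2) := ⟨Nat.prime_two⟩
  by_contra hcon
  have hnotin : ∀ s ∈ (S : Subgroup G), ∀ a, a ∉ T0 → s * a * s⁻¹ ∉ T0 := by
    intro s hs a ha h
    apply ha
    have := hn s⁻¹ (S.inv_mem hs) _ h
    have e : s⁻¹ * (s * a * s⁻¹) * s⁻¹⁻¹ = a := by group
    rwa [e] at this
  have hpair : ∀ a ∈ (S : Subgroup G), ∀ b ∈ (S : Subgroup G), (a ∈ T0 ↔ b ∈ T0) → a⁻¹ * b ∈ T0 := by
    intro a ha b hb hab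
    by_cases h : a ∈ T0
    · exact T0.mul_mem (T0.inv_mem h) (hab.1 h)
    · exact hi a⁻¹ (S.inv_mem ha) b hb (fun h' => h (by have := T0.inv_mem h'; rwa [inv_inv] at this)) (fun h' => h (hab.2 h'))
  have key : ∀ Q : Subgroup G, Q ≤ (S : Subgroup G) → ∀ x, Q.map (MulAut.conj x).toMonoidHom ≤ (S : Subgroup G) →
      FocRel T0 (Q : Set G) x := by
    refine H38.Goldschmidt.alperin_goldschmidt S (focRel_isFusionRel T0) ?_ ?_
    · intro A c _ hc a ha
      have := Subgroup.mem_centralizer_iff.1 hc a ha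
      have e : a⁻¹ * (c * a * c⁻¹) = 1 := by rw [← this]; group
      rw [e]; exact T0.one_mem
    · intro U hU hsyl hcent hrad
      by_contra hx
      push Not at hx
      obtain ⟨x, hxN, hxU⟩ := hx
      obtain ⟨a, ha, hax⟩ : ∃ a ∈ U, a⁻¹ * (x * a * x⁻¹) ∉ T0 := by
        by_contra h
        push Not at h
        exact hxU h
      have hxa : x * a * x⁻¹ ∈ U := (Subgroup.mem_normalizer_iff.1 hxN a).1 ha
      have hCN : Subgroup.centralizer (U : Set G) ≤ Subgroup.normalizer (U : Set G) := Subgroup.centralizer_le_normalizer (U : Set G)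
      apply hcon
      refine ⟨U, hU, ?_, ?_, ⟨x, hxN, ?_⟩, ?_, ?_⟩
      · intro hUT
        exact hax (T0.mul_mem (T0.inv_mem (hUT ha)) (hUT hxa))
      · intro c hc hce
        exact hcent ⟨hc, Subgroup.mem_centralizer_iff.2 fun e he => (hce e he).symm⟩
      · intro hxS
        apply hax
        refine hpair a (hU ha) _ (hU hxa) ⟨fun h => hn x hxS a h, fun h => ?_⟩
        by_contra h'
        exact hnotin x hxS a h' h
      · intro Q hQ hUQ hQS hNQ
        by_contra hne'
        have hlt : U < Q := lt_of_le_of_ne hUQ (Ne.symm hne')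
        have h1 := lt_inf_normalizer hQ hlt
        set Q1 := Q ⊓ Subgroup.normalizer (U : Set G) with hQ1
        set N := U ⊔ Subgroup.centralizer (U : Set G) with hNdef
        have hNN : N ≤ Subgroup.normalizer (U : Set G) := sup_le Subgroup.le_normalizer hCN
        have hNn : ∀ n ∈ Subgroup.normalizer (U : Set G), N.map (MulAut.conj n).toMonoidHom = N := by
          intro n hn
          rw [hNdef, conj_sup, mem_normalizer_iff'.1 hn, mem_normalizer_iff'.1 (H38.Goldschmidt.le_normalizer_centralizer U hn)]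
        have hX := hrad (Q1 ⊔ N) (sup_le inf_le_right hNN) (by
          intro n hn
          rw [conj_sup, hNn n hn, hQ1, conj_inf, mem_normalizer_iff'.1 (hNQ hn), conj_eq_of_mem hn]) le_sup_right (by
          have h2 := H28.RelHall.relIndex_sup_eq (H := Q1) (N := N) (by
            intro n hn
            rw [mem_normalizer_iff']; exact hNn n hn.2)
          rw [h2]
          exact (hQ.to_le inf_le_left : IsPGroup 2 Q1).index (N.subgroupOf Q1))
        apply h1.not_ge
        intro q hq
        have hqN : q ∈ N := by rw [← hX]; exact Subgroup.mem_sup_left hq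
        have hUN : U ≤ Subgroup.normalizer (Subgroup.centralizer (U : Set G) : Set G) :=
          Subgroup.le_normalizer.trans (H38.Goldschmidt.le_normalizer_centralizer U)
        rw [hNdef, H38.Goldschmidt.mem_sup_iff_of_le_normalizer hUN] at hqN
        obtain ⟨c, hc, v, hv, rfl⟩ := hqN
        have hcS : c ∈ (S : Subgroup G) := by
          have := (S : Subgroup G).mul_mem (hQS hq.1) ((S : Subgroup G).inv_mem (hU hv))
          rwa [mul_inv_cancel_right] at this
        exact U.mul_mem (hcent ⟨hcS, hc⟩) hv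
      · intro Q hQ hQN hSQ
        have := hsyl.eq_of_le hQ hQN hSQ
        rw [← this]; exact inf_le_left
  have hfoc := inf_commutator_le_of_focRel S (F := T0) (by
    intro A g hA hgA
    have hcl : Subgroup.closure A ≤ (S : Subgroup G) := (Subgroup.closure_le _).2 hA
    have h1 := key (Subgroup.closure A) hcl g (closure_conj_le fun a ha => hgA (mem_cj ha))
    exact (focRel_isFusionRel T0).mono Subgroup.subset_closure h1)
  apply hne
  apply le_antisymm hT
  have h2 : ⁅(⊤ : Subgroup G), (⊤ : Subgroup G)⁆ = ⊤ := hperf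
  rw [h2, inf_top_eq] at hfoc
  exact hfoc

end H78.Ess
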