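import Cfsg.Agent.Lib.H31.Clifford
import Cfsg.Agent.Lib.H19.ProjExt3

/-!
Fully ramified characters: `χ` irreducible with `χ_Z = e θ`, `e² = |G : Z|`.
-/

set_option autoImplicit false
set_option linter.unusedSectionVars false

namespace H78.FRam

open Cfsg Representation H18 H18.CharBasic H18.CharOrtho H18.CharInd H18.CharQuot H31.Clifford
open scoped ComplexConjugate

universe u

noncomputable local instance (priority := 5000) instFT {α : Type*} [Finite α] : Fintype α := Fintype.ofFinite α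

/-- `χ` is fully ramified over the normal subgroup `Z`. -/
structure FR {G : Type u} [Group G] (Z : Subgroup G) (χ : G → ℂ) (θ : Z → ℂ) (e : ℕ) : Prop where
  irr : IsIrrCharacter G χ
  irrθ : IsIrrCharacter Z θ
  sq : e ^ 2 = Z.index
  res : ∀ z : Z, χ z = (e : ℂ) * θ z

section gen

variable {G : Type u} [Group G] [Finite G]

theorem isChar_resH {Z A : Subgroup G} (hZA : Z ≤ A) {ψ : A → ℂ} (hψ : IsCharacter A ψ) :
    IsCharacter Z (resH hZA ψ) :=
  isCharacter_comp (Subgroup.inclusion hZA) hψ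

/-- constituents of constituents -/
theorem over_trans {Z A : Subgroup G} (hZA : Z ≤ A) {χ : G → ℂ} (hχ : IsCharacter G χ) {ψ : A → ℂ}
    (hψ : IsIrrCharacter A ψ) {θ : Z → ℂ} (hθ : IsCharacter Z θ)
    (h1 : classInner (fun a : A => χ a) ψ ≠ 0) (h2 : classInner (resH hZA ψ) θ ≠ 0) :
    classInner (fun z : Z => χ z) θ ≠ 0 := by
  have hr := isCharacter_sub_constituent (isCharacter_restrict A hχ) hψ h1
  obtain ⟨f, hf⟩ := inner_char_natCast (isChar_resH hZA (isCharacter_of_isIrr hψ)) hθ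
  obtain ⟨s, hs⟩ := inner_char_natCast (isChar_resH hZA hr) hθ
  have he : classInner (fun h : Z => χ h) θ = f + s := by
    rw [← hf, ← hs, ← CharOrtho.inner_add_left]
    congr 1
    funext h
    simp [resH]
  rw [he]
  intro h0
  rw [hf] at h2
  have : ((f + s : ℕ) : ℂ) = 0 := by push_cast; exact h0
  have h4 : f + s = 0 := by exact_mod_cast this
  have h5 : f = 0 := by omega
  exact h2 (by rw [h5]; simp)

/-- the same with three subgroups -/
theorem over_trans' {Z A B : Subgroup G} (hZA : Z ≤ A) (hAB : A ≤ B) {χ : B → ℂ} (hχ : IsCharacter B χ)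
    {ψ : A → ℂ} (hψ : IsIrrCharacter A ψ) {θ : Z → ℂ} (hθ : IsCharacter Z θ)
    (h1 : classInner (resH hAB χ) ψ ≠ 0) (h2 : classInner (resH hZA ψ) θ ≠ 0) :
    classInner (resH (hZA.trans hAB) χ) θ ≠ 0 := by
  have hr := isCharacter_sub_constituent (isChar_resH hAB hχ) hψ h1
  obtain ⟨f, hf⟩ := inner_char_natCast (isChar_resH hZA (isCharacter_of_isIrr hψ)) hθ
  obtain ⟨s, hs⟩ := inner_char_natCast (isChar_resH hZA hr) hθ
  have he : classInner (resH (hZA.trans hAB) χ) θ = f + s := by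
    rw [← hf, ← hs, ← CharOrtho.inner_add_left]
    congr 1
    funext h
    simp [resH]
  rw [he]
  intro h0
  rw [hf] at h2
  have : ((f + s : ℕ) : ℂ) = 0 := by push_cast; exact h0
  have h4 : f + s = 0 := by exact_mod_cast this
  have h5 : f = 0 := by omega
  exact h2 (by rw [h5]; simp)

/-- the norm sum -/
theorem sum_norm {χ : G → ℂ} (h : IsIrrCharacter G χ) :
    ∑ g : G, χ g * conj (χ g) = Nat.card G := by
  have h1 := inner_irr_self h
  unfold classInner at h1
  have h0 : (Nat.card G : ℂ) ≠ 0 := by exact_mod_cast Nat.card_pos.ne'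
  rw [inv_mul_eq_iff_eq_mul₀ h0, mul_one] at h1
  exact h1

/-- sum over a subgroup containing the support -/
theorem sum_of_support (A : Subgroup G) (f : G → ℂ) (h : ∀ g, g ∉ A → f g = 0) :
    ∑ g : G, f g = ∑ a : A, f a := by
  classical
  have h1 : ∑ g : G, f g = ∑ g ∈ Finset.univ.filter (fun x => x ∈ A), f g := by
    rw [Finset.sum_filter]
    apply Finset.sum_congr rfl
    intro x _
    split_ifs with hx
    · rfl
    · exact h x hx
  rw [h1]
  refine Finset.sum_bij' (fun x hx => ⟨x, (Finset.mem_filter.1 hx).2⟩) (fun a _ => (a : G)) ?_ ?_ ?_ ?_ ?_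
  · intro x _; exact Finset.mem_univ _
  · intro a _; exact Finset.mem_filter.2 ⟨Finset.mem_univ _, a.2⟩
  · intro x _; rfl
  · intro a _; rfl
  · intro x _; rfl

theorem normSq_eq (z : ℂ) : z * conj z = ((‖z‖ ^ 2 : ℝ) : ℂ) := by
  rw [Complex.mul_conj, Complex.normSq_eq_norm_sq]

end gen

section fr

variable {G : Type u} [Group G] [Finite G] {Z : Subgroup G} [hZn : Z.Normal] {χ : G → ℂ} {θ : Z → ℂ} {e : ℕ}

theorem FR.e_pos (h : FR Z χ θ e) : 0 < e := by
  rcases Nat.eq_zero_or_pos e with h0 | h0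
  · have := h.sq
    rw [h0] at this
    exact absurd this.symm (by simpa using Subgroup.index_ne_zero_of_finite)
  · exact h0

theorem FR.inv (h : FR Z χ θ e) (g : G) : conjFunN Z g θ = θ := by
  have h1 := cj_restrict Z g (isClassFunction_of_isIrr h.irr)
  have h2 : (fun z : Z => χ z) = (e : ℂ) • θ := by funext z; exact h.res z
  rw [h2, cj_smul] at h1
  have he : (e : ℂ) ≠ 0 := by exact_mod_cast h.e_pos.ne'
  exact (smul_right_injective _ he) h1

/-- `χ` vanishes off `Z` -/
theorem FR.van (h : FR Z χ θ e) {g : G} (hg : g ∉ Z) : χ g = 0 := by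
  classical
  have h1 := sum_norm h.irr
  have h2 := sum_norm h.irrθ
  have h3 : ∑ z : Z, χ z * conj (χ z) = Nat.card G := by
    have : ∀ z : Z, χ z * conj (χ z) = (e : ℂ) ^ 2 * (θ z * conj (θ z)) := by
      intro z
      rw [h.res z, map_mul, Complex.conj_natCast]; ring
    rw [Finset.sum_congr rfl (fun z _ => this z), ← Finset.mul_sum, h2]
    have h4 := Z.card_mul_index
    rw [← h.sq] at h4
    have : ((Nat.card Z * e ^ 2 : ℕ) : ℂ) = Nat.card G := by rw [h4]
    push_cast at this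
    rw [← this]; ring
  have h5 : ∑ g : G, (if g ∈ Z then χ g * conj (χ g) else 0) = Nat.card G := by
    rw [sum_of_support Z _ (fun g hg => if_neg hg), ← h3]
    apply Finset.sum_congr rfl
    intro z _
    rw [if_pos z.2]
  have h6 : ∑ g : G, (if g ∈ Z then 0 else ‖χ g‖ ^ 2) = 0 := by
    have : ((∑ g : G, (if g ∈ Z then 0 else ‖χ g‖ ^ 2) : ℝ) : ℂ) = 0 := by
      rw [Complex.ofReal_sum]
      have h7 : ∀ g : G, (((if g ∈ Z then 0 else ‖χ g‖ ^ 2 : ℝ)) : ℂ) =
          χ g * conj (χ g) - (if g ∈ Z then χ g * conj (χ g) else 0) := by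
        intro g
        split_ifs with hg
        · simp
        · rw [normSq_eq, sub_zero]
      rw [Finset.sum_congr rfl (fun g _ => h7 g), Finset.sum_sub_distrib, h1, h5, sub_self]
    exact_mod_cast this
  have h8 := (Finset.sum_eq_zero_iff_of_nonneg (fun g _ => by split_ifs <;> positivity)).1 h6 g (Finset.mem_univ _)
  rw [if_neg hg] at h8
  simpa using h8

/-- over `θ` the restriction is a multiple of `θ` -/
theorem FR.res_over (h : FR Z χ θ e) {A : Subgroup G} (hZA : Z ≤ A) {ψ : A → ℂ} (hψ : IsIrrCharacter A ψ)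
    (h1 : classInner (resH hZA ψ) θ ≠ 0) : resH hZA ψ = classInner (resH hZA ψ) θ • θ := by
  have h2 := restrict_eq (Z.subgroupOf A) hψ (irr_thT Z A hZA h.irrθ)
    (by rw [inner_thT Z A hZA]; exact h1)
  rw [inner_thT Z A hZA] at h2
  have h3 : orb (Z.subgroupOf A) (thT Z A θ) = {thT Z A θ} := by
    ext φ
    rw [mem_orb, Finset.mem_singleton]
    constructor
    · rintro ⟨t, rfl⟩
      rw [cj_thT, h.inv]
    · rintro rfl; exact ⟨1, (cj_one _ _).symm⟩
  rw [h3, Finset.sum_singleton] at h2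
  apply thT_inj Z A hZA
  exact h2

/-- multiplicities in `χ_A` -/
theorem FR.inner_res (h : FR Z χ θ e) {A : Subgroup G} (hZA : Z ≤ A) (ψ : A → ℂ) :
    classInner (fun a : A => χ a) ψ * (Z.relIndex A : ℂ) = (e : ℂ) * classInner θ (resH hZA ψ) := by
  classical
  have hA0 : (Nat.card A : ℂ) ≠ 0 := by exact_mod_cast Nat.card_pos.ne'
  have hZ0 : (Nat.card Z : ℂ) ≠ 0 := by exact_mod_cast Nat.card_pos.ne'
  have hc : (Nat.card Z : ℂ) * (Z.relIndex A : ℂ) = Nat.card A := by
    have h1 : Nat.card (Z.subgroupOf A) * (Z.subgroupOf A).index = Nat.card A := Subgroup.card_mul_index _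
    rw [Nat.card_congr (Subgroup.subgroupOfEquivOfLe hZA).toEquiv] at h1
    exact_mod_cast h1
  have h1 : ∑ a : A, χ a * conj (ψ a) = (e : ℂ) * ∑ z : Z, θ z * conj (resH hZA ψ z) := by
    rw [sum_of_support (Z.subgroupOf A) (fun a : A => χ a * conj (ψ a)) (fun a ha => by
      show χ a * _ = 0
      rw [h.van (fun hz => ha (Subgroup.mem_subgroupOf.2 hz)), zero_mul])]
    rw [Finset.mul_sum]
    refine Fintype.sum_equiv (Subgroup.subgroupOfEquivOfLe hZA).toEquiv _ _ (fun z => ?_)
    have h2 := h.res ((Subgroup.subgroupOfEquivOfLe hZA) z)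
    have h3 : (((Subgroup.subgroupOfEquivOfLe hZA) z : Z) : G) = ((z : A) : G) := rfl
    rw [h3] at h2
    show χ ((z : A) : G) * _ = _
    rw [h2, mul_assoc]
    rfl
  have hr0 : (Z.relIndex A : ℂ) ≠ 0 := by
    intro h0
    rw [h0, mul_zero] at hc
    exact hA0 hc.symm
  unfold classInner
  rw [h1, ← hc]
  field_simp

theorem FR.unique (h : FR Z χ θ e) {ψ : G → ℂ} (hψ : IsIrrCharacter G ψ)
    (h1 : classInner (fun z : Z => ψ z) θ ≠ 0) : ψ = χ := by
  by_contra hne
  have h2 : classInner χ ψ = 0 := inner_irr_ne h.irr hψ (Ne.symm hne)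
  have h3 := h.inner_res (A := ⊤) le_top (fun a => ψ a)
  have h4 : classInner (fun a : (⊤ : Subgroup G) => χ a) (fun a => ψ a) = classInner χ ψ := by
    unfold classInner
    rw [Nat.card_congr (Subgroup.topEquiv (G := G)).toEquiv]
    congr 1
    exact Fintype.sum_equiv (Subgroup.topEquiv (G := G)).toEquiv _ _ (fun x => rfl)
  rw [h4, h2, zero_mul] at h3
  have he : (e : ℂ) ≠ 0 := by exact_mod_cast h.e_pos.ne'
  have h5 := (mul_eq_zero.1 h3.symm).resolve_left he
  exact h1 (by
    rw [← CharOrtho.inner_conj_symm]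
    show conj (classInner θ (fun z : Z => ψ z)) = 0
    have : (fun z : Z => ψ z) = resH (T := ⊤) le_top (fun a : (⊤ : Subgroup G) => ψ a) := rfl
    rw [this, h5, map_zero])

/-- the norm of the restriction to a subgroup containing `Z` -/
theorem FR.norm_res (h : FR Z χ θ e) {A : Subgroup G} (hZA : Z ≤ A) :
    classInner (fun a : A => χ a) (fun a : A => χ a) = (A.index : ℂ) := by
  have hA0 : (Nat.card A : ℂ) ≠ 0 := by exact_mod_cast Nat.card_pos.ne'
  have h1 := sum_norm h.irr
  rw [sum_of_support A (fun g : G => χ g * conj (χ g))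
    (fun g hg => by rw [h.van (fun hz => hg (hZA hz)), zero_mul])] at h1
  unfold classInner
  rw [h1, ← A.card_mul_index]
  push_cast
  rw [inv_mul_cancel_left₀ hA0]

/-- transitivity on the characters of a normal subgroup over `θ` -/
theorem FR.trans (h : FR Z χ θ e) {K : Subgroup G} [K.Normal] (hZK : Z ≤ K) {η₁ η₂ : K → ℂ}
    (hη₁ : IsIrrCharacter K η₁) (hη₂ : IsIrrCharacter K η₂)
    (h1 : classInner (resH hZK η₁) θ ≠ 0) (h2 : classInner (resH hZK η₂) θ ≠ 0) :
    ∃ g : G, η₂ = conjFunN K g η₁ := by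
  have key : ∀ {η : K → ℂ}, classInner (resH hZK η) θ ≠ 0 → classInner (fun k : K => χ k) η ≠ 0 := by
    intro η hη h0
    have h3 := h.inner_res hZK η
    rw [h0, zero_mul] at h3
    have he : (e : ℂ) ≠ 0 := by exact_mod_cast h.e_pos.ne'
    exact (classInner_ne_zero_symm.1 hη) ((mul_eq_zero.1 h3.symm).resolve_left he)
  exact constituents_conj K h.irr hη₁ hη₂ (key h1) (key h2)

theorem FR.ne_of_over (h : FR Z χ θ e) {A : Subgroup G} (hZA : Z ≤ A) {η : A → ℂ}
    (h1 : classInner (resH hZA η) θ ≠ 0) : classInner (fun a : A => χ a) η ≠ 0 := by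
  intro h0
  have h3 := h.inner_res hZA η
  rw [h0, zero_mul] at h3
  have he : (e : ℂ) ≠ 0 := by exact_mod_cast h.e_pos.ne'
  exact (classInner_ne_zero_symm.1 h1) ((mul_eq_zero.1 h3.symm).resolve_left he)

theorem FR.over_of_ne (h : FR Z χ θ e) {A : Subgroup G} (hZA : Z ≤ A) {η : A → ℂ}
    (h1 : classInner (fun a : A => χ a) η ≠ 0) : classInner (resH hZA η) θ ≠ 0 := by
  intro h0
  have h3 := h.inner_res hZA η
  have h4 : classInner θ (resH hZA η) = 0 := by
    rw [← CharOrtho.inner_conj_symm, h0, map_zero]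
  rw [h4, mul_zero] at h3
  have hr0 : (Z.relIndex A : ℂ) ≠ 0 := by
    have : Z.relIndex A ≠ 0 := Subgroup.index_ne_zero_of_finite
    exact_mod_cast this
  exact h1 ((mul_eq_zero.1 h3).resolve_right hr0)

/-- the count for a normal subgroup `K ≥ Z` and `η` over `θ` -/
theorem FR.count (h : FR Z χ θ e) {K : Subgroup G} [K.Normal] (hZK : Z ≤ K) {η : K → ℂ}
    (hη : IsIrrCharacter K η) (h1 : classInner (resH hZK η) θ ≠ 0) :
    ∃ a g : ℕ, classInner (fun k : K => χ k) η = a ∧ classInner (resH hZK η) θ = g ∧ 0 < a ∧ 0 < g ∧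
      a ^ 2 * (inertia K η).index = K.index ∧ e = a * (inertia K η).index * g ∧
      (inertia K η).index * g ^ 2 = Z.relIndex K := by
  obtain ⟨a, ha⟩ := inner_char_natCast (isCharacter_restrict K (isCharacter_of_isIrr h.irr)) (isCharacter_of_isIrr hη)
  obtain ⟨g, hg⟩ := inner_char_natCast (isChar_resH hZK (isCharacter_of_isIrr hη)) (isCharacter_of_isIrr h.irrθ)
  have hne := h.ne_of_over hZK h1
  have ha0 : 0 < a := by
    rcases Nat.eq_zero_or_pos a with h0 | h0
    · exact absurd (by rw [ha, h0]; simp) hne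
    · exact h0
  have hg0 : 0 < g := by
    rcases Nat.eq_zero_or_pos g with h0 | h0
    · exact absurd (by rw [hg, h0]; simp) h1
    · exact h0
  have hr := restrict_eq K h.irr hη hne
  have hn := h.norm_res hZK
  have h2 : classInner (fun k : K => χ k) (fun k : K => χ k) = (a : ℂ) ^ 2 * (orb K η).card := by
    rw [hr, ha, CharOrtho.inner_smul_left, CharOrtho.inner_smul_right, inner_sum_left]
    have h3 : ∀ φ ∈ orb K η, classInner φ (∑ φ ∈ orb K η, φ) = 1 := by
      intro φ hφ
      rw [inner_sum_right, Finset.sum_eq_single φ]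
      · exact inner_irr_self (irr_of_mem_orb K hη hφ)
      · intro ψ hψ hne
        exact inner_irr_ne (irr_of_mem_orb K hη hφ) (irr_of_mem_orb K hη hψ) (Ne.symm hne)
      · intro h; exact absurd hφ h
    rw [Finset.sum_congr rfl h3, Finset.sum_const, nsmul_eq_mul, mul_one, Complex.conj_natCast]
    ring
  rw [h2, card_orb] at hn
  have hn' : a ^ 2 * (inertia K η).index = K.index := by exact_mod_cast hn
  have hd := degree_eq K h.irr hη hne
  have hdθ := h.res 1
  have hdη := congrFun (h.res_over hZK hη h1) 1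
  rw [hg] at hdη
  have hdη' : η 1 = g * θ 1 := hdη
  rw [ha, hdη'] at hd
  have hdθ' : χ 1 = e * θ 1 := hdθ
  rw [hdθ'] at hd
  have hθ0 := irr_one_ne_zero h.irrθ
  have h4 : (e : ℂ) = a * (inertia K η).index * g := by
    apply mul_right_cancel₀ hθ0
    rw [hd]; ring
  have h5 : e = a * (inertia K η).index * g := by exact_mod_cast h4
  refine ⟨a, g, ha, hg, ha0, hg0, hn', h5, ?_⟩
  have h6 : Z.relIndex K * K.index = Z.index := Subgroup.relIndex_mul_index hZK
  have h7 := h.sq
  rw [h5, ← h6, ← hn'] at h7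
  have hi : 0 < (inertia K η).index := Nat.pos_of_ne_zero Subgroup.index_ne_zero_of_finite
  have h8 : (a ^ 2 * (inertia K η).index) * ((inertia K η).index * g ^ 2) =
      (a ^ 2 * (inertia K η).index) * Z.relIndex K := by
    calc _ = (a * (inertia K η).index * g) ^ 2 := by ring
      _ = _ := by rw [h7]; ring
  exact Nat.eq_of_mul_eq_mul_left (by positivity) h8

/-- Lemma A: going down to a subgroup of coprime index -/
theorem FR.sub (h : FR Z χ θ e) {L : Subgroup G} (hZL : Z ≤ L) (hco : (L.index).Coprime (Z.relIndex L)) :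
    ∃ (Ψ : L → ℂ) (t : ℕ), FR (Z.subgroupOf L) Ψ (thT Z L θ) t := by
  obtain ⟨Ψ, hΨ, h1⟩ := exists_constituent_restrict L h.irr
  obtain ⟨a, ha⟩ := inner_char_natCast (isCharacter_restrict L (isCharacter_of_isIrr h.irr)) (isCharacter_of_isIrr hΨ)
  obtain ⟨c, hc⟩ := inner_char_natCast (isChar_resH hZL (isCharacter_of_isIrr hΨ)) (isCharacter_of_isIrr h.irrθ)
  have hover := h.over_of_ne hZL h1
  have hc0 : 0 < c := by
    rcases Nat.eq_zero_or_pos c with h0 | h0
    · exact absurd (by rw [hc, h0]; simp) hover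
    · exact h0
  have h2 := h.inner_res hZL Ψ
  have hres := h.res_over hZL hΨ hover
  rw [← CharOrtho.inner_conj_symm (resH hZL Ψ) θ, ha, hc, Complex.conj_natCast] at h2
  have h2' : a * Z.relIndex L = e * c := by exact_mod_cast h2
  have h3 : Z.relIndex L * L.index = Z.index := Subgroup.relIndex_mul_index hZL
  have hr0 : 0 < Z.relIndex L := Nat.pos_of_ne_zero Subgroup.index_ne_zero_of_finite
  have h4 : a ^ 2 * Z.relIndex L = L.index * c ^ 2 := by
    apply Nat.eq_of_mul_eq_mul_right hr0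
    calc a ^ 2 * Z.relIndex L * Z.relIndex L = (a * Z.relIndex L) ^ 2 := by ring
      _ = e ^ 2 * c ^ 2 := by rw [h2']; ring
      _ = _ := by rw [h.sq, ← h3]; ring
  have h5 : Z.relIndex L ∣ c ^ 2 := by
    have : Z.relIndex L ∣ L.index * c ^ 2 := ⟨a ^ 2, by rw [← h4]; ring⟩
    exact (Nat.Coprime.dvd_of_dvd_mul_left hco.symm this)
  -- the bound
  have h6 : c ^ 2 ≤ Z.relIndex L := by
    have hL := sum_norm hΨ
    have hZ := sum_norm h.irrθ
    have e1 : ∑ z : Z, resH hZL Ψ z * conj (resH hZL Ψ z) = (c : ℂ) ^ 2 * Nat.card Z := by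
      rw [hres, hc, ← hZ, Finset.mul_sum]
      apply Finset.sum_congr rfl
      intro z _
      rw [Pi.smul_apply, smul_eq_mul, map_mul, Complex.conj_natCast]; ring
    have e2 : ∑ z : Z, ‖Ψ ⟨z, hZL z.2⟩‖ ^ 2 = (c : ℝ) ^ 2 * Nat.card Z := by
      have : ((∑ z : Z, ‖Ψ ⟨z, hZL z.2⟩‖ ^ 2 : ℝ) : ℂ) = (((c : ℝ) ^ 2 * Nat.card Z : ℝ) : ℂ) := by
        rw [Complex.ofReal_sum]
        push_cast
        rw [← e1]
        apply Finset.sum_congr rfl
        intro z _
        rw [resH_apply, normSq_eq]; push_cast; rfl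
      exact_mod_cast this
    have e3 : ∑ l : L, ‖Ψ l‖ ^ 2 = (Nat.card L : ℝ) := by
      have : ((∑ l : L, ‖Ψ l‖ ^ 2 : ℝ) : ℂ) = ((Nat.card L : ℝ) : ℂ) := by
        rw [Complex.ofReal_sum]
        push_cast
        rw [← hL]
        apply Finset.sum_congr rfl
        intro z _
        rw [normSq_eq]; push_cast; rfl
      exact_mod_cast this
    have e4 : ∑ z : Z, ‖Ψ ⟨z, hZL z.2⟩‖ ^ 2 ≤ ∑ l : L, ‖Ψ l‖ ^ 2 := by
      have hinj : Function.Injective (fun z : Z => (⟨z, hZL z.2⟩ : L)) := by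
        intro x y hxy
        apply Subtype.ext
        exact congrArg (fun l : L => (l : G)) hxy
      classical
      have e5 : ∑ z : Z, ‖Ψ ⟨z, hZL z.2⟩‖ ^ 2 =
          ∑ l ∈ Finset.univ.image (fun z : Z => (⟨z, hZL z.2⟩ : L)), ‖Ψ l‖ ^ 2 := by
        rw [Finset.sum_image (fun x _ y _ hxy => hinj hxy)]
      rw [e5]
      exact Finset.sum_le_sum_of_subset_of_nonneg (Finset.subset_univ _) (fun _ _ _ => by positivity)
    rw [e2, e3] at e4
    have e6 : Nat.card Z * Z.relIndex L = Nat.card L := by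
      have h1 : Nat.card (Z.subgroupOf L) * (Z.subgroupOf L).index = Nat.card L := Subgroup.card_mul_index _
      rwa [Nat.card_congr (Subgroup.subgroupOfEquivOfLe hZL).toEquiv] at h1
    have e7 : c ^ 2 * Nat.card Z ≤ Nat.card L := by exact_mod_cast e4
    rw [← e6, mul_comm] at e7
    exact Nat.le_of_mul_le_mul_left e7 Nat.card_pos
  have h7 : c ^ 2 = Z.relIndex L := le_antisymm h6 (Nat.le_of_dvd (by positivity) h5)
  refine ⟨Ψ, c, hΨ, irr_thT Z L hZL h.irrθ, h7, ?_⟩
  intro z
  have h8 := congrFun hres ⟨z, Subgroup.mem_subgroupOf.1 z.2⟩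
  rw [hc] at h8
  exact h8

/-- over a cyclic quotient the multiplicity is one -/
theorem FR.mult_one (h : FR Z χ θ e) {K : Subgroup G} [K.Normal] (hZK : Z ≤ K) (hcyc : IsCyclic (G ⧸ K))
    {η : K → ℂ} (hη : IsIrrCharacter K η) (h1 : classInner (resH hZK η) θ ≠ 0) :
    classInner (fun k : K => χ k) η = 1 := by
  set T := inertia K η with hT
  have hKT : K ≤ T := le_inertia K (isClassFunction_of_isIrr hη)
  have hη' : IsIrrCharacter (K.subgroupOf T) (thT K T η) := irr_thT K T hKT hη
  obtain ⟨d, ρ, hρ, hρc⟩ := hη'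
  have hcT : IsCyclic (T ⧸ K.subgroupOf T) := by
    let f : T ⧸ K.subgroupOf T →* G ⧸ K := QuotientGroup.map _ _ T.subtype (by
      intro x hx; exact hx)
    have hf : Function.Injective f := by
      rw [injective_iff_map_eq_one]
      intro x
      induction x using QuotientGroup.induction_on with
      | H x =>
        intro hx
        have : (QuotientGroup.mk (x : G) : G ⧸ K) = 1 := hx
        rw [QuotientGroup.eq_one_iff] at this
        exact (QuotientGroup.eq_one_iff x).2 this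
    exact isCyclic_of_injective f hf
  have hinv : ∀ (g : T) (n : K.subgroupOf T), ρ.character (MulAut.conjNormal g n) = ρ.character n := by
    intro g n
    rw [hρc]
    have h2 : conjFunN K (g : G) η = η := g.2
    exact congrFun (congrArg (thT K T) h2) n
  obtain ⟨σ, hσ⟩ := H19.ProjExt3.extend_of_cyclic ρ hρ hcT hinv
  obtain ⟨ηh, hηh, hres⟩ := H19.ProjExt3.char_of_extension ρ hρ hρc σ hσ
  have hresH : resH hKT ηh = η := by
    funext k
    exact hres ⟨⟨k, hKT k.2⟩, Subgroup.mem_subgroupOf.2 k.2⟩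
  have hin : classInner (resH hKT ηh) η = 1 := by rw [hresH]; exact inner_irr_self hη
  obtain ⟨χ', hχ', h2⟩ := exists_over T hηh
  obtain ⟨h3, h4⟩ := corr_core K T hKT hη (fun g => Iff.rfl) hηh (by rw [hin]; exact one_ne_zero) hχ' h2
  rw [hin] at h4
  have h5 : χ' = χ := h.unique hχ' (over_trans hZK (isCharacter_of_isIrr hχ') hη (isCharacter_of_isIrr h.irrθ)
    (by rw [h4]; exact one_ne_zero) h1)
  rw [← h5]
  exact h4

end fr

end H78.FRam
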