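import Cfsg.Agent.Lib.H78.FRam
import Cfsg.Agent.Lib.H3.SylowInf
import Cfsg.Agent.Lib.H70.ClassSize

/-!
Fully ramified characters: complements of Sylow subgroups in quotients.
-/

set_option autoImplicit false
set_option linter.unusedSectionVars false

namespace H78.FRam

open Cfsg Representation H18 H18.CharBasic H18.CharOrtho H18.CharInd H18.CharQuot H31.Clifford
open scoped ComplexConjugate

universe u

noncomputable local instance (priority := 5000) instFT' {α : Type*} [Finite α] : Fintype α := Fintype.ofFinite α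

section grp

variable {H : Type u} [Group H] [Finite H]

theorem relIndex_eq_of_prod {S L N : Subgroup H} (hLN : L ≤ N)
    (hNL : ∀ n ∈ N, ∃ l ∈ L, n * l⁻¹ ∈ S) : S.relIndex N = S.relIndex L := by
  classical
  let f := Subgroup.quotientSubgroupOfEmbeddingOfLE S hLN
  have hsurj : Function.Surjective f := by
    intro x
    induction x using QuotientGroup.induction_on with
    | H n =>
      obtain ⟨l, hl, hnl⟩ := hNL ((n : H)⁻¹) (N.inv_mem n.2)
      refine ⟨QuotientGroup.mk (⟨l⁻¹, L.inv_mem hl⟩ : L), ?_⟩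
      show (QuotientGroup.mk (⟨l⁻¹, hLN (L.inv_mem hl)⟩ : N) : N ⧸ S.subgroupOf N) = QuotientGroup.mk n
      rw [QuotientGroup.eq, Subgroup.mem_subgroupOf]
      show (l⁻¹)⁻¹ * (n : H) ∈ S
      have := S.inv_mem hnl
      simpa [mul_inv_rev] using this
  exact (Nat.card_congr (Equiv.ofBijective f ⟨f.injective, hsurj⟩)).symm

theorem mem_sup_right {P Z : Subgroup H} [Z.Normal] {x : H} (hx : x ∈ P ⊔ Z) :
    ∃ y ∈ P, ∃ z ∈ Z, y * z = x := by
  have h1 : x ∈ ((P ⊔ Z : Subgroup H) : Set H) := hx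
  rw [Subgroup.mul_normal] at h1
  obtain ⟨y, hy, z, hz, h⟩ := h1
  exact ⟨y, hy, z, hz, h⟩

theorem inf_sup_eq {P Z K : Subgroup H} [Z.Normal] (hZK : Z ≤ K) :
    (P ⊔ Z) ⊓ K = (P ⊓ K) ⊔ Z := by
  apply le_antisymm
  · rintro x ⟨hx, hxK⟩
    obtain ⟨y, hy, z, hz, rfl⟩ := mem_sup_right hx
    have hyK : y ∈ K := by
      have := K.mul_mem hxK (K.inv_mem (hZK hz))
      simpa using this
    exact Subgroup.mul_mem_sup ⟨hy, hyK⟩ hz
  · exact sup_le (inf_le_inf_right _ le_sup_left) (le_inf le_sup_right hZK)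

theorem frattini {p : ℕ} [Fact p.Prime] (P0 : Sylow p H) {Z K : Subgroup H} [Z.Normal] [K.Normal] (hZK : Z ≤ K) :
    Subgroup.normalizer ((((P0 : Subgroup H) ⊔ Z) ⊓ K : Subgroup H) : Set H) ⊔ K = ⊤ := by
  obtain ⟨R, hR⟩ := H3.SylowInf.exists_sylow_inf P0 K
  have h1 := Sylow.normalizer_sup_eq_top R
  have h2 : (R : Subgroup K).map K.subtype = (P0 : Subgroup H) ⊓ K := by
    rw [hR, Subgroup.subgroupOf_map_subtype]
  rw [h2] at h1
  rw [eq_top_iff, ← h1]
  refine sup_le_sup_right ?_ K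
  rw [inf_sup_eq hZK]
  have key : ∀ n ∈ Subgroup.normalizer (((P0 : Subgroup H) ⊓ K : Subgroup H) : Set H), ∀ h : H,
      h ∈ ((P0 : Subgroup H) ⊓ K) ⊔ Z → n * h * n⁻¹ ∈ ((P0 : Subgroup H) ⊓ K) ⊔ Z := by
    intro n hn h hh
    obtain ⟨y, hy, z, hz, rfl⟩ := mem_sup_right hh
    have h3 := (Subgroup.mem_normalizer_iff.1 hn y).1 hy
    have h4 : n * (y * z) * n⁻¹ = (n * y * n⁻¹) * (n * z * n⁻¹) := by group
    rw [h4]
    exact Subgroup.mul_mem_sup h3 (Subgroup.Normal.conj_mem inferInstance z hz n)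
  intro n hn
  rw [Subgroup.mem_normalizer_iff]
  intro h
  constructor
  · exact key n hn h
  · intro hh
    have := key n⁻¹ (Subgroup.inv_mem _ hn) _ hh
    have h5 : n⁻¹ * (n * h * n⁻¹) * n⁻¹⁻¹ = h := by group
    rwa [h5] at this

end grp

section main

variable {H : Type u} [Group H] [Finite H] {Z K : Subgroup H} [hZn : Z.Normal] [hKn : K.Normal]
  {χ : H → ℂ} {θ : Z → ℂ} {e : ℕ}

/-- arithmetic facts about `L = P Z`, `Q = L ⊓ K` -/
theorem relIndex_pow {p : ℕ} [Fact p.Prime] (P0 : Sylow p H) (Z : Subgroup H) [Z.Normal] :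
    ∃ k : ℕ, Z.relIndex ((P0 : Subgroup H) ⊔ Z) = p ^ k := by
  have h1 : Z.relIndex ((P0 : Subgroup H) ⊔ Z) = Z.relIndex (P0 : Subgroup H) := by
    apply relIndex_eq_of_prod le_sup_left
    intro n hn
    rw [sup_comm] at hn
    have h1 : n ∈ ((Z ⊔ P0 : Subgroup H) : Set H) := hn
    rw [Subgroup.normal_mul] at h1
    obtain ⟨z, hz, y, hy, h⟩ := h1
    refine ⟨y, hy, ?_⟩
    rw [← h]
    simpa using hz
  rw [h1]
  obtain ⟨n, hn⟩ := IsPGroup.iff_card.1 P0.isPGroup'
  have h2 : Z.relIndex (P0 : Subgroup H) ∣ Nat.card P0 := Subgroup.index_dvd_card _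
  rw [hn] at h2
  obtain ⟨k, _, hk⟩ := (Nat.dvd_prime_pow (Fact.out : p.Prime)).1 h2
  exact ⟨k, hk⟩

theorem compl (h : FR Z χ θ e) (hZK : Z ≤ K) {p : ℕ} [hp : Fact p.Prime] (P0 : Sylow p H)
    (h1 : ∀ (Ψ : ↥((P0 : Subgroup H) ⊔ Z) → ℂ) (t : ℕ) (η : ↥(K.subgroupOf ((P0 : Subgroup H) ⊔ Z)) → ℂ)
      (_ : FR (Z.subgroupOf ((P0 : Subgroup H) ⊔ Z)) Ψ (thT Z _ θ) t)
      (hle : Z.subgroupOf ((P0 : Subgroup H) ⊔ Z) ≤ K.subgroupOf ((P0 : Subgroup H) ⊔ Z)), IsIrrCharacter _ η →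
      classInner (resH hle η) (thT Z _ θ) ≠ 0 → classInner (fun k : ↥(K.subgroupOf ((P0 : Subgroup H) ⊔ Z)) => Ψ k) η = 1) :
    ∃ M : Subgroup (H ⧸ K), M.IsComplement' ((P0 : Subgroup H).map (QuotientGroup.mk' K)) := by
  classical
  set L := (P0 : Subgroup H) ⊔ Z with hL
  have hZL : Z ≤ L := le_sup_right
  have hPL : (P0 : Subgroup H) ≤ L := le_sup_left
  have hQn : (K.subgroupOf L).Normal := inferInstance
  obtain ⟨kk, hkk⟩ := relIndex_pow P0 Z
  have hco : (L.index).Coprime (Z.relIndex L) := by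
    rw [hL, hkk]
    apply Nat.Coprime.pow_right
    rw [Nat.coprime_comm, Nat.Prime.coprime_iff_not_dvd hp.out]
    intro hd
    exact P0.not_dvd_index (hd.trans (Subgroup.index_dvd_of_le hPL))
  obtain ⟨Ψ, t, hFR⟩ := h.sub hZL hco
  have hle : Z.subgroupOf L ≤ K.subgroupOf L := fun x hx => hZK hx
  obtain ⟨η, hη, hη1⟩ := exists_constituent_restrict (K.subgroupOf L) hFR.irr
  have hover := hFR.over_of_ne hle hη1
  have hone := h1 Ψ t η hFR hle hη hover
  obtain ⟨a, g, ha, hg, ha0, hg0, hc1, hc2, hc3⟩ := hFR.count hle hη hover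
  rw [hone] at ha
  have ha1 : a = 1 := by exact_mod_cast ha.symm
  rw [ha1, one_pow, one_mul] at hc1
  have hin : inertia (K.subgroupOf L) η ≤ K.subgroupOf L := by
    have h2 := le_inertia (K.subgroupOf L) (isClassFunction_of_isIrr hη)
    have h3 : (K.subgroupOf L).relIndex (inertia (K.subgroupOf L) η) = 1 := by
      have h4 := Subgroup.relIndex_mul_index h2
      rw [hc1] at h4
      have h5 : 0 < (K.subgroupOf L).index := Nat.pos_of_ne_zero Subgroup.index_ne_zero_of_finite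
      nlinarith
    exact Subgroup.relIndex_eq_one.1 h3
  -- the flat objects
  set Q := L ⊓ K with hQ
  set N := Subgroup.normalizer (Q : Set H) with hN
  let ex : H → ℂ := fun x => if hx : x ∈ Q then η ⟨⟨x, hx.1⟩, Subgroup.mem_subgroupOf.2 hx.2⟩ else 0
  have ex_mem : ∀ (x : H) (hx : x ∈ Q), ex x = η ⟨⟨x, hx.1⟩, Subgroup.mem_subgroupOf.2 hx.2⟩ := fun x hx => dif_pos hx
  have ex_not : ∀ (x : H), x ∉ Q → ex x = 0 := fun x hx => dif_neg hx
  have ex_coe : ∀ q : ↥(K.subgroupOf L), ex ((q : L) : H) = η q := by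
    intro q
    rw [ex_mem ((q : L) : H) ⟨(q : L).2, q.2⟩]
  have hLN : L ≤ N := by
    intro l hl
    rw [hN, Subgroup.mem_normalizer_iff]
    intro x
    constructor
    · rintro ⟨hx1, hx2⟩
      exact ⟨L.mul_mem (L.mul_mem hl hx1) (L.inv_mem hl), hKn.conj_mem x hx2 l⟩
    · rintro ⟨hx1, hx2⟩
      constructor
      · have := L.mul_mem (L.mul_mem (L.inv_mem hl) hx1) hl
        have h5 : l⁻¹ * (l * x * l⁻¹) * l = x := by group
        rwa [h5] at this
      · have := hKn.conj_mem _ hx2 l⁻¹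
        have h5 : l⁻¹ * (l * x * l⁻¹) * l⁻¹⁻¹ = x := by group
        rwa [h5] at this
  let S : Subgroup H :=
    { carrier := {n | n ∈ N ∧ ∀ x, ex (n * x * n⁻¹) = ex x}
      one_mem' := ⟨N.one_mem, fun x => by simp⟩
      mul_mem' := by
        rintro a b ⟨ha1, ha2⟩ ⟨hb1, hb2⟩
        refine ⟨N.mul_mem ha1 hb1, fun x => ?_⟩
        rw [← hb2 x, ← ha2 (b * x * b⁻¹)]
        congr 1
        group
      inv_mem' := by
        rintro a ⟨ha1, ha2⟩
        refine ⟨N.inv_mem ha1, fun x => ?_⟩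
        rw [← ha2 (a⁻¹ * x * a⁻¹⁻¹)]
        congr 1
        group }
  have hSN : S ≤ N := fun x hx => hx.1
  have hSmem : ∀ {n : H}, n ∈ S ↔ n ∈ N ∧ ∀ x, ex (n * x * n⁻¹) = ex x := fun {n} => Iff.rfl
  have hSL : S ⊓ L ≤ Q := by
    rintro l ⟨hlS, hlL⟩
    refine ⟨hlL, ?_⟩
    have h2 : (⟨l, hlL⟩ : L) ∈ inertia (K.subgroupOf L) η := by
      rw [mem_inertia]
      funext q
      have h3 := (hSmem.1 hlS).2 ((q : L) : H)
      rw [ex_coe] at h3
      rw [← h3]
      exact (ex_coe _).symm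
    exact hin h2
  have hQS : Q ≤ S := by
    intro q hq
    refine ⟨hLN hq.1, fun x => ?_⟩
    have hmem : (⟨q, hq.1⟩ : L) ∈ inertia (K.subgroupOf L) η :=
      le_inertia (K.subgroupOf L) (isClassFunction_of_isIrr hη) (Subgroup.mem_subgroupOf.2 hq.2)
    by_cases hx : x ∈ Q
    · have h2 := congrFun ((mem_inertia _).1 hmem) ⟨⟨x, hx.1⟩, Subgroup.mem_subgroupOf.2 hx.2⟩
      rw [ex_mem x hx, ← h2]
      exact ex_mem (q * x * q⁻¹) ((Subgroup.mem_normalizer_iff.1 (hLN hq.1) x).1 hx)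
    · rw [ex_not x hx, ex_not]
      intro h2
      exact hx ((Subgroup.mem_normalizer_iff.1 (hLN hq.1) x).2 h2)
  -- transitivity
  have htr : ∀ n ∈ N, ∃ l ∈ L, n * l⁻¹ ∈ S := by
    intro n hn
    have hconj : ∀ q : ↥(K.subgroupOf L), n * ((q : L) : H) * n⁻¹ ∈ Q := fun q =>
      (Subgroup.mem_normalizer_iff.1 hn _).1 ⟨(q : L).2, q.2⟩
    let f : ↥(K.subgroupOf L) →* ↥(K.subgroupOf L) :=
      { toFun := fun q => ⟨⟨n * ((q : L) : H) * n⁻¹, (hconj q).1⟩, Subgroup.mem_subgroupOf.2 (hconj q).2⟩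
        map_one' := by
          apply Subtype.ext; apply Subtype.ext; simp
        map_mul' := by
          intro x y
          apply Subtype.ext; apply Subtype.ext
          show n * (((x * y : ↥(K.subgroupOf L)) : L) : H) * n⁻¹ =
            (n * ((x : L) : H) * n⁻¹) * (n * ((y : L) : H) * n⁻¹)
          push_cast
          group }
    have hf : Function.Surjective f := by
      intro y
      have hy : n⁻¹ * ((y : L) : H) * n ∈ Q := by
        have := (Subgroup.mem_normalizer_iff.1 (N.inv_mem hn) ((y : L) : H)).1 ⟨(y : L).2, y.2⟩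
        simpa using this
      refine ⟨⟨⟨n⁻¹ * ((y : L) : H) * n, hy.1⟩, Subgroup.mem_subgroupOf.2 hy.2⟩, ?_⟩
      apply Subtype.ext; apply Subtype.ext
      show n * (n⁻¹ * ((y : L) : H) * n) * n⁻¹ = _
      group
    have hηf : IsIrrCharacter ↥(K.subgroupOf L) (fun q => η (f q)) := isIrrCharacter_comp f hf hη
    have hres := hFR.res_over hle hη hover
    have hresf : resH hle (fun q => η (f q)) = resH hle η := by
      funext z
      have h2 := congrFun (h.inv n) ⟨((z : L) : H), z.2⟩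
      have hz' : n * ((z : L) : H) * n⁻¹ ∈ Z := hZn.conj_mem _ z.2 n
      have h3 := congrFun hres ⟨⟨n * ((z : L) : H) * n⁻¹, hZL hz'⟩, Subgroup.mem_subgroupOf.2 hz'⟩
      have h4 := congrFun hres z
      rw [h4]
      have h5 : resH hle (fun q => η (f q)) z =
        resH hle η ⟨⟨n * ((z : L) : H) * n⁻¹, hZL hz'⟩, Subgroup.mem_subgroupOf.2 hz'⟩ := rfl
      rw [h5, h3, Pi.smul_apply, Pi.smul_apply]
      congr 1
    obtain ⟨l, hl⟩ := hFR.trans hle hη hηf hover (by rw [hresf]; exact hover)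
    refine ⟨l, l.2, N.mul_mem hn (N.inv_mem (hLN l.2)), fun x => ?_⟩
    by_cases hx : x ∈ Q
    · have hq : (l : H)⁻¹ * x * l ∈ Q := by
        have := (Subgroup.mem_normalizer_iff.1 (N.inv_mem (hLN l.2)) x).1 hx
        simpa using this
      have h2 := congrFun hl ⟨⟨(l : H)⁻¹ * x * l, hq.1⟩, Subgroup.mem_subgroupOf.2 hq.2⟩
      have h3 : ex (n * (l : H)⁻¹ * x * (n * (l : H)⁻¹)⁻¹) =
          η (f ⟨⟨(l : H)⁻¹ * x * l, hq.1⟩, Subgroup.mem_subgroupOf.2 hq.2⟩) := by
        rw [← ex_coe]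
        congr 1
        show _ = n * ((l : H)⁻¹ * x * l) * n⁻¹
        group
      rw [h3, h2, cj_apply, ← ex_coe]
      congr 1
      show (l : H) * ((l : H)⁻¹ * x * l) * (l : H)⁻¹ = x
      group
    · rw [ex_not x hx, ex_not]
      intro h2
      exact hx ((Subgroup.mem_normalizer_iff.1 (N.mul_mem hn (N.inv_mem (hLN l.2))) x).2 h2)
  -- index computations
  have hSNL : S.relIndex N = S.relIndex L := relIndex_eq_of_prod hLN htr
  have hSLQ : S.relIndex L = Q.relIndex L := by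
    have : S ⊓ L = Q := le_antisymm hSL (le_inf hQS inf_le_left)
    rw [← Subgroup.inf_relIndex_right, this]
  have hpow : S.relIndex N ∣ p ^ kk := by
    rw [hSNL, hSLQ, ← hkk]
    exact Subgroup.relIndex_dvd_of_le_left _ (le_inf hZL hZK)
  have hNK : N ⊓ K ≤ S := by
    have h2 : S.relIndex (N ⊓ K) ∣ S.relIndex N := by
      have h3 := H70.ClassSize.relIndex_normal_dvd (S.subgroupOf N) (K.subgroupOf N)
      rw [← Subgroup.inf_subgroupOf_left K N, Subgroup.relIndex_subgroupOf inf_le_left] at h3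
      exact h3
    have h3 : S.relIndex (N ⊓ K) ∣ (P0 : Subgroup H).relIndex K := by
      have h4 : S.relIndex (N ⊓ K) ∣ Q.relIndex (N ⊓ K) := Subgroup.relIndex_dvd_of_le_left _ hQS
      have h5 : Q.relIndex (N ⊓ K) ∣ Q.relIndex K := by
        have := Subgroup.relIndex_mul_relIndex Q (N ⊓ K) K (le_inf (inf_le_left.trans hLN) inf_le_right) inf_le_right
        exact ⟨_, this.symm⟩
      have h6 : Q.relIndex K ∣ (P0 : Subgroup H).relIndex K := by
        rw [← Subgroup.inf_relIndex_right (P0 : Subgroup H) K]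
        exact Subgroup.relIndex_dvd_of_le_left _ (inf_le_inf_right _ hPL)
      exact (h4.trans h5).trans h6
    have h4 : ¬ p ∣ (P0 : Subgroup H).relIndex K := H3.SylowInf.not_dvd_relIndex P0 K
    obtain ⟨j, hj, hj'⟩ := (Nat.dvd_prime_pow hp.out).1 (h2.trans hpow)
    have h5 : j = 0 := by
      by_contra hj0
      apply h4
      refine dvd_trans ?_ h3
      rw [hj']
      exact dvd_pow_self p hj0
    rw [h5, pow_zero] at hj'
    exact Subgroup.relIndex_eq_one.1 hj'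
  have hfr := frattini P0 hZK
  refine ⟨S.map (QuotientGroup.mk' K), ?_⟩
  apply Subgroup.isComplement'_of_disjoint_and_mul_eq_univ
  · rw [Subgroup.disjoint_def]
    rintro x ⟨s, hs, rfl⟩ ⟨y, hy, hxy⟩
    have h2 : s⁻¹ * y ∈ K := by
      rw [← QuotientGroup.eq]
      exact hxy.symm
    have h3 : s⁻¹ * y ∈ N ⊓ K := ⟨N.mul_mem (N.inv_mem (hSN hs)) (hLN (hPL hy)), h2⟩
    have h4 : y ∈ S := by
      have := S.mul_mem hs (hNK h3)
      simpa using this
    have h5 : y ∈ K := (hSL ⟨h4, hPL hy⟩).2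
    rw [← hxy]
    exact (QuotientGroup.eq_one_iff y).2 h5
  · rw [Set.eq_univ_iff_forall]
    intro x
    induction x using QuotientGroup.induction_on with
    | H x =>
      have hx : x ∈ N ⊔ K := by
        rw [hN, hQ, hL, hfr]; exact Subgroup.mem_top x
      obtain ⟨n, hn, k, hk, rfl⟩ := mem_sup_right hx
      obtain ⟨l, hl, hnl⟩ := htr n hn
      obtain ⟨y, hy, z, hz, rfl⟩ := mem_sup_right hl
      refine ⟨QuotientGroup.mk' K (n * (y * z)⁻¹), ⟨_, hnl, rfl⟩, QuotientGroup.mk' K y, ⟨y, hy, rfl⟩, ?_⟩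
      show QuotientGroup.mk' K (n * (y * z)⁻¹) * QuotientGroup.mk' K y = QuotientGroup.mk' K (n * k)
      have e1 : QuotientGroup.mk' K z = 1 := (QuotientGroup.eq_one_iff z).2 (hZK hz)
      have e2 : QuotientGroup.mk' K k = 1 := (QuotientGroup.eq_one_iff k).2 hk
      simp only [map_mul, map_inv, e1, e2, mul_one, inv_mul_cancel_right]

end main

end H78.FRam
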