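import Cfsg.Agent.Lib.H78.FRam2
import Cfsg.Agent.Lib.H19.Berger1

/-!
Fully ramified characters induced from intermediate normal subgroups.
-/

set_option autoImplicit false
set_option linter.unusedSectionVars false

namespace H78.FRam

open Cfsg Representation H18 H18.CharBasic H18.CharOrtho H18.CharInd H18.CharQuot H31.Clifford
open scoped ComplexConjugate

universe u

noncomputable local instance (priority := 5000) instFT'' {α : Type*} [Finite α] : Fintype α := Fintype.ofFinite α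

section deg

variable {G : Type u} [Group G] [Finite G] {Z : Subgroup G} [hZn : Z.Normal] {χ : G → ℂ} {θ : Z → ℂ} {e : ℕ}

/-- A character of `K` whose restriction is `f θ` has `f` divisible by the common multiplicity. -/
theorem FR.dvd (h : FR Z χ θ e) {K : Subgroup G} [K.Normal] (hZK : Z ≤ K) {η : K → ℂ}
    (hη : IsIrrCharacter K η) {g : ℕ} (hg : classInner (resH hZK η) θ = g) (hg0 : 0 < g)
    {φ : K → ℂ} (hφ : IsCharacter K φ) {f : ℕ} (hf : resH hZK φ = (f : ℂ) • θ) : g ∣ f := by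
  classical
  have hover : classInner (resH hZK η) θ ≠ 0 := by rw [hg]; exact_mod_cast hg0.ne'
  have hθ0 := irr_one_ne_zero h.irrθ
  have hd : η 1 = g * θ 1 := by
    have := congrFun (h.res_over hZK hη hover) 1
    rw [hg] at this
    exact this
  have hfin : Finite (IrrCharacter K) := by
    have := finite_irr_set (G := K)
    exact this
  have key : ∀ ψ : IrrCharacter K, ∃ n : ℕ, classInner φ (ψ : K → ℂ) * (ψ : K → ℂ) 1 = (n * g : ℕ) * θ 1 := by
    intro ψ
    obtain ⟨n, hn⟩ := inner_char_natCast hφ (isCharacter_of_isIrr ψ.2)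
    rcases Nat.eq_zero_or_pos n with h0 | h0
    · exact ⟨0, by rw [hn, h0]; simp⟩
    · have hne : classInner φ (ψ : K → ℂ) ≠ 0 := by rw [hn]; exact_mod_cast h0.ne'
      have hrne : resH hZK (ψ : K → ℂ) ≠ 0 := by
        intro h1
        exact irr_one_ne_zero ψ.2 (congrFun h1 1)
      obtain ⟨τ, hτ, hτ1⟩ := exists_constituent (isChar_resH hZK (isCharacter_of_isIrr ψ.2)) hrne
      have h2 := over_trans' hZK le_rfl hφ ψ.2 (isCharacter_of_isIrr hτ) hne hτ1
      have h3 : resH (hZK.trans (le_refl K)) φ = (f : ℂ) • θ := hf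
      rw [h3, CharOrtho.inner_smul_left] at h2
      have h4 : τ = θ := by
        by_contra hne'
        exact h2 (by rw [inner_irr_ne h.irrθ hτ (Ne.symm hne'), mul_zero])
      rw [h4] at hτ1
      obtain ⟨x, hx⟩ := h.trans hZK hη ψ.2 hover hτ1
      refine ⟨n, ?_⟩
      rw [hn, hx, cj_at_one, hd]
      push_cast; ring
  choose n hn using key
  have hexp := congrFun (mem_classFun_expand (isClassFunction_of_isCharacter hφ)) 1
  have h1 : φ 1 = f * θ 1 := congrFun hf 1
  rw [h1] at hexp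
  simp only [Finset.sum_apply, Pi.smul_apply, smul_eq_mul] at hexp
  rw [Finset.sum_congr rfl (fun ψ _ => hn ψ), ← Finset.sum_mul] at hexp
  have h2 := mul_right_cancel₀ hθ0 hexp
  have h3 : f = ∑ ψ : IrrCharacter K, n ψ * g := by exact_mod_cast h2
  rw [h3, ← Finset.sum_mul]
  exact dvd_mul_left _ _

end deg

section main

variable {H : Type u} [Group H] [Finite H] {Z K : Subgroup H} [hZn : Z.Normal] [hKn : K.Normal]
  {χ : H → ℂ} {θ : Z → ℂ} {e : ℕ}

theorem mult_one_of_induced (h : FR Z χ θ e) (hZK : Z ≤ K) {φ : K → ℂ} (hφ : IsCharacter K φ)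
    (hind : indFun K φ = χ) {p : ℕ} [hp : Fact p.Prime] (P0 : Sylow p H)
    (L : Subgroup H) (hL : L = (P0 : Subgroup H) ⊔ Z)
    (Ψ : ↥L → ℂ) (t : ℕ) (η : ↥(K.subgroupOf L) → ℂ)
    (hFR : FR (Z.subgroupOf L) Ψ (thT Z L θ) t)
    (hle : Z.subgroupOf L ≤ K.subgroupOf L)
    (hη : IsIrrCharacter _ η) (hover : classInner (resH hle η) (thT Z L θ) ≠ 0) :
    classInner (fun k : ↥(K.subgroupOf L) => Ψ k) η = 1 := by
  classical
  have hφi : IsIrrCharacter K φ := H19.Berger.irr_of_ind K hφ (by rw [hind]; exact h.irr)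
  have h1 : classInner (fun k : K => χ k) φ = 1 := by
    have h2 := frobenius K φ (isClassFunction_of_isIrr h.irr)
    rw [hind, inner_irr_self h.irr] at h2
    rw [← CharOrtho.inner_conj_symm, ← h2, map_one]
  have hoverφ := h.over_of_ne hZK (η := φ) (by rw [h1]; exact one_ne_zero)
  obtain ⟨a₁, f, ha₁, hf, _, hf0, hc1, hc2, hc3⟩ := h.count hZK hφi hoverφ
  rw [h1] at ha₁
  have ha1 : a₁ = 1 := by exact_mod_cast ha₁.symm
  rw [ha1, one_pow, one_mul] at hc1
  rw [hc1] at hc3
  obtain ⟨a, g, ha, hg, ha0, hg0, hd1, hd2, hd3⟩ := hFR.count hle hη hover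
  -- divisibility
  have hdvd : g ∣ f := by
    let ι : ↥(K.subgroupOf L) →* K :=
      { toFun := fun q => ⟨((q : L) : H), q.2⟩
        map_one' := rfl
        map_mul' := fun _ _ => rfl }
    have hφ' : IsCharacter _ (fun q => φ (ι q)) := isCharacter_comp ι hφ
    refine hFR.dvd hle hη hg hg0 hφ' (f := f) ?_
    funext z
    have h3 := congrFun (h.res_over hZK hφi hoverφ) ⟨((z : L) : H), z.2⟩
    rw [hf] at h3
    exact h3
  have hZL : Z ≤ L := by rw [hL]; exact le_sup_right
  have hPL : (P0 : Subgroup H) ≤ L := by rw [hL]; exact le_sup_left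
  obtain ⟨kk, hkk⟩ := relIndex_pow P0 Z
  rw [← hL] at hkk
  have e1 : (Z.subgroupOf L).relIndex (K.subgroupOf L) = Z.relIndex (L ⊓ K) := by
    rw [← Subgroup.inf_subgroupOf_left K L, Subgroup.relIndex_subgroupOf inf_le_left]
  have e2 : (K.subgroupOf L).index = (L ⊓ K).relIndex L := by
    rw [← Subgroup.inf_subgroupOf_left K L]; rfl
  have e3 : Z.relIndex (L ⊓ K) * (L ⊓ K).relIndex K = Z.relIndex K :=
    Subgroup.relIndex_mul_relIndex _ _ _ (le_inf hZL hZK) inf_le_right
  have e4 : (L ⊓ K).relIndex L * L.index = (L ⊓ K).relIndex K * K.index := by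
    rw [Subgroup.relIndex_mul_index inf_le_left, Subgroup.relIndex_mul_index inf_le_right]
  have e5 : ¬ p ∣ (L ⊓ K).relIndex K := by
    intro hd
    apply H3.SylowInf.not_dvd_relIndex P0 K
    rw [← Subgroup.inf_relIndex_right (P0 : Subgroup H) K]
    exact hd.trans (Subgroup.relIndex_dvd_of_le_left _ (inf_le_inf_right _ hPL))
  have e6 : (L ⊓ K).relIndex L ∣ p ^ kk := by
    rw [← hkk]
    exact Subgroup.relIndex_dvd_of_le_left _ (le_inf hZL hZK)
  obtain ⟨n, hn⟩ := hdvd
  have hi0 : 0 < (inertia (K.subgroupOf L) η).index := Nat.pos_of_ne_zero Subgroup.index_ne_zero_of_finite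
  set I := (inertia (K.subgroupOf L) η).index with hI
  set D := (L ⊓ K).relIndex K with hD
  rw [e2] at hd1
  rw [e1] at hd3
  have key : a ^ 2 * n ^ 2 * L.index = D ^ 2 := by
    have h5 : (I * g ^ 2) * (a ^ 2 * n ^ 2 * L.index) = (I * g ^ 2) * D ^ 2 := by
      calc (I * g ^ 2) * (a ^ 2 * n ^ 2 * L.index) = ((a ^ 2 * I) * L.index) * (g * n) ^ 2 := by ring
        _ = (D * K.index) * f ^ 2 := by rw [hd1, e4, hn]
        _ = D * (K.index * f ^ 2) := by ring
        _ = D * (I * g ^ 2 * D) := by rw [hc3, ← e3, hd3]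
        _ = _ := by ring
    exact Nat.eq_of_mul_eq_mul_left (by positivity) h5
  have hpa : ¬ p ∣ a := by
    intro hpa
    apply e5
    apply hp.out.dvd_of_dvd_pow (n := 2)
    rw [← key, mul_assoc]
    exact Dvd.dvd.mul_right (dvd_pow hpa (by norm_num)) _
  have hadvd : a ∣ p ^ kk := by
    refine dvd_trans ?_ e6
    rw [← hd1]
    exact Dvd.dvd.mul_right (dvd_pow_self a (by norm_num)) _
  obtain ⟨j, _, hj⟩ := (Nat.dvd_prime_pow hp.out).1 hadvd
  have hj0 : j = 0 := by
    by_contra hj0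
    exact hpa (by rw [hj]; exact dvd_pow_self p hj0)
  rw [hj0, pow_zero] at hj
  rw [ha, hj, Nat.cast_one]

theorem solvable_quot (h : FR Z χ θ e) (hZK : Z ≤ K) {φ : K → ℂ} (hφ : IsCharacter K φ)
    (hind : indFun K φ = χ) {p : ℕ} [hp : Fact p.Prime] :
    ∃ M : Subgroup (H ⧸ K), M.index = p ^ (Nat.card (H ⧸ K)).factorization p := by
  obtain ⟨P0⟩ : Nonempty (Sylow p H) := inferInstance
  obtain ⟨M, hM⟩ := compl h hZK P0 (fun Ψ t η hFR hle hη hover =>
    mult_one_of_induced h hZK hφ hind P0 _ rfl Ψ t η hFR hle hη hover)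
  refine ⟨M, ?_⟩
  rw [hM.symm.index_eq_card]
  have h1 := (P0.mapSurjective (QuotientGroup.mk'_surjective K)).card_eq_multiplicity
  exact h1

end main

end H78.FRam
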