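import Cfsg.Agent.Lib.H78.FRam
import Cfsg.Agent.Lib.H83.Gallagher
import Cfsg.Agent.Lib.H18.AvgInt

/-!
Fully ramified characters: no self-centralizing cyclic subgroup in the quotient.
-/

set_option autoImplicit false
set_option linter.unusedSectionVars false

namespace H78.FRam

open Cfsg Representation H18 H18.CharBasic H18.CharOrtho H18.CharInd H18.CharQuot H31.Clifford
open scoped ComplexConjugate

universe u

noncomputable local instance (priority := 5000) instFT4 {α : Type*} [Finite α] : Fintype α := Fintype.ofFinite α

/-- characters with a common constituent have restrictions with a common constituent -/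
theorem inner_res_ne {A : Type u} [Group A] [Finite A] (N : Subgroup A) {α β : A → ℂ} (hα : IsCharacter A α)
    (hβ : IsCharacter A β) (h : classInner α β ≠ 0) :
    classInner (fun n : N => α n) (fun n : N => β n) ≠ 0 := by
  classical
  have hβ0 : β ≠ 0 := by
    rintro rfl
    exact h (by simp)
  -- a common constituent
  have hfin : Finite (IrrCharacter A) := finite_irr_set (G := A)
  have hexp := mem_classFun_expand (isClassFunction_of_isCharacter hβ)
  have h1 : ∃ δ : IrrCharacter A, classInner β (δ : A → ℂ) ≠ 0 ∧ classInner α (δ : A → ℂ) ≠ 0 := by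
    by_contra hcon
    push Not at hcon
    apply h
    rw [hexp, inner_sum_right]
    apply Finset.sum_eq_zero
    intro δ _
    rw [CharOrtho.inner_smul_right]
    by_cases h2 : classInner β (δ : A → ℂ) = 0
    · rw [h2, map_zero, zero_mul]
    · rw [hcon δ h2, mul_zero]
  obtain ⟨δ, hδβ, hδα⟩ := h1
  have hα' := isCharacter_sub_constituent hα δ.2 hδα
  have hβ' := isCharacter_sub_constituent hβ δ.2 hδβ
  have hδc := isCharacter_of_isIrr δ.2
  obtain ⟨a, ha⟩ := inner_char_natCast (isCharacter_restrict N hα') (isCharacter_restrict N hβ')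
  obtain ⟨b, hb⟩ := inner_char_natCast (isCharacter_restrict N hα') (isCharacter_restrict N hδc)
  obtain ⟨c, hc⟩ := inner_char_natCast (isCharacter_restrict N hδc) (isCharacter_restrict N hβ')
  obtain ⟨d, hd⟩ := inner_char_natCast (isCharacter_restrict N hδc) (isCharacter_restrict N hδc)
  have hd0 : d ≠ 0 := by
    rintro rfl
    rw [Nat.cast_zero, CharOrtho.inner_self_eq_zero] at hd
    exact irr_one_ne_zero δ.2 (congrFun hd 1)
  have e1 : (fun n : N => α n) = (fun n : N => (α - (δ : A → ℂ)) n) + (fun n : N => (δ : A → ℂ) n) := by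
    funext n; simp
  have e2 : (fun n : N => β n) = (fun n : N => (β - (δ : A → ℂ)) n) + (fun n : N => (δ : A → ℂ) n) := by
    funext n; simp
  rw [e1, e2, CharOrtho.inner_add_left, CharOrtho.inner_add_right, CharOrtho.inner_add_right, ha, hb, hc, hd]
  intro h0
  have : ((a + b + (c + d) : ℕ) : ℂ) = 0 := by push_cast; exact h0
  have h4 : a + b + (c + d) = 0 := by exact_mod_cast this
  omega

section main

variable {G : Type u} [Group G] [Finite G] {Z : Subgroup G} [hZn : Z.Normal] {χ : G → ℂ} {θ : Z → ℂ} {e : ℕ}

theorem no_self_cent (h : FR Z χ θ e) (hZ : Z ≠ ⊤) (C : Subgroup (G ⧸ Z)) (hC : IsCyclic C) :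
    Subgroup.centralizer (C : Set (G ⧸ Z)) ≠ C := by
  classical
  intro hcent
  set A := C.comap (QuotientGroup.mk' Z) with hA
  have hZA : Z ≤ A := by
    intro z hz
    rw [hA, Subgroup.mem_comap]
    have : QuotientGroup.mk' Z z = 1 := (QuotientGroup.eq_one_iff z).2 hz
    rw [this]; exact C.one_mem
  obtain ⟨⟨c, hcC⟩, hc⟩ := hC.exists_generator
  have hgen : ∀ y ∈ C, y ∈ Subgroup.zpowers c := by
    intro y hy
    obtain ⟨k, hk⟩ := hc ⟨y, hy⟩
    exact ⟨k, congrArg Subtype.val hk⟩
  have hc1 : c ≠ 1 := by
    rintro rfl
    apply hZ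
    have hCb : C = ⊥ := by
      rw [eq_bot_iff]
      intro y hy
      obtain ⟨k, hk⟩ := hgen y hy
      rw [Subgroup.mem_bot, ← hk]
      exact one_zpow k
    rw [hCb] at hcent
    rw [eq_top_iff]
    intro x _
    have : (QuotientGroup.mk x : G ⧸ Z) ∈ Subgroup.centralizer ((⊥ : Subgroup (G ⧸ Z)) : Set (G ⧸ Z)) := by
      rw [Subgroup.mem_centralizer_iff]
      intro y hy
      have hy' : y = 1 := Subgroup.mem_bot.1 hy
      rw [hy', one_mul, mul_one]
    rw [hcent, Subgroup.mem_bot] at this
    exact (QuotientGroup.eq_one_iff x).1 this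
  have hcomm : ∀ a ∈ C, ∀ b ∈ C, a * b = b * a := by
    intro a ha b hb
    obtain ⟨i, hi⟩ := hgen a ha
    obtain ⟨j, hj⟩ := hgen b hb
    rw [← hi, ← hj]
    show c ^ i * c ^ j = c ^ j * c ^ i
    rw [← zpow_add, ← zpow_add, add_comm]
  -- the extension
  have hθ' : IsIrrCharacter (Z.subgroupOf A) (thT Z A θ) := irr_thT Z A hZA h.irrθ
  obtain ⟨d, ρ, hρ, hρc⟩ := hθ'
  have hcA : IsCyclic (A ⧸ Z.subgroupOf A) := by
    let f : A ⧸ Z.subgroupOf A →* G ⧸ Z := QuotientGroup.map _ _ A.subtype (fun x hx => hx)
    have hf : Function.Injective f := by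
      rw [injective_iff_map_eq_one]
      intro x
      induction x using QuotientGroup.induction_on with
      | H x =>
        intro hx
        have : (QuotientGroup.mk (x : G) : G ⧸ Z) = 1 := hx
        rw [QuotientGroup.eq_one_iff] at this
        exact (QuotientGroup.eq_one_iff x).2 this
    have hr : ∀ x, f x ∈ C := by
      intro x
      induction x using QuotientGroup.induction_on with
      | H x => exact x.2
    have hf' : Function.Injective (f.codRestrict C hr) := by
      intro a b hab
      exact hf (congrArg Subtype.val hab)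
    exact isCyclic_of_injective _ hf'
  have hinv : ∀ (g : A) (n : Z.subgroupOf A), ρ.character (MulAut.conjNormal g n) = ρ.character n := by
    intro g n
    rw [hρc]
    exact congrFun (congrArg (thT Z A) (h.inv (g : G))) n
  obtain ⟨σ, hσ⟩ := H19.ProjExt3.extend_of_cyclic ρ hρ hcA hinv
  obtain ⟨θh, hθh, hres⟩ := H19.ProjExt3.char_of_extension ρ hρ hρc σ hσ
  have hres' : (fun n : Z.subgroupOf A => θh n) = thT Z A θ := by funext n; exact hres n
  have hθhZ : IsIrrCharacter (Z.subgroupOf A) (fun n : Z.subgroupOf A => θh n) := by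
    rw [hres']; exact irr_thT Z A hZA h.irrθ
  -- the class function `F`
  let one : A → ℂ := fun a => if (QuotientGroup.mk (a : G) : G ⧸ Z) = c then 1 else 0
  let F : A → ℂ := fun a => one a * θh a
  have hmkA : ∀ a : A, (QuotientGroup.mk (a : G) : G ⧸ Z) ∈ C := fun a => a.2
  have hone : IsClassFunction A one := by
    intro g x
    have : (QuotientGroup.mk ((x * g * x⁻¹ : A) : G) : G ⧸ Z) = QuotientGroup.mk (g : G) := by
      show (QuotientGroup.mk (x : G) : G ⧸ Z) * QuotientGroup.mk (g : G) * (QuotientGroup.mk (x : G) : G ⧸ Z)⁻¹ = _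
      rw [hcomm _ (hmkA x) _ (hmkA g), mul_inv_cancel_right]
    show (if _ then _ else _) = (if _ then _ else _)
    rw [this]
  have hF : IsClassFunction A F := isClassFunction_mul hone (isClassFunction_of_isIrr hθh)
  -- the induced function vanishes
  have hind0 : indFun A F = 0 := by
    apply classFun_ext (isClassFunction_indFun A F) isClassFunction_zero
    intro ψ hψ
    rw [CharOrtho.inner_zero_left, frobenius A F (isClassFunction_of_isIrr hψ)]
    by_cases hover : classInner (fun z : Z => ψ z) θ = 0
    · -- not over `θ`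
      have hψA := isCharacter_restrict A (isCharacter_of_isIrr hψ)
      set D : A → ℂ := fun a => ψ a * conj (θh a) with hD
      have hDc : IsCharacter A D := isCharacter_mul hψA (isCharacter_conj (isCharacter_of_isIrr hθh))
      have e1 : classInner F (fun a : A => ψ a) = classInner one D := by
        unfold classInner
        congr 1
        apply Finset.sum_congr rfl
        intro a _
        show one a * θh a * conj (ψ a) = one a * conj (ψ a * conj (θh a))
        rw [map_mul, Complex.conj_conj]; ring
      rw [e1]
      have hfin : Finite (IrrCharacter A) := finite_irr_set (G := A)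
      have hexp := mem_classFun_expand (isClassFunction_of_isCharacter hDc)
      rw [hexp, inner_sum_right]
      apply Finset.sum_eq_zero
      intro γ _
      rw [CharOrtho.inner_smul_right]
      by_cases h2 : classInner D (γ : A → ℂ) = 0
      · rw [h2, map_zero, zero_mul]
      · by_cases h3 : ∀ n ∈ Z.subgroupOf A, (γ : A → ℂ) n = (γ : A → ℂ) 1
        · exfalso
          have e2 : classInner D (γ : A → ℂ) = classInner (fun a : A => ψ a) (fun a => (γ : A → ℂ) a * θh a) := by
            unfold classInner
            congr 1
            apply Finset.sum_congr rfl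
            intro a _
            show ψ a * conj (θh a) * conj ((γ : A → ℂ) a) = ψ a * conj ((γ : A → ℂ) a * θh a)
            rw [map_mul]; ring
          rw [e2] at h2
          have h4 := inner_res_ne (Z.subgroupOf A) hψA
            (isCharacter_mul (isCharacter_of_isIrr γ.2) (isCharacter_of_isIrr hθh)) h2
          have e3 : (fun n : Z.subgroupOf A => ((fun a => (γ : A → ℂ) a) * θh) (n : A)) =
              (γ : A → ℂ) 1 • thT Z A θ := by
            funext n
            show (γ : A → ℂ) n * θh n = (γ : A → ℂ) 1 * thT Z A θ n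
            rw [h3 n n.2, ← hres']
          rw [e3, CharOrtho.inner_smul_right] at h4
          have e4 := inner_thT Z A hZA (fun a : A => ψ a) θ
          rw [e4] at h4
          apply h4
          have : resH hZA (fun a : A => ψ a) = fun z : Z => ψ z := rfl
          rw [this, hover, mul_zero]
        · have h5 : classInner one (γ : A → ℂ) = 0 := by
            refine H18.AvgInt.inner_zero_of_coset (Z.subgroupOf A) ?_ γ.2 h3
            intro n hn g
            have : (QuotientGroup.mk ((n * g : A) : G) : G ⧸ Z) = QuotientGroup.mk (g : G) := by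
              show (QuotientGroup.mk (n : G) : G ⧸ Z) * QuotientGroup.mk (g : G) = _
              have h6 : (QuotientGroup.mk (n : G) : G ⧸ Z) = 1 := (QuotientGroup.eq_one_iff (n : G)).2 hn
              rw [h6, one_mul]
            show (if _ then _ else _) = (if _ then _ else _)
            rw [this]
          rw [h5, mul_zero]
    · -- `ψ = χ`
      rw [h.unique hψ hover]
      unfold classInner
      rw [Finset.sum_eq_zero, mul_zero]
      intro a _
      by_cases ha : (QuotientGroup.mk (a : G) : G ⧸ Z) = c
      · have : (a : G) ∉ Z := by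
          intro haZ
          apply hc1
          rw [← ha]
          exact (QuotientGroup.eq_one_iff (a : G)).2 haZ
        show F a * conj (χ (a : G)) = 0
        rw [h.van this, map_zero, mul_zero]
      · have : F a = 0 := by
          show one a * θh a = 0
          have : one a = 0 := if_neg ha
          rw [this, zero_mul]
        rw [this, zero_mul]
  -- but it is nonzero somewhere on the coset
  obtain ⟨x, hx⟩ := QuotientGroup.mk_surjective c
  have hxA : x ∈ A := by
    show QuotientGroup.mk x ∈ C
    rw [hx]; exact hcC
  obtain ⟨n, hn, hne⟩ := H83.Gallagher.exists_ne_zero hθh (Z.subgroupOf A) hθhZ ⟨x, hxA⟩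
  set y : A := ⟨x, hxA⟩ * n with hy
  have hyc : (QuotientGroup.mk (y : G) : G ⧸ Z) = c := by
    show (QuotientGroup.mk x : G ⧸ Z) * QuotientGroup.mk (n : G) = c
    have h6 : (QuotientGroup.mk (n : G) : G ⧸ Z) = 1 := (QuotientGroup.eq_one_iff (n : G)).2 hn
    rw [h6, mul_one, hx]
  have h7 := congrFun hind0 (y : G)
  rw [indFun_apply] at h7
  have hA0 : (Nat.card A : ℂ) ≠ 0 := by exact_mod_cast Nat.card_pos.ne'
  have h8 : ∑ g : G, extendByZero A F (g⁻¹ * (y : G) * g) = (Nat.card A : ℂ) * F y := by
    rw [sum_of_support A]
    · have h9 : ∀ a : A, extendByZero A F ((a : G)⁻¹ * (y : G) * (a : G)) = F y := by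
        intro a
        have e1 : (a : G)⁻¹ * (y : G) * (a : G) = ((a⁻¹ * y * a : A) : G) := rfl
        rw [e1, ext_coe]
        have := hF y a⁻¹
        rwa [inv_inv] at this
      rw [Finset.sum_congr rfl (fun a _ => h9 a), Finset.sum_const, Finset.card_univ,
        ← Nat.card_eq_fintype_card, nsmul_eq_mul]
    · intro g hg
      by_cases hmem : g⁻¹ * (y : G) * g ∈ A
      · rw [ext_mem A F hmem]
        show (if _ then _ else _) * _ = _
        rw [if_neg, zero_mul]
        intro h10
        apply hg
        show QuotientGroup.mk g ∈ C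
        rw [← hcent, Subgroup.mem_centralizer_iff]
        have h11 : (QuotientGroup.mk g : G ⧸ Z)⁻¹ * c * QuotientGroup.mk g = c := by
          rw [← hyc] at h10 ⊢
          exact h10
        have h12 : Commute c (QuotientGroup.mk g : G ⧸ Z) := by
          show c * _ = _ * c
          calc c * (QuotientGroup.mk g : G ⧸ Z) = QuotientGroup.mk g * ((QuotientGroup.mk g : G ⧸ Z)⁻¹ * c * QuotientGroup.mk g) := by group
            _ = _ := by rw [h11]
        intro w hw
        obtain ⟨k, hk⟩ := hgen w hw
        rw [← hk]
        exact (h12.zpow_left k).eq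
      · exact ext_notMem A F hmem
  rw [h8, inv_mul_cancel_left₀ hA0] at h7
  apply hne
  have h13 : F y = θh y := by
    show (if _ then _ else _) * _ = _
    rw [if_pos hyc, one_mul]
  rw [← h13]
  exact h7

end main

end H78.FRam
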