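import Mathlib

/-! Weighted fixed point congruence for a self-map of `p`-power order. -/

set_option autoImplicit false

namespace H78.FixCong

theorem card_fixed {X : Type*} [Fintype X] [DecidableEq X] (p : ℕ) [Fact p.Prime] (F : X → X)
    (e : ℕ) (hF : ∀ x, F^[p ^ e] x = x) :
    Fintype.card X ≡ (Finset.univ.filter (fun x => F x = x)).card [MOD p] := by
  classical
  let F' : Function.End X := F
  have h1 : F' ^ p ^ e = 1 := by
    have h2 : ∀ (m : ℕ) (x : X), (F' ^ m) x = F^[m] x := by
      intro m
      induction m with
      | zero => intro x; rfl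
      | succ m ih =>
        intro x
        rw [pow_succ, Function.iterate_succ_apply]
        exact ih (F x)
    funext x
    rw [h2, hF]
    rfl
  have h3 := Equiv.Perm.card_fixedPoints_modEq h1
  have h4 : Fintype.card (Function.fixedPoints F) =
      (Finset.univ.filter (fun x => F x = x)).card := by
    rw [Fintype.card_subtype]
    rfl
  rwa [← h4]

theorem sum_fixed {X : Type*} [Fintype X] [DecidableEq X] (p : ℕ) [Fact p.Prime] (F : X → X)
    (e : ℕ) (hF : ∀ x, F^[p ^ e] x = x) (w : X → ℕ) (hw : ∀ x, w (F x) = w x) :
    ∑ x, w x ≡ ∑ x with F x = x, w x [MOD p] := by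
  classical
  set B := ∑ x, w x with hB
  have hle : ∀ x, w x ≤ B := fun x => Finset.single_le_sum (fun _ _ => Nat.zero_le _) (Finset.mem_univ x)
  have h1 : ∀ x, w x = ∑ i ∈ Finset.range B, if i < w x then 1 else 0 := by
    intro x
    rw [← Finset.card_filter]
    have : (Finset.range B).filter (fun i => i < w x) = Finset.range (w x) := by
      ext i
      simp only [Finset.mem_filter, Finset.mem_range]
      have := hle x
      constructor
      · exact fun h => h.2
      · exact fun h => ⟨lt_of_lt_of_le h this, h⟩
    rw [this, Finset.card_range]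
  have h2 : B = ∑ i ∈ Finset.range B, (Finset.univ.filter (fun x => i < w x)).card := by
    conv_lhs => rw [hB]
    rw [Finset.sum_congr rfl (fun x _ => h1 x), Finset.sum_comm]
    refine Finset.sum_congr rfl fun i _ => ?_
    rw [Finset.card_filter]
  have h3 : ∑ x with F x = x, w x = ∑ i ∈ Finset.range B,
      (Finset.univ.filter (fun x => F x = x ∧ i < w x)).card := by
    rw [Finset.sum_congr rfl (fun x _ => h1 x), Finset.sum_comm]
    refine Finset.sum_congr rfl fun i _ => ?_
    rw [← Finset.card_filter, Finset.filter_filter]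
  rw [h2, h3]
  refine Nat.ModEq.sum fun i _ => ?_
  let Fi : {x // i < w x} → {x // i < w x} := fun x => ⟨F x.1, by rw [hw]; exact x.2⟩
  have h4 : ∀ (m : ℕ) (x : {x // i < w x}), (Fi^[m] x).1 = F^[m] x.1 := by
    intro m
    induction m with
    | zero => intro x; rfl
    | succ m ih =>
      intro x
      rw [Function.iterate_succ_apply, ih, Function.iterate_succ_apply]
  have h5 := card_fixed p Fi e (fun x => Subtype.ext (by rw [h4, hF]))
  rw [Fintype.card_subtype] at h5
  have h6 : (Finset.univ.filter (fun x : {x // i < w x} => Fi x = x)).card =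
      (Finset.univ.filter (fun x => F x = x ∧ i < w x)).card := by
    apply Finset.card_bij (fun x _ => x.1)
    · intro x hx
      rw [Finset.mem_filter] at hx ⊢
      exact ⟨Finset.mem_univ _, congrArg Subtype.val hx.2, x.2⟩
    · intro x _ y _ h
      exact Subtype.ext h
    · intro x hx
      rw [Finset.mem_filter] at hx
      exact ⟨⟨x, hx.2.2⟩, by rw [Finset.mem_filter]; exact ⟨Finset.mem_univ _, Subtype.ext hx.2.1⟩, rfl⟩
  rwa [h6] at h5

end H78.FixCong
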