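import Mathlib
import Cfsg.Prelude.Def_Blocks
import Cfsg.Agent.Lib.H78.GalStab
import Cfsg.Agent.Lib.H83.Gallagher
import Cfsg.Agent.Lib.H4.FixedCount
import Cfsg.Agent.Lib.H4.CenterIndex
import Cfsg.Agent.S0886
import Cfsg.Agent.S0888

/-! The unique Galois stable character over a stable character of a normal subgroup of odd index. -/

set_option autoImplicit false
open Cfsg

namespace H78.GalStab

open H18.CharBasic H18.CharOrtho H18.CharQuot H31.Clifford

universe u

section odd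

variable {G : Type u} [Group G] [Finite G] {k : ℕ}

/-- If `G/N` has odd order and `g^k = g⁻¹` on elements of odd order, then `g^k g ∈ N`. -/
theorem pow_mul_mem (N : Subgroup G) [N.Normal] (hidx : Odd N.index)
    (hk₂ : ∀ g : G, Odd (orderOf g) → g ^ k = g⁻¹) (g : G) : g ^ k * g ∈ N := by
  -- write `|g| = 2^a m`
  set a := (Nat.card G).factorization 2 with ha
  set m := Nat.card G / 2 ^ a with hm
  have hm2 : ¬ 2 ∣ m := Nat.not_dvd_ordCompl Nat.prime_two (Nat.card_pos (α := G)).ne'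
  have hcop : Nat.Coprime m (2 ^ a) :=
    Nat.Coprime.pow_right a ((Nat.Prime.coprime_iff_not_dvd Nat.prime_two).2 hm2).symm
  obtain ⟨s, hs1, hs2⟩ := Nat.chineseRemainder hcop 1 0
  have h0 : 2 ^ a ∣ s := (Nat.modEq_zero_iff_dvd).1 hs2
  have hidxm : N.index ∣ m := by
    have h1 : N.index ∣ 2 ^ a * m := by
      rw [hm, ha, Nat.mul_div_cancel' (Nat.ordProj_dvd _ _)]
      exact Subgroup.index_dvd_card N
    have h2 : Nat.Coprime N.index (2 ^ a) := by
      apply Nat.Coprime.pow_right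
      exact hidx.coprime_two_right
    exact h2.dvd_of_dvd_mul_left h1
  -- `g' = g^s` has odd order and is congruent to `g`
  have hodd : Odd (orderOf (g ^ s)) := by
    obtain ⟨t, ht⟩ := h0
    have h1 : (g ^ s) ^ m = 1 := by
      rw [ht, ← pow_mul, mul_right_comm, hm, ha, Nat.mul_div_cancel' (Nat.ordProj_dvd _ _), pow_mul,
        pow_card_eq_one', one_pow]
    have h2 := orderOf_dvd_of_pow_eq_one h1
    rw [← Nat.not_even_iff_odd, even_iff_two_dvd]
    exact fun h => hm2 (h.trans h2)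
  have hgs : (QuotientGroup.mk (g ^ s) : G ⧸ N) = QuotientGroup.mk g := by
    rw [QuotientGroup.mk_pow]
    have h3 : s ≡ 1 [MOD orderOf (QuotientGroup.mk g : G ⧸ N)] := by
      apply hs1.of_dvd
      refine dvd_trans ?_ hidxm
      rw [Subgroup.index]
      exact orderOf_dvd_natCard _
    have := pow_eq_pow_iff_modEq.2 h3
    rwa [pow_one] at this
  have h4 := hk₂ _ hodd
  have h5 : (QuotientGroup.mk (g ^ k * g) : G ⧸ N) = 1 := by
    rw [QuotientGroup.mk_mul, QuotientGroup.mk_pow, ← hgs, ← QuotientGroup.mk_pow, h4,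
      ← QuotientGroup.mk_mul, inv_mul_cancel]
    rfl
  exact (QuotientGroup.eq_one_iff _).1 h5

/-- For characters with `N` in the kernel, `pw k` is the complex conjugation. -/
theorem pw_eq_conj (N : Subgroup G) [N.Normal] (hidx : Odd N.index)
    (hk₂ : ∀ g : G, Odd (orderOf g) → g ^ k = g⁻¹) {β : G → ℂ} (hβ : IsCharacter G β)
    (hN : ∀ n ∈ N, β n = β 1) (g : G) : pw k β g = β g⁻¹ := by
  rw [pw_apply]
  have h1 : g ^ k = (g ^ k * g) * g⁻¹ := by group
  rw [h1]
  exact char_mul_left hβ (hN _ (pow_mul_mem N hidx hk₂ g)) g⁻¹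

theorem real_eq_one (N : Subgroup G) [N.Normal] (hidx : Odd N.index) {γ : G → ℂ}
    (hγ : IsIrrCharacter G γ) (hN : ∀ n ∈ N, γ n = γ 1) (hreal : ∀ g : G, γ g⁻¹ = γ g) :
    ∀ g, γ g = 1 := by
  have hodd : Odd (Nat.card (G ⧸ N)) := by rwa [← Subgroup.index]
  have hd := isIrrCharacter_deflate N hγ hN
  have h1 := H4.FixedCount.real_irr_eq_one hodd ⟨deflate N γ, hd⟩ (by
    intro x
    obtain ⟨g, rfl⟩ := QuotientGroup.mk_surjective x
    show (deflate N γ (QuotientGroup.mk g)).im = 0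
    rw [deflate_mk N (isCharacter_of_isIrr hγ) hN]
    have h2 := char_inv (isCharacter_of_isIrr hγ) g
    rw [hreal g] at h2
    exact Complex.conj_eq_iff_im.1 h2.symm)
  intro g
  have h3 := congrFun h1 (QuotientGroup.mk g : G ⧸ N)
  have h4 : deflate N γ (QuotientGroup.mk g) = 1 := h3
  rwa [deflate_mk N (isCharacter_of_isIrr hγ) hN] at h4

theorem exists_stable_ext (N : Subgroup G) [N.Normal] [Fintype N] (hidx : Odd N.index)
    (hk : Nat.Coprime k (Nat.card G)) (hk₂ : ∀ g : G, Odd (orderOf g) → g ^ k = g⁻¹)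
    {χ0 : G → ℂ} (hχ0 : IsIrrCharacter G χ0) (hN : IsIrrCharacter N (fun n : N => χ0 n))
    (hst : pw k (fun n : N => χ0 n) = fun n : N => χ0 n) :
    ∃ χ1 : G → ℂ, IsIrrCharacter G χ1 ∧ pw k χ1 = χ1 ∧ (∀ n : N, χ1 n = χ0 n) ∧
      ∀ χ' : G → ℂ, IsIrrCharacter G χ' → pw k χ' = χ' →
        classInner (fun n : N => χ' n) (fun n : N => χ0 n) ≠ 0 → χ' = χ1 := by
  classical
  have hG := Fintype.ofFinite G
  have h1 : classInner (fun n : N => pw k χ0 n) (fun n : N => χ0 n) ≠ 0 := by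
    have : (fun n : N => pw k χ0 n) = fun n : N => χ0 n := hst
    rw [this, inner_irr_self hN]
    exact one_ne_zero
  obtain ⟨β, hβ, hβN, hβχ⟩ := H83.Gallagher.exists_eq_mul hχ0 N hN (irr_pw hk hχ0) h1
  have hχ01 := irr_one_ne_zero hχ0
  have hβ1 : β 1 = 1 := by
    have := congrFun hβχ 1
    rw [pw_apply, one_pow] at this
    have h2 : (β 1 - 1) * χ0 1 = 0 := by rw [sub_mul, one_mul, ← this, sub_self]
    rcases mul_eq_zero.1 h2 with h3 | h3
    · exact sub_eq_zero.1 h3
    · exact absurd h3 hχ01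
  obtain ⟨f, hf⟩ := exists_hom_of_degree_one (isCharacter_of_isIrr hβ) hβ1
  have hfn : ∀ g : G, (f g) ^ N.index = 1 := by
    intro g
    have h2 : g ^ N.index ∈ N := Subgroup.pow_index_mem N g
    have h3 := hβN _ h2
    rw [hβ1, hf] at h3
    rw [← map_pow]
    exact Units.ext h3
  obtain ⟨j, hj⟩ := hidx
  -- `ν = f^(j+1)`, `ν² = f^(2j+2) = f`
  have hsq : ∀ g : G, (f g) ^ (2 * (j + 1)) = f g := by
    intro g
    have h2 := hfn g
    rw [hj] at h2
    have : 2 * (j + 1) = (2 * j + 1) + 1 := by ring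
    rw [this, pow_succ, h2, one_mul]
  have hfk : ∀ g : G, f (g ^ k) = (f g)⁻¹ := by
    intro g
    have h2 := pw_eq_conj N ⟨j, hj⟩ hk₂ (isCharacter_of_isIrr hβ) hβN g
    rw [pw_apply, hf] at h2
    have h3 : f (g ^ k) = f g⁻¹ := Units.ext h2
    rw [h3, map_inv]
  let χ1 : G → ℂ := fun g => (((f ^ (j + 1)) g : ℂˣ) : ℂ) * χ0 g
  have hχ1 : IsIrrCharacter G χ1 := isIrrCharacter_hom_mul (f ^ (j + 1)) hχ0
  have hst1 : pw k χ1 = χ1 := by
    funext g
    show (((f ^ (j + 1)) (g ^ k) : ℂˣ) : ℂ) * χ0 (g ^ k) = (((f ^ (j + 1)) g : ℂˣ) : ℂ) * χ0 g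
    have h2 : χ0 (g ^ k) = ((f g : ℂˣ) : ℂ) * χ0 g := by
      have := congrFun hβχ g
      rw [pw_apply] at this
      rw [this, hf]
    rw [h2, ← mul_assoc, ← Units.val_mul, MonoidHom.pow_apply, MonoidHom.pow_apply, hfk]
    congr 2
    have h3 := hsq g
    rw [inv_pow, inv_mul_eq_iff_eq_mul, ← pow_add]
    rw [← two_mul]
    exact h3.symm
  have hres : ∀ n : N, χ1 n = χ0 n := by
    intro n
    show (((f ^ (j + 1)) (n : G) : ℂˣ) : ℂ) * χ0 n = χ0 n
    have h3 := hβN _ n.2
    rw [hβ1, hf] at h3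
    have h4 : f (n : G) = 1 := Units.ext h3
    rw [MonoidHom.pow_apply, h4, one_pow, Units.val_one, one_mul]
  refine ⟨χ1, hχ1, hst1, hres, ?_⟩
  intro χ' hχ' hst' hin
  have hres' : (fun n : N => χ1 n) = fun n : N => χ0 n := funext hres
  obtain ⟨γ, hγ, hγN, hγχ⟩ := H83.Gallagher.exists_eq_mul hχ1 N (by rw [hres']; exact hN) hχ'
    (by rw [hres']; exact hin)
  have hγc := isCharacter_of_isIrr hγ
  have hinv : ∀ g : G, ∀ n ∈ N, γ (g * n) = γ g := fun g n hn => char_mul_right hγc (hγN n hn) g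
  have hγk := fun g => pw_eq_conj N ⟨j, hj⟩ hk₂ hγc hγN g
  have hpwγ : pw k γ = γ := by
    apply H83.Gallagher.mul_inj hχ1 N (by rw [hres']; exact hN) ?_ hinv ?_
    · intro g n hn
      rw [hγk, hγk, mul_inv_rev]
      exact char_mul_left hγc (hγN _ (N.inv_mem hn)) g⁻¹
    · intro g
      have h2 := congrFun hst' g
      rw [pw_apply, hγχ] at h2
      have h3 := congrFun hst1 g
      rw [pw_apply] at h3
      have h4 : γ (g ^ k) * χ1 (g ^ k) = γ g * χ1 g := h2
      rw [h3] at h4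
      exact h4
  have hone := real_eq_one N ⟨j, hj⟩ hγ hγN (fun g => by rw [← hγk g, hpwγ])
  rw [hγχ]
  funext g
  rw [hone g, one_mul]

end odd

/-- Inductive existence of extensions over odd `p`-power index. -/
theorem exists_ext_of_prime_pow (p : ℕ) [hp : Fact p.Prime] (hp2 : Odd p) :
    ∀ (n : ℕ) (G : Type u) [Group G] [Finite G] (k : ℕ) (N : Subgroup G) [hN : N.Normal]
      (_ : N.index = p ^ n) (_ : Nat.Coprime k (Nat.card G))
      (_ : ∀ g : G, Odd (orderOf g) → g ^ k = g⁻¹) (θ : N → ℂ) (_ : IsIrrCharacter N θ)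
      (_ : ∀ g : G, conjFunN N g θ = θ) (_ : pw k θ = θ),
      ∃ χ : G → ℂ, IsIrrCharacter G χ ∧ ∀ x : N, χ x = θ x := by
  intro n
  induction n with
  | zero =>
    intro G _ _ k N hN hidx hk hk₂ θ hθ hinv hst
    rw [pow_zero, Subgroup.index_eq_one] at hidx
    subst hidx
    refine ⟨fun g => θ ⟨g, Subgroup.mem_top g⟩, ?_, fun x => rfl⟩
    exact (isIrrCharacter_mulEquiv (Subgroup.topEquiv (G := G)).symm).1 hθ
  | succ n ih =>
    intro G _ _ k N hN hidx hk hk₂ θ hθ hinv hst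
    classical
    -- a normal subgroup of index p containing N
    obtain ⟨H, hNH, hH, hHidx⟩ : ∃ H : Subgroup G, N ≤ H ∧ H.Normal ∧ H.index = p := by
      have hQ : Nat.card (G ⧸ N) = p ^ (n + 1) := hidx
      have hQp : IsPGroup p (G ⧸ N) := IsPGroup.of_card hQ
      obtain ⟨K, hK⟩ := Sylow.exists_subgroup_card_pow_prime (G := G ⧸ N) p (n := n)
        (by rw [hQ]; exact pow_dvd_pow p (Nat.le_succ n))
      have hKi : K.index = p := by
        have h1 := Subgroup.card_mul_index K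
        rw [hK, hQ, pow_succ] at h1
        exact Nat.eq_of_mul_eq_mul_left (pow_pos hp.out.pos n) h1
      have hKn : K.Normal := by
        apply Subgroup.normal_of_index_eq_minFac_card
        rw [hKi, hQ, Nat.pow_minFac (Nat.succ_ne_zero n), hp.out.minFac_eq]
      refine ⟨K.comap (QuotientGroup.mk' N), ?_, hKn.comap _, ?_⟩
      · intro x hx
        rw [Subgroup.mem_comap]
        have : QuotientGroup.mk' N x = 1 := (QuotientGroup.eq_one_iff x).2 hx
        rw [this]
        exact K.one_mem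
      · rw [Subgroup.index_comap_of_surjective _ (QuotientGroup.mk'_surjective N), hKi]
    have hGf := Fintype.ofFinite G
    have hHf := Fintype.ofFinite H
    have hNf := Fintype.ofFinite N
    have hNf' := Fintype.ofFinite (N.subgroupOf H)
    have hrel : (N.subgroupOf H).index = p ^ n := by
      have h1 := Subgroup.relIndex_mul_index hNH
      rw [hHidx, hidx, pow_succ] at h1
      exact Nat.eq_of_mul_eq_mul_right hp.out.pos h1
    have hkH : Nat.Coprime k (Nat.card H) := coprime_sub hk H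
    have hk₂H : ∀ h : H, Odd (orderOf h) → h ^ k = h⁻¹ := by
      intro h hh
      apply Subtype.ext
      push_cast
      exact hk₂ h (by rwa [Subgroup.orderOf_coe])
    have hθ' := irr_thT N H hNH hθ
    have hstT : pw k (thT N H θ) = thT N H θ := by
      funext x
      exact congrFun hst ((Subgroup.subgroupOfEquivOfLe hNH) x)
    obtain ⟨ψ0, hψ0, hψ0r⟩ := ih H k (N.subgroupOf H) hrel hkH hk₂H (thT N H θ) hθ'
      (by
        intro h
        rw [cj_thT, hinv]) hstT
    have hψ0r' : (fun x : N.subgroupOf H => ψ0 x) = thT N H θ := funext hψ0r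
    obtain ⟨ψ, hψ, hψst, hψr, huniq⟩ := exists_stable_ext (N.subgroupOf H)
      (by rw [hrel]; exact hp2.pow) hkH hk₂H hψ0 (by rw [hψ0r']; exact hθ')
      (by rw [hψ0r']; exact hstT)
    rw [hψ0r'] at huniq
    have hinvψ : ∀ g : G, conjFunN H g ψ = ψ := by
      intro g
      apply huniq _ (isIrrCharacter_conjN H g hψ)
      · rw [pw_conj, hψst]
      · have h1 : (fun x : N.subgroupOf H => conjFunN H g ψ x) = thT N H θ := by
          funext x
          show ψ ⟨g * ((x : H) : G) * g⁻¹, _⟩ = θ ((Subgroup.subgroupOfEquivOfLe hNH) x)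
          have hx : ((x : H) : G) ∈ N := x.2
          have h2 := congrFun (hinv g) ⟨((x : H) : G), hx⟩
          rw [cj_apply] at h2
          have hx' : g * ((x : H) : G) * g⁻¹ ∈ N := hN.conj_mem _ hx g
          have h3 := hψr ⟨⟨g * ((x : H) : G) * g⁻¹, hNH hx'⟩, hx'⟩
          have h4 := hψ0r ⟨⟨g * ((x : H) : G) * g⁻¹, hNH hx'⟩, hx'⟩
          rw [h4] at h3
          exact h3.trans h2
        rw [h1, inner_irr_self hθ']
        exact one_ne_zero
    have hcyc : IsCyclic (G ⧸ H) := isCyclic_of_prime_card (p := p) hHidx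
    obtain ⟨χ, hχ, hχr⟩ := Cfsg.Agent.S0886.result H hcyc ψ hψ (fun g x => congrFun (hinvψ g) x)
    refine ⟨χ, hχ, fun x => ?_⟩
    have h1 := hχr ⟨x, hNH x.2⟩
    have h2 := hψr ⟨⟨x, hNH x.2⟩, x.2⟩
    have h3 := hψ0r ⟨⟨x, hNH x.2⟩, x.2⟩
    rw [h3] at h2
    exact h1.trans h2


theorem exists_ext_of_odd {G : Type u} [Group G] [Finite G] {k : ℕ} (N : Subgroup G)
    [hN : N.Normal] (hidx : Odd N.index) (hk : Nat.Coprime k (Nat.card G))
    (hk₂ : ∀ g : G, Odd (orderOf g) → g ^ k = g⁻¹) {θ : N → ℂ} (hθ : IsIrrCharacter N θ)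
    (hinv : ∀ g : G, conjFunN N g θ = θ) (hst : pw k θ = θ) :
    ∃ χ : G → ℂ, IsIrrCharacter G χ ∧ ∀ x : N, χ x = θ x := by
  classical
  have hGf := Fintype.ofFinite G
  have hNf := Fintype.ofFinite N
  apply Cfsg.Agent.S0888.result N θ hθ (fun g x => congrFun (hinv g) x)
  intro p hp
  have hpf : Fact p.Prime := ⟨hp⟩
  by_cases hp2 : p = 2
  · subst hp2
    refine ⟨N, le_refl _, θ, hidx.coprime_two_right, ⟨0, ?_⟩, hθ, fun n => rfl⟩
    rw [Subgroup.relIndex_self, pow_zero]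
  · have hpodd : Odd p := hp.odd_of_ne_two hp2
    obtain ⟨S⟩ : Nonempty (Sylow p (G ⧸ N)) := inferInstance
    set P := (S : Subgroup (G ⧸ N)).comap (QuotientGroup.mk' N) with hP
    have hPidx : P.index = (S : Subgroup (G ⧸ N)).index :=
      Subgroup.index_comap_of_surjective _ (QuotientGroup.mk'_surjective N)
    have hNP : N ≤ P := by
      intro x hx
      rw [hP, Subgroup.mem_comap]
      have : QuotientGroup.mk' N x = 1 := (QuotientGroup.eq_one_iff x).2 hx
      rw [this]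
      exact Subgroup.one_mem _
    obtain ⟨m, hm⟩ := (IsPGroup.iff_card.1 S.2)
    have hrel : N.relIndex P = p ^ m := by
      have h1 := Subgroup.relIndex_mul_index hNP
      have h2 := Subgroup.card_mul_index (S : Subgroup (G ⧸ N))
      have h3 : N.index = Nat.card (G ⧸ N) := rfl
      rw [hPidx, h3, ← h2, hm] at h1
      exact Nat.eq_of_mul_eq_mul_right (Nat.pos_of_ne_zero Subgroup.index_ne_zero_of_finite) h1
    have hkP : Nat.Coprime k (Nat.card P) := coprime_sub hk P
    have hk₂P : ∀ h : P, Odd (orderOf h) → h ^ k = h⁻¹ := by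
      intro h hh
      apply Subtype.ext
      push_cast
      exact hk₂ h (by rwa [Subgroup.orderOf_coe])
    obtain ⟨η, hη, hηr⟩ := exists_ext_of_prime_pow p hpodd m P k (N.subgroupOf P) hrel hkP hk₂P
      (thT N P θ) (irr_thT N P hNP hθ)
      (by
        intro h
        rw [cj_thT, hinv])
      (by
        funext x
        exact congrFun hst ((Subgroup.subgroupOfEquivOfLe hNP) x))
    refine ⟨P, hNP, η, ?_, ⟨m, hrel⟩, hη, ?_⟩
    · rw [hPidx, Nat.coprime_comm, Nat.Prime.coprime_iff_not_dvd hp]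
      exact S.not_dvd_index
    · intro n
      exact hηr ⟨⟨n, hNP n.2⟩, n.2⟩

/-- The invariant case. -/
theorem exists_stable_of_invariant {G : Type u} [Group G] [Finite G] {k : ℕ} (N : Subgroup G)
    [hN : N.Normal] [Fintype N] (hidx : Odd N.index) (hk : Nat.Coprime k (Nat.card G))
    (hk₂ : ∀ g : G, Odd (orderOf g) → g ^ k = g⁻¹) {θ : N → ℂ} (hθ : IsIrrCharacter N θ)
    (hinv : ∀ g : G, conjFunN N g θ = θ) (hst : pw k θ = θ) :
    ∃ χ : G → ℂ, IsIrrCharacter G χ ∧ pw k χ = χ ∧ (∀ x : N, χ x = θ x) ∧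
      ∀ χ' : G → ℂ, IsIrrCharacter G χ' → pw k χ' = χ' →
        classInner (fun n : N => χ' n) θ ≠ 0 → χ' = χ := by
  obtain ⟨χ0, hχ0, hr⟩ := exists_ext_of_odd N hidx hk hk₂ hθ hinv hst
  have hr' : (fun n : N => χ0 n) = θ := funext hr
  obtain ⟨χ1, h1, h2, h3, h4⟩ := exists_stable_ext N hidx hk hk₂ hχ0 (by rw [hr']; exact hθ)
    (by rw [hr']; exact hst)
  rw [hr'] at h4
  exact ⟨χ1, h1, h2, fun x => (h3 x).trans (hr x), h4⟩

theorem pw_indFun {G : Type u} [Group G] [Fintype G] {k : ℕ} (hk : Nat.Coprime k (Nat.card G))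
    (T : Subgroup G) (ψ : T → ℂ) : pw k (indFun T ψ) = indFun T (pw k ψ) := by
  classical
  funext g
  rw [pw_apply, H18.CharInd.indFun_apply', H18.CharInd.indFun_apply']
  congr 1
  refine Finset.sum_congr rfl fun x _ => ?_
  have h1 : x * g ^ k * x⁻¹ = (x * g * x⁻¹) ^ k := by rw [conj_pow]
  rw [h1]
  by_cases h : x * g * x⁻¹ ∈ T
  · rw [H18.CharInd.ext_mem T _ h, H18.CharInd.ext_mem T _ (T.pow_mem h k), pw_apply]
    rfl
  · rw [H18.CharInd.ext_notMem T _ h, H18.CharInd.ext_notMem]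
    intro h2
    apply h
    obtain ⟨l, hl⟩ := H78.Galois.exists_pow_pow_eq hk (x * g * x⁻¹)
    rw [← hl]
    exact T.pow_mem h2 l

/-- The unique `k`-stable character over a stable `θ`. -/
theorem exists_unique_stable {G : Type u} [Group G] [Fintype G] {k : ℕ} (N : Subgroup G)
    [hN : N.Normal] [Fintype N] (hidx : Odd N.index) (hk : Nat.Coprime k (Nat.card G))
    (hk₂ : ∀ g : G, Odd (orderOf g) → g ^ k = g⁻¹) {θ : N → ℂ} (hθ : IsIrrCharacter N θ)
    (hst : pw k θ = θ) :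
    ∃ χ : G → ℂ, IsIrrCharacter G χ ∧ classInner (fun n : N => χ n) θ ≠ 0 ∧ pw k χ = χ ∧
      ∀ χ' : G → ℂ, IsIrrCharacter G χ' → classInner (fun n : N => χ' n) θ ≠ 0 →
        pw k χ' = χ' → χ' = χ := by
  classical
  set T := inertia N θ with hTdef
  have hNT : N ≤ T := le_inertia N (isClassFunction_of_isIrr hθ)
  have hT : ∀ g : G, g ∈ T ↔ conjFunN N g θ = θ := fun g => Iff.rfl
  have hTf := Fintype.ofFinite T
  have hNTf := Fintype.ofFinite (N.subgroupOf T)
  have hkT : Nat.Coprime k (Nat.card T) := coprime_sub hk T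
  have hk₂T : ∀ h : T, Odd (orderOf h) → h ^ k = h⁻¹ := by
    intro h hh
    apply Subtype.ext
    push_cast
    exact hk₂ h (by rwa [Subgroup.orderOf_coe])
  have hidxT : Odd (N.subgroupOf T).index := by
    have h1 := Subgroup.relIndex_mul_index hNT
    rw [← h1] at hidx
    exact (Nat.odd_mul.1 hidx).1
  obtain ⟨ψ, hψ, hψst, hψr, huniq⟩ := exists_stable_of_invariant (N.subgroupOf T) hidxT hkT hk₂T
    (irr_thT N T hNT hθ)
    (by
      intro h
      rw [cj_thT, (hT h).1 h.2])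
    (by
      funext x
      exact congrFun hst ((Subgroup.subgroupOfEquivOfLe hNT) x))
  have hres : resH hNT ψ = θ := by
    funext n
    exact hψr ⟨⟨n, hNT n.2⟩, n.2⟩
  have hin : classInner (resH hNT ψ) θ ≠ 0 := by
    rw [hres, inner_irr_self hθ]
    exact one_ne_zero
  obtain ⟨hirr, hmult⟩ := corr_irr N T hNT hθ hT hψ hin
  refine ⟨indFun T ψ, hirr, ?_, ?_, ?_⟩
  · rw [hmult]; exact hin
  · rw [pw_indFun hk, hψst]
  · intro χ' hχ' hin' hst'
    obtain ⟨ψ', hψ', hin'', hind, -⟩ := H4.CenterIndex.exists_corr N hχ' hθ hin' T hNT hT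
    have h1 : pw k ψ' = ψ' := by
      apply corr_inj N T hNT hθ hT (irr_pw hkT hψ') hψ' ?_ hin''
      · rw [← pw_indFun hk, hind, hst']
      · have h2 : resH hNT (pw k ψ') = pw k (resH hNT ψ') := rfl
        have h3 := inner_pw (coprime_sub hk N) (resH hNT ψ') θ
        rw [hst] at h3
        rw [h2, h3]
        exact hin''
    have h2 : ψ' = ψ := by
      apply huniq ψ' hψ' h1
      rw [inner_thT N T hNT]
      exact hin''
    rw [← hind, h2]

end H78.GalStab
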