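import Mathlib

/-!
# Odd order automorphism groups of homocyclic 2-groups of rank two
-/

set_option autoImplicit false
set_option linter.unusedSectionVars false
set_option linter.unusedVariables false

namespace H78.Homo2

variable {P : Type*} [Group P] [Finite P]

/-- an automorphism of odd order fixing all involutions of an abelian 2-group is trivial -/
theorem eq_one_of_fix (hP : ∀ a b : P, a * b = b * a) {m : ℕ} (hm : ∀ x : P, x ^ (2 ^ m) = 1)
    {w : MulAut P} (hodd : Odd (orderOf w)) (hfix : ∀ y : P, y * y = 1 → w y = y) : w = 1 := by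
  have key : ∀ n : ℕ, ∀ x : P, x ^ (2 ^ n) = 1 → w x = x := by
    intro n
    induction n with
    | zero =>
      intro x hx
      rw [pow_zero, pow_one] at hx
      rw [hx, map_one]
    | succ n ih =>
      intro x hx
      have h1 : (x * x) ^ (2 ^ n) = 1 := by
        rw [← sq, ← pow_mul, ← pow_succ']
        exact hx
      have h2 := ih _ h1
      set z := w x * x⁻¹ with hz
      have hwx : w x = z * x := by rw [hz]; group
      have hzz : z * z = 1 := by
        rw [map_mul, hwx] at h2
        have h3 : z * x * (z * x) = (z * z) * (x * x) := by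
          rw [mul_assoc z x, ← mul_assoc x z x, hP x z, mul_assoc z x x, ← mul_assoc]
        rw [h3] at h2
        exact mul_eq_right.1 h2
      have hwz : w z = z := hfix z hzz
      have hk : ∀ k : ℕ, (w ^ k) x = z ^ k * x := by
        intro k
        induction k with
        | zero => simp
        | succ k ihk =>
          rw [pow_succ', MulAut.mul_apply, ihk, map_mul, map_pow, hwz, hwx, pow_succ]
          group
      have h4 := hk (orderOf w)
      rw [pow_orderOf_eq_one, MulAut.one_apply] at h4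
      have h5 : z ^ orderOf w = 1 := (mul_eq_right.1 h4.symm)
      obtain ⟨r, hr⟩ := hodd
      rw [hr, pow_succ, pow_mul, sq, hzz, one_pow, one_mul] at h5
      rw [hwx, h5, one_mul]
  ext x
  exact key m x (hm x)

/-- if there are exactly three involutions, an odd order group of automorphisms is free and has order one or three -/
theorem free_of_three (hP : ∀ a b : P, a * b = b * a) {m : ℕ} (hm : ∀ x : P, x ^ (2 ^ m) = 1)
    (h3 : Nat.card {y : P // y * y = 1 ∧ y ≠ 1} = 3) {W : Subgroup (MulAut P)} (hodd : ¬ 2 ∣ Nat.card W) :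
    (∀ w ∈ W, ∀ x : P, x ≠ 1 → w x = x → w = 1) ∧ (Nat.card W = 1 ∨ Nat.card W = 3) := by
  classical
  haveI : Fintype P := Fintype.ofFinite P
  have hordodd : ∀ w ∈ W, Odd (orderOf w) := by
    intro w hw
    have h1 : orderOf (⟨w, hw⟩ : W) ∣ Nat.card W := orderOf_dvd_natCard _
    rw [← Subgroup.orderOf_coe] at h1
    rw [← Nat.not_even_iff_odd, even_iff_two_dvd]
    exact fun h => hodd (h.trans h1)
  -- fixing one involution implies trivial
  have hinv : ∀ w ∈ W, ∀ y : P, y * y = 1 → y ≠ 1 → w y = y → w = 1 := by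
    intro w hw y hy hy1 hwy
    have hsq : ∀ z : P, z * z = 1 → (w * w) z = z := by
      intro z hz
      by_cases hz1 : z = 1
      · rw [hz1, map_one]
      by_cases hzy : z = y
      · rw [hzy, MulAut.mul_apply, hwy, hwy]
      have hwz : (w z) * (w z) = 1 := by rw [← map_mul, hz, map_one]
      have hwz1 : w z ≠ 1 := fun h => hz1 ((MulEquiv.map_eq_one_iff w).1 h)
      have hwzy : w z ≠ y := fun h => hzy (w.injective (by rw [h, hwy]))
      have hwwz : (w (w z)) * (w (w z)) = 1 := by rw [← map_mul, hwz, map_one]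
      have hwwz1 : w (w z) ≠ 1 := fun h => hwz1 ((MulEquiv.map_eq_one_iff w).1 h)
      have hwwzy : w (w z) ≠ y := fun h => hwzy (w.injective (by rw [h, hwy]))
      by_contra hne
      rw [MulAut.mul_apply] at hne
      by_cases hwzz : w z = z
      · exact hne (by rw [hwzz, hwzz])
      have hwwzwz : w (w z) ≠ w z := fun h => hwzz (w.injective h)
      have h4 : ({⟨y, hy, hy1⟩, ⟨z, hz, hz1⟩, ⟨w z, hwz, hwz1⟩, ⟨w (w z), hwwz, hwwz1⟩} :
          Finset {y : P // y * y = 1 ∧ y ≠ 1}).card = 4 := by
        rw [Finset.card_insert_of_notMem, Finset.card_insert_of_notMem, Finset.card_insert_of_notMem,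
          Finset.card_singleton]
        · simp only [Finset.mem_singleton, Subtype.mk.injEq]; exact fun h => hwwzwz h.symm
        · simp only [Finset.mem_insert, Finset.mem_singleton, Subtype.mk.injEq, not_or]
          exact ⟨fun h => hwzz h.symm, fun h => hne h.symm⟩
        · simp only [Finset.mem_insert, Finset.mem_singleton, Subtype.mk.injEq, not_or]
          exact ⟨fun h => hzy h.symm, fun h => hwzy h.symm, fun h => hwwzy h.symm⟩
      have h5 := Finset.card_le_univ ({⟨y, hy, hy1⟩, ⟨z, hz, hz1⟩, ⟨w z, hwz, hwz1⟩, ⟨w (w z), hwwz, hwwz1⟩} :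
          Finset {y : P // y * y = 1 ∧ y ≠ 1})
      rw [h4, ← Nat.card_eq_fintype_card, h3] at h5
      omega
    have h6 : w * w = 1 := eq_one_of_fix hP hm (hordodd _ (W.mul_mem hw hw)) hsq
    obtain ⟨r, hr⟩ := hordodd w hw
    have h7 := pow_orderOf_eq_one w
    rw [hr, pow_succ, pow_mul, sq, h6, one_pow, one_mul] at h7
    exact h7
  have hfree : ∀ w ∈ W, ∀ x : P, x ≠ 1 → w x = x → w = 1 := by
    intro w hw x hx hwx
    -- an involution in the cyclic group of `x`
    have hex : ∃ k : ℕ, (x ^ k) * (x ^ k) = 1 ∧ x ^ k ≠ 1 := by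
      have h1 : ∃ n : ℕ, x ^ (2 ^ n) = 1 := ⟨m, hm x⟩
      have h2 := Nat.find_spec h1
      have h3 : Nat.find h1 ≠ 0 := by
        intro h
        rw [h, pow_zero, pow_one] at h2
        exact hx h2
      obtain ⟨n, hn⟩ := Nat.exists_eq_succ_of_ne_zero h3
      refine ⟨2 ^ n, ?_, ?_⟩
      · rw [← pow_add, ← two_mul, ← pow_succ']
        rw [hn] at h2
        exact h2
      · exact Nat.find_min h1 (by omega)
    obtain ⟨k, hk1, hk2⟩ := hex
    exact hinv w hw _ hk1 hk2 (by rw [map_pow, hwx])
  refine ⟨hfree, ?_⟩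
  have hle : Nat.card W ≤ 3 := by
    have hne : Nonempty {y : P // y * y = 1 ∧ y ≠ 1} := by
      rw [← not_isEmpty_iff]
      intro h
      rw [Nat.card_of_isEmpty] at h3
      omega
    obtain ⟨y, hy, hy1⟩ := hne
    rw [← h3]
    apply Nat.card_le_card_of_injective (fun w : W => (⟨(w : MulAut P) y, by rw [← map_mul, hy, map_one],
      fun h => hy1 ((MulEquiv.map_eq_one_iff (w : MulAut P)).1 h)⟩ : {y : P // y * y = 1 ∧ y ≠ 1}))
    intro w v h
    have h1 : (w : MulAut P) y = (v : MulAut P) y := congrArg Subtype.val h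
    have h2 : ((v : MulAut P)⁻¹ * (w : MulAut P)) y = y := by
      rw [MulAut.mul_apply, h1, ← MulAut.mul_apply, inv_mul_cancel, MulAut.one_apply]
    have h4 := hfree _ (W.mul_mem (W.inv_mem v.2) w.2) y hy1 h2
    exact Subtype.ext (inv_mul_eq_one.1 h4).symm
  have hpos : 0 < Nat.card W := Nat.card_pos
  omega

/-- the homocyclic group has three involutions -/
theorem card_inv {m : ℕ} (hm : 1 ≤ m) (e : P ≃* Multiplicative (ZMod (2 ^ m) × ZMod (2 ^ m))) :
    Nat.card {y : P // y * y = 1 ∧ y ≠ 1} = 3 := by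
  obtain ⟨n, rfl⟩ : ∃ n, m = n + 1 := ⟨m - 1, by omega⟩
  set a : ZMod (2 ^ (n + 1)) := ((2 ^ n : ℕ) : ZMod (2 ^ (n + 1))) with ha
  have ha2 : a + a = 0 := by
    rw [ha, ← Nat.cast_add, ← two_mul, ← pow_succ', ZMod.natCast_self]
  have hpos : 0 < 2 ^ n := by positivity
  have ha0 : a ≠ 0 := by
    rw [ha, Ne, ZMod.natCast_eq_zero_iff]
    intro h
    have := Nat.le_of_dvd hpos h
    rw [pow_succ] at this
    omega
  have hex : ∀ z : ZMod (2 ^ (n + 1)), z + z = 0 → z = 0 ∨ z = a := by
    intro z hz
    haveI : NeZero (2 ^ (n + 1)) := ⟨by positivity⟩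
    have h1 : z = ((z.val : ℕ) : ZMod (2 ^ (n + 1))) := (ZMod.natCast_zmod_val z).symm
    have h2 : (2 ^ (n + 1)) ∣ z.val + z.val := by
      rw [← ZMod.natCast_eq_zero_iff, Nat.cast_add, ← h1, hz]
    have h3 := ZMod.val_lt z
    obtain ⟨k, hk⟩ := h2
    have hpw : 2 ^ (n + 1) = 2 ^ n * 2 := pow_succ _ _
    have hk2 : z.val = 2 ^ n * k := by
      have : 2 * z.val = 2 * (2 ^ n * k) := by rw [two_mul, hk, hpw]; ring
      omega
    have hk3 : k < 2 := by
      by_contra hcon
      push Not at hcon
      have : 2 ^ n * 2 ≤ 2 ^ n * k := Nat.mul_le_mul_left _ hcon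
      omega
    interval_cases k
    · left
      rw [h1, hk2, mul_zero, Nat.cast_zero]
    · right
      rw [h1, hk2, mul_one]
  let b : ZMod 2 → ZMod (2 ^ (n + 1)) := fun i => if i = 0 then 0 else a
  rw [show (3 : ℕ) = Nat.card (Fin 3) by simp]
  symm
  let f : Fin 3 → {y : P // y * y = 1 ∧ y ≠ 1} := ![
    ⟨e.symm (Multiplicative.ofAdd (a, 0)), by
      rw [← map_mul, ← ofAdd_add, Prod.mk_add_mk, ha2, add_zero]
      exact map_one _, by
      intro h
      have := (MulEquiv.map_eq_one_iff e.symm).1 h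
      exact ha0 (congrArg (fun z => (Multiplicative.toAdd z).1) this)⟩,
    ⟨e.symm (Multiplicative.ofAdd (0, a)), by
      rw [← map_mul, ← ofAdd_add, Prod.mk_add_mk, ha2, add_zero]
      exact map_one _, by
      intro h
      have := (MulEquiv.map_eq_one_iff e.symm).1 h
      exact ha0 (congrArg (fun z => (Multiplicative.toAdd z).2) this)⟩,
    ⟨e.symm (Multiplicative.ofAdd (a, a)), by
      rw [← map_mul, ← ofAdd_add, Prod.mk_add_mk, ha2]
      exact map_one _, by
      intro h
      have := (MulEquiv.map_eq_one_iff e.symm).1 h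
      exact ha0 (congrArg (fun z => (Multiplicative.toAdd z).2) this)⟩]
  apply Nat.card_congr
  refine Equiv.ofBijective f ⟨?_, ?_⟩
  · intro i j hij
    have h1 : ∀ {u v : ZMod (2 ^ (n + 1)) × ZMod (2 ^ (n + 1))},
        e.symm (Multiplicative.ofAdd u) = e.symm (Multiplicative.ofAdd v) → u = v := by
      intro u v h
      exact Multiplicative.ofAdd.injective (e.symm.injective h)
    have h2 := congrArg Subtype.val hij
    fin_cases i <;> fin_cases j <;> first | rfl | (exfalso; have h3 := h1 h2; rw [Prod.mk.injEq] at h3; first | exact ha0 h3.1 | exact ha0 h3.2 | exact ha0 h3.1.symm | exact ha0 h3.2.symm)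
  · rintro ⟨y, hy, hy1⟩
    set u := Multiplicative.toAdd (e y) with hu
    have hyu : y = e.symm (Multiplicative.ofAdd u) := by
      rw [hu]; simp
    have h1 : u + u = 0 := by
      have h2 : e (y * y) = 1 := by rw [hy, map_one]
      rw [map_mul] at h2
      exact congrArg Multiplicative.toAdd h2
    have h2 := hex u.1 (congrArg Prod.fst h1)
    have h3 := hex u.2 (congrArg Prod.snd h1)
    rcases h2 with h2 | h2 <;> rcases h3 with h3 | h3
    · exfalso
      apply hy1
      rw [hyu, show u = 0 from Prod.ext h2 h3]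
      exact map_one _
    · have h5 : y = e.symm (Multiplicative.ofAdd (0, a)) := by rw [hyu, show u = (0, a) from Prod.ext h2 h3]
      exact ⟨1, Subtype.ext h5.symm⟩
    · have h5 : y = e.symm (Multiplicative.ofAdd (a, 0)) := by rw [hyu, show u = (a, 0) from Prod.ext h2 h3]
      exact ⟨0, Subtype.ext h5.symm⟩
    · have h5 : y = e.symm (Multiplicative.ofAdd (a, a)) := by rw [hyu, show u = (a, a) from Prod.ext h2 h3]
      exact ⟨2, Subtype.ext h5.symm⟩

end H78.Homo2
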