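import Mathlib
import Cfsg.Agent.Lib.H66.Commutators

/-! Groups with an involutory automorphism: elements of odd order inverted by it. Part 1. -/

set_option autoImplicit false
set_option linter.all false

namespace H78.InvOdd

open Subgroup

variable {G : Type*} [Group G]

/-- Elements of odd order inverted by `α`. -/
def JS (α : G ≃* G) : Set G := {g | Odd (orderOf g) ∧ α g = g⁻¹}

/-- Fixed points. -/
def CS (α : G ≃* G) : Set G := {g | α g = g}

structure Ok (α : G ≃* G) (m c : ℕ) : Prop where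
  inv : ∀ g, α (α g) = g
  gen : Subgroup.closure (JS α) = ⊤
  cardJ : Nat.card (JS α) ≤ m
  cardC : Nat.card (CS α) ≤ c

theorem Ok.mpos [Finite G] {α : G ≃* G} {m c : ℕ} (h : Ok α m c) : 1 ≤ m := by
  have : Nonempty (JS α) := ⟨⟨1, by simp [JS]⟩⟩
  exact le_trans Nat.card_pos h.cardJ

theorem Ok.cpos [Finite G] {α : G ≃* G} {m c : ℕ} (h : Ok α m c) : 1 ≤ c := by
  have : Nonempty (CS α) := ⟨⟨1, by simp [CS]⟩⟩
  exact le_trans Nat.card_pos h.cardC

/-- Square roots of elements of odd order. -/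
theorem exists_sqrt [Finite G] {α : G ≃* G} {g : G} (hg : g ∈ JS α) :
    ∃ r ∈ JS α, r * r = g ∧ r ∈ zpowers g := by
  obtain ⟨ho, ha⟩ := hg
  obtain ⟨k, hk⟩ := ho
  refine ⟨g ^ (k + 1), ⟨?_, ?_⟩, ?_, ?_⟩
  · have h1 : orderOf (g ^ (k + 1)) ∣ orderOf g := orderOf_pow_dvd _
    exact Odd.of_dvd_nat (hk ▸ ⟨k, rfl⟩) h1
  · rw [map_pow, ha, inv_pow]
  · rw [← pow_add]
    have : k + 1 + (k + 1) = orderOf g + 1 := by omega
    rw [this, pow_succ, pow_orderOf_eq_one, one_mul]
  · exact npow_mem_zpowers g (k + 1)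

/-- Large powers of two kill the even part. -/
theorem odd_orderOf_pow [Finite G] (g : G) {N : ℕ} (hN : Nat.card G ≤ N) :
    Odd (orderOf (g ^ 2 ^ N)) := by
  have hpos : 0 < orderOf g := orderOf_pos g
  obtain ⟨a, b, hb, hab⟩ := Nat.exists_eq_two_pow_mul_odd hpos.ne'
  have ha : a ≤ N := by
    have h1 : a < 2 ^ a := Nat.lt_two_pow_self
    have h2 : 2 ^ a ≤ orderOf g := Nat.le_of_dvd hpos ⟨b, hab⟩
    have h3 : orderOf g ≤ Nat.card G := Nat.le_of_dvd Nat.card_pos (orderOf_dvd_natCard g)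
    omega
  have h4 : (g ^ 2 ^ N) ^ b = 1 := by
    rw [← pow_mul]
    apply orderOf_dvd_iff_pow_eq_one.mp
    rw [hab]
    exact mul_dvd_mul (pow_dvd_pow 2 ha) (dvd_refl b)
  exact Odd.of_dvd_nat hb (orderOf_dvd_of_pow_eq_one h4)

/-- The quotient lemma: inverted elements of odd order lift. -/
theorem lift_J [Finite G] {Q : Type*} [Group Q] [Finite Q] {α : G ≃* G} (hα : ∀ g, α (α g) = g)
    (f : G →* Q) (hf : Function.Surjective f) (β : Q ≃* Q) (hβ : ∀ g, f (α g) = β (f g))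
    {q : Q} (hq : q ∈ JS β) : ∃ y ∈ JS α, f y = q := by
  obtain ⟨r, ⟨hr1, hr2⟩, hr3, -⟩ := exists_sqrt hq
  obtain ⟨x, hx⟩ := hf r
  set y := x * (α x)⁻¹ with hy
  have hfy : f y = q := by
    rw [hy, map_mul, map_inv, hβ, hx, hr2, inv_inv, hr3]
  have hay : α y = y⁻¹ := by
    rw [hy, map_mul, map_inv, hα, mul_inv_rev, inv_inv]
  -- the exponent
  set o := orderOf q with ho
  have hoo : Odd o := hq.1
  set N := Nat.card G * o.totient with hN
  have htp : 0 < o.totient := Nat.totient_pos.mpr (by rw [ho]; exact orderOf_pos q)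
  have hNG : Nat.card G ≤ N := Nat.le_mul_of_pos_right _ htp
  refine ⟨y ^ 2 ^ N, ⟨odd_orderOf_pow y hNG, by rw [map_pow, hay, inv_pow]⟩, ?_⟩
  rw [map_pow, hfy]
  have h1 : 2 ^ N ≡ 1 [MOD o] := by
    have h2 : (2 : ℕ) ^ o.totient ≡ 1 [MOD o] := Nat.ModEq.pow_totient (by
      exact Nat.coprime_two_left.mpr hoo)
    rw [hN, mul_comm, pow_mul]
    simpa using h2.pow (Nat.card G)
  have h2 : q ^ 2 ^ N = q ^ 1 := (pow_eq_pow_iff_modEq).mpr h1
  rw [h2, pow_one]

/-- Counting fixed points via `g ↦ g⁻¹ α(g)`. -/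
theorem card_CS_le [Finite G] {Q : Type*} [Group Q] [Finite Q] {α : G ≃* G}
    (f : G →* Q) (hf : Function.Surjective f) (β : Q ≃* Q) (hβ : ∀ g, f (α g) = β (f g)) :
    Nat.card (CS β) ≤ Nat.card (CS α) := by
  classical
  -- the set `X = {g | f g ∈ CS β}` has cardinality `|CS β| * |ker f|`
  -- and maps to `ker f` by `g ↦ g⁻¹ α g` with fibres of size `|CS α|`
  let s : Q → G := Function.surjInv hf
  have hs : ∀ q, f (s q) = q := Function.surjInv_eq hf
  -- inject `CS β × ker f → CS α × ker f`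
  let θ : G → G := fun g => g⁻¹ * α g
  have hθ : ∀ g, f g ∈ CS β → θ g ∈ f.ker := by
    intro g hg
    rw [MonoidHom.mem_ker]
    show f (g⁻¹ * α g) = 1
    rw [map_mul, map_inv, hβ]
    have : β (f g) = f g := hg
    rw [this, inv_mul_cancel]
  -- a section for θ
  have hex : ∀ t : G, ∃ x : G, (∃ g, θ g = t) → θ x = t := by
    intro t
    by_cases h : ∃ g, θ g = t
    · obtain ⟨g, hg⟩ := h
      exact ⟨g, fun _ => hg⟩
    · exact ⟨1, fun h' => absurd h' h⟩
  choose x hx using hex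
  have hmem : ∀ g, g * (x (θ g))⁻¹ ∈ CS α := by
    intro g
    have h1 : θ (x (θ g)) = θ g := hx _ ⟨g, rfl⟩
    have h2 : (x (θ g))⁻¹ * α (x (θ g)) = g⁻¹ * α g := h1
    show α (g * (x (θ g))⁻¹) = g * (x (θ g))⁻¹
    rw [map_mul, map_inv]
    have h3 : α (x (θ g)) = x (θ g) * (g⁻¹ * α g) := by rw [← h2, mul_inv_cancel_left]
    rw [h3, mul_inv_rev, mul_inv_rev, inv_inv]
    group
  let Φ : CS β × f.ker → CS α × f.ker := fun p =>
    have hg : f (s p.1.1 * p.2.1) ∈ CS β := by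
      have h1 : f p.2.1 = 1 := p.2.2
      rw [map_mul, hs, h1, mul_one]; exact p.1.2
    (⟨_, hmem (s p.1.1 * p.2.1)⟩, ⟨θ (s p.1.1 * p.2.1), hθ _ hg⟩)
  have hinj : Function.Injective Φ := by
    rintro ⟨⟨q, hq⟩, ⟨n, hn⟩⟩ ⟨⟨q', hq'⟩, ⟨n', hn'⟩⟩ h
    have h1 := congrArg Prod.fst h
    have h2 := congrArg Prod.snd h
    simp only [Φ, Subtype.mk.injEq] at h1 h2
    rw [h2] at h1
    have h3 : s q * n = s q' * n' := mul_right_cancel h1
    have h4 : q = q' := by
      have := congrArg f h3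
      rw [map_mul, map_mul, hs, hs, MonoidHom.mem_ker.mp hn, MonoidHom.mem_ker.mp hn', mul_one,
        mul_one] at this
      exact this
    subst h4
    have h5 : n = n' := mul_left_cancel h3
    subst h5
    rfl
  have h6 := Nat.card_le_card_of_injective Φ hinj
  rw [Nat.card_prod, Nat.card_prod] at h6
  exact Nat.le_of_mul_le_mul_right h6 Nat.card_pos

theorem Ok.map [Finite G] {Q : Type*} [Group Q] [Finite Q] {α : G ≃* G} {m c : ℕ} (h : Ok α m c)
    (f : G →* Q) (hf : Function.Surjective f) (β : Q ≃* Q) (hβ : ∀ g, f (α g) = β (f g)) :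
    Ok β m c where
  inv := by
    intro q
    obtain ⟨g, rfl⟩ := hf q
    rw [← hβ, ← hβ, h.inv]
  gen := by
    rw [eq_top_iff, ← MonoidHom.range_eq_top.mpr hf, MonoidHom.range_eq_map, ← h.gen,
      MonoidHom.map_closure, Subgroup.closure_le]
    rintro _ ⟨g, hg, rfl⟩
    apply Subgroup.subset_closure
    refine ⟨Odd.of_dvd_nat hg.1 (orderOf_map_dvd f g), ?_⟩
    rw [← hβ, hg.2, map_inv]
  cardJ := by
    refine le_trans ?_ h.cardJ
    have hl : ∀ q : JS β, ∃ y : JS α, f y.1 = q.1 := by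
      rintro ⟨q, hq⟩
      obtain ⟨y, hy, hyq⟩ := lift_J h.inv f hf β hβ hq
      exact ⟨⟨y, hy⟩, hyq⟩
    choose y hy using hl
    apply Nat.card_le_card_of_injective y
    intro q q' hqq
    apply Subtype.ext
    rw [← hy q, ← hy q', hqq]
  cardC := le_trans (card_CS_le f hf β hβ) h.cardC

theorem Ok.quot [Finite G] {α : G ≃* G} {m c : ℕ} (h : Ok α m c) (N : Subgroup G) [N.Normal]
    (hN : ∀ x ∈ N, α x ∈ N) :
    ∃ β : G ⧸ N ≃* G ⧸ N, (∀ g : G, β (QuotientGroup.mk' N g) = QuotientGroup.mk' N (α g)) ∧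
      Ok β m c := by
  have he : N.map (α : G →* G) = N := by
    apply le_antisymm
    · rintro _ ⟨x, hx, rfl⟩
      exact hN x hx
    · intro x hx
      exact ⟨α x, hN x hx, h.inv x⟩
  refine ⟨QuotientGroup.congr N N α he, fun g => rfl, ?_⟩
  exact h.map (QuotientGroup.mk' N) (QuotientGroup.mk'_surjective N) _ (fun g => rfl)

/-- Abelianization bound. -/
theorem Ok.index_commutator_le [Finite G] {α : G ≃* G} {m c : ℕ} (h : Ok α m c) :
    (commutator G).index ≤ m := by
  have hN : ∀ x ∈ commutator G, α x ∈ commutator G := by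
    intro x hx
    have : (commutator G).map (α : G →* G) ≤ commutator G := by
      rw [map_commutator_eq, commutator_def]
      exact Subgroup.commutator_mono le_top le_top
    exact this ⟨x, hx, rfl⟩
  obtain ⟨β, -, hβ⟩ := h.quot (commutator G) hN
  have hcomm : ∀ a b : G ⧸ commutator G, a * b = b * a := by
    intro a b
    exact @mul_comm (Abelianization G) _ a b
  have hJ : ∀ q : G ⧸ commutator G, q ∈ JS β := by
    intro q
    have hq : q ∈ Subgroup.closure (JS β) := by rw [hβ.gen]; trivial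
    induction hq using Subgroup.closure_induction with
    | mem x hx => exact hx
    | one => exact ⟨by simp, by simp⟩
    | mul x y _ _ hx hy =>
      refine ⟨?_, by rw [map_mul, hx.2, hy.2, mul_inv_rev, hcomm]⟩
      exact Odd.of_dvd_nat (hx.1.mul hy.1) (Commute.orderOf_mul_dvd_mul_orderOf (show Commute x y from hcomm x y))
    | inv x _ hx => exact ⟨by rw [orderOf_inv]; exact hx.1, by rw [map_inv, hx.2]⟩
  calc (commutator G).index = Nat.card (G ⧸ commutator G) := rfl
    _ ≤ Nat.card (JS β) := Nat.card_le_card_of_injective (fun q => ⟨q, hJ q⟩)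
        (fun a b hab => by simpa using hab)
    _ ≤ m := hβ.cardJ

end H78.InvOdd
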