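import Mathlib
import Cfsg.Agent.Lib.H78.InvOdd1

/-! Groups with an involutory automorphism: elements of odd order inverted by it. Part 2. -/

set_option autoImplicit false
set_option linter.all false

namespace H78.InvOdd

open Subgroup
open scoped commutatorElement

variable {G : Type*} [Group G]

/-- Bound for relative indices of centralizers by number of commutators. -/
theorem relIndex_centralizer_le [Finite G] (v : G) (K : Subgroup G) (S : Set G)
    (h : ∀ g ∈ K, ⁅v, g⁆ ∈ S) : (centralizer {v}).relIndex K ≤ Nat.card S := by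
  classical
  show Nat.card (K ⧸ (centralizer {v}).subgroupOf K) ≤ Nat.card S
  let Φ : K ⧸ (centralizer {v}).subgroupOf K → S := fun q => ⟨⁅v, (q.out : G)⁆, h _ q.out.2⟩
  apply Nat.card_le_card_of_injective Φ
  intro q q' hqq
  have h1 : ⁅v, (q.out : G)⁆ = ⁅v, (q'.out : G)⁆ := congrArg Subtype.val hqq
  rw [← Quotient.out_eq q, ← Quotient.out_eq q']
  apply QuotientGroup.eq.mpr
  rw [Subgroup.mem_subgroupOf, Subgroup.mem_centralizer_singleton_iff]
  rw [commutatorElement_def, commutatorElement_def] at h1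
  have h2 : (q.out : G) * v⁻¹ * (q.out : G)⁻¹ = (q'.out : G) * v⁻¹ * (q'.out : G)⁻¹ := by
    have := congrArg (fun t => v⁻¹ * t) h1
    simpa [mul_assoc] using this
  have h3 : (q.out : G) * v * (q.out : G)⁻¹ = (q'.out : G) * v * (q'.out : G)⁻¹ := by
    have := congrArg (fun t => t⁻¹) h2
    simpa [mul_assoc] using this
  push_cast
  have h4 : (q'.out : G) * v = (q.out : G) * v * (q.out : G)⁻¹ * (q'.out : G) := by
    rw [h3]; group
  have h5 : (q.out : G)⁻¹ * ((q'.out : G) * v) = v * ((q.out : G)⁻¹ * (q'.out : G)) := by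
    rw [h4]; group
  rw [mul_assoc, h5]

theorem index_centralizer_le [Finite G] (v : G) (S : Set G)
    (h : ∀ g, ⁅v, g⁆ ∈ S) : (centralizer {v}).index ≤ Nat.card S := by
  rw [← relIndex_top_right]
  exact relIndex_centralizer_le v ⊤ S (fun g _ => h g)

section D

variable [Finite G] {α : G ≃* G} {m c : ℕ} (h : Ok α m c) (V : Subgroup G) [V.Normal]
  (hVa : ∀ x ∈ V, α x ∈ V) (hVc : ∀ x ∈ V, ∀ y ∈ V, x * y = y * x)

include h hVa hVc

theorem relIndex_cent_le {g : G} (hg : g ∈ JS α) :
    (centralizer {g}).relIndex V ≤ c * c := by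
  classical
  obtain ⟨r, ⟨-, hr2⟩, hr3, -⟩ := exists_sqrt hg
  have hν : ∀ u ∈ V, u * α u ∈ CS α := by
    intro u hu
    show α (u * α u) = u * α u
    rw [map_mul, h.inv, hVc _ (hVa u hu) _ hu]
  have hr : ∀ u ∈ V, r⁻¹ * u * r ∈ V := by
    intro u hu
    have := (inferInstance : V.Normal).conj_mem u hu r⁻¹
    simpa using this
  show Nat.card (V ⧸ (centralizer {g}).subgroupOf V) ≤ c * c
  let Φ : V ⧸ (centralizer {g}).subgroupOf V → CS α × CS α := fun q =>
    (⟨_, hν q.out.1 q.out.2⟩, ⟨_, hν _ (hr q.out.1 q.out.2)⟩)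
  have hinj : Function.Injective Φ := by
    intro q q' hqq
    have h1 := congrArg (fun z => (z.1 : G)) hqq
    have h2 := congrArg (fun z => (z.2 : G)) hqq
    simp only [Φ] at h1 h2
    rw [← Quotient.out_eq q, ← Quotient.out_eq q']
    apply QuotientGroup.eq.mpr
    rw [Subgroup.mem_subgroupOf, Subgroup.mem_centralizer_singleton_iff]
    push_cast
    generalize (q.out : V) = a at h1 h2
    generalize (q'.out : V) = b at h1 h2
    obtain ⟨a, ha⟩ := a
    obtain ⟨b, hb⟩ := b
    simp only at h1 h2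
    show a⁻¹ * b * g = g * (a⁻¹ * b)
    set u := a⁻¹ * b with hu
    have huV : u ∈ V := V.mul_mem (V.inv_mem ha) hb
    have e1 : α u = u⁻¹ := by
      -- a α a = b α b
      have e2 : a⁻¹ * b = α a * (α b)⁻¹ := by
        have e3 : α a = a⁻¹ * (b * α b) := by rw [← h1]; group
        rw [e3]; group
      have e4 : α u = (α a)⁻¹ * α b := by rw [hu, map_mul, map_inv]
      rw [e4]
      have e5 : (α a)⁻¹ * α b = α b * (α a)⁻¹ :=
        hVc _ (V.inv_mem (hVa a ha)) _ (hVa b hb)
      rw [e5, hu, e2]; group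
    have hmulr : ∀ x ∈ V, ∀ y ∈ V, r⁻¹ * (x * y) * r = (r⁻¹ * x * r) * (r⁻¹ * y * r) := by
      intro x _ y _; group
    have f1 : α (r⁻¹ * u * r) = (r⁻¹ * u * r)⁻¹ := by
      set a' := r⁻¹ * a * r with ha'
      set b' := r⁻¹ * b * r with hb'
      have ha'V : a' ∈ V := hr a ha
      have hb'V : b' ∈ V := hr b hb
      have hu' : r⁻¹ * u * r = a'⁻¹ * b' := by rw [ha', hb', hu]; group
      rw [hu']
      have e2 : a'⁻¹ * b' = α a' * (α b')⁻¹ := by
        have e3 : α a' = a'⁻¹ * (b' * α b') := by rw [← h2]; group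
        rw [e3]; group
      have e4 : α (a'⁻¹ * b') = (α a')⁻¹ * α b' := by rw [map_mul, map_inv]
      rw [e4]
      have e5 : (α a')⁻¹ * α b' = α b' * (α a')⁻¹ :=
        hVc _ (V.inv_mem (hVa a' ha'V)) _ (hVa b' hb'V)
      rw [e5, e2]; group
    rw [map_mul, map_mul, map_inv, hr2, e1, inv_inv] at f1
    -- r * u⁻¹ * r⁻¹ = r⁻¹ * u⁻¹ * r
    have f2 : r * u⁻¹ * r⁻¹ = r⁻¹ * u⁻¹ * r := by rw [f1]; group
    have f3 : r * u * r⁻¹ = r⁻¹ * u * r := by
      have := congrArg (fun t => t⁻¹) f2
      simpa [mul_assoc] using this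
    rw [← hr3]
    have f4 : u * r = r * (r * u * r⁻¹) := by rw [f3]; group
    calc u * (r * r) = (u * r) * r := by group
      _ = r * (r * u * r⁻¹) * r := by rw [f4]
      _ = r * r * u := by group
  calc Nat.card (V ⧸ (centralizer {g}).subgroupOf V) ≤ Nat.card (CS α × CS α) :=
        Nat.card_le_card_of_injective Φ hinj
    _ = Nat.card (CS α) * Nat.card (CS α) := Nat.card_prod _ _
    _ ≤ c * c := Nat.mul_le_mul h.cardC h.cardC

theorem relIndex_center_le : (center G).relIndex V ≤ (c * c) ^ m := by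
  classical
  haveI : Fintype (JS α) := Fintype.ofFinite _
  have h1 : center G = ⨅ j : JS α, centralizer {(j : G)} := by
    apply le_antisymm
    · exact le_iInf fun j => Subgroup.center_le_centralizer _
    · intro x hx
      rw [Subgroup.mem_iInf] at hx
      rw [Subgroup.mem_center_iff]
      intro y
      have hy : y ∈ Subgroup.closure (JS α) := by rw [h.gen]; trivial
      induction hy using Subgroup.closure_induction with
      | mem y hy => exact (Subgroup.mem_centralizer_singleton_iff.mp (hx ⟨y, hy⟩)).symm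
      | one => simp
      | mul y z _ _ hy hz => rw [mul_assoc, hz, ← mul_assoc, hy, mul_assoc]
      | inv y _ hy =>
        have : Commute y x := hy
        exact this.inv_left
  rw [h1]
  refine le_trans (relIndex_iInf_le _) ?_
  calc ∏ j : JS α, (centralizer {(j : G)}).relIndex V ≤ ∏ j : JS α, (c * c) :=
        Finset.prod_le_prod' fun j _ => relIndex_cent_le h V hVa hVc j.2
    _ = (c * c) ^ Nat.card (JS α) := by rw [Finset.prod_const, Finset.card_univ, Nat.card_eq_fintype_card]
    _ ≤ (c * c) ^ m := Nat.pow_le_pow_right (Nat.mul_pos h.cpos h.cpos) h.cardJ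

/-- `[V, G]` is small. -/
theorem card_commutator_le : Nat.card (⁅V, (⊤ : Subgroup G)⁆ : Subgroup G) ≤ (c * c) ^ m := by
  classical
  haveI : Fintype (JS α) := Fintype.ofFinite _
  letI : CommGroup V := { (inferInstance : Group V) with
    mul_comm := fun a b => Subtype.ext (hVc a a.2 b b.2) }
  have hconj : ∀ (g v : G), v ∈ V → g * v * g⁻¹ ∈ V := fun g v hv =>
    (inferInstance : V.Normal).conj_mem v hv g
  have hcV : ∀ (v g : G), v ∈ V → ⁅v, g⁆ ∈ V := by
    intro v g hv
    rw [commutatorElement_def]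
    have : v * g * v⁻¹ * g⁻¹ = v * (g * v⁻¹ * g⁻¹) := by group
    rw [this]
    exact V.mul_mem hv (hconj g _ (V.inv_mem hv))
  -- the homs `δ_g`
  let δ : G → (V →* V) := fun g =>
    { toFun := fun v => ⟨⁅(v : G), g⁆, hcV _ _ v.2⟩
      map_one' := by apply Subtype.ext; simp
      map_mul' := by
        intro a b
        apply Subtype.ext
        show ⁅(a : G) * b, g⁆ = ⁅(a : G), g⁆ * ⁅(b : G), g⁆
        have e1 : ⁅(a : G) * b, g⁆ = a * ⁅(b : G), g⁆ * (g * (a : G)⁻¹ * g⁻¹) := by
          rw [commutatorElement_def, commutatorElement_def]; group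
        have e2 : ⁅(a : G), g⁆ = a * (g * (a : G)⁻¹ * g⁻¹) := by
          rw [commutatorElement_def]; group
        rw [e1, e2]
        have e3 := hVc _ (hcV b g b.2) _ (hconj g _ (V.inv_mem a.2))
        rw [mul_assoc, e3, ← mul_assoc] }
  have hδ : ∀ g v, ((δ g v : V) : G) = ⁅(v : G), g⁆ := fun g v => rfl
  have hδcard : ∀ j : JS α, Nat.card (δ j).range ≤ c * c := by
    intro j
    rw [← index_ker]
    refine le_trans ?_ (relIndex_cent_le h V hVa hVc j.2)
    apply le_of_eq
    show (δ j).ker.index = ((centralizer {(j : G)}).subgroupOf V).index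
    congr 1
    ext v
    rw [MonoidHom.mem_ker, Subgroup.mem_subgroupOf, Subgroup.mem_centralizer_singleton_iff]
    constructor
    · intro hv
      have := congrArg (fun z : V => (z : G)) hv
      have h2 : ⁅(v : G), (j : G)⁆ = 1 := this
      exact commutatorElement_eq_one_iff_mul_comm.mp h2
    · intro hv
      apply Subtype.ext
      show ⁅(v : G), (j : G)⁆ = 1
      exact commutatorElement_eq_one_iff_mul_comm.mpr hv
  -- the product map
  let P : ((j : JS α) → (δ j).range) →* V :=
    ∏ j : JS α, ((δ j).range.subtype.comp (Pi.evalMonoidHom (fun j : JS α => (δ j).range) j))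
  have hP : ∀ w, P w = ∏ j : JS α, ((w j : V)) := by
    intro w
    simp [P, MonoidHom.finset_prod_apply]
  have hPr : Nat.card P.range ≤ (c * c) ^ m := by
    calc Nat.card P.range ≤ Nat.card ((j : JS α) → (δ j).range) :=
          Nat.card_le_card_of_surjective _ P.rangeRestrict_surjective
      _ = ∏ j : JS α, Nat.card (δ j).range := Nat.card_pi
      _ ≤ ∏ j : JS α, (c * c) := Finset.prod_le_prod' fun j _ => hδcard j
      _ = (c * c) ^ Nat.card (JS α) := by
          rw [Finset.prod_const, Finset.card_univ, Nat.card_eq_fintype_card]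
      _ ≤ (c * c) ^ m := Nat.pow_le_pow_right (Nat.mul_pos h.cpos h.cpos) h.cardJ
  have hPδ : ∀ j : JS α, (δ j).range ≤ P.range := by
    intro j x hx
    refine ⟨Pi.mulSingle j ⟨x, hx⟩, ?_⟩
    rw [hP, Finset.prod_eq_single j]
    · simp
    · intro b _ hb
      rw [Pi.mulSingle_eq_of_ne hb]; rfl
    · intro hj; exact absurd (Finset.mem_univ _) hj
  set W : Subgroup G := P.range.map V.subtype with hW
  have hWV : W ≤ V := by
    rintro _ ⟨x, _, rfl⟩; exact x.2
  have hS : ∀ g : G, ∀ v ∈ V, ⁅v, g⁆ ∈ W := by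
    intro g
    have hg : g ∈ Subgroup.closure (JS α) := by rw [h.gen]; trivial
    induction hg using Subgroup.closure_induction with
    | mem g hg =>
      intro v hv
      exact ⟨δ g ⟨v, hv⟩, hPδ ⟨g, hg⟩ ⟨⟨v, hv⟩, rfl⟩, rfl⟩
    | one => intro v hv; rw [commutatorElement_one_right]; exact W.one_mem
    | mul x y _ _ hx hy =>
      intro v hv
      have e1 : ⁅v, x * y⁆ = ⁅v, x⁆ * (⁅v, y⁆ * ⁅(⁅v, y⁆)⁻¹, x⁆) := by
        simp only [commutatorElement_def]; group
      rw [e1]
      exact W.mul_mem (hx v hv) (W.mul_mem (hy v hv) (hx _ (V.inv_mem (hWV (hy v hv)))))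
    | inv x _ hx =>
      intro v hv
      have hv' : x⁻¹ * v⁻¹ * x ∈ V := by
        have := hconj x⁻¹ _ (V.inv_mem hv)
        simpa using this
      have e1 : ⁅v, x⁻¹⁆ = v * (x⁻¹ * v⁻¹ * x) := by
        rw [commutatorElement_def]; group
      have e2 : ⁅x⁻¹ * v⁻¹ * x, x⁆ = (x⁻¹ * v⁻¹ * x) * v := by
        rw [commutatorElement_def]; group
      rw [e1, hVc v hv _ hv', ← e2]
      exact hx _ hv'
  have hle : (⁅V, (⊤ : Subgroup G)⁆ : Subgroup G) ≤ W := by
    rw [Subgroup.commutator_le]
    intro v hv g _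
    exact hS g v hv
  calc Nat.card (⁅V, (⊤ : Subgroup G)⁆ : Subgroup G) ≤ Nat.card W :=
        Nat.card_le_card_of_injective (Subgroup.inclusion hle) (Subgroup.inclusion_injective hle)
    _ = Nat.card P.range := Nat.card_congr (P.range.equivMapOfInjective _ V.subtype_injective).symm.toEquiv
    _ ≤ _ := hPr

end D

end H78.InvOdd
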