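import Mathlib
import Cfsg.Agent.Lib.H78.InvOdd2

/-! Groups with an involutory automorphism: elements of odd order inverted by it. Part 3:
a Brauer–Fowler count, and the intersection of the kernels of permutation actions of small degree. -/

set_option autoImplicit false
set_option linter.all false

namespace H78.InvOdd

open Subgroup
open scoped commutatorElement

variable {G : Type*} [Group G]

theorem exists_small_index [Finite G] {α : G ≃* G} {m c : ℕ} (h : Ok α m c)
    (hbig : 2 * c * m < Nat.card G) : ∃ z : G, z ≠ 1 ∧ (centralizer {z}).index ≤ 2 * c * c := by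
  classical
  by_contra hcon
  push_neg at hcon
  haveI : Fintype G := Fintype.ofFinite G
  let θ : G → G := fun g => g⁻¹ * α g
  have hex : ∀ t : G, ∃ x : G, (∃ g, θ g = t) → θ x = t := by
    intro t
    by_cases h : ∃ g, θ g = t
    · obtain ⟨g, hg⟩ := h
      exact ⟨g, fun _ => hg⟩
    · exact ⟨1, fun h' => absurd h' h⟩
  choose x hx using hex
  have hmem : ∀ g, g * (x (θ g))⁻¹ ∈ CS α := by
    intro g
    have h1 : θ (x (θ g)) = θ g := hx _ ⟨g, rfl⟩
    have h2 : (x (θ g))⁻¹ * α (x (θ g)) = g⁻¹ * α g := h1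
    show α (g * (x (θ g))⁻¹) = g * (x (θ g))⁻¹
    rw [map_mul, map_inv]
    have h3 : α (x (θ g)) = x (θ g) * (g⁻¹ * α g) := by rw [← h2, mul_inv_cancel_left]
    rw [h3, mul_inv_rev, mul_inv_rev, inv_inv]
    group
  have hcard1 : Nat.card G ≤ Nat.card (Set.range θ) * c := by
    have : Function.Injective (fun g : G => ((⟨θ g, g, rfl⟩ : Set.range θ),
        (⟨_, hmem g⟩ : CS α))) := by
      intro a b hab
      have h1 := congrArg (fun z => (z.1 : G)) hab
      have h2 := congrArg (fun z => (z.2 : G)) hab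
      simp only at h1 h2
      rw [h1] at h2
      exact mul_right_cancel h2
    have h2 := Nat.card_le_card_of_injective _ this
    rw [Nat.card_prod] at h2
    exact h2.trans (Nat.mul_le_mul_left _ h.cardC)
  have hinv : ∀ g ∈ Set.range θ, α g = g⁻¹ := by
    rintro _ ⟨g, rfl⟩
    show α (g⁻¹ * α g) = (g⁻¹ * α g)⁻¹
    rw [map_mul, map_inv, h.inv, mul_inv_rev, inv_inv]
  -- even elements
  let E : Set G := {g | α g = g⁻¹ ∧ ¬ Odd (orderOf g)}
  have hcard2 : Nat.card (Set.range θ) ≤ m + Nat.card E := by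
    have h1 : Set.range θ ⊆ JS α ∪ E := by
      intro g hg
      by_cases ho : Odd (orderOf g)
      · exact Or.inl ⟨ho, hinv g hg⟩
      · exact Or.inr ⟨hinv g hg, ho⟩
    calc Nat.card (Set.range θ) ≤ Nat.card (JS α ∪ E : Set G) := Nat.card_mono (Set.toFinite _) h1
      _ ≤ Nat.card (JS α) + Nat.card E := by
          have := Set.ncard_union_le (JS α) E
          rwa [← Nat.card_coe_set_eq, ← Nat.card_coe_set_eq, ← Nat.card_coe_set_eq] at this
      _ ≤ m + Nat.card E := Nat.add_le_add_right h.cardJ _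
  -- map to fixed points
  let Z : Type _ := {z : G // z ∈ CS α ∧ z ≠ 1}
  have hz : ∀ g : E, ∃ z : Z, (g : G) ∈ centralizer {(z : G)} := by
    rintro ⟨g, hg1, hg2⟩
    rw [Nat.not_odd_iff_even] at hg2
    obtain ⟨k, hk⟩ := hg2
    have hpos : 0 < orderOf g := orderOf_pos g
    have hk0 : 0 < k := by omega
    have h1 : g ^ k ≠ 1 := pow_ne_one_of_lt_orderOf hk0.ne' (by omega)
    have h2 : g ^ k * g ^ k = 1 := by rw [← pow_add, ← hk, pow_orderOf_eq_one]
    refine ⟨⟨g ^ k, ?_, h1⟩, ?_⟩
    · show α (g ^ k) = g ^ k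
      rw [map_pow, hg1, inv_pow]
      exact inv_eq_of_mul_eq_one_left h2
    · rw [Subgroup.mem_centralizer_singleton_iff]
      exact (Commute.pow_right (Commute.refl g) k)
  choose ζ hζ using hz
  have hcard3 : Nat.card E ≤ ∑ z : Z, Nat.card (centralizer {(z : G)}) := by
    have hinj : Function.Injective (fun g : E => (⟨ζ g, ⟨g, hζ g⟩⟩ :
        Σ z : Z, centralizer {(z : G)})) := by
      intro a b hab
      rw [Sigma.mk.injEq] at hab
      obtain ⟨h1, h2⟩ := hab
      apply Subtype.ext
      revert h2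
      generalize hζ a = pa
      generalize hζ b = pb
      revert pa pb
      rw [h1]
      intro pa pb h2
      have := eq_of_heq h2
      have h9 := congrArg Subtype.val this
      exact h9
    have := Nat.card_le_card_of_injective _ hinj
    rwa [Nat.card_sigma] at this
  have hcard4 : (∑ z : Z, Nat.card (centralizer {(z : G)})) * (2 * c * c) ≤ c * Nat.card G := by
    rw [Finset.sum_mul]
    calc ∑ z : Z, Nat.card (centralizer {(z : G)}) * (2 * c * c) ≤ ∑ z : Z, Nat.card G := by
          apply Finset.sum_le_sum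
          intro z _
          rw [← (centralizer {(z : G)}).card_mul_index]
          exact Nat.mul_le_mul_left _ (hcon z.1 z.2.2).le
      _ = Nat.card Z * Nat.card G := by
          rw [Finset.sum_const, Finset.card_univ, Nat.card_eq_fintype_card (α := Z), smul_eq_mul]
      _ ≤ c * Nat.card G := by
          apply Nat.mul_le_mul_right
          refine le_trans ?_ h.cardC
          exact Nat.card_le_card_of_injective (fun z : Z => (⟨z.1, z.2.1⟩ : CS α))
            (fun a b hab => Subtype.ext (congrArg (fun t : CS α => (t : G)) hab))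
  have hc := h.cpos
  have h5 : Nat.card E * (2 * c) ≤ Nat.card G := by
    have h6 : Nat.card E * (2 * c * c) ≤ c * Nat.card G :=
      le_trans (Nat.mul_le_mul_right _ hcard3) hcard4
    have h7 : c * (Nat.card E * (2 * c)) ≤ c * Nat.card G := by
      calc c * (Nat.card E * (2 * c)) = Nat.card E * (2 * c * c) := by ring
        _ ≤ _ := h6
    exact Nat.le_of_mul_le_mul_left h7 hc
  have h8 : Nat.card G ≤ (m + Nat.card E) * c := hcard1.trans (Nat.mul_le_mul_right _ hcard2)
  nlinarith

/-- Intersection of the kernels of all actions of degree `k`. -/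
def Tk (G : Type*) [Group G] (k : ℕ) : Subgroup G := ⨅ φ : G →* Equiv.Perm (Fin k), φ.ker

instance (k : ℕ) : (Tk G k).Normal := Subgroup.normal_iInf_normal (fun φ => inferInstance)

theorem Tk_map (α : G ≃* G) {k : ℕ} : ∀ x ∈ Tk G k, α x ∈ Tk G k := by
  intro x hx
  rw [Tk, Subgroup.mem_iInf] at hx ⊢
  intro φ
  exact hx (φ.comp (α : G →* G))

theorem Tk_le [Finite G] {k : ℕ} (L : Subgroup G) (hL : L.index ≤ k) : Tk G k ≤ L := by
  classical
  haveI : Fintype (G ⧸ L) := Fintype.ofFinite _
  have hcard : Fintype.card (G ⧸ L) ≤ Fintype.card (Fin k) := by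
    rw [Fintype.card_fin, ← Nat.card_eq_fintype_card]; exact hL
  obtain ⟨e⟩ := Function.Embedding.nonempty_of_card_le hcard
  intro x hx
  rw [Tk, Subgroup.mem_iInf] at hx
  have h1 := hx ((Equiv.Perm.viaEmbeddingHom e).comp (MulAction.toPermHom G (G ⧸ L)))
  rw [MonoidHom.mem_ker, MonoidHom.comp_apply] at h1
  have h2 : MulAction.toPermHom G (G ⧸ L) x = 1 :=
    Equiv.Perm.viaEmbeddingHom_injective e (by rw [h1, map_one])
  have h3 := congrArg (fun p : Equiv.Perm (G ⧸ L) => p ((1 : G) : G ⧸ L)) h2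
  have h4 : (x • ((1 : G) : G ⧸ L)) = ((1 : G) : G ⧸ L) := h3
  have h5 : ((x * 1 : G) : G ⧸ L) = ((1 : G) : G ⧸ L) := h4
  rw [mul_one] at h5
  have h6 := QuotientGroup.eq.mp h5
  rw [mul_one] at h6
  exact (L.inv_mem_iff).mp h6

theorem index_Tk_le [Finite G] {α : G ≃* G} {m c : ℕ} (h : Ok α m c) (k : ℕ) :
    (Tk G k).index ≤ (k.factorial) ^ ((k.factorial) ^ m) := by
  classical
  have hfin : Function.Injective (fun (φ : G →* Equiv.Perm (Fin k)) (j : JS α) => φ j) := by
    intro φ ψ hφψ
    apply MonoidHom.eq_of_eqOn_dense h.gen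
    intro j hj
    exact congrFun hφψ ⟨j, hj⟩
  haveI : Finite (G →* Equiv.Perm (Fin k)) := Finite.of_injective _ hfin
  haveI : Fintype (G →* Equiv.Perm (Fin k)) := Fintype.ofFinite _
  have hP : Nat.card (Equiv.Perm (Fin k)) = k.factorial := by
    rw [Nat.card_eq_fintype_card, Fintype.card_perm, Fintype.card_fin]
  have hcard : Nat.card (G →* Equiv.Perm (Fin k)) ≤ (k.factorial) ^ m := by
    calc Nat.card (G →* Equiv.Perm (Fin k)) ≤ Nat.card (JS α → Equiv.Perm (Fin k)) :=
          Nat.card_le_card_of_injective _ hfin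
      _ = k.factorial ^ Nat.card (JS α) := by rw [Nat.card_fun, hP]
      _ ≤ k.factorial ^ m := Nat.pow_le_pow_right (Nat.factorial_pos k) h.cardJ
  calc (Tk G k).index ≤ ∏ φ : (G →* Equiv.Perm (Fin k)), φ.ker.index := index_iInf_le _
    _ ≤ ∏ φ : (G →* Equiv.Perm (Fin k)), k.factorial := by
        apply Finset.prod_le_prod'
        intro φ _
        rw [index_ker, ← hP]
        exact Nat.card_le_card_of_injective _ Subtype.val_injective
    _ = k.factorial ^ Nat.card (G →* Equiv.Perm (Fin k)) := by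
        rw [Finset.prod_const, Finset.card_univ, Nat.card_eq_fintype_card]
    _ ≤ _ := Nat.pow_le_pow_right (Nat.factorial_pos k) hcard

/-- Elements of an abelian normal invariant subgroup have few conjugates. -/
theorem index_cent_abelian_le [Finite G] {α : G ≃* G} {m c : ℕ} (h : Ok α m c) (V : Subgroup G)
    [V.Normal] (hVa : ∀ x ∈ V, α x ∈ V) (hVc : ∀ x ∈ V, ∀ y ∈ V, x * y = y * x) {v : G}
    (hv : v ∈ V) : (centralizer {v}).index ≤ (c * c) ^ m := by
  refine le_trans (index_centralizer_le v (⁅V, (⊤ : Subgroup G)⁆ : Subgroup G) ?_) ?_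
  · intro g
    exact Subgroup.commutator_mem_commutator hv (Subgroup.mem_top g)
  · exact card_commutator_le h V hVa hVc

/-- `Tk` centralizes abelian normal invariant sections. -/
theorem commutator_Tk_le [Finite G] {α : G ≃* G} {m c : ℕ} (h : Ok α m c) {k : ℕ}
    (hk : (c * c) ^ m ≤ k) (N V : Subgroup G) [N.Normal] [V.Normal] (hNa : ∀ x ∈ N, α x ∈ N)
    (hVa : ∀ x ∈ V, α x ∈ V) (hVN : ⁅V, V⁆ ≤ N) : ⁅V, Tk G k⁆ ≤ N := by
  obtain ⟨β, hβ, hok⟩ := h.quot N hNa
  set f := QuotientGroup.mk' N with hf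
  have hfs : Function.Surjective f := QuotientGroup.mk'_surjective N
  haveI : (V.map f).Normal := Subgroup.Normal.map inferInstance f hfs
  have hker : ∀ x : G, f x = 1 ↔ x ∈ N := fun x => QuotientGroup.eq_one_iff x
  have h1 : ∀ x ∈ V.map f, β x ∈ V.map f := by
    rintro _ ⟨x, hx, rfl⟩
    exact ⟨α x, hVa x hx, (hβ x).symm⟩
  have h2 : ∀ x ∈ V.map f, ∀ y ∈ V.map f, x * y = y * x := by
    rintro _ ⟨x, hx, rfl⟩ _ ⟨y, hy, rfl⟩
    rw [← commutatorElement_eq_one_iff_mul_comm, ← map_commutatorElement, hker]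
    exact hVN (Subgroup.commutator_mem_commutator hx hy)
  rw [Subgroup.commutator_le]
  intro v hv t ht
  have h3 := index_cent_abelian_le hok (V.map f) h1 h2 (Subgroup.mem_map_of_mem f hv)
  have h4 : ((centralizer {f v}).comap f).index ≤ k := by
    rw [index_comap_of_surjective _ hfs]; exact h3.trans hk
  have h5 := Tk_le _ h4 ht
  rw [Subgroup.mem_comap, Subgroup.mem_centralizer_singleton_iff] at h5
  rw [← hker, map_commutatorElement, commutatorElement_eq_one_iff_mul_comm]
  exact h5.symm

end H78.InvOdd
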