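import Mathlib
import Cfsg.Agent.Lib.H78.InvOdd3

/-! Groups with an involutory automorphism: elements of odd order inverted by it. Part 4:
the order bound. -/

set_option autoImplicit false
set_option linter.all false

namespace H78.InvOdd

open Subgroup
open scoped commutatorElement

variable {G : Type*} [Group G]

/-- Iterated commutator with `T`. -/
def cc (T : Subgroup G) (N : Subgroup G) : ℕ → Subgroup G
  | 0 => N
  | n + 1 => ⁅cc T N n, T⁆

theorem cc_mono (T : Subgroup G) {N N' : Subgroup G} (h : N ≤ N') (n : ℕ) :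
    cc T N n ≤ cc T N' n := by
  induction n with
  | zero => exact h
  | succ n ih => exact Subgroup.commutator_mono ih le_rfl

theorem cc_succ' (T : Subgroup G) (N : Subgroup G) (n : ℕ) :
    cc T N (n + 1) = cc T ⁅N, T⁆ n := by
  induction n with
  | zero => rfl
  | succ n ih => 
    show ⁅cc T N (n + 1), T⁆ = ⁅cc T ⁅N, T⁆ n, T⁆
    rw [ih]

theorem eq_bot_of_le_comm (T X : Subgroup G) (h : X ≤ ⁅X, T⁆) {n : ℕ} (hn : cc T X n = ⊥) :
    X = ⊥ := by
  have : ∀ j, X ≤ cc T X j := by
    intro j
    induction j with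
    | zero => exact le_rfl
    | succ j ih => exact h.trans (Subgroup.commutator_mono ih le_rfl)
  rw [eq_bot_iff, ← hn]
  exact this n

theorem map_comm_inv {α : G ≃* G} {A B : Subgroup G} (hA : ∀ x ∈ A, α x ∈ A)
    (hB : ∀ x ∈ B, α x ∈ B) : ∀ x ∈ (⁅A, B⁆ : Subgroup G), α x ∈ (⁅A, B⁆ : Subgroup G) := by
  intro x hx
  have h1 : (⁅A, B⁆ : Subgroup G).map (α : G →* G) ≤ ⁅A, B⁆ := by
    rw [Subgroup.map_commutator]
    apply Subgroup.commutator_mono
    · rintro _ ⟨y, hy, rfl⟩; exact hA y hy
    · rintro _ ⟨y, hy, rfl⟩; exact hB y hy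
  exact h1 ⟨x, hx, rfl⟩

theorem index_center_bound [Finite G] {α : G ≃* G} {m c : ℕ} (h : Ok α m c) {d k t : ℕ}
    (hd : d = (c * c) ^ m) (hk : k = 2 * c * c + m * d + d)
    (ht : t = (k.factorial) ^ ((k.factorial) ^ m)) :
    (center G).index ≤ (2 * c * m * t) * d * d := by
  classical
  have hm := h.mpos
  have hc := h.cpos
  set T := Tk G k with hT
  have hTa : ∀ x ∈ T, α x ∈ T := Tk_map α
  have hTi : T.index ≤ t := by rw [ht]; exact index_Tk_le h k
  have hdk : (c * c) ^ m ≤ k := by rw [hk, ← hd]; omega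
  -- maximal normal subgroup with nilpotent action
  let S : Set (Subgroup G) := {N | N.Normal ∧ (∀ x ∈ N, α x ∈ N) ∧ ∃ n, cc T N n = ⊥}
  have hS0 : (⊥ : Subgroup G) ∈ S := by
    refine ⟨inferInstance, ?_, 0, rfl⟩
    intro x hx
    rw [Subgroup.mem_bot] at hx ⊢
    rw [hx, map_one]
  obtain ⟨N, hNmax⟩ := (Set.toFinite S).exists_maximal ⟨_, hS0⟩
  obtain ⟨hNn, hNa, n, hn⟩ := hNmax.prop
  haveI := hNn
  -- step 2
  have hNi : N.index ≤ 2 * c * m := by
    by_contra hcon
    push_neg at hcon
    obtain ⟨β, hβ, hok⟩ := h.quot N hNa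
    set f := QuotientGroup.mk' N with hf
    have hfs : Function.Surjective f := QuotientGroup.mk'_surjective N
    have hker : ∀ x : G, f x = 1 ↔ x ∈ N := fun x => QuotientGroup.eq_one_iff x
    obtain ⟨z, hz1, hzi⟩ := exists_small_index hok hcon
    haveI : (T.map f).Normal := Subgroup.Normal.map inferInstance f hfs
    set W : Subgroup G := (centralizer (T.map f : Set (G ⧸ N))).comap f with hW
    have hWmem : ∀ x, x ∈ W ↔ ∀ t ∈ T, ⁅x, t⁆ ∈ N := by
      intro x
      rw [hW, Subgroup.mem_comap, Subgroup.mem_centralizer_iff]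
      constructor
      · intro hx t ht
        rw [← hker, map_commutatorElement, commutatorElement_eq_one_iff_mul_comm]
        exact (hx _ (Subgroup.mem_map_of_mem f ht)).symm
      · rintro hx _ ⟨t, ht, rfl⟩
        have := hx t ht
        rw [← hker, map_commutatorElement, commutatorElement_eq_one_iff_mul_comm] at this
        exact this.symm
    have hWS : W ∈ S := by
      refine ⟨?_, ?_, n + 1, ?_⟩
      · exact Subgroup.Normal.comap inferInstance f
      · intro x hx
        rw [hWmem] at hx ⊢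
        intro t ht
        have h1 := hNa _ (hx (α t) (hTa t ht))
        rw [map_commutatorElement, h.inv] at h1
        exact h1
      · rw [eq_bot_iff, ← hn, cc_succ']
        apply cc_mono
        rw [Subgroup.commutator_le]
        intro x hx t ht
        exact (hWmem x).mp hx t ht
    have hNW : N ≤ W := by
      intro x hx
      rw [hWmem]
      intro t _
      rw [commutatorElement_def]
      have : x * t * x⁻¹ * t⁻¹ = x * (t * x⁻¹ * t⁻¹) := by group
      rw [this]
      exact N.mul_mem hx (hNn.conj_mem _ (N.inv_mem hx) t)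
    have hWN : W ≤ N := hNmax.le_of_ge hWS hNW
    obtain ⟨x, rfl⟩ := hfs z
    apply hz1
    rw [hker]
    apply hWN
    rw [hWmem]
    intro t ht
    have h4 : ((centralizer {f x}).comap f).index ≤ k := by
      rw [index_comap_of_surjective _ hfs, hk]
      omega
    have h5 := Tk_le _ h4 ht
    rw [Subgroup.mem_comap, Subgroup.mem_centralizer_singleton_iff] at h5
    rw [← hker, map_commutatorElement, commutatorElement_eq_one_iff_mul_comm]
    exact h5.symm
  -- step 3
  set R : Subgroup G := N ⊓ T with hR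
  haveI : R.Normal := inferInstance
  have hRa : ∀ x ∈ R, α x ∈ R := fun x hx => ⟨hNa x hx.1, hTa x hx.2⟩
  have hRT : R ≤ T := inf_le_right
  set R' : Subgroup G := ⁅R, R⁆ with hR'
  haveI : R'.Normal := Subgroup.commutator_normal R R
  have hR'a : ∀ x ∈ R', α x ∈ R' := map_comm_inv hRa hRa
  have hR'R : R' ≤ R := Subgroup.commutator_le_right R R
  set R'' : Subgroup G := ⁅R', R'⁆ with hR''
  haveI : R''.Normal := Subgroup.commutator_normal R' R'
  have hR''a : ∀ x ∈ R'', α x ∈ R'' := map_comm_inv hR'a hR'a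
  have h31 : ⁅R', T⁆ ≤ R'' := commutator_Tk_le h hdk R'' R' hR''a hR'a le_rfl
  have h32 : R'' ≤ ⁅(⁅R', T⁆ : Subgroup G), T⁆ := by
    haveI : (⁅(⁅R', T⁆ : Subgroup G), T⁆ : Subgroup G).Normal := inferInstance
    apply H66.Commutators.three_subgroups R R R'
    · rw [Subgroup.commutator_comm R R']
      exact Subgroup.commutator_mono (Subgroup.commutator_mono le_rfl hRT) hRT
    · exact Subgroup.commutator_mono (Subgroup.commutator_mono le_rfl hRT) hRT
  have h33 : ⁅R', T⁆ = (⊥ : Subgroup G) := by
    apply eq_bot_of_le_comm T _ (h31.trans h32) (n := n)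
    rw [eq_bot_iff, ← hn]
    apply cc_mono
    exact (Subgroup.commutator_le_left R' T).trans (hR'R.trans inf_le_left)
  have hR'c : ∀ x ∈ R', ∀ t ∈ T, x * t = t * x := by
    intro x hx t ht
    rw [← commutatorElement_eq_one_iff_mul_comm, ← Subgroup.mem_bot, ← h33]
    exact Subgroup.commutator_mem_commutator hx ht
  have hR'ab : ∀ x ∈ R', ∀ y ∈ R', x * y = y * x := fun x hx y hy => hR'c x hx y (hRT (hR'R hy))
  -- step 4
  set D : Subgroup G := ⁅R', (⊤ : Subgroup G)⁆ with hD
  haveI : D.Normal := inferInstance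
  have hDcard : Nat.card D ≤ d := by rw [hd]; exact card_commutator_le h R' hR'a hR'ab
  obtain ⟨β, hβ, hok⟩ := h.quot R' hR'a
  set f := QuotientGroup.mk' R' with hf
  have hfs : Function.Surjective f := QuotientGroup.mk'_surjective R'
  have hker : ∀ x : G, f x = 1 ↔ x ∈ R' := fun x => QuotientGroup.eq_one_iff x
  haveI : (R.map f).Normal := Subgroup.Normal.map inferInstance f hfs
  have hRi : ((center (G ⧸ R')).comap f).relIndex R ≤ d := by
    rw [relIndex_comap, hd]
    apply relIndex_center_le hok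
    · rintro _ ⟨x, hx, rfl⟩
      exact ⟨α x, hRa x hx, (hβ x).symm⟩
    · rintro _ ⟨x, hx, rfl⟩ _ ⟨y, hy, rfl⟩
      rw [← commutatorElement_eq_one_iff_mul_comm, ← map_commutatorElement, hker]
      exact Subgroup.commutator_mem_commutator hx hy
  have h41 : ∀ x ∈ R, f x ∈ center (G ⧸ R') → x ∈ centralizer (T : Set G) := by
    intro x hx hxc
    have hxR : ∀ g, ⁅x, g⁆ ∈ R' := by
      intro g
      rw [← hker, map_commutatorElement, commutatorElement_eq_one_iff_mul_comm]
      exact (Subgroup.mem_center_iff.mp hxc (f g)).symm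
    let q := QuotientGroup.mk' D
    have hqk : ∀ y : G, q y = 1 ↔ y ∈ D := fun y => QuotientGroup.eq_one_iff y
    let ψ : G →* G ⧸ D :=
      { toFun := fun g => q ⁅x, g⁆
        map_one' := by rw [commutatorElement_one_right, map_one]
        map_mul' := by
          intro a b
          have e1 : ⁅x, a * b⁆ = ⁅x, a⁆ * (⁅x, b⁆ * ⁅(⁅x, b⁆)⁻¹, a⁆) := by
            simp only [commutatorElement_def]; group
          have e2 : q ⁅(⁅x, b⁆)⁻¹, a⁆ = 1 := by
            rw [hqk]
            exact Subgroup.commutator_mem_commutator (R'.inv_mem (hxR b)) (Subgroup.mem_top a)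
          rw [e1, map_mul, map_mul, e2, mul_one] }
    have hψ : ∀ g, ψ g = q ⁅x, g⁆ := fun g => rfl
    have hψc : ∀ a b, ψ a * ψ b = ψ b * ψ a := by
      intro a b
      rw [hψ, hψ, ← map_mul, ← map_mul, hR'ab _ (hxR a) _ (hxR b)]
    have hcle : _root_.commutator G ≤ ψ.ker := by
      rw [_root_.commutator_def, Subgroup.commutator_le]
      intro a _ b _
      rw [MonoidHom.mem_ker, map_commutatorElement, commutatorElement_eq_one_iff_mul_comm]
      exact hψc a b
    have hki : ψ.ker.index ≤ m :=
      le_trans (Subgroup.index_antitone hcle) h.index_commutator_le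
    have hrel : (centralizer {x}).relIndex ψ.ker ≤ d := by
      refine le_trans (relIndex_centralizer_le x ψ.ker (D : Set G) ?_) hDcard
      intro g hg
      rw [MonoidHom.mem_ker, hψ, hqk] at hg
      exact hg
    have hci : (centralizer {x}).index ≤ k := by
      have e1 : (centralizer {x} ⊓ ψ.ker).index = (centralizer {x}).relIndex ψ.ker * ψ.ker.index := by
        rw [← relIndex_mul_index (inf_le_right : centralizer {x} ⊓ ψ.ker ≤ ψ.ker),
          inf_relIndex_right]
      have e2 : (centralizer {x}).index ≤ (centralizer {x} ⊓ ψ.ker).index :=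
        Subgroup.index_antitone inf_le_left
      have e3 : (centralizer {x}).relIndex ψ.ker * ψ.ker.index ≤ d * m :=
        Nat.mul_le_mul hrel hki
      rw [hk]
      calc (centralizer {x}).index ≤ d * m := e2.trans (e1 ▸ e3)
        _ = m * d := mul_comm _ _
        _ ≤ 2 * c * c + m * d + d := by omega
    rw [Subgroup.mem_centralizer_iff]
    intro t ht
    have := Tk_le _ hci ht
    rw [Subgroup.mem_centralizer_singleton_iff] at this
    exact this
  -- V
  set V : Subgroup G := R ⊓ centralizer (T : Set G) with hV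
  haveI : V.Normal := inferInstance
  have hVa : ∀ x ∈ V, α x ∈ V := by
    intro x hx
    refine ⟨hRa x hx.1, ?_⟩
    show α x ∈ centralizer (T : Set G)
    rw [Subgroup.mem_centralizer_iff]
    intro t ht
    have h1 := Subgroup.mem_centralizer_iff.mp hx.2 (α t) (hTa t ht)
    have h2 := congrArg α h1
    rw [map_mul, map_mul, h.inv] at h2
    exact h2
  have hVc : ∀ x ∈ V, ∀ y ∈ V, x * y = y * x := by
    intro x hx y hy
    exact (Subgroup.mem_centralizer_iff.mp hy.2 x (hRT hx.1))
  have hVR : V.relIndex R ≤ d := by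
    have e1 : ((center (G ⧸ R')).comap f) ⊓ R ≤ V := by
      intro x hx
      exact ⟨hx.2, h41 x hx.2 hx.1⟩
    calc V.relIndex R ≤ (((center (G ⧸ R')).comap f) ⊓ R).relIndex R :=
          Subgroup.relIndex_le_of_le_left e1 (Subgroup.FiniteIndex.index_ne_zero)
      _ = ((center (G ⧸ R')).comap f).relIndex R := inf_relIndex_right _ _
      _ ≤ d := hRi
  have hVZ : (center G).relIndex V ≤ d := by rw [hd]; exact relIndex_center_le h V hVa hVc
  have hRidx : R.index ≤ 2 * c * m * t := index_inf_le.trans (Nat.mul_le_mul hNi hTi)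
  calc (center G).index ≤ (center G ⊓ V).index := Subgroup.index_antitone inf_le_left
    _ = (center G).relIndex V * V.index := by
        rw [← relIndex_mul_index (inf_le_right : center G ⊓ V ≤ V), inf_relIndex_right]
    _ = (center G).relIndex V * (V.relIndex R * R.index) := by
        rw [relIndex_mul_index (inf_le_left : V ≤ R)]
    _ ≤ d * (d * (2 * c * m * t)) :=
        Nat.mul_le_mul hVZ (Nat.mul_le_mul hVR hRidx)
    _ = _ := by ring

/-- Schur. -/
theorem card_commutator_bound [Finite G] {B : ℕ} (hB : (center G).index ≤ B) :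
    Nat.card (_root_.commutator G) ≤ B ^ (B * (B * B) + 1) := by
  classical
  have hpos : 0 < (center G).index := Nat.pos_of_ne_zero Subgroup.FiniteIndex.index_ne_zero
  have h1 : Nat.card (commutatorSet G) ≤ (center G).index * (center G).index := by
    have hex : ∀ x : commutatorSet G, ∃ p : (G ⧸ center G) × (G ⧸ center G),
        (x : G) = ⁅p.1.out, p.2.out⁆ := by
      rintro ⟨_, a, b, rfl⟩
      refine ⟨((a : G ⧸ center G), (b : G ⧸ center G)), ?_⟩
      obtain ⟨z, hz⟩ := QuotientGroup.mk_out_eq_mul (center G) a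
      obtain ⟨w, hw⟩ := QuotientGroup.mk_out_eq_mul (center G) b
      show ⁅a, b⁆ = ⁅((a : G ⧸ center G)).out, ((b : G ⧸ center G)).out⁆
      rw [hz, hw]
      have hz2 := Subgroup.mem_center_iff.mp z.2
      have hw2 := Subgroup.mem_center_iff.mp w.2
      rw [commutatorElement_def, commutatorElement_def, mul_inv_rev, mul_inv_rev]
      have e1 : a * (z : G) * (b * (w : G)) * ((z : G)⁻¹ * a⁻¹) * ((w : G)⁻¹ * b⁻¹)
          = a * ((z : G) * (b * (w : G) * (z : G)⁻¹)) * a⁻¹ * ((w : G)⁻¹ * b⁻¹) := by group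
      rw [e1]
      have e2 : (z : G) * (b * (w : G) * (z : G)⁻¹) = b * (w : G) := by
        rw [← hz2 (b * (w : G) * (z : G)⁻¹)]; group
      rw [e2]
      have e3 : a * (b * (w : G)) * a⁻¹ * ((w : G)⁻¹ * b⁻¹)
          = a * b * ((w : G) * (a⁻¹ * (w : G)⁻¹)) * b⁻¹ := by group
      rw [e3, ← hw2 (a⁻¹ * (w : G)⁻¹)]
      group
    choose p hp using hex
    have hinj : Function.Injective p := by
      intro x y hxy
      apply Subtype.ext
      rw [hp x, hp y, hxy]
    have := Nat.card_le_card_of_injective p hinj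
    rwa [Nat.card_prod] at this
  have h2 := Nat.le_of_dvd (pow_pos hpos _) (card_commutator_dvd_index_center_pow G)
  refine h2.trans ?_
  calc (center G).index ^ ((center G).index * Nat.card (commutatorSet G) + 1)
      ≤ B ^ ((center G).index * Nat.card (commutatorSet G) + 1) := Nat.pow_le_pow_left hB _
    _ ≤ B ^ (B * (B * B) + 1) := by
        apply Nat.pow_le_pow_right (lt_of_lt_of_le hpos hB)
        apply Nat.add_le_add_right
        exact Nat.mul_le_mul hB (h1.trans (Nat.mul_le_mul hB hB))

theorem card_le_of_center [Finite G] {α : G ≃* G} {m c : ℕ} (h : Ok α m c) {B : ℕ}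
    (hB : (center G).index ≤ B) : Nat.card G ≤ m * B ^ (B * (B * B) + 1) := by
  rw [← (_root_.commutator G).card_mul_index, mul_comm]
  exact Nat.mul_le_mul h.index_commutator_le (card_commutator_bound hB)

/-- The kernel of the action on `JS`. -/
theorem card_CS_quot_center [Finite G] {α : G ≃* G} {m c : ℕ} (h : Ok α m c)
    (β : G ⧸ center G ≃* G ⧸ center G)
    (hβ : ∀ g : G, β (QuotientGroup.mk' (center G) g) = QuotientGroup.mk' (center G) (α g)) :
    Nat.card (CS β) ≤ m ^ m := by
  classical
  set f := QuotientGroup.mk' (center G) with hf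
  have hfs : Function.Surjective f := QuotientGroup.mk'_surjective _
  have hker : ∀ x : G, f x = 1 ↔ x ∈ center G := fun x => QuotientGroup.eq_one_iff x
  choose s hs using hfs
  have hact : ∀ q ∈ CS β, ∀ j ∈ JS α, s q * j * (s q)⁻¹ ∈ JS α := by
    intro q hq j hj
    have h1 : ((s q)⁻¹ * α (s q)) ∈ center G := by
      rw [← hker, map_mul, map_inv, ← hβ, hs]
      have : β q = q := hq
      rw [this, inv_mul_cancel]
    have h2 := Subgroup.mem_center_iff.mp h1
    refine ⟨?_, ?_⟩
    · have e1 : orderOf (s q * j * (s q)⁻¹) = orderOf j := by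
        rw [← MulAut.conj_apply]
        exact MulEquiv.orderOf_eq (MulAut.conj (s q)) j
      rw [e1]; exact hj.1
    · rw [map_mul, map_mul, map_inv, hj.2]
      set w := (s q)⁻¹ * α (s q) with hw
      have e1 : α (s q) = s q * w := by rw [hw, mul_inv_cancel_left]
      rw [e1, mul_inv_rev, mul_assoc (s q) w, ← h2 j⁻¹]
      group
  let Φ : CS β → (JS α → JS α) := fun q j => ⟨_, hact q.1 q.2 j.1 j.2⟩
  have hinj : Function.Injective Φ := by
    intro q q' hqq
    apply Subtype.ext
    rw [← hs q.1, ← hs q'.1]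
    have h1 : (s q'.1)⁻¹ * s q.1 ∈ center G := by
      have h2 : (s q'.1)⁻¹ * s q.1 ∈ centralizer (Subgroup.closure (JS α) : Set G) := by
        rw [Subgroup.centralizer_closure, Subgroup.mem_centralizer_iff]
        intro j hj
        have h3 := congrArg (fun F : JS α → JS α => ((F ⟨j, hj⟩ : JS α) : G)) hqq
        have h4 : s q.1 * j * (s q.1)⁻¹ = s q'.1 * j * (s q'.1)⁻¹ := h3
        have h5 : s q.1 * j = s q'.1 * j * (s q'.1)⁻¹ * s q.1 := by rw [← h4]; group
        calc j * ((s q'.1)⁻¹ * s q.1) = (s q'.1)⁻¹ * (s q'.1 * j * (s q'.1)⁻¹ * s q.1) := by group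
          _ = (s q'.1)⁻¹ * (s q.1 * j) := by rw [h5]
          _ = _ := by group
      rw [h.gen] at h2
      rw [Subgroup.mem_center_iff]
      intro g
      exact Subgroup.mem_centralizer_iff.mp h2 g (Subgroup.mem_top g)
    rw [← hker, map_mul, map_inv, inv_mul_eq_one] at h1
    exact h1.symm
  calc Nat.card (CS β) ≤ Nat.card (JS α → JS α) := Nat.card_le_card_of_injective Φ hinj
    _ = Nat.card (JS α) ^ Nat.card (JS α) := Nat.card_fun
    _ ≤ m ^ Nat.card (JS α) := Nat.pow_le_pow_left h.cardJ _
    _ ≤ m ^ m := Nat.pow_le_pow_right h.mpos h.cardJ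

/-- The order bound. -/
theorem exists_bound : ∃ F : ℕ → ℕ, ∀ (G : Type) [Group G] [Finite G] (α : G ≃* G) (m c : ℕ),
    Ok α m c → Nat.card G ≤ F m := by
  let d : ℕ → ℕ := fun m => (m ^ m * m ^ m) ^ m
  let k : ℕ → ℕ := fun m => 2 * m ^ m * m ^ m + m * d m + d m
  let t : ℕ → ℕ := fun m => ((k m).factorial) ^ (((k m).factorial) ^ m)
  let B : ℕ → ℕ := fun m => (2 * m ^ m * m * t m) * d m * d m
  let E : ℕ → ℕ := fun m => m * B m ^ (B m * (B m * B m) + 1)
  refine ⟨fun m => m * E m ^ (E m * (E m * E m) + 1), ?_⟩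
  intro G _ _ α m c h
  have hZ : ∀ x ∈ center G, α x ∈ center G := by
    intro x hx
    rw [Subgroup.mem_center_iff] at hx ⊢
    intro g
    have := congrArg α (hx (α g))
    rwa [map_mul, map_mul, h.inv] at this
  obtain ⟨β, hβ, hok⟩ := h.quot (center G) hZ
  have hok' : Ok β m (m ^ m) := ⟨hok.inv, hok.gen, hok.cardJ, card_CS_quot_center h β hβ⟩
  have h1 : (center (G ⧸ center G)).index ≤ B m := index_center_bound hok' rfl rfl rfl
  have h2 : Nat.card (G ⧸ center G) ≤ E m := card_le_of_center hok' h1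
  exact card_le_of_center h h2

end H78.InvOdd
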