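import Cfsg.Agent.Lib.H77.PQuot
import Cfsg.Agent.Lib.H78.Galois
import Cfsg.Agent.Lib.H78.Cover
import Cfsg.Agent.S0966
import Cfsg.Agent.Lib.H70.Real

/-!
Galois-fixed characters of degree prime to `p` over `O^p(G)` with cyclic quotient.
-/

set_option autoImplicit false
set_option linter.unusedSectionVars false
set_option linter.style.haveILetI false

namespace H78.OpCount

open Cfsg H18 H18.CharBasic H18.CharOrtho H18.CharInd H18.CharQuot H31.Clifford
open scoped ComplexConjugate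

universe u

/-- the determinant of a Galois conjugate -/
theorem detChar_gal {G : Type u} [Group G] [Finite G] (σ : ℂ →+* ℂ) {χ : G → ℂ} (h : IsCharacter G χ) (g : G) :
    detChar (fun g => σ (χ g)) g = σ (detChar χ g) := by
  obtain ⟨n, ρ, rfl⟩ := h
  have h1 : (fun g => σ (ρ.character g)) = (galRep σ ρ).character := by
    funext g; exact (galRep_character σ ρ g).symm
  rw [h1, H18.DetChar.detChar_rep, H18.DetChar.detChar_rep]
  have h2 : LinearMap.toMatrix' (galRep σ ρ g) = (LinearMap.toMatrix' (ρ g)).map σ :=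
    LinearMap.toMatrix'_toLin' _
  rw [← LinearMap.det_toMatrix', h2, ← LinearMap.det_toMatrix' (ρ g)]
  exact (RingHom.map_det σ _).symm

theorem detOrder_gal {G : Type u} [Group G] [Finite G] (σ : ℂ →+* ℂ) {χ : G → ℂ} (h : IsCharacter G χ) :
    detOrder (fun g => σ (χ g)) = detOrder χ := by
  unfold detOrder
  have h1 : detChar (fun g => σ (χ g)) = fun g => σ (detChar χ g) := by
    funext g; exact detChar_gal σ h g
  rw [h1]
  rw [orderOf_eq_orderOf_iff]
  intro n
  constructor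
  · intro h2
    funext g
    have h3 := congrFun h2 g
    simp only [Pi.pow_apply, Pi.one_apply] at h3
    rw [← map_pow, ← map_one σ] at h3
    exact σ.injective h3
  · intro h2
    funext g
    have h3 := congrFun h2 g
    simp only [Pi.pow_apply, Pi.one_apply] at h3
    show σ (detChar χ g) ^ n = 1
    rw [← map_pow, h3, map_one]

section cop
variable {G : Type u} [Group G] [Finite G] {p : ℕ} [hp : Fact p.Prime]

theorem coprime_of (k : ℕ) (hk₁ : ∀ g : G, (∃ j : ℕ, orderOf g = p ^ j) → g ^ k = g ^ (1 + p))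
    (hk₂ : ∀ g : G, Nat.Coprime (orderOf g) p → g ^ k = g) : Nat.Coprime k (Nat.card G) := by
  by_contra hcon
  obtain ⟨q, hq, hqk, hqG⟩ := Nat.Prime.not_coprime_iff_dvd.1 hcon
  have : Fact q.Prime := ⟨hq⟩
  obtain ⟨g, hg⟩ := exists_prime_orderOf_dvd_card' q hqG
  have h1 : g ^ k = 1 := orderOf_dvd_iff_pow_eq_one.1 (by rw [hg]; exact hqk)
  have hne : g ≠ 1 := by
    rintro rfl
    rw [orderOf_one] at hg
    exact hq.one_lt.ne hg
  by_cases hqp : q = p
  · have h2 := hk₁ g ⟨1, by rw [hg, hqp, pow_one]⟩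
    rw [h1, pow_add, pow_one, ← hqp, ← hg, pow_orderOf_eq_one, mul_one] at h2
    exact hne h2.symm
  · have h2 := hk₂ g (by rw [hg]; exact (Nat.coprime_primes hq hp.out).2 hqp)
    rw [h1] at h2
    exact hne h2.symm

/-- the number of homomorphisms of exponent `p` trivial on `N`, cyclic quotient -/
theorem card_homs (N : Subgroup G) [N.Normal] (hcyc : IsCyclic (G ⧸ N)) (hd : p ∣ Nat.card (G ⧸ N)) :
    Nat.card {β : G →* ℂˣ // (∀ n ∈ N, β n = 1) ∧ ∀ g, β g ^ p = 1} = p := by
  obtain ⟨x, hx⟩ := hcyc.exists_generator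
  obtain ⟨g0, rfl⟩ := QuotientGroup.mk_surjective x
  have hord : orderOf (QuotientGroup.mk g0 : G ⧸ N) = Nat.card (G ⧸ N) := by
    rw [← Nat.card_zpowers]
    have : Subgroup.zpowers (QuotientGroup.mk g0 : G ⧸ N) = ⊤ := by
      rw [eq_top_iff]; intro y _; exact hx y
    rw [this]
    exact Nat.card_congr Subgroup.topEquiv.toEquiv
  let e : {β : G →* ℂˣ // (∀ n ∈ N, β n = 1) ∧ ∀ g, β g ^ p = 1} → rootsOfUnity p ℂ :=
    fun β => ⟨β.1 g0, by rw [mem_rootsOfUnity]; exact β.2.2 g0⟩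
  have hinj : Function.Injective e := by
    intro β γ h
    have h1 : β.1 g0 = γ.1 g0 := congrArg Subtype.val h
    apply Subtype.ext
    ext g
    obtain ⟨i, hi⟩ := hx (QuotientGroup.mk g)
    have h2 : (QuotientGroup.mk (g0 ^ i) : G ⧸ N) = QuotientGroup.mk g := by
      rw [← hi]; rfl
    rw [QuotientGroup.eq] at h2
    obtain ⟨n, hn⟩ : ∃ n, n = (g0 ^ i)⁻¹ * g := ⟨_, rfl⟩
    have h3 : g = g0 ^ i * n := by rw [hn]; group
    rw [← hn] at h2
    rw [h3, map_mul, map_mul, β.2.1 _ h2, γ.2.1 _ h2, map_zpow, map_zpow, h1]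
  have hsurj : Function.Surjective e := by
    rintro ⟨ζ, hζ⟩
    rw [mem_rootsOfUnity] at hζ
    have hζd : orderOf ζ ∣ orderOf (QuotientGroup.mk g0 : G ⧸ N) := by
      rw [hord]
      exact (orderOf_dvd_of_pow_eq_one hζ).trans hd
    let f : G ⧸ N →* ℂˣ := monoidHomOfForallMemZpowers hx hζd
    have hf : f (QuotientGroup.mk g0) = ζ := monoidHomOfForallMemZpowers_apply_gen hx hζd
    refine ⟨⟨f.comp (QuotientGroup.mk' N), ?_, ?_⟩, ?_⟩
    · intro n hn
      show f (QuotientGroup.mk' N n) = 1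
      have : QuotientGroup.mk' N n = 1 := (QuotientGroup.eq_one_iff n).2 hn
      rw [this, map_one]
    · intro g
      obtain ⟨i, hi⟩ := hx (QuotientGroup.mk g)
      show f (QuotientGroup.mk g) ^ p = 1
      rw [← hi]
      show f ((QuotientGroup.mk g0 : G ⧸ N) ^ i) ^ p = 1
      rw [map_zpow, hf, ← zpow_natCast, ← zpow_mul, mul_comm, zpow_mul, zpow_natCast, hζ, one_zpow]
    · apply Subtype.ext
      exact hf
  rw [Nat.card_congr (Equiv.ofBijective e ⟨hinj, hsurj⟩)]
  exact Complex.card_rootsOfUnity p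

variable (p) in
theorem card_fiber (hcyc : IsCyclic (G ⧸ pResidual p G)) (hnt : pResidual p G ≠ ⊤) (k : ℕ)
    (hk₁ : ∀ g : G, (∃ j : ℕ, orderOf g = p ^ j) → g ^ k = g ^ (1 + p))
    (hk₂ : ∀ g : G, Nat.Coprime (orderOf g) p → g ^ k = g)
    (θ : IrrCharacter (pResidual p G))
    (hinv : ∀ g : G, H77.Cov1.cI (pResidual p G) g θ = θ) (hd : ¬ p ∣ charDegree (θ : pResidual p G → ℂ))
    (hθ : ∀ n : pResidual p G, (θ : pResidual p G → ℂ) (n ^ k) = (θ : pResidual p G → ℂ) n) :
    Nat.card {χ : IrrCharacter G // (∀ n : pResidual p G, (χ : G → ℂ) n = (θ : pResidual p G → ℂ) n) ∧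
      ∀ g : G, (χ : G → ℂ) (g ^ k) = (χ : G → ℂ) g} = p := by
  have hk := coprime_of k hk₁ hk₂
  obtain ⟨σ, hσ⟩ := Galois.exists_ringEquiv Nat.card_pos.ne' hk
  obtain ⟨χ₀, ⟨hχ₀, hχ₀θ, hχ₀d⟩, huniq⟩ := H77.PQuot.exists_ext p θ hinv hd
  have hχ₀c := isCharacter_of_isIrr hχ₀
  have hσχ : ∀ g : G, σ (χ₀ g) = χ₀ (g ^ k) := fun g =>
    Galois.char_map_eq_pow dvd_rfl (σ := σ.toRingHom) hσ hχ₀c g
  have hfix : ∀ g : G, χ₀ (g ^ k) = χ₀ g := by
    have h1 : (fun g => σ.toRingHom (χ₀ g)) = χ₀ := by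
      apply huniq
      · exact isIrrCharacter_ringHom σ.toRingHom hχ₀
      · intro n
        show σ (χ₀ n) = _
        rw [hσχ, ← hθ n, ← hχ₀θ]
        rfl
      · rw [detOrder_gal σ.toRingHom hχ₀c]; exact hχ₀d
    intro g
    rw [← hσχ]
    exact congrFun h1 g
  obtain ⟨a, ha⟩ := H2.Residual.exists_index_residual (G := G) (p := p)
  have hpd : p ∣ Nat.card (G ⧸ pResidual p G) := by
    have h1 : Nat.card (G ⧸ pResidual p G) = p ^ a := ha
    rw [h1]
    apply dvd_pow_self
    rintro rfl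
    rw [pow_zero] at ha
    exact hnt (Subgroup.index_eq_one.1 ha)
  refine Eq.trans ?_ (card_homs (pResidual p G) hcyc hpd)
  have hθirr : IsIrrCharacter (pResidual p G) (fun n : pResidual p G => χ₀ n) := by
    have : (fun n : pResidual p G => χ₀ n) = θ := funext hχ₀θ
    rw [this]; exact θ.2
  -- power of a homomorphism trivial on the residual
  have hβk : ∀ β : G →* ℂˣ, (∀ n ∈ pResidual p G, β n = 1) → ∀ g, β (g ^ k) = β g * β g ^ p := by
    intro β hβ g
    have h1 : β g ^ (p ^ a) = 1 := by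
      rw [← map_pow]
      apply hβ
      rw [← ha]
      exact Subgroup.pow_index_mem _ g
    -- a `p`-element with the same value
    obtain ⟨u, v, huv, hu, hv⟩ : ∃ u v : G, u * v = g ∧ (∃ j, orderOf u = p ^ j) ∧
        Nat.Coprime (orderOf v) p := by
      obtain ⟨a, b, h1, h2, h3⟩ := H70.Real.exists_decomp p hp.out g
      exact ⟨g ^ a, g ^ b, h1, h2, (((hp.out.coprime_iff_not_dvd).2 h3).symm)⟩
    have hβv : β v = 1 := hβ v (H2.Residual.mem_residual_of_coprime hv)
    have h3 : β g = β u := by rw [← huv, map_mul, hβv, mul_one]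
    rw [map_pow, h3, ← map_pow, hk₁ u hu, map_pow, pow_add, pow_one]
  symm
  refine Nat.card_congr (Equiv.ofBijective
    (fun β : {β : G →* ℂˣ // (∀ n ∈ pResidual p G, β n = 1) ∧ ∀ g, β g ^ p = 1} =>
      (⟨⟨fun g => (β.1 g : ℂ) * χ₀ g, isIrrCharacter_hom_mul β.1 hχ₀⟩, ?_, ?_⟩ :
        {χ : IrrCharacter G // (∀ n : pResidual p G, (χ : G → ℂ) n = (θ : pResidual p G → ℂ) n) ∧
      ∀ g : G, (χ : G → ℂ) (g ^ k) = (χ : G → ℂ) g})) ⟨?_, ?_⟩)
  · intro n
    show (β.1 n : ℂ) * χ₀ n = _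
    rw [β.2.1 n n.2, Units.val_one, one_mul, hχ₀θ]
  · intro g
    show (β.1 (g ^ k) : ℂ) * χ₀ (g ^ k) = (β.1 g : ℂ) * χ₀ g
    rw [hβk β.1 β.2.1, β.2.2, mul_one, hfix]
  · intro β γ h
    have h1 := congrArg (fun χ => ((χ : IrrCharacter G) : G → ℂ)) (congrArg Subtype.val h)
    apply Subtype.ext
    apply H83.Gallagher.hom_mul_inj hχ₀ (pResidual p G) hθirr β.2.1 γ.2.1
    intro g
    exact congrFun h1 g
  · rintro ⟨χ, h1, h2⟩
    obtain ⟨β, hβN, hβ⟩ := H18.DetChar.exists_linear_mul (pResidual p G) θ.2 hχ₀ χ.2 hχ₀θ h1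
    have h3 : β ^ p = 1 := by
      apply H83.Gallagher.hom_mul_inj hχ₀ (pResidual p G) hθirr
      · intro n hn
        rw [MonoidHom.pow_apply, hβN n hn, one_pow]
      · intro n hn; rfl
      · intro g
        have h4 := h2 g
        rw [hβ] at h4
        simp only at h4
        rw [hβk β hβN g, hfix, Units.val_mul, mul_assoc] at h4
        have h5 := mul_left_cancel₀ (Units.ne_zero (β g)) h4
        rw [MonoidHom.pow_apply, h5, MonoidHom.one_apply, Units.val_one, one_mul]
    refine ⟨⟨β, hβN, fun g => ?_⟩, ?_⟩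
    · have := DFunLike.congr_fun h3 g
      rwa [MonoidHom.pow_apply, MonoidHom.one_apply] at this
    · apply Subtype.ext
      apply Subtype.ext
      exact hβ.symm

/-- membership in principal blocks and extensions, `p`-quotients -/
theorem principal_iff {M : Ideal AlgInt} (hM : IsPModular p M) {χ : IrrCharacter G}
    {θ : IrrCharacter (pResidual p G)}
    (h : ∀ n : pResidual p G, (χ : G → ℂ) n = (θ : pResidual p G → ℂ) n) :
    χ ∈ principalBlock M G ↔ θ ∈ principalBlock M (pResidual p G) := by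
  classical
  letI := Fintype.ofFinite G
  letI := Fintype.ofFinite (pResidual p G)
  have := H20.Loc.pm_isPrime hM
  have hres : (fun n : pResidual p G => (χ : G → ℂ) n) = θ := funext h
  have hin : classInner (fun n : pResidual p G => (χ : G → ℂ) n) (θ : pResidual p G → ℂ) ≠ 0 := by
    rw [hres, inner_irr_self θ.2]; exact one_ne_zero
  constructor
  · intro hχ
    exact Cover.mem_principal_of_over (pResidual p G) hM hχ hin
  · intro hθ
    obtain ⟨a, ha⟩ := H2.Residual.exists_index_residual (G := G) (p := p)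
    obtain ⟨B, ⟨hB, hBc⟩, huniq⟩ := Cfsg.Agent.S0966.result p M hM (pResidual p G) ⟨a, ha⟩
      (principalBlock M (pResidual p G)) PrincReal.isPBlock_principal
    have h1 : principalBlock M G = B := by
      apply huniq
      refine ⟨PrincReal.isPBlock_principal, PrincReal.triv G, PrincReal.triv_mem, PrincReal.triv (pResidual p G), PrincReal.triv_mem, ?_⟩
      have : classInner (fun n : pResidual p G => ((PrincReal.triv G : IrrCharacter G) : G → ℂ) n)
          ((PrincReal.triv (pResidual p G) : IrrCharacter (pResidual p G)) : pResidual p G → ℂ) = 1 :=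
        inner_irr_self (PrincReal.triv (pResidual p G)).2
      rw [this]; exact one_ne_zero
    have h2 : blockOf M (χ : G → ℂ) = B := by
      apply huniq
      exact ⟨H20.Blk.isPBlock_blockOf χ, χ, H20.Blk.mem_blockOf_self χ, θ, hθ, hin⟩
    rw [h1, ← h2]
    exact H20.Blk.mem_blockOf_self χ

theorem main (M : Ideal AlgInt) (hM : IsPModular p M) (P : Sylow p G)
    (hcyc : IsCyclic (G ⧸ pResidual p G)) (hnt : pResidual p G ≠ ⊤) (k : ℕ)
    (hk₁ : ∀ g : G, (∃ j : ℕ, orderOf g = p ^ j) → g ^ k = g ^ (1 + p))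
    (hk₂ : ∀ g : G, Nat.Coprime (orderOf g) p → g ^ k = g) :
    Nat.card {χ : IrrCharacter G // χ ∈ principalBlock M G ∧ ¬ p ∣ charDegree (χ : G → ℂ) ∧
      ∀ g : G, (χ : G → ℂ) (g ^ k) = (χ : G → ℂ) g} =
    p * Nat.card {θ : IrrCharacter (pResidual p G) // θ ∈ principalBlock M (pResidual p G) ∧
      ¬ p ∣ charDegree (θ : pResidual p G → ℂ) ∧
      (∀ x ∈ (P : Subgroup G), H77.Cov1.cI (pResidual p G) x θ = θ) ∧
      ∀ n : pResidual p G, (θ : pResidual p G → ℂ) (n ^ k) = (θ : pResidual p G → ℂ) n} := by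
  classical
  let _ : Fintype G := Fintype.ofFinite G
  have hfG : Finite (IrrCharacter G) := finite_irr_set (G := G)
  have hfN : Finite (IrrCharacter (pResidual p G)) := finite_irr_set (G := pResidual p G)
  set L := {χ : IrrCharacter G // χ ∈ principalBlock M G ∧ ¬ p ∣ charDegree (χ : G → ℂ) ∧
      ∀ g : G, (χ : G → ℂ) (g ^ k) = (χ : G → ℂ) g} with hL
  set R := {θ : IrrCharacter (pResidual p G) // θ ∈ principalBlock M (pResidual p G) ∧
      ¬ p ∣ charDegree (θ : pResidual p G → ℂ) ∧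
      (∀ x ∈ (P : Subgroup G), H77.Cov1.cI (pResidual p G) x θ = θ) ∧
      ∀ n : pResidual p G, (θ : pResidual p G → ℂ) (n ^ k) = (θ : pResidual p G → ℂ) n} with hR
  have hdeg : ∀ {χ : IrrCharacter G} {θ : IrrCharacter (pResidual p G)},
      (∀ n : pResidual p G, (χ : G → ℂ) n = (θ : pResidual p G → ℂ) n) →
      charDegree (χ : G → ℂ) = charDegree (θ : pResidual p G → ℂ) := by
    intro χ θ h
    rw [charDegree, charDegree]
    have := h 1
    rw [← this]
    rfl
  have hex : ∀ χ : L, ∃ θ : R, ∀ n : pResidual p G, (χ.1 : G → ℂ) n = (θ.1 : pResidual p G → ℂ) n := by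
    rintro ⟨χ, h1, h2, h3⟩
    obtain ⟨θ, hθ, hinv⟩ := H77.PQuot.restrict_residual χ h2
    refine ⟨⟨θ, (principal_iff hM hθ).1 h1, by rw [← hdeg hθ]; exact h2, fun x _ => hinv x, fun n => ?_⟩, hθ⟩
    rw [← hθ, ← hθ]
    exact h3 n
  choose f hf using hex
  have hinvG : ∀ θ : R, ∀ g : G, H77.Cov1.cI (pResidual p G) g θ.1 = θ.1 := by
    rintro ⟨θ, h1, h2, h3, h4⟩ g
    have h5 : g ∈ inertia (pResidual p G) (θ : pResidual p G → ℂ) := by
      have h6 : (P : Subgroup G) ⊔ pResidual p G ≤ inertia (pResidual p G) (θ : pResidual p G → ℂ) := by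
        refine sup_le ?_ (le_inertia _ (isClassFunction_of_isIrr θ.2))
        intro x hx
        exact congrArg Subtype.val (h3 x hx)
      rw [H2.Residual.sylow_sup_residual] at h6
      exact h6 (Subgroup.mem_top g)
    exact Subtype.ext h5
  have hfib : ∀ θ : R, Nat.card {χ : L // f χ = θ} = p := by
    intro θ
    rw [← card_fiber p hcyc hnt k hk₁ hk₂ θ.1 (hinvG θ) θ.2.2.1 θ.2.2.2.2]
    refine Nat.card_congr
      { toFun := fun χ => ⟨χ.1.1, fun n => (hf χ.1 n).trans (congrArg (fun t : R => (t.1 : pResidual p G → ℂ) n) χ.2), χ.1.2.2.2⟩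
        invFun := fun χ => ⟨⟨χ.1, (principal_iff hM χ.2.1).2 θ.2.1, by rw [hdeg χ.2.1]; exact θ.2.2.1, χ.2.2⟩, ?_⟩
        left_inv := fun _ => rfl
        right_inv := fun _ => rfl }
    apply Subtype.ext
    apply Subtype.ext
    funext n
    rw [← hf, ← χ.2.1]
  letI : Fintype R := Fintype.ofFinite R
  rw [Nat.card_congr (Equiv.sigmaFiberEquiv f).symm, Nat.card_sigma, Finset.sum_congr rfl (fun θ _ => hfib θ),
    Finset.sum_const, Finset.card_univ, ← Nat.card_eq_fintype_card, smul_eq_mul, mul_comm]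

end cop

end H78.OpCount
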