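import Mathlib

/-! Limits of additive subgroups of a ring under the one-parameter group `1 + t x`, `x ^ 2 = 0`. -/

set_option autoImplicit false
set_option linter.all false

namespace H78.QOff

open Polynomial

variable {R : Type*} [Ring R]

noncomputable def U (x : R) : R[X] := 1 + C x * X
noncomputable def V (x : R) : R[X] := 1 - C x * X

theorem CXX (x : R) (hx : x * x = 0) : (C x * X) * (C x * X) = (0 : R[X]) := by
  rw [mul_assoc, ← mul_assoc X (C x) X, X_mul_C, mul_assoc, ← mul_assoc, ← C_mul, hx, C_0, zero_mul]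

theorem UV (x : R) (hx : x * x = 0) : U x * V x = 1 := by
  have h := CXX x hx
  calc U x * V x = 1 - (C x * X) * (C x * X) := by rw [U, V]; noncomm_ring
    _ = 1 := by rw [h, sub_zero]

theorem VU (x : R) (hx : x * x = 0) : V x * U x = 1 := by
  have h := CXX x hx
  calc V x * U x = 1 - (C x * X) * (C x * X) := by rw [U, V]; noncomm_ring
    _ = 1 := by rw [h, sub_zero]

theorem natDegree_U (x : R) : (U x).natDegree ≤ 1 := by
  unfold U
  refine (natDegree_add_le _ _).trans (max_le (by simp) ?_)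
  exact (natDegree_C_mul_le _ _).trans natDegree_X_le

theorem natDegree_V (x : R) : (V x).natDegree ≤ 1 := by
  unfold V
  refine (natDegree_sub_le _ _).trans (max_le (by simp) ?_)
  exact (natDegree_C_mul_le _ _).trans natDegree_X_le

/-! coefficients -/

@[simp] theorem coeff_U_mul_zero (x : R) (F : R[X]) : (U x * F).coeff 0 = F.coeff 0 := by
  rw [U, add_mul, one_mul, coeff_add, mul_assoc, coeff_C_mul, X_mul, coeff_mul_X_zero, mul_zero,
    add_zero]

@[simp] theorem coeff_U_mul_succ (x : R) (F : R[X]) (n : ℕ) :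
    (U x * F).coeff (n + 1) = F.coeff (n + 1) + x * F.coeff n := by
  rw [U, add_mul, one_mul, coeff_add, mul_assoc, coeff_C_mul, X_mul, coeff_mul_X]

@[simp] theorem coeff_V_mul_zero (x : R) (F : R[X]) : (V x * F).coeff 0 = F.coeff 0 := by
  rw [V, sub_mul, one_mul, coeff_sub, mul_assoc, coeff_C_mul, X_mul, coeff_mul_X_zero, mul_zero,
    sub_zero]

@[simp] theorem coeff_V_mul_succ (x : R) (F : R[X]) (n : ℕ) :
    (V x * F).coeff (n + 1) = F.coeff (n + 1) - x * F.coeff n := by
  rw [V, sub_mul, one_mul, coeff_sub, mul_assoc, coeff_C_mul, X_mul, coeff_mul_X]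

@[simp] theorem coeff_mul_U_zero (x : R) (F : R[X]) : (F * U x).coeff 0 = F.coeff 0 := by
  rw [U, mul_add, mul_one, coeff_add, ← mul_assoc, coeff_mul_X_zero, add_zero]

@[simp] theorem coeff_mul_U_succ (x : R) (F : R[X]) (n : ℕ) :
    (F * U x).coeff (n + 1) = F.coeff (n + 1) + F.coeff n * x := by
  rw [U, mul_add, mul_one, coeff_add, ← mul_assoc, coeff_mul_X, coeff_mul_C]

@[simp] theorem coeff_mul_V_zero (x : R) (F : R[X]) : (F * V x).coeff 0 = F.coeff 0 := by
  rw [V, mul_sub, mul_one, coeff_sub, ← mul_assoc, coeff_mul_X_zero, sub_zero]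

@[simp] theorem coeff_mul_V_succ (x : R) (F : R[X]) (n : ℕ) :
    (F * V x).coeff (n + 1) = F.coeff (n + 1) - F.coeff n * x := by
  rw [V, mul_sub, mul_one, coeff_sub, ← mul_assoc, coeff_mul_X, coeff_mul_C]

/-- The module of polynomial families. -/
noncomputable def Ps (u w : R[X]) (W : AddSubgroup R) : AddSubgroup R[X] where
  carrier := {F | ∀ k, (u * F * w).coeff k ∈ W}
  zero_mem' := by intro k; simp [W.zero_mem]
  add_mem' := by
    intro a b ha hb k
    rw [mul_add, add_mul, coeff_add]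
    exact W.add_mem (ha k) (hb k)
  neg_mem' := by
    intro a ha k
    rw [mul_neg, neg_mul, coeff_neg]
    exact W.neg_mem (ha k)

theorem mem_Ps {u w : R[X]} {W : AddSubgroup R} {F : R[X]} :
    F ∈ Ps u w W ↔ ∀ k, (u * F * w).coeff k ∈ W := Iff.rfl

theorem mul_X_pow_mem {u w : R[X]} {W : AddSubgroup R} {F : R[X]} (hF : F ∈ Ps u w W) (j : ℕ) :
    F * X ^ j ∈ Ps u w W := by
  intro k
  have e : u * (F * X ^ j) * w = (u * F * w) * X ^ j := by
    rw [mul_assoc, mul_assoc F, X_pow_mul, ← mul_assoc, ← mul_assoc, mul_assoc u F w]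
  rw [e, coeff_mul_X_pow']
  split_ifs
  · exact hF _
  · exact W.zero_mem

/-- The limit at infinity. -/
noncomputable def Lim (u w : R[X]) (W : AddSubgroup R) : AddSubgroup R where
  carrier := {b | ∃ F ∈ Ps u w W, ∃ n, F.natDegree ≤ n ∧ F.coeff n = b}
  zero_mem' := ⟨0, (Ps u w W).zero_mem, 0, by simp, by simp⟩
  add_mem' := by
    rintro a b ⟨F, hF, n, hFn, rfl⟩ ⟨G, hG, m, hGm, rfl⟩
    refine ⟨F * X ^ m + G * X ^ n, (Ps u w W).add_mem (mul_X_pow_mem hF m) (mul_X_pow_mem hG n),
      n + m, ?_, ?_⟩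
    · refine (natDegree_add_le _ _).trans (max_le ?_ ?_)
      · exact (natDegree_mul_le).trans (Nat.add_le_add hFn (natDegree_X_pow_le _))
      · refine (natDegree_mul_le).trans ?_
        rw [add_comm n m]
        exact Nat.add_le_add hGm (natDegree_X_pow_le _)
    · rw [coeff_add, coeff_mul_X_pow, add_comm n m, coeff_mul_X_pow]
  neg_mem' := by
    rintro a ⟨F, hF, n, hFn, rfl⟩
    exact ⟨-F, (Ps u w W).neg_mem hF, n, by rwa [natDegree_neg], by rw [coeff_neg]⟩

theorem mem_Lim {u w : R[X]} {W : AddSubgroup R} {b : R} :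
    b ∈ Lim u w W ↔ ∃ F ∈ Ps u w W, ∃ n, F.natDegree ≤ n ∧ F.coeff n = b := Iff.rfl

theorem num_lemma {a b : ℕ} (h : ∀ N : ℕ, a ^ (N + 1) ≤ b ^ (N + 3)) : a ≤ b := by
  by_contra hlt
  push_neg at hlt
  rcases Nat.eq_zero_or_pos b with rfl | hb
  · have := h 0
    simp at this
    omega
  have hbR : (0 : ℝ) < b := by exact_mod_cast hb
  have h1 : 1 < (a : ℝ) / b := by
    rw [one_lt_div hbR]; exact_mod_cast hlt
  obtain ⟨N, hN⟩ := pow_unbounded_of_one_lt ((b : ℝ) ^ 2) h1
  have h2 : ((a : ℝ) / b) ^ N ≤ ((a : ℝ) / b) ^ (N + 1) :=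
    pow_le_pow_right₀ h1.le (Nat.le_succ N)
  have h3 : ((a : ℝ)) ^ (N + 1) ≤ (b : ℝ) ^ (N + 3) := by exact_mod_cast h N
  have h4 : ((a : ℝ) / b) ^ (N + 1) ≤ (b : ℝ) ^ 2 := by
    rw [div_pow, div_le_iff₀ (pow_pos hbR _)]
    calc ((a : ℝ)) ^ (N + 1) ≤ (b : ℝ) ^ (N + 3) := h3
      _ = (b : ℝ) ^ 2 * (b : ℝ) ^ (N + 1) := by ring
  linarith

section Card

variable [Finite R]

/-- Families of bounded degree. -/
def SN (u w : R[X]) (W : AddSubgroup R) (N : ℕ) : Set R[X] :=
  {F | F ∈ Ps u w W ∧ F.natDegree ≤ N}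

theorem SN_inj (u w : R[X]) (W : AddSubgroup R) (N : ℕ) :
    Function.Injective (fun (F : SN u w W N) (i : Fin (N + 1)) => (F : R[X]).coeff i) := by
  rintro ⟨F, hF, hFn⟩ ⟨G, hG, hGn⟩ h
  apply Subtype.ext
  ext k
  by_cases hk : k < N + 1
  · exact congrFun h ⟨k, hk⟩
  · show F.coeff k = G.coeff k
    rw [coeff_eq_zero_of_natDegree_lt (by omega), coeff_eq_zero_of_natDegree_lt (by omega)]

instance (u w : R[X]) (W : AddSubgroup R) (N : ℕ) : Finite (SN u w W N) :=
  Finite.of_injective _ (SN_inj u w W N)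

theorem card_SN_le (u w : R[X]) (W : AddSubgroup R) (N : ℕ) :
    Nat.card (SN u w W N) ≤ Nat.card (Lim u w W) ^ (N + 1) := by
  classical
  induction N with
  | zero =>
    rw [zero_add, pow_one]
    apply Nat.card_le_card_of_injective
      (fun F : SN u w W 0 => (⟨(F : R[X]).coeff 0, F, F.2.1, 0, F.2.2, rfl⟩ : Lim u w W))
    intro F G h
    have h1 : (F : R[X]).coeff 0 = (G : R[X]).coeff 0 := congrArg (fun z : Lim u w W => (z : R)) h
    apply SN_inj u w W 0
    funext i
    have : (i : ℕ) = 0 := by omega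
    show (F : R[X]).coeff i = (G : R[X]).coeff i
    rw [this, h1]
  | succ N ih =>
    have hex : ∀ c : R, ∃ G : R[X], (∃ F ∈ SN u w W (N + 1), F.coeff (N + 1) = c) →
        G ∈ SN u w W (N + 1) ∧ G.coeff (N + 1) = c := by
      intro c
      by_cases h : ∃ F ∈ SN u w W (N + 1), F.coeff (N + 1) = c
      · obtain ⟨F, hF, hc⟩ := h
        exact ⟨F, fun _ => ⟨hF, hc⟩⟩
      · exact ⟨0, fun h' => absurd h' h⟩
    choose rep hrep using hex
    have hr : ∀ F : SN u w W (N + 1), rep ((F : R[X]).coeff (N + 1)) ∈ SN u w W (N + 1) ∧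
        (rep ((F : R[X]).coeff (N + 1))).coeff (N + 1) = (F : R[X]).coeff (N + 1) :=
      fun F => hrep _ ⟨F, F.2, rfl⟩
    have hmem : ∀ F : SN u w W (N + 1), (F : R[X]) - rep ((F : R[X]).coeff (N + 1)) ∈ SN u w W N := by
      intro F
      refine ⟨(Ps u w W).sub_mem F.2.1 (hr F).1.1, ?_⟩
      rw [natDegree_le_iff_coeff_eq_zero]
      intro k hk
      rw [coeff_sub]
      rcases Nat.lt_or_ge (N + 1) k with hk2 | hk2
      · rw [coeff_eq_zero_of_natDegree_lt (lt_of_le_of_lt F.2.2 hk2),
          coeff_eq_zero_of_natDegree_lt (lt_of_le_of_lt (hr F).1.2 hk2), sub_zero]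
      · have : k = N + 1 := by omega
        rw [this, (hr F).2, sub_self]
    have hinj : Function.Injective (fun F : SN u w W (N + 1) =>
        ((⟨(F : R[X]).coeff (N + 1), F, F.2.1, N + 1, F.2.2, rfl⟩ : Lim u w W),
          (⟨_, hmem F⟩ : SN u w W N))) := by
      intro F G h
      have h1 : (F : R[X]).coeff (N + 1) = (G : R[X]).coeff (N + 1) :=
        congrArg (fun z : Lim u w W × SN u w W N => (z.1 : R)) h
      have h2 : (F : R[X]) - rep ((F : R[X]).coeff (N + 1))
          = (G : R[X]) - rep ((G : R[X]).coeff (N + 1)) :=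
        congrArg (fun z : Lim u w W × SN u w W N => (z.2 : R[X])) h
      apply Subtype.ext
      rw [h1] at h2
      exact sub_left_injective h2
    have h3 := Nat.card_le_card_of_injective _ hinj
    rw [Nat.card_prod] at h3
    calc Nat.card (SN u w W (N + 1)) ≤ Nat.card (Lim u w W) * Nat.card (SN u w W N) := h3
      _ ≤ Nat.card (Lim u w W) * Nat.card (Lim u w W) ^ (N + 1) := Nat.mul_le_mul_left _ ih
      _ = Nat.card (Lim u w W) ^ (N + 1 + 1) := by ring

theorem le_card_SN {u u' w w' : R[X]} (hu : u * u' = 1) (hw : w' * w = 1)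
    (hu' : u'.natDegree ≤ 1) (hw' : w'.natDegree ≤ 1) (W : AddSubgroup R) (N : ℕ) :
    Nat.card W ^ (N + 1) ≤ Nat.card (SN u w W (N + 2)) := by
  classical
  let f : (Fin (N + 1) → W) → R[X] := fun c => ∑ i : Fin (N + 1), C ((c i : R)) * X ^ (i : ℕ)
  have hfc : ∀ c k, (f c).coeff k = if h : k < N + 1 then (c ⟨k, h⟩ : R) else 0 := by
    intro c k
    simp only [f, finset_sum_coeff, coeff_C_mul, coeff_X_pow]
    split_ifs with h
    · rw [Finset.sum_eq_single ⟨k, h⟩]
      · simp
      · intro b _ hb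
        have : k ≠ (b : ℕ) := fun h' => hb (Fin.ext h'.symm)
        simp [this]
      · intro h'; exact absurd (Finset.mem_univ _) h'
    · apply Finset.sum_eq_zero
      intro i _
      have : k ≠ (i : ℕ) := by have := i.2; omega
      simp [this]
  have hfd : ∀ c, (f c).natDegree ≤ N := by
    intro c
    rw [natDegree_le_iff_coeff_eq_zero]
    intro k hk
    rw [hfc, dif_neg (by omega)]
  have hcancel : ∀ c, u * (u' * f c * w') * w = f c := by
    intro c
    calc u * (u' * f c * w') * w = (u * u') * f c * (w' * w) := by noncomm_ring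
      _ = f c := by rw [hu, hw, one_mul, mul_one]
  have hmem : ∀ c, u' * f c * w' ∈ SN u w W (N + 2) := by
    intro c
    refine ⟨?_, ?_⟩
    · intro k
      rw [hcancel, hfc]
      split_ifs
      · exact (c _).2
      · exact W.zero_mem
    · calc (u' * f c * w').natDegree ≤ (u' * f c).natDegree + w'.natDegree := natDegree_mul_le
        _ ≤ (u'.natDegree + (f c).natDegree) + w'.natDegree :=
            Nat.add_le_add_right natDegree_mul_le _
        _ ≤ (1 + N) + 1 := Nat.add_le_add (Nat.add_le_add hu' (hfd c)) hw'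
        _ = N + 2 := by ring
  have hinj : Function.Injective (fun c : Fin (N + 1) → W => (⟨_, hmem c⟩ : SN u w W (N + 2))) := by
    intro c c' h
    have h1 : u' * f c * w' = u' * f c' * w' := congrArg (fun z : SN u w W (N + 2) => (z : R[X])) h
    have h2 : f c = f c' := by rw [← hcancel c, ← hcancel c', h1]
    funext i
    apply Subtype.ext
    have h3 := congrArg (fun F : R[X] => F.coeff i) h2
    simp only [hfc] at h3
    rw [dif_pos i.2, dif_pos i.2] at h3
    exact h3
  have h4 := Nat.card_le_card_of_injective _ hinj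
  rwa [Nat.card_fun, Nat.card_eq_fintype_card (α := Fin (N + 1)), Fintype.card_fin] at h4

theorem card_le_Lim {u u' w w' : R[X]} (hu : u * u' = 1) (hw : w' * w = 1)
    (hu' : u'.natDegree ≤ 1) (hw' : w'.natDegree ≤ 1) (W : AddSubgroup R) :
    Nat.card W ≤ Nat.card (Lim u w W) := by
  apply num_lemma
  intro N
  exact (le_card_SN hu hw hu' hw' W N).trans (card_SN_le u w W (N + 2))

end Card

/-- Products of limits vanish. -/
theorem mul_eq_zero_of_Lim {u v w w' : R[X]} (hvu : v * u = 1) (hw : w * w' = 1)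
    {A B : AddSubgroup R} (hAB : ∀ a ∈ A, ∀ b ∈ B, a * b = 0) {a b : R} (ha : a ∈ Lim u v A)
    (hb : b ∈ Lim u w B) : a * b = 0 := by
  obtain ⟨F, hF, n, hFn, rfl⟩ := ha
  obtain ⟨G, hG, m, hGm, rfl⟩ := hb
  have h1 : (u * F * v) * (u * G * w) = 0 := by
    ext k
    rw [coeff_mul, coeff_zero]
    apply Finset.sum_eq_zero
    intro i _
    exact hAB _ (hF _) _ (hG _)
  have h2 : F * G = 0 := by
    calc F * G = (v * u) * F * (v * u) * G * (w * w') := by rw [hvu, hw]; noncomm_ring
      _ = v * ((u * F * v) * (u * G * w)) * w' := by noncomm_ring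
      _ = 0 := by rw [h1]; simp
  rw [← coeff_mul_add_eq_of_natDegree_le hFn hGm, h2, coeff_zero]

/-- The limit is invariant under `ad x`. -/
theorem ad_mem_Lim {x : R} (hx : x * x = 0) {W : AddSubgroup R} {b : R}
    (hb : b ∈ Lim (U x) (V x) W) : b * x - x * b ∈ Lim (U x) (V x) W := by
  obtain ⟨F, hF, n, hFn, rfl⟩ := hb
  have h1 : C x * V x = C x := by
    rw [V, mul_sub, mul_one, ← mul_assoc, ← C_mul, hx, C_0, zero_mul, sub_zero]
  have h2 : U x * C x = C x := by
    rw [U, add_mul, one_mul, mul_assoc, X_mul_C, ← mul_assoc, ← C_mul, hx, C_0, zero_mul, add_zero]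
  have hU' : derivative (U x) = C x := by simp [U]
  have hV' : derivative (V x) = - C x := by simp [V]
  have h3 : derivative (U x * F * V x)
      = U x * (derivative F - (F * C x - C x * F)) * V x := by
    rw [derivative_mul, derivative_mul, hU', hV']
    calc (C x * F + U x * derivative F) * V x + U x * F * (-C x)
        = C x * F * V x + U x * derivative F * V x - U x * F * C x := by noncomm_ring
      _ = (U x * C x) * F * V x + U x * derivative F * V x - U x * F * (C x * V x) := by
          rw [h1, h2]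
      _ = _ := by noncomm_ring
  have hmem : derivative F - (F * C x - C x * F) ∈ Ps (U x) (V x) W := by
    intro k
    rw [← h3, coeff_derivative]
    have h4 : (U x * F * V x).coeff (k + 1) * ((k : R) + 1)
        = (k + 1) • (U x * F * V x).coeff (k + 1) := by
      rw [nsmul_eq_mul]
      push_cast
      exact (Nat.cast_commute (k + 1) _).symm.eq.trans (by push_cast; rfl) |> fun h => by
        simpa using h
    rw [h4]
    exact W.nsmul_mem (hF _) _
  have hneg : -(F.coeff n * x - x * F.coeff n) ∈ Lim (U x) (V x) W := by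
    refine ⟨_, hmem, n, ?_, ?_⟩
    · refine (natDegree_sub_le _ _).trans (max_le ?_ ?_)
      · exact (natDegree_derivative_le F).trans (by omega)
      · refine (natDegree_sub_le _ _).trans (max_le ?_ ?_)
        · exact (natDegree_mul_C_le _ _).trans hFn
        · exact (natDegree_C_mul_le _ _).trans hFn
    · rw [coeff_sub, coeff_sub, coeff_mul_C, coeff_C_mul, coeff_derivative,
        coeff_eq_zero_of_natDegree_lt (n := n + 1) (by omega), zero_mul, zero_sub]
  have := (Lim (U x) (V x) W).neg_mem hneg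
  rwa [neg_neg] at this

/-- Division by integers prime to `p`. -/
theorem div_mem {p : ℕ} (hp1 : 1 < p) (hp : ∀ r : R, p • r = 0) {W : AddSubgroup R} {n : ℕ}
    (hn : n.Coprime p) {c : R} (hc : n • c ∈ W) : c ∈ W := by
  obtain ⟨m, -, hm⟩ := Nat.exists_mul_mod_eq_one_of_coprime hn hp1
  have h1 : m • (n • c) = c := by
    rw [← mul_nsmul']
    have h2 : m * n = p * (n * m / p) + 1 := by
      have := Nat.div_add_mod (n * m) p
      rw [hm] at this
      rw [mul_comm m n]; exact this.symm
    rw [h2, add_nsmul, one_nsmul, mul_comm p, mul_nsmul', hp, nsmul_zero, zero_add]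
  rw [← h1]
  exact W.nsmul_mem hc m

end H78.QOff
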