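import Mathlib
import Cfsg.Agent.Lib.H78.QOff1

/-! Limits of additive subgroups of a ring under `1 + t x`. Part 2. -/

set_option autoImplicit false
set_option linter.all false

namespace H78.QOff

open Polynomial

variable {R : Type*} [Ring R]

/-- Sandwiches of polynomials with coefficients in `W`. -/
theorem sandwich_mem {L M : R[X]} {W : AddSubgroup R}
    (h : ∀ y ∈ W, ∀ k, (L * C y * M).coeff k ∈ W) {f : R[X]} (hf : ∀ k, f.coeff k ∈ W) :
    ∀ k, (L * f * M).coeff k ∈ W := by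
  intro k
  have h1 : L * f * M = ∑ j ∈ Finset.range (f.natDegree + 1), (L * C (f.coeff j) * M) * X ^ j := by
    conv_lhs => rw [f.as_sum_range_C_mul_X_pow]
    rw [Finset.mul_sum, Finset.sum_mul]
    apply Finset.sum_congr rfl
    intro j _
    rw [← mul_assoc, mul_assoc _ (X ^ j) M, X_pow_mul, ← mul_assoc]
  rw [h1, finset_sum_coeff]
  apply W.sum_mem
  intro j _
  rw [coeff_mul_X_pow']
  split_ifs
  · exact h _ (hf j) _
  · exact W.zero_mem

/-- Conjugation invariance of the limit. -/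
theorem conj_mem_Lim {p : ℕ} (hp1 : 5 ≤ p) (hpp : p.Prime) (hp : ∀ r : R, p • r = 0) {x : R}
    (hx : x * x = 0) {W : AddSubgroup R} {k k' : R}
    (h0 : ∀ y ∈ W, k' * y * k ∈ W)
    (h1 : ∀ y ∈ W, (1 + x) * k' * (1 - x) * y * (1 + x) * k * (1 - x) ∈ W)
    (h2 : ∀ y ∈ W, (1 + 2 * x) * k' * (1 - 2 * x) * y * (1 + 2 * x) * k * (1 - 2 * x) ∈ W)
    (h3 : ∀ y ∈ W, (1 + 3 * x) * k' * (1 - 3 * x) * y * (1 + 3 * x) * k * (1 - 3 * x) ∈ W)
    (h4 : ∀ y ∈ W, (1 + 4 * x) * k' * (1 - 4 * x) * y * (1 + 4 * x) * k * (1 - 4 * x) ∈ W)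
    {b : R} (hb : b ∈ Lim (U x) (V x) W) : k' * b * k ∈ Lim (U x) (V x) W := by
  obtain ⟨F, hF, n, hFn, rfl⟩ := hb
  have hco : ∀ q : ℕ, q.Prime → q < 5 → q.Coprime p := by
    intro q hq hq5
    exact (Nat.coprime_primes hq hpp).mpr (by omega)
  have hc2 : (2 : ℕ).Coprime p := hco 2 Nat.prime_two (by norm_num)
  have hc3 : (3 : ℕ).Coprime p := hco 3 Nat.prime_three (by norm_num)
  have hc6 : (6 : ℕ).Coprime p := by
    have := Nat.Coprime.mul_left hc2 hc3
    exact this
  have hc24 : (24 : ℕ).Coprime p := by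
    have := Nat.Coprime.mul_left (Nat.Coprime.mul_left hc6 hc2) hc2
    exact this
  have key : ∀ y ∈ W, ∀ j, ((U x * C k' * V x) * C y * (U x * C k * V x)).coeff j ∈ W := by
    intro y hy
    -- coefficients of `V y U`
    set c0 := k' * y * k with hc0
    set e1 := k' * (y * x - x * y) * k with he1
    set e2 := k' * (x * y * x) * k with he2
    set c1 := e1 + x * c0 - c0 * x with hc1
    set c2' := -e2 + x * e1 - e1 * x - x * c0 * x with hc2'
    set c3' := -(x * e2) + e2 * x - x * e1 * x with hc3'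
    set c4 := x * e2 * x with hc4
    have hassoc : (U x * C k' * V x) * C y * (U x * C k * V x)
        = U x * (C k' * (V x * (C y * U x)) * C k) * V x := by noncomm_ring
    have g0 : ((U x * C k' * V x) * C y * (U x * C k * V x)).coeff 0 = c0 := by
      rw [hassoc]
      simp only [coeff_mul_V_zero, coeff_U_mul_zero, coeff_mul_C, coeff_C_mul, coeff_V_mul_zero,
        coeff_mul_U_zero, coeff_C_zero, hc0]
    have g1 : ((U x * C k' * V x) * C y * (U x * C k * V x)).coeff 1 = c1 := by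
      rw [hassoc]
      simp only [coeff_mul_V_succ, coeff_U_mul_succ, coeff_mul_C, coeff_C_mul, coeff_V_mul_succ,
        coeff_mul_U_succ, coeff_U_mul_zero, coeff_V_mul_zero, coeff_mul_U_zero, coeff_mul_V_zero,
        coeff_C_zero, coeff_C_succ, zero_add, hc1, he1, hc0]
      try noncomm_ring
    have g2 : ((U x * C k' * V x) * C y * (U x * C k * V x)).coeff 2 = c2' := by
      rw [hassoc]
      simp only [coeff_mul_V_succ, coeff_U_mul_succ, coeff_mul_C, coeff_C_mul, coeff_V_mul_succ,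
        coeff_mul_U_succ, coeff_U_mul_zero, coeff_V_mul_zero, coeff_mul_U_zero, coeff_mul_V_zero,
        coeff_C_zero, coeff_C_succ, zero_add, hc2', he2, he1, hc0]
      noncomm_ring
    have g3 : ((U x * C k' * V x) * C y * (U x * C k * V x)).coeff 3 = c3' := by
      rw [hassoc]
      simp only [coeff_mul_V_succ, coeff_U_mul_succ, coeff_mul_C, coeff_C_mul, coeff_V_mul_succ,
        coeff_mul_U_succ, coeff_U_mul_zero, coeff_V_mul_zero, coeff_mul_U_zero, coeff_mul_V_zero,
        coeff_C_zero, coeff_C_succ, zero_add, hc3', he2, he1, hc0]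
      noncomm_ring
    have g4 : ((U x * C k' * V x) * C y * (U x * C k * V x)).coeff 4 = c4 := by
      rw [hassoc]
      simp only [coeff_mul_V_succ, coeff_U_mul_succ, coeff_mul_C, coeff_C_mul, coeff_V_mul_succ,
        coeff_mul_U_succ, coeff_U_mul_zero, coeff_V_mul_zero, coeff_mul_U_zero, coeff_mul_V_zero,
        coeff_C_zero, coeff_C_succ, zero_add, hc4, he2, he1, hc0]
      noncomm_ring
    have g5 : ∀ j, ((U x * C k' * V x) * C y * (U x * C k * V x)).coeff (j + 5) = 0 := by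
      intro j
      rw [hassoc]
      simp only [coeff_mul_V_succ, coeff_U_mul_succ, coeff_mul_C, coeff_C_mul, coeff_V_mul_succ,
        coeff_mul_U_succ, coeff_U_mul_zero, coeff_V_mul_zero, coeff_mul_U_zero, coeff_mul_V_zero,
        coeff_C_zero, coeff_C_succ, zero_add]
      noncomm_ring
    have v0 : c0 ∈ W := h0 y hy
    have v1 : c0 + c1 + c2' + c3' + c4 ∈ W := by
      have := h1 y hy
      have e : (1 + x) * k' * (1 - x) * y * (1 + x) * k * (1 - x) = c0 + c1 + c2' + c3' + c4 := by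
        rw [hc1, hc2', hc3', hc4, he1, he2, hc0]; noncomm_ring
      rwa [e] at this
    have v2 : c0 + 2 • c1 + 4 • c2' + 8 • c3' + 16 • c4 ∈ W := by
      have := h2 y hy
      have e : (1 + 2 * x) * k' * (1 - 2 * x) * y * (1 + 2 * x) * k * (1 - 2 * x)
          = c0 + 2 • c1 + 4 • c2' + 8 • c3' + 16 • c4 := by
        rw [hc1, hc2', hc3', hc4, he1, he2, hc0]; noncomm_ring
      rwa [e] at this
    have v3 : c0 + 3 • c1 + 9 • c2' + 27 • c3' + 81 • c4 ∈ W := by
      have := h3 y hy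
      have e : (1 + 3 * x) * k' * (1 - 3 * x) * y * (1 + 3 * x) * k * (1 - 3 * x)
          = c0 + 3 • c1 + 9 • c2' + 27 • c3' + 81 • c4 := by
        rw [hc1, hc2', hc3', hc4, he1, he2, hc0]; noncomm_ring
      rwa [e] at this
    have v4 : c0 + 4 • c1 + 16 • c2' + 64 • c3' + 256 • c4 ∈ W := by
      have := h4 y hy
      have e : (1 + 4 * x) * k' * (1 - 4 * x) * y * (1 + 4 * x) * k * (1 - 4 * x)
          = c0 + 4 • c1 + 16 • c2' + 64 • c3' + 256 • c4 := by
        rw [hc1, hc2', hc3', hc4, he1, he2, hc0]; noncomm_ring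
      rwa [e] at this
    clear_value c0 c1 c2' c3' c4
    have w4 : c4 ∈ W := by
      apply div_mem (by omega) hp hc24
      have : 24 • c4 = (c0 + 4 • c1 + 16 • c2' + 64 • c3' + 256 • c4)
          - 4 • (c0 + 3 • c1 + 9 • c2' + 27 • c3' + 81 • c4)
          + 6 • (c0 + 2 • c1 + 4 • c2' + 8 • c3' + 16 • c4)
          - 4 • (c0 + c1 + c2' + c3' + c4) + c0 := by abel
      rw [this]
      exact W.add_mem (W.sub_mem (W.add_mem (W.sub_mem v4 (W.nsmul_mem v3 _)) (W.nsmul_mem v2 _))
        (W.nsmul_mem v1 _)) v0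
    have w3 : c3' ∈ W := by
      apply div_mem (by omega) hp hc6
      have : 6 • c3' = (c0 + 3 • c1 + 9 • c2' + 27 • c3' + 81 • c4)
          - 3 • (c0 + 2 • c1 + 4 • c2' + 8 • c3' + 16 • c4)
          + 3 • (c0 + c1 + c2' + c3' + c4) - c0 - 36 • c4 := by abel
      rw [this]
      exact W.sub_mem (W.sub_mem (W.add_mem (W.sub_mem v3 (W.nsmul_mem v2 _)) (W.nsmul_mem v1 _)) v0)
        (W.nsmul_mem w4 _)
    have w2 : c2' ∈ W := by
      apply div_mem (by omega) hp hc2
      have : 2 • c2' = (c0 + 2 • c1 + 4 • c2' + 8 • c3' + 16 • c4)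
          - 2 • (c0 + c1 + c2' + c3' + c4) + c0 - 6 • c3' - 14 • c4 := by abel
      rw [this]
      exact W.sub_mem (W.sub_mem (W.add_mem (W.sub_mem v2 (W.nsmul_mem v1 _)) v0)
        (W.nsmul_mem w3 _)) (W.nsmul_mem w4 _)
    have w1 : c1 ∈ W := by
      have : c1 = (c0 + c1 + c2' + c3' + c4) - c0 - c2' - c3' - c4 := by abel
      rw [this]
      exact W.sub_mem (W.sub_mem (W.sub_mem (W.sub_mem v1 v0) w2) w3) w4
    intro j
    rcases j with _ | _ | _ | _ | _ | j
    · rw [g0]; exact v0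
    · rw [g1]; exact w1
    · rw [g2]; exact w2
    · rw [g3]; exact w3
    · rw [g4]; exact w4
    · rw [g5]; exact W.zero_mem
  refine ⟨C k' * F * C k, ?_, n, ?_, ?_⟩
  · have h5 := sandwich_mem key hF
    intro j
    have h6 : (U x * C k' * V x) * (U x * F * V x) * (U x * C k * V x)
        = U x * (C k' * F * C k) * V x := by
      calc (U x * C k' * V x) * (U x * F * V x) * (U x * C k * V x)
          = U x * C k' * (V x * U x) * F * (V x * U x) * C k * V x := by noncomm_ring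
        _ = _ := by rw [VU x hx]; noncomm_ring
    rw [← h6]
    exact h5 j
  · exact (natDegree_mul_C_le _ _).trans ((natDegree_C_mul_le _ _).trans hFn)
  · rw [coeff_mul_C, coeff_C_mul]

/-- Halves. -/
theorem eq_zero_of_add_self {p : ℕ} (hp1 : 5 ≤ p) (hpp : p.Prime) (hp : ∀ r : R, p • r = 0) {r : R}
    (h : r + r = 0) : r = 0 := by
  have : r ∈ (⊥ : AddSubgroup R) := by
    apply div_mem (p := p) (n := 2) (by omega) hp ((Nat.coprime_primes Nat.prime_two hpp).mpr (by omega))
    rw [two_nsmul, h]; exact AddSubgroup.zero_mem _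
  simpa using this

theorem exists_half {p : ℕ} (hp1 : 5 ≤ p) (hpp : p.Prime) (hp : ∀ r : R, p • r = 0) :
    ∃ h : ℕ, ∀ r : R, h • r + h • r = r := by
  have hc : Nat.Coprime 2 p := (Nat.coprime_primes Nat.prime_two hpp).mpr (by omega)
  obtain ⟨m, -, hm⟩ := Nat.exists_mul_mod_eq_one_of_coprime hc (by omega)
  refine ⟨m, fun r => ?_⟩
  rw [← two_nsmul, ← mul_nsmul']
  have h2 : 2 * m = p * (2 * m / p) + 1 := by
    have := Nat.div_add_mod (2 * m) p
    rw [hm] at this
    exact this.symm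
  rw [h2, add_nsmul, one_nsmul, mul_comm p, mul_nsmul', hp, nsmul_zero, zero_add]

/-- The exponential of three mutually normalizing quadratic pieces. -/
theorem exp_mem {p : ℕ} (hp1 : 5 ≤ p) (hpp : p.Prime) (hp : ∀ r : R, p • r = 0)
    (S : Submonoid R) (W : Fin 3 → AddSubgroup R) (hS : ∀ i, ∀ y ∈ W i, 1 + y ∈ S)
    (hz : ∀ i, ∀ y ∈ W i, ∀ z ∈ W i, y * z = 0)
    (hn : ∀ i j, ∀ y ∈ W i, ∀ z ∈ W j, (1 - z) * y * (1 + z) ∈ W i)
    {y0 y1 y2 : R} (h0 : y0 ∈ W 0) (h1 : y1 ∈ W 1) (h2 : y2 ∈ W 2)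
    (hb : (y0 + y1 + y2) * (y0 + y1 + y2) = 0) : 1 + (y0 + y1 + y2) ∈ S := by
  obtain ⟨h, hh⟩ := exists_half hp1 hpp hp
  -- basic facts
  have f1 : ∀ i j, ∀ y ∈ W i, ∀ z ∈ W j, z * y * z = 0 := by
    intro i j y hy z hz'
    have e1 := hn j i z hz' y hy
    have e2 := hz j _ e1 z hz'
    -- (1 - y) * z * (1 + y) * z = 0
    have e3 : (1 + y) * ((1 - y) * z * (1 + y) * z) = 0 := by rw [e2, mul_zero]
    have e4 : y * y = 0 := hz i y hy y hy
    have e5 : z * z = 0 := hz j z hz' z hz'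
    have e6 : (1 + y) * ((1 - y) * z * (1 + y) * z)
        = z * y * z + z * z - (y * y) * (z * (1 + y) * z) := by noncomm_ring
    rw [e6, e4, e5] at e3
    simpa using e3
  have f2 : ∀ i j, ∀ y ∈ W i, ∀ z ∈ W j, y * z - z * y ∈ W i := by
    intro i j y hy z hz'
    have e1 := hn i j y hy z hz'
    have e2 : (1 - z) * y * (1 + z) = y + (y * z - z * y) - z * y * z := by noncomm_ring
    rw [e2, f1 i j y hy z hz', sub_zero] at e1
    have := (W i).sub_mem e1 hy
    rwa [add_sub_cancel_left] at this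
  set s := y0 + y1 with hs
  set y := y2 with hy
  have y00 : y0 * y0 = 0 := hz 0 _ h0 _ h0
  have y11 : y1 * y1 = 0 := hz 1 _ h1 _ h1
  have yy : y * y = 0 := hz 2 _ h2 _ h2
  have y010 : y0 * y1 * y0 = 0 := f1 1 0 _ h1 _ h0
  have y101 : y1 * y0 * y1 = 0 := f1 0 1 _ h0 _ h1
  have ysy : y * s * y = 0 := by
    rw [hs, mul_add, add_mul, f1 0 2 _ h0 _ h2, f1 1 2 _ h1 _ h2, add_zero]
  have sss : s * s * s = 0 := by
    have : s * s * s = (y0 * y0) * y0 + (y0 * y0) * y1 + y0 * y1 * y0 + y0 * (y1 * y1)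
        + y1 * (y0 * y0) + y1 * y0 * y1 + (y1 * y1) * y0 + (y1 * y1) * y1 := by
      rw [hs]; noncomm_ring
    rw [this, y00, y11, y010, y101]; simp
  have hb' : s * s + s * y + y * s = 0 := by
    have : (s + y) * (s + y) = s * s + s * y + y * s + y * y := by noncomm_ring
    rw [this, yy, add_zero] at hb
    exact hb
  have ssy : s * s * y = 0 := by
    have : (s * s + s * y + y * s) * y = s * s * y + s * (y * y) + y * s * y := by noncomm_ring
    rw [hb', zero_mul, yy, ysy] at this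
    simpa using this.symm
  have sys : s * y * s = 0 := by
    have : s * (s * s + s * y + y * s) = s * s * s + s * s * y + s * y * s := by noncomm_ring
    rw [hb', mul_zero, sss, ssy] at this
    simpa using this.symm
  -- the group element `e^s`
  set w := y0 * y1 - y1 * y0 with hw
  have hw0 : w ∈ W 0 := f2 0 1 _ h0 _ h1
  have hw1 : w ∈ W 1 := by
    have := (W 1).neg_mem (f2 1 0 _ h1 _ h0)
    rwa [neg_sub] at this
  have hhw0 : h • w ∈ W 0 := (W 0).nsmul_mem hw0 h
  have hhw1 : h • w ∈ W 1 := (W 1).nsmul_mem hw1 h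
  set q := h • (s * s) with hq
  have hqq : q + q = s * s := hh _
  have hss : s * s = y0 * y1 + y1 * y0 := by
    have : s * s = y0 * y0 + y0 * y1 + y1 * y0 + y1 * y1 := by rw [hs]; noncomm_ring
    rw [this, y00, y11]; simp
  have hhww : h • w + h • w = w := hh _
  have hE : (1 + y0) * (1 + y1) * (1 + -(h • w)) = 1 + s + q := by
    have e1 : y0 * (h • w) = 0 := hz 0 _ h0 _ hhw0
    have e2 : y1 * (h • w) = 0 := hz 1 _ h1 _ hhw1
    have e3 : (1 + y0) * (1 + y1) * (1 + -(h • w))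
        = 1 + s + y0 * y1 - h • w - y0 * (h • w) - y1 * (h • w) - y0 * (y1 * (h • w)) := by
      rw [hs]; generalize h • w = t; noncomm_ring
    rw [e3, e1, e2, mul_zero, sub_zero, sub_zero, sub_zero]
    have e4 : y0 * y1 - h • w - q = 0 := by
      apply eq_zero_of_add_self hp1 hpp hp
      calc y0 * y1 - h • w - q + (y0 * y1 - h • w - q)
          = y0 * y1 + y0 * y1 - (h • w + h • w) - (q + q) := by abel
        _ = 0 := by rw [hhww, hqq, hss, hw]; abel
    have e5 : y0 * y1 - h • w = q := sub_eq_zero.mp e4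
    rw [add_sub_assoc, e5]
  have hES : 1 + s + q ∈ S := by
    rw [← hE]
    exact S.mul_mem (S.mul_mem (hS 0 _ h0) (hS 1 _ h1)) (hS 0 _ ((W 0).neg_mem hhw0))
  set r := h • (y * s - s * y) with hr
  have hrr : r + r = y * s - s * y := hh _
  have hr2 : r ∈ W 2 := by
    apply (W 2).nsmul_mem
    have : y * s - s * y = (y * y0 - y0 * y) + (y * y1 - y1 * y) := by rw [hs]; noncomm_ring
    rw [this]
    exact (W 2).add_mem (f2 2 0 _ h2 _ h0) (f2 2 1 _ h2 _ h1)
  have hF : 1 + (y + r) ∈ S := hS 2 _ ((W 2).add_mem h2 hr2)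
  have hfin : (1 + s + q) * (1 + (y + r)) = 1 + (s + y) := by
    have e1 : q + r + s * y = 0 := by
      apply eq_zero_of_add_self hp1 hpp hp
      calc q + r + s * y + (q + r + s * y) = (q + q) + (r + r) + (s * y + s * y) := by abel
        _ = s * s + s * y + y * s := by rw [hqq, hrr]; abel
        _ = 0 := hb'
    have e2 : s * r = 0 := by
      apply eq_zero_of_add_self hp1 hpp hp
      calc s * r + s * r = s * (r + r) := by rw [mul_add]
        _ = s * y * s - s * s * y := by rw [hrr]; noncomm_ring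
        _ = 0 := by rw [sys, ssy, sub_zero]
    have e3 : q * y = 0 := by
      apply eq_zero_of_add_self hp1 hpp hp
      calc q * y + q * y = (q + q) * y := by rw [add_mul]
        _ = 0 := by rw [hqq, ssy]
    have e4 : q * r = 0 := by
      apply eq_zero_of_add_self hp1 hpp hp
      apply eq_zero_of_add_self hp1 hpp hp
      calc q * r + q * r + (q * r + q * r) = (q + q) * (r + r) := by noncomm_ring
        _ = (s * s * y) * s - (s * s * s) * y := by rw [hqq, hrr]; noncomm_ring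
        _ = 0 := by rw [ssy, sss]; simp
    calc (1 + s + q) * (1 + (y + r)) = 1 + (s + y) + (q + r + s * y) + s * r + q * y + q * r := by
          noncomm_ring
      _ = 1 + (s + y) := by rw [e1, e2, e3, e4]; simp
  rw [← hfin]
  exact S.mul_mem hES hF

/-- Coefficients of `V f U`. -/
theorem Lim_le {p : ℕ} (hp1 : 5 ≤ p) (hpp : p.Prime) (hp : ∀ r : R, p • r = 0) {x : R}
    (hx : x * x = 0) {W M : AddSubgroup R} (h0 : ∀ y ∈ W, y ∈ M)
    (h1 : ∀ y ∈ W, (1 - x) * y * (1 + x) ∈ M)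
    (h2 : ∀ y ∈ W, (1 - 2 * x) * y * (1 + 2 * x) ∈ M)
    {b : R} (hb : b ∈ Lim (U x) (V x) W) : b ∈ M := by
  obtain ⟨F, hF, n, hFn, rfl⟩ := hb
  have hc2 : (2 : ℕ).Coprime p := (Nat.coprime_primes Nat.prime_two hpp).mpr (by omega)
  have g2 : ∀ y ∈ W, x * y * x ∈ M := by
    intro y hy
    apply div_mem (by omega) hp hc2
    have : 2 • (x * y * x) = 2 • ((1 - x) * y * (1 + x)) - ((1 - 2 * x) * y * (1 + 2 * x)) - y := by
      noncomm_ring
    rw [this]
    exact M.sub_mem (M.sub_mem (M.nsmul_mem (h1 y hy) 2) (h2 y hy)) (h0 y hy)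
  have g1 : ∀ y ∈ W, y * x - x * y ∈ M := by
    intro y hy
    have : y * x - x * y = (1 - x) * y * (1 + x) - y + x * y * x := by noncomm_ring
    rw [this]
    exact M.add_mem (M.sub_mem (h1 y hy) (h0 y hy)) (g2 y hy)
  set f := U x * F * V x with hf
  have hFf : F = V x * f * U x := by
    rw [hf]
    calc F = (V x * U x) * F * (V x * U x) := by rw [VU x hx]; noncomm_ring
      _ = _ := by noncomm_ring
  rw [hFf]
  rcases n with _ | _ | n
  · simp only [coeff_mul_U_zero, coeff_V_mul_zero]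
    exact h0 _ (hF 0)
  · simp only [coeff_mul_U_succ, coeff_V_mul_succ, coeff_V_mul_zero]
    have : f.coeff (0 + 1) - x * f.coeff 0 + f.coeff 0 * x
        = f.coeff (0 + 1) + (f.coeff 0 * x - x * f.coeff 0) := by abel
    rw [this]
    exact M.add_mem (h0 _ (hF _)) (g1 _ (hF _))
  · simp only [coeff_mul_U_succ, coeff_V_mul_succ]
    have : f.coeff (n + 1 + 1) - x * f.coeff (n + 1) + (f.coeff (n + 1) - x * f.coeff n) * x
        = f.coeff (n + 1 + 1) + (f.coeff (n + 1) * x - x * f.coeff (n + 1))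
          - x * f.coeff n * x := by noncomm_ring
    rw [this]
    exact M.sub_mem (M.add_mem (h0 _ (hF _)) (g1 _ (hF _))) (g2 _ (hF _))

/-- Invariance under `1 + x`. -/
theorem conj_x_mem_Lim {p : ℕ} (hp1 : 5 ≤ p) (hpp : p.Prime) (hp : ∀ r : R, p • r = 0) {x : R}
    (hx : x * x = 0) {W : AddSubgroup R} {b : R} (hb : b ∈ Lim (U x) (V x) W) :
    (1 - x) * b * (1 + x) ∈ Lim (U x) (V x) W := by
  have hc2 : (2 : ℕ).Coprime p := (Nat.coprime_primes Nat.prime_two hpp).mpr (by omega)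
  have h1 := ad_mem_Lim hx hb
  have h2 := ad_mem_Lim hx h1
  have h3 : x * b * x ∈ Lim (U x) (V x) W := by
    apply div_mem (by omega) hp hc2
    have : 2 • (x * b * x) = -((b * x - x * b) * x - x * (b * x - x * b))
        + b * (x * x) + (x * x) * b := by noncomm_ring
    rw [this, hx, mul_zero, zero_mul, add_zero, add_zero]
    exact AddSubgroup.neg_mem _ h2
  have : (1 - x) * b * (1 + x) = b + (b * x - x * b) - x * b * x := by noncomm_ring
  rw [this]
  exact AddSubgroup.sub_mem _ (AddSubgroup.add_mem _ hb h1) h3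

end H78.QOff
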