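import Mathlib
import Cfsg.Agent.Lib.H78.QOff2

/-! Quadratic offenders of `p`-groups, `p ≥ 5`: the limit of an offender. -/

set_option autoImplicit false
set_option linter.all false

namespace H78.QOff

open Polynomial

variable {p : ℕ} [Fact p.Prime] {G : Type*} [Group G] [Finite G] {W : Type*} [AddCommGroup W]
  [Module (ZMod p) W] [Finite W] (ρ : G →* Module.End (ZMod p) W)

instance : Finite (Module.End (ZMod p) W) :=
  Finite.of_injective (fun f : Module.End (ZMod p) W => (f : W → W)) DFunLike.coe_injective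

theorem p_smul (r : Module.End (ZMod p) W) : p • r = 0 := by
  rw [← Nat.cast_smul_eq_nsmul (ZMod p), ZMod.natCast_self, zero_smul]

def Quad (A : Subgroup G) : Prop := ∀ a ∈ A, ∀ b ∈ A, (ρ a - 1) * (ρ b - 1) = 0

variable {ρ}

theorem rinv {a : G} (h : (ρ a - 1) * (ρ a - 1) = 0) : ρ a⁻¹ = 1 - (ρ a - 1) := by
  have h1 : ρ a * (1 - (ρ a - 1)) = 1 := by
    have : ρ a * (1 - (ρ a - 1)) = 1 - (ρ a - 1) * (ρ a - 1) := by noncomm_ring
    rw [this, h, sub_zero]
  calc ρ a⁻¹ = ρ a⁻¹ * (ρ a * (1 - (ρ a - 1))) := by rw [h1, mul_one]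
    _ = (ρ a⁻¹ * ρ a) * (1 - (ρ a - 1)) := by rw [mul_assoc]
    _ = 1 - (ρ a - 1) := by rw [← map_mul, inv_mul_cancel, map_one, one_mul]

def LA {A : Subgroup G} (hq : Quad ρ A) : AddSubgroup (Module.End (ZMod p) W) where
  carrier := {r | ∃ a ∈ A, ρ a - 1 = r}
  zero_mem' := ⟨1, A.one_mem, by simp⟩
  add_mem' := by
    rintro _ _ ⟨a, ha, rfl⟩ ⟨b, hb, rfl⟩
    refine ⟨a * b, A.mul_mem ha hb, ?_⟩
    have := hq a ha b hb
    have e : ρ (a * b) - 1 = (ρ a - 1) * (ρ b - 1) + ((ρ a - 1) + (ρ b - 1)) := by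
      rw [map_mul]; noncomm_ring
    rw [e, this, zero_add]
  neg_mem' := by
    rintro _ ⟨a, ha, rfl⟩
    refine ⟨a⁻¹, A.inv_mem ha, ?_⟩
    rw [rinv (hq a ha a ha)]; abel

theorem mem_LA {A : Subgroup G} {hq : Quad ρ A} {r : Module.End (ZMod p) W} :
    r ∈ LA hq ↔ ∃ a ∈ A, ρ a - 1 = r := Iff.rfl

/-- Fixed points. -/
def Fx (ρ : G →* Module.End (ZMod p) W) (A : Subgroup G) : AddSubgroup W where
  carrier := {w | ∀ a ∈ A, ρ a w = w}
  zero_mem' := by intro a _; exact map_zero _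
  add_mem' := by
    intro v w hv hw a ha
    rw [map_add, hv a ha, hw a ha]
  neg_mem' := by
    intro v hv a ha
    rw [map_neg, hv a ha]

theorem mem_Fx {A : Subgroup G} {w : W} : w ∈ Fx ρ A ↔ ∀ a ∈ A, ρ a w = w := Iff.rfl

theorem mem_normalizer_of_conj {B : Subgroup G} {g : G} (h : ∀ b ∈ B, g⁻¹ * b * g ∈ B) :
    g ∈ Subgroup.normalizer (B : Set G) := by
  have h1 : B.map (MulAut.conj g⁻¹).toMonoidHom ≤ B := by
    rintro _ ⟨b, hb, rfl⟩
    simpa using h b hb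
  have h2 : B.map (MulAut.conj g⁻¹).toMonoidHom = B := by
    apply Subgroup.eq_of_le_of_card_ge h1
    rw [Subgroup.card_map_of_injective (MulAut.conj g⁻¹).injective]
  rw [← inv_mem_iff, Subgroup.mem_normalizer_iff]
  intro b
  constructor
  · intro hb
    simpa using h b hb
  · intro hb
    have h3 : g⁻¹ * b * g⁻¹⁻¹ ∈ B.map (MulAut.conj g⁻¹).toMonoidHom := by rw [h2]; exact hb
    obtain ⟨c, hc, hce⟩ := h3
    have h4 : g⁻¹ * c * g⁻¹⁻¹ = g⁻¹ * b * g⁻¹⁻¹ := by simpa using hce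
    have h5 : c = b := by
      have := mul_right_cancel h4
      exact mul_left_cancel this
    rw [← h5]; exact hc

theorem step (hp5 : 5 ≤ p) [Nontrivial W] (hρ : Function.Injective ρ) {A X : Subgroup G} {g : G}
    (hq : Quad ρ A)
    (hAX : A ≤ X) (hXA : X ≤ Subgroup.normalizer (A : Set G)) (hgq : (ρ g - 1) * (ρ g - 1) = 0)
    (hgX : g ∈ Subgroup.normalizer (X : Set G)) :
    ∃ B : Subgroup G, Quad ρ B ∧ X ≤ Subgroup.normalizer (B : Set G) ∧
      g ∈ Subgroup.normalizer (B : Set G) ∧ Nat.card A ≤ Nat.card B ∧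
      Nat.card (Fx ρ A) ≤ Nat.card (Fx ρ B) := by
  classical
  have hpp : p.Prime := Fact.out
  set x := ρ g - 1 with hxdef
  have hx : x * x = 0 := hgq
  have hg1 : ρ g = 1 + x := by rw [hxdef]; abel
  have hgn : ∀ n : ℕ, ρ (g ^ n) = 1 + (n : Module.End (ZMod p) W) * x := by
    intro n
    induction n with
    | zero => simp
    | succ n ih =>
      rw [pow_succ, map_mul, ih, hg1]
      push_cast
      have : (1 + (n : Module.End (ZMod p) W) * x) * (1 + x)
          = 1 + ((n : Module.End (ZMod p) W) + 1) * x + (n : Module.End (ZMod p) W) * (x * x) := by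
        noncomm_ring
      rw [this, hx, mul_zero, add_zero]
  have hgn' : ∀ n : ℕ, ρ ((g ^ n)⁻¹) = 1 - (n : Module.End (ZMod p) W) * x := by
    intro n
    have h1 : (ρ (g ^ n) - 1) * (ρ (g ^ n) - 1) = 0 := by
      rw [hgn]
      have : (1 + (n : Module.End (ZMod p) W) * x - 1) * (1 + (n : Module.End (ZMod p) W) * x - 1)
          = (n : Module.End (ZMod p) W) * (x * (n : Module.End (ZMod p) W)) * x := by noncomm_ring
      rw [this, ← Nat.cast_comm n x]
      have : (n : Module.End (ZMod p) W) * ((n : Module.End (ZMod p) W) * x) * x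
          = (n : Module.End (ZMod p) W) * (n : Module.End (ZMod p) W) * (x * x) := by noncomm_ring
      rw [this, hx, mul_zero]
    rw [rinv h1, hgn]; abel
  set a0 := LA hq with ha0
  -- conjugation by X
  have hconj : ∀ h ∈ X, ∀ y ∈ a0, ρ h⁻¹ * y * ρ h ∈ a0 := by
    rintro h hh _ ⟨a, ha, rfl⟩
    refine ⟨h⁻¹ * a * h, ?_, ?_⟩
    · have h1 := hXA (X.inv_mem hh)
      rw [Subgroup.mem_normalizer_iff] at h1
      have := (h1 a).mp ha
      simpa using this
    · rw [map_mul, map_mul, mul_sub, sub_mul, mul_one, ← map_mul ρ h⁻¹ h, inv_mul_cancel, map_one]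
  have hgXn : ∀ n : ℕ, ∀ h ∈ X, g ^ n * h * (g ^ n)⁻¹ ∈ X := by
    intro n h hh
    have h1 := (Subgroup.normalizer (X : Set G)).pow_mem hgX n
    rw [Subgroup.mem_normalizer_iff] at h1
    exact (h1 h).mp hh
  have hgXn' : ∀ n : ℕ, ∀ h ∈ X, (g ^ n)⁻¹ * h * g ^ n ∈ X := by
    intro n h hh
    have h1 := (Subgroup.normalizer (X : Set G)).inv_mem
      ((Subgroup.normalizer (X : Set G)).pow_mem hgX n)
    rw [Subgroup.mem_normalizer_iff] at h1
    simpa using (h1 h).mp hh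
  set 𝔟 := Lim (U x) (V x) a0 with h𝔟
  have hzz : ∀ y ∈ a0, ∀ z ∈ a0, y * z = 0 := by
    rintro _ ⟨a, ha, rfl⟩ _ ⟨b, hb, rfl⟩
    exact hq a ha b hb
  have hbb : ∀ b ∈ 𝔟, ∀ c ∈ 𝔟, b * c = 0 := fun b hb c hc =>
    mul_eq_zero_of_Lim (VU x hx) (VU x hx) hzz hb hc
  -- the three conjugates
  let T : ℕ → (Module.End (ZMod p) W →+ Module.End (ZMod p) W) := fun n =>
    (AddMonoidHom.mulLeft (ρ (g ^ n)⁻¹)).comp (AddMonoidHom.mulRight (ρ (g ^ n)))
  have hT : ∀ n y, T n y = ρ (g ^ n)⁻¹ * y * ρ (g ^ n) := by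
    intro n y
    show ρ (g ^ n)⁻¹ * (y * ρ (g ^ n)) = _
    rw [mul_assoc]
  let WW : Fin 3 → AddSubgroup (Module.End (ZMod p) W) := fun i => a0.map (T i)
  have hS1 : ∀ n : ℕ, ∀ a ∈ A, 1 + T n (ρ a - 1) = ρ ((g ^ n)⁻¹ * a * g ^ n) := by
    intro n a ha
    rw [hT, map_mul, map_mul, mul_sub, sub_mul, mul_one, ← map_mul ρ (g ^ n)⁻¹ (g ^ n),
      inv_mul_cancel, map_one]
    abel
  set S : Submonoid (Module.End (ZMod p) W) := X.toSubmonoid.map ρ with hS
  have hin : ∀ b ∈ 𝔟, 1 + b ∈ S := by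
    intro b hb
    have hb1 : b ∈ WW 0 ⊔ WW 1 ⊔ WW 2 := by
      apply Lim_le hp5 hpp p_smul hx (W := a0) _ _ _ hb
      · intro y hy
        apply AddSubgroup.mem_sup_left
        apply AddSubgroup.mem_sup_left
        refine ⟨y, hy, ?_⟩
        show T 0 y = y
        rw [hT]; simp
      · intro y hy
        apply AddSubgroup.mem_sup_left
        apply AddSubgroup.mem_sup_right
        refine ⟨y, hy, ?_⟩
        show T 1 y = _
        rw [hT, hgn, hgn']; simp
      · intro y hy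
        apply AddSubgroup.mem_sup_right
        refine ⟨y, hy, ?_⟩
        show T 2 y = _
        rw [hT, hgn, hgn']; simp
    obtain ⟨s, hs, y2, hy2, rfl⟩ := AddSubgroup.mem_sup.mp hb1
    obtain ⟨y0, hy0, y1, hy1, rfl⟩ := AddSubgroup.mem_sup.mp hs
    apply exp_mem hp5 hpp p_smul S WW _ _ _ hy0 hy1 hy2 (hbb _ hb _ hb)
    · rintro i _ ⟨_, ⟨a, ha, rfl⟩, rfl⟩
      rw [hS1 i a ha]
      exact ⟨_, hgXn' i a (hAX ha), rfl⟩
    · rintro i _ ⟨y, hy, rfl⟩ _ ⟨z, hz, rfl⟩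
      rw [hT, hT]
      calc ρ (g ^ (i : ℕ))⁻¹ * y * ρ (g ^ (i : ℕ)) * (ρ (g ^ (i : ℕ))⁻¹ * z * ρ (g ^ (i : ℕ)))
          = ρ (g ^ (i : ℕ))⁻¹ * (y * (ρ (g ^ (i : ℕ)) * ρ (g ^ (i : ℕ))⁻¹) * z) * ρ (g ^ (i : ℕ)) := by
            noncomm_ring
        _ = 0 := by
            rw [← map_mul, mul_inv_cancel, map_one, mul_one, hzz y hy z hz, mul_zero, zero_mul]
    · rintro i j _ ⟨y, hy, rfl⟩ _ ⟨_, ⟨a, ha, rfl⟩, rfl⟩
      set c := (g ^ (j : ℕ))⁻¹ * a * g ^ (j : ℕ) with hc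
      have hcX : c ∈ X := hgXn' j a (hAX ha)
      have e1 : 1 + T j (ρ a - 1) = ρ c := hS1 j a ha
      have e1' : ρ c - 1 = T j (ρ a - 1) := by rw [← e1]; abel
      have e2 : (ρ c - 1) * (ρ c - 1) = 0 := by
        rw [e1', hT]
        calc ρ (g ^ (j : ℕ))⁻¹ * (ρ a - 1) * ρ (g ^ (j : ℕ)) *
              (ρ (g ^ (j : ℕ))⁻¹ * (ρ a - 1) * ρ (g ^ (j : ℕ)))
            = ρ (g ^ (j : ℕ))⁻¹ * ((ρ a - 1) * (ρ (g ^ (j : ℕ)) * ρ (g ^ (j : ℕ))⁻¹) * (ρ a - 1)) *
              ρ (g ^ (j : ℕ)) := by noncomm_ring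
          _ = 0 := by
              rw [← map_mul, mul_inv_cancel, map_one, mul_one, hq a ha a ha, mul_zero, zero_mul]
      have e3 : 1 - T j (ρ a - 1) = ρ c⁻¹ := by rw [rinv e2, e1']
      rw [e1, e3, hT]
      set d := g ^ (i : ℕ) * c * (g ^ (i : ℕ))⁻¹ with hd
      have hdX : d ∈ X := hgXn i c hcX
      refine ⟨ρ d⁻¹ * y * ρ d, hconj d hdX y hy, ?_⟩
      rw [hT]
      have e4 : ρ (g ^ (i : ℕ))⁻¹ * ρ d⁻¹ = ρ c⁻¹ * ρ (g ^ (i : ℕ))⁻¹ := by
        rw [← map_mul, ← map_mul]; congr 1; rw [hd]; group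
      have e5 : ρ d * ρ (g ^ (i : ℕ)) = ρ (g ^ (i : ℕ)) * ρ c := by
        rw [← map_mul, ← map_mul]; congr 1; rw [hd]; group
      calc ρ (g ^ (i : ℕ))⁻¹ * (ρ d⁻¹ * y * ρ d) * ρ (g ^ (i : ℕ))
          = (ρ (g ^ (i : ℕ))⁻¹ * ρ d⁻¹) * y * (ρ d * ρ (g ^ (i : ℕ))) := by noncomm_ring
        _ = (ρ c⁻¹ * ρ (g ^ (i : ℕ))⁻¹) * y * (ρ (g ^ (i : ℕ)) * ρ c) := by rw [e4, e5]
        _ = ρ c⁻¹ * (ρ (g ^ (i : ℕ))⁻¹ * y * ρ (g ^ (i : ℕ))) * ρ c := by noncomm_ring
  -- the group `B`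
  let B : Subgroup G :=
    { carrier := {h | ρ h - 1 ∈ 𝔟}
      one_mem' := by show ρ 1 - 1 ∈ 𝔟; rw [map_one, sub_self]; exact 𝔟.zero_mem
      mul_mem' := by
        intro h k hh hk
        show ρ (h * k) - 1 ∈ 𝔟
        have e : ρ (h * k) - 1 = (ρ h - 1) * (ρ k - 1) + ((ρ h - 1) + (ρ k - 1)) := by
          rw [map_mul]; noncomm_ring
        rw [e, hbb _ hh _ hk, zero_add]
        exact 𝔟.add_mem hh hk
      inv_mem' := by
        intro h hh
        show ρ h⁻¹ - 1 ∈ 𝔟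
        rw [rinv (hbb _ hh _ hh)]
        have : 1 - (ρ h - 1) - 1 = -(ρ h - 1) := by abel
        rw [this]
        exact 𝔟.neg_mem hh }
  have hBmem : ∀ h, h ∈ B ↔ ρ h - 1 ∈ 𝔟 := fun h => Iff.rfl
  have hBconj : ∀ k : G, (∀ b ∈ 𝔟, ρ k⁻¹ * b * ρ k ∈ 𝔟) → k ∈ Subgroup.normalizer (B : Set G) := by
    intro k hk
    apply mem_normalizer_of_conj
    intro h hh
    rw [hBmem] at hh ⊢
    have e : ρ (k⁻¹ * h * k) - 1 = ρ k⁻¹ * (ρ h - 1) * ρ k := by
      rw [mul_sub, sub_mul, mul_one, ← map_mul ρ k⁻¹ k, inv_mul_cancel, map_one, map_mul, map_mul]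
    rw [e]
    exact hk _ hh
  refine ⟨B, ?_, ?_, ?_, ?_, ?_⟩
  · intro h hh k hk
    exact hbb _ hh _ hk
  · intro h hh
    apply hBconj
    intro b hb
    have hgen : ∀ n : ℕ, ∀ y ∈ a0,
        (1 + (n : Module.End (ZMod p) W) * x) * ρ h⁻¹ * (1 - (n : Module.End (ZMod p) W) * x) * y *
        (1 + (n : Module.End (ZMod p) W) * x) * ρ h * (1 - (n : Module.End (ZMod p) W) * x) ∈ a0 := by
      intro n y hy
      rw [← hgn, ← hgn']
      have h1 := hconj _ (hgXn n h hh) y hy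
      have e : ρ (g ^ n) * ρ h⁻¹ * ρ (g ^ n)⁻¹ * y * ρ (g ^ n) * ρ h * ρ (g ^ n)⁻¹
          = ρ (g ^ n * h * (g ^ n)⁻¹)⁻¹ * y * ρ (g ^ n * h * (g ^ n)⁻¹) := by
        have e1 : (g ^ n * h * (g ^ n)⁻¹)⁻¹ = g ^ n * h⁻¹ * (g ^ n)⁻¹ := by group
        rw [e1]
        simp only [map_mul, mul_assoc]
      rw [e]
      exact h1
    apply conj_mem_Lim hp5 hpp p_smul hx _ _ _ _ _ hb
    · intro y hy; exact hconj h hh y hy
    · intro y hy; simpa using hgen 1 y hy
    · intro y hy; simpa using hgen 2 y hy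
    · intro y hy; simpa using hgen 3 y hy
    · intro y hy; simpa using hgen 4 y hy
  · apply hBconj
    intro b hb
    rw [rinv hgq, hg1, add_sub_cancel_left]
    exact conj_x_mem_Lim hp5 hpp p_smul hx hb
  · calc Nat.card A ≤ Nat.card a0 := by
          apply Nat.card_le_card_of_injective
            (fun a : A => (⟨ρ a - 1, a, a.2, rfl⟩ : a0))
          intro a b hab
          have h1 : ρ a - 1 = ρ b - 1 := congrArg (fun z : a0 => (z : Module.End (ZMod p) W)) hab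
          exact Subtype.ext (hρ (sub_left_injective h1))
      _ ≤ Nat.card 𝔟 := card_le_Lim (UV x hx) (UV x hx) (natDegree_V x) (natDegree_U x) a0
      _ ≤ Nat.card B := by
          have hex : ∀ b : 𝔟, ∃ h : B, ρ h = 1 + (b : Module.End (ZMod p) W) := by
            rintro ⟨b, hb⟩
            obtain ⟨h, hh, he⟩ := hin b hb
            refine ⟨⟨h, ?_⟩, he⟩
            rw [hBmem, he, add_sub_cancel_left]
            exact hb
          choose f hf using hex
          apply Nat.card_le_card_of_injective f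
          intro b c hbc
          apply Subtype.ext
          have h1 := hf b
          rw [hbc, hf c] at h1
          exact (add_left_cancel h1).symm
  · -- fixed points
    obtain ⟨v0, hv0⟩ := exists_ne (0 : W)
    obtain ⟨φ, hφ⟩ : ∃ φ : Module.Dual (ZMod p) W, φ v0 ≠ 0 := by
      by_contra hcon
      push_neg at hcon
      exact hv0 ((Module.forall_dual_apply_eq_zero_iff (ZMod p) v0).mp hcon)
    let σ : W →+ Module.End (ZMod p) W :=
      { toFun := fun w => LinearMap.smulRight φ w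
        map_zero' := by ext v; simp
        map_add' := by intro v w; ext u; simp [smul_add] }
    have hσ : ∀ w v, σ w v = φ v • w := fun w v => rfl
    have hmulσ : ∀ (r : Module.End (ZMod p) W) (w : W), r * σ w = σ (r w) := by
      intro r w
      ext v
      rw [Module.End.mul_apply, hσ, hσ, map_smul]
    have hσ0 : ∀ w, σ w = 0 → w = 0 := by
      intro w hw
      have h1 := congrArg (fun r : Module.End (ZMod p) W => r v0) hw
      simp only [hσ, LinearMap.zero_apply] at h1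
      exact (smul_eq_zero.mp h1).resolve_left hφ
    have hσinj : Function.Injective σ := (injective_iff_map_eq_zero σ).mpr hσ0
    set 𝔯 := (Fx ρ A).map σ with h𝔯
    have hz1 : ∀ y ∈ a0, ∀ r ∈ 𝔯, y * r = 0 := by
      rintro _ ⟨a, ha, rfl⟩ _ ⟨w, hw, rfl⟩
      rw [hmulσ]
      have : (ρ a - 1) w = 0 := by
        rw [LinearMap.sub_apply, hw a ha]; simp
      rw [this, map_zero]
    have hlim : ∀ c ∈ Lim (U x) 1 𝔯, ∃ w ∈ Fx ρ B, σ w = c := by
      intro c hc
      have hbc : ∀ b ∈ 𝔟, b * c = 0 := fun b hb =>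
        mul_eq_zero_of_Lim (VU x hx) (one_mul 1) hz1 hb hc
      obtain ⟨F, hF, n, hFn, rfl⟩ := hc
      have hF1 : ∀ k, (U x * F).coeff k ∈ σ.range := by
        intro k
        have := hF k
        rw [mul_one] at this
        obtain ⟨w, _, hw⟩ := this
        exact ⟨w, hw⟩
      have hF2 : F.coeff n ∈ σ.range := by
        have e : F = V x * (U x * F) := by rw [← mul_assoc, VU x hx, one_mul]
        rw [e]
        rcases n with _ | n
        · rw [coeff_V_mul_zero]; exact hF1 0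
        · rw [coeff_V_mul_succ]
          apply σ.range.sub_mem (hF1 _)
          obtain ⟨w, hw⟩ := hF1 n
          rw [← hw, hmulσ]
          exact ⟨_, rfl⟩
      obtain ⟨w, hw⟩ := hF2
      refine ⟨w, ?_, hw⟩
      intro h hh
      have h1 := hbc _ ((hBmem h).mp hh)
      rw [← hw, hmulσ] at h1
      have h2 := hσ0 _ h1
      rw [LinearMap.sub_apply] at h2
      have h3 := sub_eq_zero.mp h2
      simpa using h3
    calc Nat.card (Fx ρ A) ≤ Nat.card 𝔯 := by
          apply Nat.card_le_card_of_injective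
            (fun w : Fx ρ A => (⟨σ w, w, w.2, rfl⟩ : 𝔯))
          intro v w hvw
          have h1 : σ v = σ w := congrArg (fun z : 𝔯 => (z : Module.End (ZMod p) W)) hvw
          exact Subtype.ext (hσinj h1)
      _ ≤ Nat.card (Lim (U x) 1 𝔯) :=
          card_le_Lim (UV x hx) (one_mul 1) (natDegree_V x) (by simp) 𝔯
      _ ≤ Nat.card (Fx ρ B) := by
          have hex : ∀ c : Lim (U x) 1 𝔯, ∃ w : Fx ρ B, σ w = c := by
            rintro ⟨c, hc⟩
            obtain ⟨w, hw, hwc⟩ := hlim c hc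
            exact ⟨⟨w, hw⟩, hwc⟩
          choose f hf using hex
          apply Nat.card_le_card_of_injective f
          intro b c hbc
          apply Subtype.ext
          rw [← hf b, ← hf c, hbc]

end H78.QOff
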