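import Mathlib
import Cfsg.Agent.Lib.H78.QOff3

/-! Quadratic offenders of `p`-groups, `p ≥ 5`: the selection. -/

set_option autoImplicit false
set_option linter.all false

namespace H78.QOff

theorem exists_norm {p : ℕ} [Fact p.Prime] {G : Type*} [Group G] [Finite G] (hG : IsPGroup p G)
    (Q : Set G) (hconj : ∀ q ∈ Q, ∀ g, g * q * g⁻¹ ∈ Q) (X : Subgroup G)
    (hX : X = Subgroup.closure (Q ∩ X)) (hne : ¬ Q ⊆ X) :
    ∃ g ∈ Q, g ∉ X ∧ g ∈ Subgroup.normalizer (X : Set G) := by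
  classical
  let S : Set (Subgroup G) := {Z | X ≤ Z ∧ Q ∩ (Z : Set G) ⊆ X}
  have hS : X ∈ S := ⟨le_rfl, Set.inter_subset_right⟩
  obtain ⟨Z, hZ⟩ := (Set.toFinite S).exists_maximal ⟨_, hS⟩
  have hZtop : Z ≠ ⊤ := by
    rintro rfl
    apply hne
    intro q hq
    exact hZ.prop.2 ⟨hq, Subgroup.mem_top q⟩
  haveI : Group.IsNilpotent G := hG.isNilpotent
  have hlt : Z < Subgroup.normalizer (Z : Set G) :=
    Group.normalizerCondition_of_isNilpotent _ (lt_top_iff_ne_top.mpr hZtop)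
  have hex : ∃ q ∈ Q, q ∈ Subgroup.normalizer (Z : Set G) ∧ q ∉ X := by
    by_contra hcon
    push_neg at hcon
    have h1 : Subgroup.normalizer (Z : Set G) ∈ S :=
      ⟨hZ.prop.1.trans hlt.le, fun q hq => hcon q hq.1 hq.2⟩
    exact absurd (hZ.le_of_ge h1 hlt.le) (not_le_of_gt hlt)
  obtain ⟨q, hqQ, hqZ, hqX⟩ := hex
  refine ⟨q, hqQ, hqX, ?_⟩
  apply mem_normalizer_of_conj
  have key : ∀ b ∈ Subgroup.closure (Q ∩ (X : Set G)), q⁻¹ * b * q ∈ X := by
    intro b hb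
    induction hb using Subgroup.closure_induction with
    | mem b hb =>
      apply hZ.prop.2
      refine ⟨?_, ?_⟩
      · have := hconj b hb.1 q⁻¹
        simpa using this
      · have h1 := (Subgroup.normalizer (Z : Set G)).inv_mem hqZ
        rw [Subgroup.mem_normalizer_iff] at h1
        have := (h1 b).mp (hZ.prop.1 hb.2)
        simpa using this
    | one => simp
    | mul a b ha hb iha ihb =>
      have : q⁻¹ * (a * b) * q = (q⁻¹ * a * q) * (q⁻¹ * b * q) := by group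
      rw [this]
      exact X.mul_mem iha ihb
    | inv a ha iha =>
      have : q⁻¹ * a⁻¹ * q = (q⁻¹ * a * q)⁻¹ := by group
      rw [this]
      exact X.inv_mem iha
  intro b hb
  exact key b (hX ▸ hb)

variable {p : ℕ} [Fact p.Prime] {G : Type*} [Group G] [Finite G] {W : Type*} [AddCommGroup W]
  [Module (ZMod p) W] [Finite W] {ρ : G →* Module.End (ZMod p) W}

theorem main (hp5 : 5 ≤ p) (hG : IsPGroup p G) [Nontrivial W] (hρ : Function.Injective ρ)
    (A₀ : Subgroup G) (h0 : A₀ ≠ ⊥) (hq0 : Quad ρ A₀)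
    (hoff : Nat.card W ≤ Nat.card A₀ * Nat.card (Fx ρ A₀)) :
    ∃ A : Subgroup G, A ≠ ⊥ ∧ Quad ρ A ∧ Nat.card W ≤ Nat.card A * Nat.card (Fx ρ A) ∧
      ∀ g ∈ Subgroup.closure {g : G | (ρ g - 1) * (ρ g - 1) = 0},
        g ∈ Subgroup.normalizer (A : Set G) := by
  classical
  let Q : Set G := {g : G | (ρ g - 1) * (ρ g - 1) = 0}
  have hQconj : ∀ q ∈ Q, ∀ g, g * q * g⁻¹ ∈ Q := by
    intro q hq g
    have hq' : (ρ q - 1) * (ρ q - 1) = 0 := hq
    show (ρ (g * q * g⁻¹) - 1) * (ρ (g * q * g⁻¹) - 1) = 0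
    have e : ρ (g * q * g⁻¹) - 1 = ρ g * (ρ q - 1) * ρ g⁻¹ := by
      rw [mul_sub, sub_mul, mul_one, ← map_mul ρ g g⁻¹, mul_inv_cancel, map_one, map_mul, map_mul]
    rw [e]
    calc ρ g * (ρ q - 1) * ρ g⁻¹ * (ρ g * (ρ q - 1) * ρ g⁻¹)
        = ρ g * ((ρ q - 1) * (ρ g⁻¹ * ρ g) * (ρ q - 1)) * ρ g⁻¹ := by noncomm_ring
      _ = 0 := by rw [← map_mul, inv_mul_cancel, map_one, mul_one, hq', mul_zero, zero_mul]
  let XX : Subgroup G → Subgroup G := fun A =>
    Subgroup.closure (Q ∩ (Subgroup.normalizer (A : Set G) : Set G))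
  let S : Set (Subgroup G) :=
    {A | A ≠ ⊥ ∧ Quad ρ A ∧ Nat.card W ≤ Nat.card A * Nat.card (Fx ρ A)}
  obtain ⟨A, hAS, hAmax⟩ := Set.exists_max_image S (fun A => Nat.card (XX A)) (Set.toFinite S)
    ⟨A₀, h0, hq0, hoff⟩
  obtain ⟨hA1, hAq, hAoff⟩ := hAS
  have hXN : XX A ≤ Subgroup.normalizer (A : Set G) := by
    rw [Subgroup.closure_le]; exact Set.inter_subset_right
  by_cases hsub : Q ⊆ (XX A : Set G)
  · refine ⟨A, hA1, hAq, hAoff, ?_⟩
    intro g hg
    exact hXN ((Subgroup.closure_le _).mpr hsub hg)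
  · exfalso
    have hX : XX A = Subgroup.closure (Q ∩ (XX A : Set G)) := by
      apply le_antisymm
      · apply Subgroup.closure_mono
        intro q hq
        exact ⟨hq.1, Subgroup.subset_closure hq⟩
      · rw [Subgroup.closure_le]; exact Set.inter_subset_right
    obtain ⟨g, hgQ, hgX, hgN⟩ := exists_norm hG Q hQconj (XX A) hX hsub
    have hAX : A ≤ XX A := by
      intro a ha
      exact Subgroup.subset_closure ⟨hAq a ha a ha, Subgroup.le_normalizer ha⟩
    obtain ⟨B, hBq, hBX, hBg, hBc, hBf⟩ := step hp5 hρ hAq hAX hXN hgQ hgN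
    have hB1 : B ≠ ⊥ := by
      rintro rfl
      rw [Subgroup.card_bot] at hBc
      exact hA1 (Subgroup.eq_bot_of_card_le A hBc)
    have hBS : B ∈ S := ⟨hB1, hBq, hAoff.trans (Nat.mul_le_mul hBc hBf)⟩
    have hle : XX A ≤ XX B := by
      rw [hX]
      apply Subgroup.closure_mono
      intro q hq
      exact ⟨hq.1, hBX hq.2⟩
    have hgB : g ∈ XX B := Subgroup.subset_closure ⟨hgQ, hBg⟩
    have hlt : XX A < XX B := lt_of_le_of_ne hle (fun h => hgX (h ▸ hgB))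
    have h1 := hAmax B hBS
    have h2 : XX A = XX B := Subgroup.eq_of_le_of_card_ge hle h1
    exact hlt.ne h2

theorem pow_eq {A : Subgroup G} (hq : Quad ρ A) {a : G} (ha : a ∈ A) (n : ℕ) :
    ρ (a ^ n) = 1 + n • (ρ a - 1) := by
  induction n with
  | zero => simp
  | succ n ih =>
    rw [pow_succ, map_mul, ih, succ_nsmul]
    have : (1 + n • (ρ a - 1)) * ρ a = 1 + (n • (ρ a - 1) + (ρ a - 1)) +
        n • ((ρ a - 1) * (ρ a - 1)) := by
      have : n • ((ρ a - 1) * (ρ a - 1)) = (n • (ρ a - 1)) * (ρ a - 1) := by rw [smul_mul_assoc]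
      rw [this]
      generalize n • (ρ a - 1) = t
      noncomm_ring
    rw [this, hq a ha a ha, smul_zero, add_zero]

theorem quad_comm (hρ : Function.Injective ρ) {A : Subgroup G} (hq : Quad ρ A) {a b : G}
    (ha : a ∈ A) (hb : b ∈ A) : a * b = b * a := by
  apply hρ
  rw [map_mul, map_mul]
  have h1 : ρ a * ρ b = (ρ a - 1) * (ρ b - 1) + (ρ a + ρ b - 1) := by noncomm_ring
  have h2 : ρ b * ρ a = (ρ b - 1) * (ρ a - 1) + (ρ a + ρ b - 1) := by noncomm_ring
  rw [h1, h2, hq a ha b hb, hq b hb a ha]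

theorem quad_pow (hρ : Function.Injective ρ) {A : Subgroup G} (hq : Quad ρ A) {a : G}
    (ha : a ∈ A) : a ^ p = 1 := by
  apply hρ
  rw [pow_eq hq ha, p_smul, add_zero, map_one]

end H78.QOff
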