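import Mathlib
import Cfsg.Agent.Lib.H78.QOff4

/-! Quadratic offenders of `p`-groups, `p ≥ 5`: multiplicative version. -/

set_option autoImplicit false
set_option linter.all false

namespace H78.QOff

/-- The representation attached to an action on an elementary abelian group. -/
noncomputable def toRep {p : ℕ} {G M : Type*} [Group G] [CommGroup M] [Module (ZMod p) (Additive M)]
    (φ : G →* MulAut M) : G →* Module.End (ZMod p) (Additive M) where
  toFun g := (MonoidHom.toAdditive ((φ g : M ≃* M) : M →* M)).toZModLinearMap p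
  map_one' := by
    apply LinearMap.ext
    intro v
    show Additive.ofMul (φ 1 (Additive.toMul v)) = v
    rw [map_one]; rfl
  map_mul' := by
    intro g h
    apply LinearMap.ext
    intro v
    show Additive.ofMul (φ (g * h) (Additive.toMul v)) = Additive.ofMul (φ g (φ h (Additive.toMul v)))
    rw [map_mul]; rfl

theorem toRep_apply {p : ℕ} {G M : Type*} [Group G] [CommGroup M] [Module (ZMod p) (Additive M)]
    (φ : G →* MulAut M) (g : G) (v : M) :
    toRep (p := p) φ g (Additive.ofMul v) = Additive.ofMul (φ g v) := rfl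

theorem toRep_sub_apply {p : ℕ} {G M : Type*} [Group G] [CommGroup M]
    [Module (ZMod p) (Additive M)]
    (φ : G →* MulAut M) (g : G) (v : M) :
    (toRep (p := p) φ g - 1) (Additive.ofMul v) = Additive.ofMul (φ g v * v⁻¹) := by
  rw [LinearMap.sub_apply, toRep_apply, Module.End.one_apply, sub_eq_add_neg]
  rfl

theorem abs_main {p : ℕ} [Fact p.Prime] (hp5 : 5 ≤ p) {G : Type*} [Group G] [Finite G]
    (hG : IsPGroup p G) {M : Type*} [CommGroup M] [Finite M] (hM : ∀ x : M, x ^ p = 1)
    (φ : G →* MulAut M) (hφ : Function.Injective φ) (A₁ : Subgroup G) (h1 : A₁ ≠ ⊥)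
    (hq : ∀ a ∈ A₁, ∀ b ∈ A₁, ∀ v : M, φ a (φ b v * v⁻¹) = φ b v * v⁻¹)
    (hoff : Nat.card M ≤ Nat.card A₁ * Nat.card {v : M // ∀ a ∈ A₁, φ a v = v}) :
    ∃ A : Subgroup G, A ≠ ⊥ ∧
      (∀ a ∈ A, ∀ b ∈ A, ∀ v : M, φ a (φ b v * v⁻¹) = φ b v * v⁻¹) ∧
      (∀ a ∈ A, ∀ b ∈ A, a * b = b * a) ∧ (∀ a ∈ A, a ^ p = 1) ∧
      Nat.card M ≤ Nat.card A * Nat.card {v : M // ∀ a ∈ A, φ a v = v} ∧
      ∀ g ∈ Subgroup.closure {x : G | ∃ h, ∃ a ∈ A, x = h * a * h⁻¹},
        g ∈ Subgroup.normalizer (A : Set G) := by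
  classical
  letI : Module (ZMod p) (Additive M) := AddCommGroup.zmodModule (n := p) (fun x => hM _)
  set ρ : G →* Module.End (ZMod p) (Additive M) := toRep φ with hρdef
  have hρa : ∀ g (v : M), ρ g (Additive.ofMul v) = Additive.ofMul (φ g v) := fun g v => rfl
  have hρs : ∀ g (v : M), (ρ g - 1) (Additive.ofMul v) = Additive.ofMul (φ g v * v⁻¹) :=
    fun g v => toRep_sub_apply φ g v
  have hρ : Function.Injective ρ := by
    rw [injective_iff_map_eq_one]
    intro g hg
    apply hφ
    rw [map_one]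
    ext v
    have h2 := hρa g v
    rw [hg, Module.End.one_apply] at h2
    exact (Additive.ofMul.injective h2).symm
  haveI : Finite (Additive M) := inferInstanceAs (Finite M)
  haveI : Nontrivial (Additive M) := by
    by_contra hcon
    rw [not_nontrivial_iff_subsingleton] at hcon
    apply h1
    rw [eq_bot_iff]
    intro a _
    rw [Subgroup.mem_bot]
    apply hρ
    apply LinearMap.ext
    intro v
    exact Subsingleton.elim _ _
  have hquad : ∀ A : Subgroup G, Quad ρ A ↔
      (∀ a ∈ A, ∀ b ∈ A, ∀ v : M, φ a (φ b v * v⁻¹) = φ b v * v⁻¹) := by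
    intro A
    constructor
    · intro h a ha b hb v
      have h2 := congrArg (fun r : Module.End (ZMod p) (Additive M) => r (Additive.ofMul v))
        (h a ha b hb)
      simp only [Module.End.mul_apply, LinearMap.zero_apply] at h2
      rw [hρs b v, hρs a] at h2
      have h3 : φ a (φ b v * v⁻¹) * (φ b v * v⁻¹)⁻¹ = 1 := Additive.ofMul.injective h2
      exact mul_inv_eq_one.mp h3
    · intro h a ha b hb
      apply LinearMap.ext
      intro v
      obtain ⟨v, rfl⟩ := Additive.ofMul.surjective v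
      rw [Module.End.mul_apply, hρs b v, hρs a, h a ha b hb v, mul_inv_cancel]
      rfl
  have hFx : ∀ A : Subgroup G, Nat.card (Fx ρ A) = Nat.card {v : M // ∀ a ∈ A, φ a v = v} := by
    intro A
    apply Nat.card_congr
    exact
      { toFun := fun w => ⟨Additive.toMul (w : Additive M), fun a ha => by
          have := w.2 a ha
          exact congrArg Additive.toMul this⟩
        invFun := fun v => ⟨Additive.ofMul (v : M), fun a ha => by
          rw [hρa, v.2 a ha]⟩
        left_inv := fun w => rfl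
        right_inv := fun v => rfl }
  obtain ⟨A, hA1, hAq, hAoff, hAn⟩ := main hp5 hG hρ A₁ h1 ((hquad A₁).mpr hq)
    (by rw [hFx]; exact hoff)
  refine ⟨A, hA1, (hquad A).mp hAq, fun a ha b hb => quad_comm hρ hAq ha hb,
    fun a ha => quad_pow hρ hAq ha, by rw [← hFx]; exact hAoff, ?_⟩
  intro g hg
  apply hAn
  refine Subgroup.closure_mono ?_ hg
  rintro _ ⟨k, a, ha, rfl⟩
  show (ρ (k * a * k⁻¹) - 1) * (ρ (k * a * k⁻¹) - 1) = 0
  have e : ρ (k * a * k⁻¹) - 1 = ρ k * (ρ a - 1) * ρ k⁻¹ := by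
    rw [mul_sub, sub_mul, mul_one, ← map_mul ρ k k⁻¹, mul_inv_cancel, map_one, map_mul, map_mul]
  rw [e]
  calc ρ k * (ρ a - 1) * ρ k⁻¹ * (ρ k * (ρ a - 1) * ρ k⁻¹)
      = ρ k * ((ρ a - 1) * (ρ k⁻¹ * ρ k) * (ρ a - 1)) * ρ k⁻¹ := by noncomm_ring
    _ = 0 := by
      rw [← map_mul, inv_mul_cancel, map_one, mul_one, hAq a ha a ha, mul_zero, zero_mul]

end H78.QOff
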