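import Mathlib

/-!
Moments of fixed point counts for 4-transitive actions.
-/

set_option autoImplicit false
set_option linter.unusedSectionVars false

namespace H78.Sn

open MulAction Equiv

universe u

variable {G : Type u} [Group G] [Fintype G] (α : Type) [Fintype α] [DecidableEq α] [MulAction G α]

section inj
variable {β : Type}
theorem inj2 {a b : β} (ab : a ≠ b) : Function.Injective ![a, b] := by
  intro i j hij
  fin_cases i <;> fin_cases j <;> first | rfl | exact absurd hij ab | exact absurd hij ab.symm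

theorem inj3 {a b c : β} (ab : a ≠ b) (ac : a ≠ c) (bc : b ≠ c) : Function.Injective ![a, b, c] := by
  intro i j hij
  fin_cases i <;> fin_cases j <;> first
    | rfl
    | exact absurd hij ab
    | exact absurd hij ab.symm
    | exact absurd hij ac
    | exact absurd hij ac.symm
    | exact absurd hij bc
    | exact absurd hij bc.symm

theorem inj4 {a b c d : β} (ab : a ≠ b) (ac : a ≠ c) (ad : a ≠ d) (bc : b ≠ c) (bd : b ≠ d) (cd : c ≠ d) :
    Function.Injective ![a, b, c, d] := by
  intro i j hij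
  fin_cases i <;> fin_cases j <;> first
    | rfl
    | exact absurd hij ab
    | exact absurd hij ab.symm
    | exact absurd hij ac
    | exact absurd hij ac.symm
    | exact absurd hij bc
    | exact absurd hij bc.symm
    | exact absurd hij ad
    | exact absurd hij ad.symm
    | exact absurd hij bd
    | exact absurd hij bd.symm
    | exact absurd hij cd
    | exact absurd hij cd.symm
end inj

/-- number of fixed points -/
def fx (g : G) : ℕ := Fintype.card {a : α // g • a = a}
/-- number of points in 2-cycles -/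
def mx (g : G) : ℕ := Fintype.card {a : α // g • a ≠ a ∧ g • g • a = a}
/-- number of intertwining embeddings -/
noncomputable def NN (k : ℕ) (σ : Perm (Fin k)) (g : G) : ℕ := Fintype.card {x : Fin k ↪ α // ∀ i, g • x i = x (σ i)}

theorem sum_NN (k : ℕ) (σ : Perm (Fin k)) (ht : IsMultiplyPretransitive G α k) (hne : Nonempty (Fin k ↪ α)) :
    ∑ g : G, NN α k σ g = Fintype.card G := by
  classical
  set Ω := Fin k ↪ α with hΩ
  let τ : Ω → Ω := fun x => σ.toEmbedding.trans x
  have h1 : ∑ g : G, NN α k σ g = ∑ x : Ω, Fintype.card {g : G // g • x = τ x} := by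
    have e1 : ∀ g : G, NN α k σ g = ∑ x : Ω, if g • x = τ x then 1 else 0 := by
      intro g
      rw [NN, Fintype.card_subtype, Finset.sum_boole, Nat.cast_id]
      congr 1
      ext x
      simp only [Finset.mem_filter, Finset.mem_univ, true_and]
      constructor
      · intro h
        ext i
        exact h i
      · intro h i
        exact congrArg (fun y : Ω => y i) h
    have e2 : ∀ x : Ω, Fintype.card {g : G // g • x = τ x} = ∑ g : G, if g • x = τ x then 1 else 0 := by
      intro x
      rw [Fintype.card_subtype, Finset.sum_boole, Nat.cast_id]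
    simp only [e1, e2]
    exact Finset.sum_comm
  rw [h1]
  have hpos : 0 < Fintype.card Ω := Fintype.card_pos
  have h2 : ∀ x : Ω, Fintype.card Ω * Fintype.card {g : G // g • x = τ x} = Fintype.card G := by
    intro x
    obtain ⟨g0, hg0⟩ := exists_smul_eq G x (τ x)
    have e1 : Fintype.card {g : G // g • x = τ x} = Fintype.card (stabilizer G x) := by
      refine Fintype.card_congr
        { toFun := fun g => ⟨g0⁻¹ * g.1, by rw [mem_stabilizer_iff, mul_smul, g.2, ← hg0, inv_smul_smul]⟩
          invFun := fun g => ⟨g0 * g.1, by rw [mul_smul, mem_stabilizer_iff.1 g.2, hg0]⟩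
          left_inv := fun g => by simp
          right_inv := fun g => by simp }
    have e2 := card_orbit_mul_card_stabilizer_eq_card_group G x
    have e3 : Fintype.card (orbit G x) = Fintype.card Ω := by
      have : orbit G x = Set.univ := orbit_eq_univ G x
      rw [← Nat.card_eq_fintype_card, this, Nat.card_univ, Nat.card_eq_fintype_card]
    rw [e1, ← e3, e2]
  apply Nat.eq_of_mul_eq_mul_left hpos
  rw [Finset.mul_sum, Finset.sum_congr rfl (fun x _ => h2 x), Finset.sum_const, Finset.card_univ, smul_eq_mul]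

theorem NN_one (k : ℕ) (g : G) : NN α k 1 g = (fx α g).descFactorial k := by
  classical
  have h : fx α g = Fintype.card {a : α // g • a = a} := rfl
  rw [h, ← Fintype.card_fin k, ← Fintype.card_embedding_eq, Fintype.card_fin]
  refine Fintype.card_congr
    { toFun := fun x => ⟨fun i => ⟨x.1 i, x.2 i⟩, fun i j hij => x.1.injective (congrArg Subtype.val hij)⟩
      invFun := fun y => ⟨⟨fun i => (y i).1, fun i j hij => y.injective (Subtype.ext hij)⟩, fun i => (y i).2⟩
      left_inv := fun _ => rfl
      right_inv := fun _ => rfl }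

theorem NN_two (g : G) : NN α 2 (swap 0 1) g = mx α g := by
  classical
  refine Fintype.card_congr
    { toFun := fun x => ⟨x.1 0, ?_, ?_⟩
      invFun := fun a => ⟨⟨![a.1, g • a.1], ?_⟩, ?_⟩
      left_inv := ?_
      right_inv := ?_ }
  · rw [x.2 0, swap_apply_left]
    intro h
    exact absurd (x.1.injective h) (by decide)
  · rw [x.2 0, swap_apply_left, x.2 1, swap_apply_right]
  · exact inj2 a.2.1.symm
  · intro i
    have h1 := a.2.2
    fin_cases i <;> simp_all [swap_apply_def]
  · rintro ⟨x, hx⟩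
    apply Subtype.ext
    ext i
    fin_cases i
    · rfl
    · exact hx 0
  · rintro ⟨a, ha⟩
    rfl

theorem NN_three (g : G) : NN α 3 (swap 0 1) g = mx α g * fx α g := by
  classical
  rw [mx, fx, ← Fintype.card_prod]
  refine Fintype.card_congr
    { toFun := fun x => (⟨x.1 0, ?_, ?_⟩, ⟨x.1 2, ?_⟩)
      invFun := fun a => ⟨⟨![a.1.1, g • a.1.1, a.2.1], ?_⟩, ?_⟩
      left_inv := ?_
      right_inv := ?_ }
  · rw [x.2 0, swap_apply_left]
    intro h
    exact absurd (x.1.injective h) (by decide)
  · rw [x.2 0, swap_apply_left, x.2 1, swap_apply_right]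
  · rw [x.2 2, swap_apply_of_ne_of_ne (by decide) (by decide)]
  · obtain ⟨⟨a, ha1, ha2⟩, ⟨c, hc⟩⟩ := a
    have n1 : a ≠ c := by rintro rfl; exact ha1 hc
    have n2 : g • a ≠ c := by
      rintro rfl
      rw [hc] at ha2
      exact ha1 ha2
    exact inj3 ha1.symm n1 n2
  · obtain ⟨⟨a, ha1, ha2⟩, ⟨c, hc⟩⟩ := a
    intro i
    fin_cases i <;> simp_all [swap_apply_def]
  · rintro ⟨x, hx⟩
    apply Subtype.ext
    ext i
    fin_cases i
    · rfl
    · exact hx 0
    · rfl
  · rintro ⟨a, c⟩
    rfl

theorem NN_four (g : G) : NN α 4 (swap 0 1) g = mx α g * (fx α g).descFactorial 2 := by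
  classical
  rw [← NN_one, mx, NN, NN, ← Fintype.card_prod]
  refine Fintype.card_congr
    { toFun := fun x => (⟨x.1 0, ?_, ?_⟩, ⟨⟨![x.1 2, x.1 3], ?_⟩, ?_⟩)
      invFun := fun a => ⟨⟨![a.1.1, g • a.1.1, a.2.1 0, a.2.1 1], ?_⟩, ?_⟩
      left_inv := ?_
      right_inv := ?_ }
  · rw [x.2 0, swap_apply_left]
    intro h
    exact absurd (x.1.injective h) (by decide)
  · rw [x.2 0, swap_apply_left, x.2 1, swap_apply_right]
  · exact inj2 (fun h => absurd (x.1.injective h) (by decide))
  · have h2 := x.2 2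
    have h3 := x.2 3
    rw [swap_apply_of_ne_of_ne (by decide) (by decide)] at h2 h3
    intro i
    fin_cases i
    · exact h2
    · exact h3
  · obtain ⟨⟨a, ha1, ha2⟩, ⟨c, hc⟩⟩ := a
    have hc0 := hc 0
    have hc1 := hc 1
    simp only [Perm.coe_one, id_eq] at hc0 hc1
    have n1 : a ≠ c 0 := by intro h; exact ha1 (by rw [h]; exact hc0)
    have n2 : a ≠ c 1 := by intro h; exact ha1 (by rw [h]; exact hc1)
    have n3 : g • a ≠ c 0 := by intro h; rw [h, hc0] at ha2; exact n1 ha2.symm
    have n4 : g • a ≠ c 1 := by intro h; rw [h, hc1] at ha2; exact n2 ha2.symm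
    have n5 : c 0 ≠ c 1 := fun h => absurd (c.injective h) (by decide)
    exact inj4 ha1.symm n1 n2 n3 n4 n5
  · obtain ⟨⟨a, ha1, ha2⟩, ⟨c, hc⟩⟩ := a
    have hc0 := hc 0
    have hc1 := hc 1
    simp only [Perm.coe_one, id_eq] at hc0 hc1
    intro i
    fin_cases i <;> simp_all [swap_apply_def]
  · rintro ⟨x, hx⟩
    apply Subtype.ext
    ext i
    fin_cases i
    · rfl
    · exact hx 0
    · rfl
    · rfl
  · rintro ⟨a, ⟨c, hc⟩⟩
    apply Prod.ext
    · rfl
    · apply Subtype.ext
      ext i
      fin_cases i <;> rfl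

theorem NN_four' (g : G) : NN α 4 (swap 0 1 * swap 2 3) g = mx α g * (mx α g - 2) := by
  classical
  have e1 : NN α 4 (swap 0 1 * swap 2 3) g =
      Fintype.card (Σ a : {a : α // g • a ≠ a ∧ g • g • a = a},
        {b : {a : α // g • a ≠ a ∧ g • g • a = a} // b.1 ≠ a.1 ∧ b.1 ≠ g • a.1}) := by
    have s0 : (swap 0 1 * swap 2 3 : Perm (Fin 4)) 0 = 1 := by decide
    have s1 : (swap 0 1 * swap 2 3 : Perm (Fin 4)) 1 = 0 := by decide
    have s2 : (swap 0 1 * swap 2 3 : Perm (Fin 4)) 2 = 3 := by decide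
    have s3 : (swap 0 1 * swap 2 3 : Perm (Fin 4)) 3 = 2 := by decide
    refine Fintype.card_congr
      { toFun := fun x => ⟨⟨x.1 0, ?_, ?_⟩, ⟨⟨x.1 2, ?_, ?_⟩, ?_, ?_⟩⟩
        invFun := fun a => ⟨⟨![a.1.1, g • a.1.1, a.2.1.1, g • a.2.1.1], ?_⟩, ?_⟩
        left_inv := ?_
        right_inv := ?_ }
    · rw [x.2 0, s0]; intro h; exact absurd (x.1.injective h) (by decide)
    · rw [x.2 0, s0, x.2 1, s1]
    · rw [x.2 2, s2]; intro h; exact absurd (x.1.injective h) (by decide)
    · rw [x.2 2, s2, x.2 3, s3]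
    · intro h; exact absurd (x.1.injective h) (by decide)
    · show x.1 2 ≠ g • x.1 0
      rw [x.2 0, s0]; intro h; exact absurd (x.1.injective h) (by decide)
    · obtain ⟨⟨a, ha1, ha2⟩, ⟨⟨b, hb1, hb2⟩, hab1, hab2⟩⟩ := a
      simp only at hab1 hab2
      have n1 : a ≠ g • b := by intro h; apply hab2; rw [h, hb2]
      have n2 : g • a ≠ g • b := fun h => hab1 ((smul_left_cancel g h).symm)
      exact inj4 ha1.symm hab1.symm n1 hab2.symm n2 hb1.symm
    · obtain ⟨⟨a, ha1, ha2⟩, ⟨⟨b, hb1, hb2⟩, hab1, hab2⟩⟩ := a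
      intro i
      fin_cases i
      · show g • a = _
        rw [show ((swap 0 1 * swap 2 3 : Perm (Fin 4)) ⟨0, by decide⟩) = 1 from s0]; rfl
      · show g • g • a = _
        rw [show ((swap 0 1 * swap 2 3 : Perm (Fin 4)) ⟨1, by decide⟩) = 0 from s1]; exact ha2
      · show g • b = _
        rw [show ((swap 0 1 * swap 2 3 : Perm (Fin 4)) ⟨2, by decide⟩) = 3 from s2]; rfl
      · show g • g • b = _
        rw [show ((swap 0 1 * swap 2 3 : Perm (Fin 4)) ⟨3, by decide⟩) = 2 from s3]; exact hb2
    · rintro ⟨x, hx⟩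
      apply Subtype.ext
      ext i
      fin_cases i
      · rfl
      · exact (hx 0).trans (by rw [s0]; rfl)
      · rfl
      · exact (hx 2).trans (by rw [s2]; rfl)
    · rintro ⟨a, b, hb⟩
      rfl
  rw [e1, Fintype.card_sigma]
  have e2 : ∀ a : {a : α // g • a ≠ a ∧ g • g • a = a},
      Fintype.card {b : {a : α // g • a ≠ a ∧ g • g • a = a} // b.1 ≠ a.1 ∧ b.1 ≠ g • a.1} = mx α g - 2 := by
    intro a
    have ha' : g • (g • a.1) ≠ g • a.1 ∧ g • g • (g • a.1) = g • a.1 := by
      refine ⟨?_, ?_⟩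
      · rw [a.2.2]; exact a.2.1.symm
      · rw [a.2.2]
    rw [Fintype.card_subtype]
    have h3 : (Finset.univ.filter (fun b : {a : α // g • a ≠ a ∧ g • g • a = a} => b.1 ≠ a.1 ∧ b.1 ≠ g • a.1)) =
        (Finset.univ.erase a).erase ⟨g • a.1, ha'⟩ := by
      ext b
      simp only [Finset.mem_filter, Finset.mem_univ, true_and, Finset.mem_erase, ne_eq, and_true, Subtype.ext_iff]
      tauto
    rw [h3, Finset.card_erase_of_mem, Finset.card_erase_of_mem (Finset.mem_univ _), Finset.card_univ, mx]
    · omega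
    · rw [Finset.mem_erase]
      exact ⟨fun h => a.2.1 (congrArg Subtype.val h), Finset.mem_univ _⟩
  rw [Finset.sum_congr rfl (fun a _ => e2 a), Finset.sum_const, Finset.card_univ, smul_eq_mul]
  rfl

end H78.Sn
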