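import Cfsg.Agent.Lib.H78.Sn1
import Cfsg.Agent.Lib.H18.CharQuot
import Cfsg.Agent.Lib.H4.PermChar

/-!
The three small irreducible characters of 4-transitive groups.
-/

set_option autoImplicit false
set_option linter.unusedSectionVars false

namespace H78.Sn

open MulAction Equiv Cfsg H18 H18.CharBasic H18.CharOrtho H18.CharQuot
open scoped ComplexConjugate

universe u

section mom

variable {G : Type u} [Group G] [Fintype G] (α : Type) [Fintype α] [DecidableEq α] [MulAction G α]

theorem mx_ne_one (g : G) : mx α g ≠ 1 := by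
  intro h
  rw [mx, Fintype.card_eq_one_iff] at h
  obtain ⟨⟨a, ha1, ha2⟩, h⟩ := h
  have h1 := h ⟨g • a, by rw [ha2]; exact ha1.symm, by rw [ha2]⟩
  exact ha1 (congrArg Subtype.val h1)

theorem cast_desc3 (n : ℕ) : ((n.descFactorial 3 : ℕ) : ℂ) = n * (n - 1) * (n - 2) := by
  rcases Nat.lt_or_ge n 3 with h | h
  · interval_cases n <;> simp [Nat.descFactorial]
  · obtain ⟨m, rfl⟩ := Nat.exists_eq_add_of_le h
    simp only [Nat.descFactorial, Nat.sub_zero]
    have h1 : (3 + m - 2 : ℕ) = m + 1 := by omega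
    have h2 : (3 + m - 1 : ℕ) = m + 2 := by omega
    rw [h1, h2]
    push_cast
    ring

theorem cast_desc4 (n : ℕ) : ((n.descFactorial 4 : ℕ) : ℂ) = n * (n - 1) * (n - 2) * (n - 3) := by
  rcases Nat.lt_or_ge n 4 with h | h
  · interval_cases n <;> simp [Nat.descFactorial]
  · obtain ⟨m, rfl⟩ := Nat.exists_eq_add_of_le h
    simp only [Nat.descFactorial, Nat.sub_zero]
    have h1 : (4 + m - 3 : ℕ) = m + 1 := by omega
    have h2 : (4 + m - 2 : ℕ) = m + 2 := by omega
    have h3 : (4 + m - 1 : ℕ) = m + 3 := by omega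
    rw [h1, h2, h3]
    push_cast
    ring

variable (h4 : IsMultiplyPretransitive G α 4) (hn : 4 ≤ Fintype.card α)

include hn in
theorem nonempty_emb {k : ℕ} (hk : k ≤ 4) : Nonempty (Fin k ↪ α) := by
  apply Function.Embedding.nonempty_of_card_le
  rw [Fintype.card_fin]; omega

include h4 hn in
theorem trans_le {k : ℕ} (hk : k ≤ 4) : IsMultiplyPretransitive G α k :=
  isMultiplyPretransitive_of_le (n := 4) hk (by rw [Nat.card_eq_fintype_card]; exact hn)

include h4 hn

theorem m1 : ∑ g : G, (fx α g : ℂ) = Nat.card G := by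
  have h := sum_NN (G := G) α 1 1 (trans_le α h4 hn (by norm_num)) (nonempty_emb α hn (by norm_num))
  rw [Nat.card_eq_fintype_card, ← h]
  push_cast
  apply Finset.sum_congr rfl
  intro g _
  rw [NN_one, Nat.descFactorial_one]

theorem m2 : ∑ g : G, (fx α g : ℂ) * (fx α g - 1) = Nat.card G := by
  have h := sum_NN (G := G) α 2 1 (trans_le α h4 hn (by norm_num)) (nonempty_emb α hn (by norm_num))
  rw [Nat.card_eq_fintype_card, ← h]
  push_cast
  apply Finset.sum_congr rfl
  intro g _
  rw [NN_one, Nat.cast_descFactorial_two]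

theorem m4 : ∑ g : G, (fx α g : ℂ) * (fx α g - 1) * (fx α g - 2) * (fx α g - 3) = Nat.card G := by
  have h := sum_NN (G := G) α 4 1 (trans_le α h4 hn (by norm_num)) (nonempty_emb α hn (by norm_num))
  rw [Nat.card_eq_fintype_card, ← h]
  push_cast
  apply Finset.sum_congr rfl
  intro g _
  rw [NN_one, cast_desc4]

theorem mm1 : ∑ g : G, (mx α g : ℂ) = Nat.card G := by
  have h := sum_NN (G := G) α 2 (swap 0 1) (trans_le α h4 hn (by norm_num)) (nonempty_emb α hn (by norm_num))
  rw [Nat.card_eq_fintype_card, ← h]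
  push_cast
  apply Finset.sum_congr rfl
  intro g _
  rw [NN_two]

theorem mf1 : ∑ g : G, (mx α g : ℂ) * fx α g = Nat.card G := by
  have h := sum_NN (G := G) α 3 (swap 0 1) (trans_le α h4 hn (by norm_num)) (nonempty_emb α hn (by norm_num))
  rw [Nat.card_eq_fintype_card, ← h]
  push_cast
  apply Finset.sum_congr rfl
  intro g _
  rw [NN_three]; push_cast; rfl

theorem mf2 : ∑ g : G, (mx α g : ℂ) * (fx α g * (fx α g - 1)) = Nat.card G := by
  have h := sum_NN (G := G) α 4 (swap 0 1) (trans_le α h4 hn (by norm_num)) (nonempty_emb α hn (by norm_num))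
  rw [Nat.card_eq_fintype_card, ← h]
  push_cast
  apply Finset.sum_congr rfl
  intro g _
  rw [NN_four]; push_cast
  rw [Nat.cast_descFactorial_two]

theorem mmm : ∑ g : G, (mx α g : ℂ) * (mx α g - 2) = Nat.card G := by
  have h := sum_NN (G := G) α 4 (swap 0 1 * swap 2 3) (trans_le α h4 hn (by norm_num)) (nonempty_emb α hn (by norm_num))
  rw [Nat.card_eq_fintype_card, ← h]
  push_cast
  apply Finset.sum_congr rfl
  intro g _
  rw [NN_four']
  have h1 := mx_ne_one α g
  rcases Nat.lt_or_ge (mx α g) 2 with h2 | h2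
  · have : mx α g = 0 := by omega
    rw [this]; simp
  · push_cast [h2]; rfl

end mom

section chars

variable {G : Type u} [Group G] [Fintype G] (α : Type) [Fintype α] [DecidableEq α] [MulAction G α]

theorem isCharacter_fx : IsCharacter G (fun g => (fx α g : ℂ)) := by
  have h := H4.PermChar.isCharacter_fixedBy (G := G) α
  convert h using 2 with g
  rw [Nat.card_eq_fintype_card, fx]
  rfl

/-- the action on pairs -/
@[reducible] def pairAct : MulAction (G × Perm (Fin 2)) (Fin 2 → α) where
  smul x v := fun i => x.1 • v (x.2⁻¹ i)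
  one_smul v := by
    funext i
    show (1 : G) • v ((1 : Perm (Fin 2))⁻¹ i) = v i
    rw [one_smul, inv_one]; rfl
  mul_smul x y v := by
    funext i
    show (x.1 * y.1) • v ((x.2 * y.2)⁻¹ i) = x.1 • y.1 • v (y.2⁻¹ (x.2⁻¹ i))
    rw [mul_smul, mul_inv_rev]; rfl

theorem fix_one (g : G) : Nat.card (@fixedBy (G × Perm (Fin 2)) (Fin 2 → α) _ (pairAct α) (g, 1)) = fx α g ^ 2 := by
  classical
  have e : (@fixedBy (G × Perm (Fin 2)) (Fin 2 → α) _ (pairAct α) (g, 1)) ≃ (Fin 2 → {a : α // g • a = a}) :=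
    { toFun := fun v i => ⟨v.1 i, congrFun v.2 i⟩
      invFun := fun w => ⟨fun i => (w i).1, funext fun i => (w i).2⟩
      left_inv := fun _ => rfl
      right_inv := fun _ => rfl }
  rw [Nat.card_congr e, Nat.card_fun, Nat.card_eq_fintype_card, Nat.card_eq_fintype_card, Fintype.card_fin, fx]

theorem fix_swap (g : G) :
    Nat.card (@fixedBy (G × Perm (Fin 2)) (Fin 2 → α) _ (pairAct α) (g, swap 0 1)) = fx α g + mx α g := by
  classical
  have e : (@fixedBy (G × Perm (Fin 2)) (Fin 2 → α) _ (pairAct α) (g, swap 0 1)) ≃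
      {a : α // g • a = a ∨ (g • a ≠ a ∧ g • g • a = a)} :=
    { toFun := fun v => ⟨v.1 0, by
        have h0 : g • v.1 1 = v.1 0 := congrFun v.2 0
        have h1 : g • v.1 0 = v.1 1 := congrFun v.2 1
        by_cases h : g • v.1 0 = v.1 0
        · exact Or.inl h
        · exact Or.inr ⟨h, by rw [h1, h0]⟩⟩
      invFun := fun a => ⟨![a.1, g • a.1], by
        have h2 : g • g • a.1 = a.1 := by
          rcases a.2 with h | h
          · rw [h, h]
          · exact h.2
        funext i
        fin_cases i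
        · exact h2
        · rfl⟩
      left_inv := by
        rintro ⟨v, hv⟩
        apply Subtype.ext
        funext i
        fin_cases i
        · rfl
        · exact congrFun hv 1
      right_inv := fun _ => rfl }
  rw [Nat.card_congr e, Nat.card_eq_fintype_card, Fintype.card_subtype_or_disjoint, fx, mx]
  rw [disjoint_iff]
  ext a
  simp only [Pi.inf_apply, inf_Prop_eq, Pi.bot_apply, «Prop».bot_eq_false, iff_false]
  tauto

/-- the symmetric square -/
theorem isCharacter_S : IsCharacter G (fun g => ((fx α g : ℂ) ^ 2 + fx α g + mx α g) / 2) := by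
  classical
  letI := pairAct (G := G) α
  have hP := H4.PermChar.isCharacter_fixedBy (G := G × Perm (Fin 2)) (Fin 2 → α)
  set P : G × Perm (Fin 2) → ℂ := fun x => (Nat.card (fixedBy (Fin 2 → α) x) : ℂ) with hPdef
  have hcf := isClassFunction_of_isCharacter hP
  have hS : ∀ g : G, ((fx α g : ℂ) ^ 2 + fx α g + mx α g) / 2 = (P (g, 1) + P (g, swap 0 1)) / 2 := by
    intro g
    have h1 : P (g, 1) = (fx α g : ℂ) ^ 2 := by
      show ((Nat.card (fixedBy (Fin 2 → α) ((g, 1) : G × Perm (Fin 2))) : ℕ) : ℂ) = _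
      rw [fix_one]; push_cast; rfl
    have h2 : P (g, swap 0 1) = (fx α g : ℂ) + mx α g := by
      show ((Nat.card (fixedBy (Fin 2 → α) ((g, swap 0 1) : G × Perm (Fin 2))) : ℕ) : ℂ) = _
      rw [fix_swap]; push_cast; rfl
    rw [h1, h2]; ring
  have hSf : (fun g => ((fx α g : ℂ) ^ 2 + fx α g + mx α g) / 2) = fun g => (P (g, 1) + P (g, swap 0 1)) / 2 :=
    funext hS
  rw [hSf, isCharacter_iff]
  constructor
  · intro g x
    have h1 : P (x * g * x⁻¹, 1) = P (g, 1) := by
      have := hcf (g, 1) (x, 1)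
      simpa using this
    have h2 : P (x * g * x⁻¹, swap 0 1) = P (g, swap 0 1) := by
      have := hcf (g, swap 0 1) (x, 1)
      simpa using this
    simp only [h1, h2]
  · intro ψ hψ
    have hψ' : IsCharacter (G × Perm (Fin 2)) (fun x => ψ x.1) :=
      isCharacter_comp (MonoidHom.fst G (Perm (Fin 2))) (isCharacter_of_isIrr hψ)
    obtain ⟨n, hn⟩ := inner_char_natCast hP hψ'
    refine ⟨n, ?_⟩
    rw [← hn]
    unfold classInner
    rw [Nat.card_prod, Fintype.sum_prod_type]
    have hu : (Finset.univ : Finset (Perm (Fin 2))) = {1, swap 0 1} := by decide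
    have h3 : ∀ g : G, ∑ y : Perm (Fin 2), P (g, y) * conj (ψ (g, y).1) = (P (g, 1) + P (g, swap 0 1)) * conj (ψ g) := by
      intro g
      rw [hu, Finset.sum_pair (by decide)]
      ring
    rw [Finset.sum_congr rfl (fun g _ => h3 g)]
    have hc : Nat.card (Perm (Fin 2)) = 2 := by
      rw [Nat.card_eq_fintype_card]; rfl
    rw [hc]
    push_cast
    rw [mul_inv, mul_assoc]
    congr 1
    rw [Finset.mul_sum]
    apply Finset.sum_congr rfl
    intro g _
    ring

/-- first character -/
noncomputable def c1 (g : G) : ℂ := (fx α g : ℂ) - 1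
/-- second character -/
noncomputable def c2 (g : G) : ℂ := ((fx α g : ℂ) * (fx α g - 3) + mx α g) / 2
/-- third character -/
noncomputable def c3 (g : G) : ℂ := (((fx α g : ℂ) - 1) * (fx α g - 2) - mx α g) / 2

theorem gen_c1 : IsGeneralizedCharacter G (c1 α : G → ℂ) :=
  isGen_sub (isGen_of_isCharacter (isCharacter_fx α)) isGen_one

theorem gen_c2 : IsGeneralizedCharacter G (c2 α : G → ℂ) := by
  have h1 := isGen_of_isCharacter (isCharacter_fx (G := G) α)
  have h := isGen_sub (isGen_sub (isGen_of_isCharacter (isCharacter_S (G := G) α)) h1) h1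
  convert h using 1
  funext g
  simp only [c2, Pi.sub_apply]
  ring

theorem gen_c3 : IsGeneralizedCharacter G (c3 α : G → ℂ) := by
  have h1 := isGen_of_isCharacter (isCharacter_fx (G := G) α)
  have h := isGen_add (isGen_sub (isGen_sub (isGen_mul h1 h1) (isGen_of_isCharacter (isCharacter_S (G := G) α))) h1)
    isGen_one
  convert h using 1
  funext g
  simp only [c3, Pi.sub_apply, Pi.add_apply, Pi.mul_apply]
  ring

theorem fx_one : fx α (1 : G) = Fintype.card α := by
  classical
  rw [fx]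
  simp

theorem mx_one : mx α (1 : G) = 0 := by
  classical
  rw [mx]
  simp

variable (h4 : IsMultiplyPretransitive G α 4)

include h4

theorem irr_c1 (hn : 4 ≤ Fintype.card α) : IsIrrCharacter G (c1 α : G → ℂ) := by
  have hG : (Nat.card G : ℂ) ≠ 0 := by exact_mod_cast Nat.card_pos.ne'
  apply isIrr_of_gen_norm_one (gen_c1 α)
  · unfold classInner
    rw [inv_mul_eq_iff_eq_mul₀ hG, mul_one]
    have h1 : ∀ g : G, c1 α g * conj (c1 α g) = (fx α g : ℂ) * (fx α g - 1) - fx α g + 1 := by
      intro g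
      simp only [c1, map_sub, map_one, Complex.conj_natCast]; ring
    rw [Finset.sum_congr rfl (fun g _ => h1 g), Finset.sum_add_distrib, Finset.sum_sub_distrib,
      m2 α h4 hn, m1 α h4 hn, Finset.sum_const, Finset.card_univ, ← Nat.card_eq_fintype_card]
    simp
  · simp only [c1, fx_one]
    have : (4 : ℝ) ≤ Fintype.card α := by exact_mod_cast hn
    simp
    linarith

theorem irr_c2 (hn : 6 ≤ Fintype.card α) : IsIrrCharacter G (c2 α : G → ℂ) := by
  have hG : (Nat.card G : ℂ) ≠ 0 := by exact_mod_cast Nat.card_pos.ne'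
  have hn4 : 4 ≤ Fintype.card α := by omega
  apply isIrr_of_gen_norm_one (gen_c2 α)
  · unfold classInner
    rw [inv_mul_eq_iff_eq_mul₀ hG, mul_one]
    have h1 : ∀ g : G, c2 α g * conj (c2 α g) =
        (1 / 4) * ((fx α g : ℂ) * (fx α g - 1) * (fx α g - 2) * (fx α g - 3)) -
        (1 / 2) * ((fx α g : ℂ) * (fx α g - 1)) + fx α g + (1 / 2) * ((mx α g : ℂ) * (fx α g * (fx α g - 1)))
        - (mx α g : ℂ) * fx α g + (1 / 4) * ((mx α g : ℂ) * (mx α g - 2)) + (1 / 2) * mx α g := by
      intro g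
      have h2 : conj (c2 α g) = c2 α g := by
        simp only [c2, map_div₀, map_add, map_mul, map_sub, Complex.conj_natCast]
        simp [Complex.conj_ofNat]
      rw [h2]
      simp only [c2]; ring
    rw [Finset.sum_congr rfl (fun g _ => h1 g)]
    simp only [Finset.sum_add_distrib, Finset.sum_sub_distrib, ← Finset.mul_sum]
    rw [m1 α h4 hn4, m2 α h4 hn4, m4 α h4 hn4, mm1 α h4 hn4, mf1 α h4 hn4, mf2 α h4 hn4, mmm α h4 hn4]
    ring
  · simp only [c2, fx_one, mx_one]
    have h6 : (6 : ℝ) ≤ Fintype.card α := by exact_mod_cast hn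
    have : (((Fintype.card α : ℂ) * ((Fintype.card α : ℂ) - 3) + ((0 : ℕ) : ℂ)) / 2) =
        (((Fintype.card α : ℝ) * ((Fintype.card α : ℝ) - 3) / 2 : ℝ) : ℂ) := by
      push_cast; ring
    rw [this, Complex.ofReal_re]
    nlinarith

theorem irr_c3 (hn : 6 ≤ Fintype.card α) : IsIrrCharacter G (c3 α : G → ℂ) := by
  have hG : (Nat.card G : ℂ) ≠ 0 := by exact_mod_cast Nat.card_pos.ne'
  have hn4 : 4 ≤ Fintype.card α := by omega
  apply isIrr_of_gen_norm_one (gen_c3 α)
  · unfold classInner
    rw [inv_mul_eq_iff_eq_mul₀ hG, mul_one]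
    have h1 : ∀ g : G, c3 α g * conj (c3 α g) =
        (1 / 4) * ((fx α g : ℂ) * (fx α g - 1) * (fx α g - 2) * (fx α g - 3)) +
        (1 / 2) * ((fx α g : ℂ) * (fx α g - 1)) - fx α g + 1 - (1 / 2) * ((mx α g : ℂ) * (fx α g * (fx α g - 1)))
        + (mx α g : ℂ) * fx α g + (1 / 4) * ((mx α g : ℂ) * (mx α g - 2)) - (1 / 2) * mx α g := by
      intro g
      have h2 : conj (c3 α g) = c3 α g := by
        simp only [c3, map_div₀, map_mul, map_sub, map_one, Complex.conj_natCast]
        simp [Complex.conj_ofNat]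
      rw [h2]
      simp only [c3]; ring
    rw [Finset.sum_congr rfl (fun g _ => h1 g)]
    simp only [Finset.sum_add_distrib, Finset.sum_sub_distrib, ← Finset.mul_sum]
    rw [m1 α h4 hn4, m2 α h4 hn4, m4 α h4 hn4, mm1 α h4 hn4, mf1 α h4 hn4, mf2 α h4 hn4, mmm α h4 hn4,
      Finset.sum_const, Finset.card_univ, ← Nat.card_eq_fintype_card, nsmul_eq_mul]
    ring
  · simp only [c3, fx_one, mx_one]
    have h6 : (6 : ℝ) ≤ Fintype.card α := by exact_mod_cast hn
    have : ((((Fintype.card α : ℂ) - 1) * ((Fintype.card α : ℂ) - 2) - ((0 : ℕ) : ℂ)) / 2) =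
        ((((Fintype.card α : ℝ) - 1) * ((Fintype.card α : ℝ) - 2) / 2 : ℝ) : ℂ) := by
      push_cast; ring
    rw [this, Complex.ofReal_re]
    nlinarith

end chars

end H78.Sn
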