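import Cfsg.Agent.Lib.H78.Sn2

/-!
Elements of alternating groups with prescribed fixed points.
-/

set_option autoImplicit false
set_option linter.unusedSectionVars false

namespace H78.Sn

open MulAction Equiv

/-- fixed point count of a permutation -/
def FF {β : Type} [Fintype β] [DecidableEq β] (g : Perm β) : ℕ := Fintype.card {b : β // g b = b}
/-- 2-cycle count of a permutation -/
def MM {β : Type} [Fintype β] [DecidableEq β] (g : Perm β) : ℕ := Fintype.card {b : β // g b ≠ b ∧ g (g b) = b}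

section basic

variable {β γ : Type} [Fintype β] [DecidableEq β] [Fintype γ] [DecidableEq γ]

theorem FF_sum (a : Perm β) (b : Perm γ) (h1 : ∀ x, a x ≠ x) : FF (Perm.sumCongr a b) = FF b := by
  classical
  refine Fintype.card_congr
    { toFun := fun x => ?_
      invFun := fun y => ⟨Sum.inr y.1, congrArg Sum.inr y.2⟩
      left_inv := ?_
      right_inv := ?_ }
  · obtain ⟨x | y, h⟩ := x
    · exact absurd (Sum.inl_injective h) (h1 x)
    · exact ⟨y, Sum.inr_injective h⟩
  · rintro ⟨x | y, h⟩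
    · exact absurd (Sum.inl_injective h) (h1 x)
    · rfl
  · rintro ⟨y, h⟩
    rfl

theorem MM_sum (a : Perm β) (b : Perm γ) (h1 : ∀ x, a (a x) ≠ x) : MM (Perm.sumCongr a b) = MM b := by
  classical
  refine Fintype.card_congr
    { toFun := fun x => ?_
      invFun := fun y => ⟨Sum.inr y.1, fun h => y.2.1 (Sum.inr_injective h), congrArg Sum.inr y.2.2⟩
      left_inv := ?_
      right_inv := ?_ }
  · obtain ⟨x | y, h, h'⟩ := x
    · exact absurd (Sum.inl_injective h') (h1 x)
    · exact ⟨y, fun h2 => h (congrArg Sum.inr h2), Sum.inr_injective h'⟩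
  · rintro ⟨x | y, h, h'⟩
    · exact absurd (Sum.inl_injective h') (h1 x)
    · rfl
  · rintro ⟨y, h, h'⟩
    rfl

theorem FF_congr (e : β ≃ γ) (a : Perm β) : FF (e.permCongr a) = FF a := by
  classical
  symm
  refine (Fintype.card_congr
    { toFun := fun x => ⟨e x.1, by rw [Equiv.permCongr_apply, Equiv.symm_apply_apply, x.2]⟩
      invFun := fun y => ⟨e.symm y.1, by
        have := y.2
        rw [Equiv.permCongr_apply] at this
        apply e.injective
        rw [this, Equiv.apply_symm_apply]⟩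
      left_inv := fun x => Subtype.ext (e.symm_apply_apply _)
      right_inv := fun x => Subtype.ext (e.apply_symm_apply _) })

theorem MM_congr (e : β ≃ γ) (a : Perm β) : MM (e.permCongr a) = MM a := by
  classical
  symm
  refine (Fintype.card_congr
    { toFun := fun x => ⟨e x.1, by
        refine ⟨?_, ?_⟩
        · rw [Equiv.permCongr_apply, Equiv.symm_apply_apply]
          exact fun h => x.2.1 (e.injective h)
        · rw [Equiv.permCongr_apply, Equiv.permCongr_apply, Equiv.symm_apply_apply, Equiv.symm_apply_apply, x.2.2]⟩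
      invFun := fun y => ⟨e.symm y.1, by
        obtain ⟨y, h1, h2⟩ := y
        rw [Equiv.permCongr_apply] at h1
        rw [Equiv.permCongr_apply, Equiv.permCongr_apply, Equiv.symm_apply_apply] at h2
        refine ⟨?_, ?_⟩
        · intro h
          apply h1
          rw [h, Equiv.apply_symm_apply]
        · apply e.injective
          rw [h2, Equiv.apply_symm_apply]⟩
      left_inv := fun x => Subtype.ext (e.symm_apply_apply _)
      right_inv := fun x => Subtype.ext (e.apply_symm_apply _) })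

theorem sumCongr_pow (a : Perm β) (b : Perm γ) (k : ℕ) :
    (Perm.sumCongr a b) ^ k = Perm.sumCongr (a ^ k) (b ^ k) := by
  induction k with
  | zero => simp
  | succ k ih => rw [pow_succ, ih, Perm.sumCongr_mul, pow_succ, pow_succ]

theorem permCongr_pow (e : β ≃ γ) (a : Perm β) (k : ℕ) : (e.permCongr a) ^ k = e.permCongr (a ^ k) := by
  have : ∀ x, e.permCongrHom x = e.permCongr x := fun x => rfl
  rw [← this, ← this, map_pow]

theorem prod_pow (n : ℕ) (b : Perm β) (k : ℕ) :
    (prodCongrRight (fun _ : Fin n => b)) ^ k = prodCongrRight (fun _ : Fin n => b ^ k) := by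
  induction k with
  | zero => ext x <;> simp
  | succ k ih =>
    rw [pow_succ, ih]
    ext x <;> simp [pow_succ]

end basic

theorem rot_ne (n : ℕ) (hn : 3 ≤ n) (x : Fin n) : finRotate n x ≠ x ∧ finRotate n (finRotate n x) ≠ x := by
  obtain ⟨m, rfl⟩ := Nat.exists_eq_add_of_le' hn
  rw [finRotate_apply, finRotate_apply]
  constructor
  · intro h
    have h1 : (1 : Fin (m + 2 + 1)) = 0 := by
      have : x + 1 = x + 0 := by rw [h, add_zero]
      exact add_left_cancel this
    exact absurd h1 (by simp [Fin.ext_iff])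
  · intro h
    have h1 : (1 + 1 : Fin (m + 2 + 1)) = 0 := by
      have : x + (1 + 1) = x + 0 := by rw [← add_assoc, h, add_zero]
      exact add_left_cancel this
    have h2 := congrArg Fin.val h1
    rw [Fin.val_add] at h2
    have h3 : ((1 : Fin (m + 2 + 1)) : ℕ) = 1 := by simp
    rw [h3, Nat.mod_eq_of_lt (by omega)] at h2
    simp at h2

theorem rot4_pow : (finRotate 4) ^ 8 = 1 := by decide
theorem rot8_pow : (finRotate 8) ^ 8 = 1 := by decide
theorem rot3_pow : (finRotate 3) ^ 3 = 1 := by decide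

/-- a permutation of `4k` points with cycles of lengths 4 and 8 -/
theorem exists_blk (k : ℕ) (s : ℤˣ) (h : 2 ≤ k ∨ (k = 1 ∧ s = -1)) :
    ∃ (T : Type) (_ : Fintype T) (_ : DecidableEq T) (D : Perm T), Fintype.card T = 4 * k ∧ D ^ 8 = 1 ∧
      (∀ x, D x ≠ x ∧ D (D x) ≠ x) ∧ Perm.sign D = s := by
  have ha : ∀ j : ℕ, ∃ D : Perm (Fin j × Fin 4), D ^ 8 = 1 ∧ (∀ x, D x ≠ x ∧ D (D x) ≠ x) ∧
      Perm.sign D = (-1) ^ j := by
    intro j
    refine ⟨prodCongrRight (fun _ => finRotate 4), ?_, ?_, ?_⟩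
    · rw [prod_pow, rot4_pow]
      ext x <;> simp
    · rintro ⟨i, x⟩
      have := rot_ne 4 (by norm_num) x
      exact ⟨fun h => this.1 (congrArg Prod.snd h), fun h => this.2 (congrArg Prod.snd h)⟩
    · rw [Perm.sign_prodCongrRight, Finset.prod_const, Finset.card_univ, Fintype.card_fin]
      congr 1
  by_cases hs : s = (-1) ^ k
  · obtain ⟨D, h1, h2, h3⟩ := ha k
    exact ⟨Fin k × Fin 4, inferInstance, inferInstance, D, by simp; ring, h1, h2, by rw [h3, hs]⟩
  · have hk : 2 ≤ k := by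
      rcases h with h | ⟨h, h'⟩
      · exact h
      · exfalso; apply hs; rw [h, h', pow_one]
    obtain ⟨j, rfl⟩ := Nat.exists_eq_add_of_le hk
    obtain ⟨D, h1, h2, h3⟩ := ha j
    refine ⟨(Fin j × Fin 4) ⊕ Fin 8, inferInstance, inferInstance, Perm.sumCongr D (finRotate 8), by simp; ring, ?_, ?_, ?_⟩
    · rw [sumCongr_pow, h1, rot8_pow]; simp
    · rintro (x | y)
      · exact ⟨fun h => (h2 x).1 (Sum.inl_injective h), fun h => (h2 x).2 (Sum.inl_injective h)⟩
      · have := rot_ne 8 (by norm_num) y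
        exact ⟨fun h => this.1 (Sum.inr_injective h), fun h => this.2 (Sum.inr_injective h)⟩
    · rw [Perm.sign_sumCongr, h3]
      have e1 : Perm.sign (finRotate 8) = -1 := by
        rw [sign_finRotate]; decide
      rw [e1]
      have hs' : s = -((-1) ^ (2 + j)) := by
        rcases Int.units_eq_one_or s with h | h <;> rcases Int.units_eq_one_or ((-1 : ℤˣ) ^ (2 + j)) with h' | h'
        · exact absurd (h.trans h'.symm) hs
        · rw [h, h']; simp
        · rw [h, h']
        · exact absurd (h.trans h'.symm) hs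
      rw [hs', pow_add]; simp

/-- combine a block with a small permutation -/
theorem combine (n k r N : ℕ) (hn : n = k + r) (T : Type) [Fintype T] [DecidableEq T] (D : Perm T)
    (hT : Fintype.card T = k) (hDN : D ^ N = 1) (hD : ∀ x, D x ≠ x ∧ D (D x) ≠ x)
    (b : Perm (Fin r)) (hb : b ^ N = 1) (hs : Perm.sign D * Perm.sign b = 1) :
    ∃ g : Perm (Fin n), Perm.sign g = 1 ∧ g ^ N = 1 ∧ FF g = FF b ∧ MM g = MM b := by
  have e : T ⊕ Fin r ≃ Fin n := Fintype.equivOfCardEq (by simp [hT, hn])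
  refine ⟨e.permCongr (Perm.sumCongr D b), ?_, ?_, ?_, ?_⟩
  · rw [Perm.sign_permCongr, Perm.sign_sumCongr, hs]
  · rw [permCongr_pow, sumCongr_pow, hDN, hb, Perm.sumCongr_one]
    exact map_one e.permCongrHom
  · rw [FF_congr, FF_sum D b (fun x => (hD x).1)]
  · rw [MM_congr, MM_sum D b (fun x => (hD x).2)]

theorem exists_two (n : ℕ) (hn : 7 ≤ n) : ∃ g : Perm (Fin n), Perm.sign g = 1 ∧ g ^ 8 = 1 ∧
    (FF g = 1 ∨ (FF g = 0 ∧ MM g = 0) ∨ (FF g = 2 ∧ MM g = 0)) := by
  obtain ⟨k, r, hr, hnk⟩ : ∃ k r : ℕ, r < 4 ∧ n = 4 * k + r := ⟨n / 4, n % 4, Nat.mod_lt _ (by norm_num), by omega⟩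
  by_cases h3 : r = 3
  · subst h3
    obtain ⟨T, _, _, D, h1, h2, h4, h5⟩ := exists_blk k (-1) (by
      rcases Nat.lt_or_ge k 2 with h | h
      · right; exact ⟨by omega, rfl⟩
      · left; exact h)
    obtain ⟨g, hg1, hg2, hg3, hg4⟩ := combine n (4 * k) 3 8 hnk T D h1 h2 h4 (swap 0 1) (by decide)
      (by rw [h5]; decide)
    refine ⟨g, hg1, hg2, Or.inl ?_⟩
    rw [hg3]; decide
  · have hk : 2 ≤ k := by omega
    obtain ⟨T, _, _, D, h1, h2, h4, h5⟩ := exists_blk k 1 (Or.inl hk)
    obtain ⟨g, hg1, hg2, hg3, hg4⟩ := combine n (4 * k) r 8 hnk T D h1 h2 h4 1 (one_pow _)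
      (by rw [h5]; simp)
    refine ⟨g, hg1, hg2, ?_⟩
    rw [hg3, hg4]
    have hF : FF (1 : Perm (Fin r)) = r := by
      unfold FF; simp
    have hM : MM (1 : Perm (Fin r)) = 0 := by
      unfold MM; simp
    rw [hF, hM]
    interval_cases r
    · right; left; exact ⟨rfl, rfl⟩
    · left; rfl
    · right; right; exact ⟨rfl, rfl⟩
    · exact absurd rfl h3

theorem exists_three (n : ℕ) (hn : 7 ≤ n) : ∃ g : Perm (Fin n), Perm.sign g = 1 ∧ g ^ 3 = 1 ∧ g ≠ 1 ∧
    (FF g = 1 ∨ (FF g = 0 ∧ MM g = 0) ∨ (FF g = 2 ∧ MM g = 0)) := by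
  obtain ⟨k, r, hr, hnk⟩ : ∃ k r : ℕ, r < 3 ∧ n = 3 * k + r := ⟨n / 3, n % 3, Nat.mod_lt _ (by norm_num), by omega⟩
  have hD3 : (prodCongrRight (fun _ : Fin k => finRotate 3)) ^ 3 = 1 := by
    rw [prod_pow, rot3_pow]
    ext x <;> simp
  have hsign : Perm.sign (prodCongrRight (fun _ : Fin k => finRotate 3)) = 1 := by
    rw [Perm.sign_prodCongrRight, Finset.prod_const]
    have : Perm.sign (finRotate 3) = 1 := by rw [sign_finRotate]; decide
    rw [this, one_pow]
  obtain ⟨g, hg1, hg2, hg3, hg4⟩ := combine n (3 * k) r 3 hnk (Fin k × Fin 3)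
    (prodCongrRight (fun _ : Fin k => finRotate 3)) (by simp; ring) hD3
    (by
      rintro ⟨i, x⟩
      have := rot_ne 3 (by norm_num) x
      exact ⟨fun h => this.1 (congrArg Prod.snd h), fun h => this.2 (congrArg Prod.snd h)⟩) 1 (one_pow _)
    (by rw [hsign]; simp)
  have hF : FF (1 : Perm (Fin r)) = r := by
    unfold FF; simp
  have hM : MM (1 : Perm (Fin r)) = 0 := by
    unfold MM; simp
  refine ⟨g, hg1, hg2, ?_, ?_⟩
  · rintro rfl
    have : FF (1 : Perm (Fin n)) = n := by unfold FF; simp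
    rw [this, hF] at hg3
    omega
  · rw [hg3, hg4, hF, hM]
    interval_cases r
    · right; left; exact ⟨rfl, rfl⟩
    · left; rfl
    · right; right; exact ⟨rfl, rfl⟩

section final

open Cfsg

theorem alt_four (n : ℕ) (hn : 7 ≤ n) : IsMultiplyPretransitive (alternatingGroup (Fin n)) (Fin n) 4 := by
  have := alternatingGroup.isMultiplyPretransitive (Fin n)
  have h1 : Nat.card (Fin n) = n := by simp
  apply isMultiplyPretransitive_of_le (n := Nat.card (Fin n) - 2) (by rw [h1]; omega) (Nat.sub_le _ _)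

theorem perm_four (n : ℕ) : IsMultiplyPretransitive (Perm (Fin n)) (Fin n) 4 :=
  Equiv.Perm.isMultiplyPretransitive (Fin n) 4

/-- the restricted characters and a vanishing element -/
theorem exists_chars (n : ℕ) (hn : 7 ≤ n) (x : alternatingGroup (Fin n))
    (h : FF (x : Perm (Fin n)) = 1 ∨ (FF (x : Perm (Fin n)) = 0 ∧ MM (x : Perm (Fin n)) = 0) ∨
      (FF (x : Perm (Fin n)) = 2 ∧ MM (x : Perm (Fin n)) = 0)) :
    ∃ χ : IrrCharacter (alternatingGroup (Fin n)), (χ : alternatingGroup (Fin n) → ℂ) x = 0 ∧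
      ∃ ψ : IrrCharacter (Perm (Fin n)), ∀ x : alternatingGroup (Fin n),
        (ψ : Perm (Fin n) → ℂ) x = (χ : alternatingGroup (Fin n) → ℂ) x := by
  classical
  have hc : Fintype.card (Fin n) = n := Fintype.card_fin n
  have hf : fx (Fin n) x = FF (x : Perm (Fin n)) := rfl
  have hm : mx (Fin n) x = MM (x : Perm (Fin n)) := rfl
  rcases h with h | h | h
  · refine ⟨⟨c1 (Fin n), irr_c1 (Fin n) (alt_four n hn) (by omega)⟩, ?_,
      ⟨c1 (Fin n), irr_c1 (Fin n) (perm_four n) (by omega)⟩, fun _ => rfl⟩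
    show (fx (Fin n) x : ℂ) - 1 = 0
    rw [hf, h]; simp
  · refine ⟨⟨c2 (Fin n), irr_c2 (Fin n) (alt_four n hn) (by omega)⟩, ?_,
      ⟨c2 (Fin n), irr_c2 (Fin n) (perm_four n) (by omega)⟩, fun _ => rfl⟩
    show ((fx (Fin n) x : ℂ) * (fx (Fin n) x - 3) + mx (Fin n) x) / 2 = 0
    rw [hf, hm, h.1, h.2]; simp
  · refine ⟨⟨c3 (Fin n), irr_c3 (Fin n) (alt_four n hn) (by omega)⟩, ?_,
      ⟨c3 (Fin n), irr_c3 (Fin n) (perm_four n) (by omega)⟩, fun _ => rfl⟩
    show (((fx (Fin n) x : ℂ) - 1) * (fx (Fin n) x - 2) - mx (Fin n) x) / 2 = 0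
    rw [hf, hm, h.1, h.2]; simp

end final

end H78.Sn
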