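import Mathlib

/-! Transfer of a central involution of a Sylow 2-subgroup: a parity argument. -/

set_option autoImplicit false

namespace H78.TrPar

open MulAction Subgroup

variable {G : Type*} [Group G] {F : Type*} [Field F]

/-- the cosets on which the central involution `t` contributes `-1` -/
def bad (X : Subgroup G) (ϕ : X →* Fˣ) (t : G) : Set (G ⧸ X) :=
  {q | ∃ g : G, (g : G ⧸ X) = q ∧ ∃ h : g⁻¹ * t * g ∈ X, ϕ ⟨g⁻¹ * t * g, h⟩ = -1}

theorem phi_congr (X : Subgroup G) (ϕ : X →* Fˣ) (t : G) {g g' : G} (hgg : (g : G ⧸ X) = g')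
    (h : g⁻¹ * t * g ∈ X) : ∃ h' : g'⁻¹ * t * g' ∈ X, ϕ ⟨g'⁻¹ * t * g', h'⟩ = ϕ ⟨g⁻¹ * t * g, h⟩ := by
  have h1 : g⁻¹ * g' ∈ X := QuotientGroup.eq.1 hgg
  have h2 : g'⁻¹ * t * g' = (g⁻¹ * g')⁻¹ * (g⁻¹ * t * g) * (g⁻¹ * g') := by group
  have h3 : g'⁻¹ * t * g' ∈ X := by
    rw [h2]; exact X.mul_mem (X.mul_mem (X.inv_mem h1) h) h1
  refine ⟨h3, ?_⟩
  have h4 : (⟨g'⁻¹ * t * g', h3⟩ : X) = (⟨g⁻¹ * g', h1⟩ : X)⁻¹ * ⟨g⁻¹ * t * g, h⟩ * ⟨g⁻¹ * g', h1⟩ :=
    Subtype.ext h2
  rw [h4, map_mul, map_mul, map_inv, mul_right_comm, inv_mul_cancel, one_mul]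

theorem mem_bad_iff (X : Subgroup G) (ϕ : X →* Fˣ) (t : G) (g : G) :
    (g : G ⧸ X) ∈ bad X ϕ t ↔ ∃ h : g⁻¹ * t * g ∈ X, ϕ ⟨g⁻¹ * t * g, h⟩ = -1 := by
  constructor
  · rintro ⟨g', hg', h, hh⟩
    obtain ⟨h', e⟩ := phi_congr X ϕ t hg' h
    exact ⟨h', e.trans hh⟩
  · rintro ⟨h, hh⟩
    exact ⟨g, rfl, h, hh⟩

theorem transfer_eq [Finite G] (hF : (-1 : Fˣ) ≠ 1) (X : Subgroup G) (ϕ : X →* Fˣ) (t : G) (htt : t ^ 2 = 1) :
    MonoidHom.transfer ϕ t = (-1) ^ (Nat.card (bad X ϕ t)) := by
  classical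
  haveI : Fintype (Quotient (orbitRel (Subgroup.zpowers t) (G ⧸ X))) := Fintype.ofFinite _
  haveI : Fintype (G ⧸ X) := Fintype.ofFinite _
  rw [MonoidHom.transfer_eq_prod_quotient_orbitRel_zpowers_quot]
  have hfix : ∀ q : G ⧸ X, q ∈ bad X ϕ t → t • q = q := by
    rintro q ⟨g, rfl, h, -⟩
    change ((t * g : G) : G ⧸ X) = g
    rw [QuotientGroup.eq]
    have : (t * g)⁻¹ * g = (g⁻¹ * t * g)⁻¹ := by group
    rw [this]; exact X.inv_mem h
  have hc : ∀ o : Quotient (orbitRel (Subgroup.zpowers t) (G ⧸ X)),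
      ϕ ⟨o.out.out⁻¹ * t ^ Function.minimalPeriod (t • ·) o.out * o.out.out,
        QuotientGroup.out_conj_pow_minimalPeriod_mem X t o.out⟩ = if o.out ∈ bad X ϕ t then (-1 : Fˣ) else 1 := by
    intro o
    have hdvd : Function.minimalPeriod (t • ·) o.out ∣ 2 := by
      apply Function.IsPeriodicPt.minimalPeriod_dvd
      show (t • ·)^[2] o.out = o.out
      simp only [Function.iterate_succ, Function.iterate_zero, Function.comp_apply, id_eq]
      rw [← mul_smul, ← pow_two, htt, one_smul]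
    have hmem := QuotientGroup.out_conj_pow_minimalPeriod_mem X t o.out
    by_cases hb : o.out ∈ bad X ϕ t
    · rw [if_pos hb]
      have h1 : Function.minimalPeriod (t • ·) o.out = 1 := by
        rw [Function.minimalPeriod_eq_one_iff_isFixedPt]
        exact hfix _ hb
      have h2 : ((o.out.out : G) : G ⧸ X) ∈ bad X ϕ t := by
        rw [QuotientGroup.out_eq']; exact hb
      obtain ⟨h3, h4⟩ := (mem_bad_iff X ϕ t _).1 h2
      rw [← h4]
      congr 1
      apply Subtype.ext
      change _ * t ^ _ * _ = _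
      rw [h1, pow_one]
    · rw [if_neg hb]
      rcases (Nat.dvd_prime Nat.prime_two).1 hdvd with h1 | h1
      · have h5 : o.out.out⁻¹ * t * o.out.out ∈ X := by
          have := hmem
          rwa [h1, pow_one] at this
        have h6 : (⟨o.out.out⁻¹ * t ^ Function.minimalPeriod (t • ·) o.out * o.out.out, hmem⟩ : X) =
            ⟨o.out.out⁻¹ * t * o.out.out, h5⟩ := by
          apply Subtype.ext
          change _ * t ^ _ * _ = _
          rw [h1, pow_one]
        rw [h6]
        have h7 : ϕ ⟨o.out.out⁻¹ * t * o.out.out, h5⟩ ^ 2 = 1 := by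
          rw [← map_pow]
          have : (⟨o.out.out⁻¹ * t * o.out.out, h5⟩ : X) ^ 2 = 1 := by
            apply Subtype.ext
            change (o.out.out⁻¹ * t * o.out.out) ^ 2 = 1
            have : (o.out.out⁻¹ * t * o.out.out) ^ 2 = o.out.out⁻¹ * t ^ 2 * o.out.out := by
              rw [pow_two, pow_two]; group
            rw [this, htt]; group
          rw [this, map_one]
        have h8 : ϕ ⟨o.out.out⁻¹ * t * o.out.out, h5⟩ = 1 ∨ ϕ ⟨o.out.out⁻¹ * t * o.out.out, h5⟩ = -1 := by
          have h9 : ((ϕ ⟨o.out.out⁻¹ * t * o.out.out, h5⟩ : Fˣ) : F) * ((ϕ ⟨o.out.out⁻¹ * t * o.out.out, h5⟩ : Fˣ) : F) = 1 := by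
            rw [← Units.val_mul, ← pow_two, h7, Units.val_one]
          rcases mul_self_eq_one_iff.1 h9 with h | h
          · left; exact Units.ext h
          · right; exact Units.ext (by rw [h]; simp)
        rcases h8 with h8 | h8
        · exact h8
        · exfalso
          apply hb
          have := (mem_bad_iff X ϕ t o.out.out).2 ⟨h5, h8⟩
          rwa [QuotientGroup.out_eq'] at this
      · have h6 : (⟨o.out.out⁻¹ * t ^ Function.minimalPeriod (t • ·) o.out * o.out.out, hmem⟩ : X) = 1 := by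
          apply Subtype.ext
          change _ * t ^ _ * _ = _
          rw [h1, htt]
          change _ = (1 : G)
          group
        rw [h6, map_one]
  rw [Finset.prod_congr rfl (fun o _ => hc o), Finset.prod_ite, Finset.prod_const, Finset.prod_const_one, mul_one]
  congr 1
  rw [← Set.ncard_coe_finset, Nat.card_coe_set_eq]
  have hout : ∀ q ∈ bad X ϕ t, (Quotient.mk (orbitRel (Subgroup.zpowers t) (G ⧸ X)) q).out = q := by
    intro q hq
    have h1 : (orbitRel (Subgroup.zpowers t) (G ⧸ X)).r ((Quotient.mk (orbitRel (Subgroup.zpowers t) (G ⧸ X)) q).out) q :=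
      Quotient.mk_out q
    obtain ⟨⟨z, hz⟩, hzq⟩ := h1
    obtain ⟨k, rfl⟩ := hz
    have h2 : (t ^ k) • q = q := by
      have h3 : t ∈ MulAction.stabilizer G q := hfix q hq
      exact (MulAction.stabilizer G q).zpow_mem h3 k
    change (t ^ k) • q = _ at hzq
    rw [← hzq, h2]
  apply Set.BijOn.ncard_eq (f := fun o : Quotient (orbitRel (Subgroup.zpowers t) (G ⧸ X)) => o.out)
  refine ⟨?_, ?_, ?_⟩
  · intro o ho
    simpa using ho
  · intro o _ o' _ h
    have := congrArg (Quotient.mk (orbitRel (Subgroup.zpowers t) (G ⧸ X))) h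
    simpa using this
  · intro q hq
    refine ⟨Quotient.mk _ q, ?_, hout q hq⟩
    simp only [Finset.coe_filter, Finset.mem_univ, true_and, Set.mem_setOf_eq]
    rw [hout q hq]; exact hq

/-- the number of bad cosets is odd -/
theorem odd_card_bad [Finite G] (X : Sylow 2 G) (ϕ : (X : Subgroup G) →* Fˣ) (t : G) (ht : t ∈ (X : Subgroup G))
    (hϕ : ϕ ⟨t, ht⟩ = -1) (hN : ∀ g ∈ normalizer ((X : Subgroup G) : Set G), g * t = t * g) :
    Odd (Nat.card (bad (X : Subgroup G) ϕ t)) := by
  classical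
  haveI : Fact (Nat.Prime 2) := ⟨Nat.prime_two⟩
  let S : SubMulAction (X : Subgroup G) (G ⧸ (X : Subgroup G)) :=
    { carrier := bad (X : Subgroup G) ϕ t
      smul_mem' := by
        rintro x q ⟨g, rfl, h, hh⟩
        have hx : (x : G) * t = t * x := hN x (le_normalizer x.2)
        have h1 : ((x : G) * g)⁻¹ * t * ((x : G) * g) = g⁻¹ * t * g := by
          have : ((x : G) * g)⁻¹ * t * ((x : G) * g) = g⁻¹ * (x : G)⁻¹ * (t * (x : G)) * g := by group
          rw [this, ← hx]; group
        refine ⟨(x : G) * g, rfl, by rw [h1]; exact h, ?_⟩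
        rw [← hh]
        congr 1
        exact Subtype.ext h1 }
  have hfixq : ∀ q : G ⧸ (X : Subgroup G), (∀ x : (X : Subgroup G), x • q = q) → q ∈ bad (X : Subgroup G) ϕ t := by
    intro q
    refine Quotient.inductionOn' q ?_
    intro g hg
    have h1 : ∀ x ∈ (X : Subgroup G), g⁻¹ * x * g ∈ (X : Subgroup G) := by
      intro x hx
      have h2 := hg ⟨x, hx⟩
      change ((x * g : G) : G ⧸ (X : Subgroup G)) = (g : G ⧸ (X : Subgroup G)) at h2
      rw [QuotientGroup.eq] at h2
      have := (X : Subgroup G).inv_mem h2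
      have e : ((x * g)⁻¹ * g)⁻¹ = g⁻¹ * x * g := by group
      rwa [e] at this
    have h2 : g⁻¹ ∈ normalizer ((X : Subgroup G) : Set G) := by
      rw [mem_normalizer_iff]
      have hle : (X : Subgroup G).map (MulAut.conj g⁻¹).toMonoidHom ≤ (X : Subgroup G) := by
        rintro _ ⟨x, hx, rfl⟩
        have := h1 x hx
        simpa using this
      have heq : (X : Subgroup G).map (MulAut.conj g⁻¹).toMonoidHom = (X : Subgroup G) := by
        apply Subgroup.eq_of_le_of_card_ge hle
        rw [Nat.card_congr (((X : Subgroup G).equivMapOfInjective (MulAut.conj g⁻¹).toMonoidHom (MulAut.conj g⁻¹).injective).toEquiv)]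
      intro h
      constructor
      · intro hh
        have := h1 h hh
        simpa using this
      · intro hh
        have h3 : g⁻¹ * h * g⁻¹⁻¹ ∈ (X : Subgroup G).map (MulAut.conj g⁻¹).toMonoidHom := by rw [heq]; exact hh
        obtain ⟨x, hx, hxe⟩ := h3
        have h4 : g⁻¹ * x * g⁻¹⁻¹ = g⁻¹ * h * g⁻¹⁻¹ := by simpa using hxe
        have h5 : x = h := by
          have := mul_right_cancel h4
          exact mul_left_cancel this
        rw [← h5]; exact hx
    have h3 : g * t = t * g := hN g (by have := inv_mem h2; rwa [inv_inv] at this)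
    have h4 : g⁻¹ * t * g = t := by rw [mul_assoc, ← h3]; group
    change (g : G ⧸ (X : Subgroup G)) ∈ _
    rw [mem_bad_iff]
    refine ⟨by rw [h4]; exact ht, ?_⟩
    rw [← hϕ]
    congr 1
    exact Subtype.ext h4
  have hp : IsPGroup 2 (X : Subgroup G) := X.isPGroup'
  have e1 : Nat.card S ≡ Nat.card (fixedPoints (X : Subgroup G) S) [MOD 2] := hp.card_modEq_card_fixedPoints S
  have e2 : Nat.card (G ⧸ (X : Subgroup G)) ≡ Nat.card (fixedPoints (X : Subgroup G) (G ⧸ (X : Subgroup G))) [MOD 2] :=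
    hp.card_modEq_card_fixedPoints (G ⧸ (X : Subgroup G))
  have e3 : Nat.card (fixedPoints (X : Subgroup G) S) = Nat.card (fixedPoints (X : Subgroup G) (G ⧸ (X : Subgroup G))) := by
    apply Nat.card_congr
    refine ⟨fun q => ⟨q.1.1, fun x => ?_⟩, fun q => ⟨⟨q.1, hfixq q.1 q.2⟩, fun x => ?_⟩, fun q => ?_, fun q => ?_⟩
    · exact congrArg Subtype.val (q.2 x)
    · apply Subtype.ext
      exact q.2 x
    · rfl
    · rfl
  have h4 : Odd (Nat.card (G ⧸ (X : Subgroup G))) := by
    rw [← Nat.not_even_iff_odd, even_iff_two_dvd]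
    exact X.not_dvd_index
  have h5 : Nat.card S = Nat.card (bad (X : Subgroup G) ϕ t) := rfl
  rw [← h5]
  rw [Nat.odd_iff] at h4 ⊢
  have : Nat.card S ≡ Nat.card (G ⧸ (X : Subgroup G)) [MOD 2] := by
    rw [e3] at e1
    exact e1.trans e2.symm
  rw [← h4]; exact this

/-- A homomorphism of `G` onto a group with an element of even order in a finite cyclic group gives a subgroup of
index two. -/
theorem exists_index_two_of_hom {A : Type*} [CommGroup A] [Finite G] (V : G →* A) [hc : IsCyclic V.range]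
    (t : G) (ht : t ^ 2 = 1) (hV : V t ≠ 1) : ∃ H : Subgroup G, H.index = 2 := by
  haveI : Finite V.range := Set.finite_range V |>.to_subtype
  have h2 : 2 ∣ Nat.card V.range := by
    have h1 : orderOf (⟨V t, t, rfl⟩ : V.range) = 2 := by
      apply orderOf_eq_prime
      · apply Subtype.ext
        change V t ^ 2 = 1
        rw [← map_pow, ht, map_one]
      · intro h
        exact hV (congrArg Subtype.val h)
    rw [← h1]; exact orderOf_dvd_natCard _
  refine ⟨((powMonoidHom 2 : V.range →* V.range).range).comap V.rangeRestrict, ?_⟩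
  rw [Subgroup.index_comap_of_surjective _ V.rangeRestrict_surjective, IsCyclic.index_powMonoidHom_range,
    Nat.gcd_eq_right h2]

/-- Transfer into the units of a field. -/
theorem exists_index_two [Finite G] [Finite F] (X : Sylow 2 G) (ϕ : (X : Subgroup G) →* Fˣ)
    (hF : (-1 : Fˣ) ≠ 1) (t : G) (ht : t ∈ (X : Subgroup G)) (htt : t ^ 2 = 1)
    (hϕ : ϕ ⟨t, ht⟩ = -1) (hN : ∀ g ∈ normalizer ((X : Subgroup G) : Set G), g * t = t * g) :
    ∃ H : Subgroup G, H.index = 2 := by
  have h1 := transfer_eq hF (X : Subgroup G) ϕ t htt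
  rw [(odd_card_bad X ϕ t ht hϕ hN).neg_one_pow] at h1
  exact exists_index_two_of_hom (MonoidHom.transfer ϕ) t htt (by rw [h1]; exact hF)

end H78.TrPar
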